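import Mathlib
import Cfsg.Prelude.Def_RootSubgroups
import Cfsg.Agent.H2.Zipper

/-! Root involutions, part 1: elementary lemmas. -/

set_option autoImplicit false
set_option linter.unusedSectionVars false
set_option linter.unusedVariables false

namespace Cfsg.Agent.H3.Rt
open Subgroup

variable {G : Type*} [Group G]

theorem W {u v : G} (h : u * 1 = v * 1) : u = v := by simpa using h
theorem r2 {a : G} (h : a * a = 1) (x : G) : a * (a * x) = x := by rw [← mul_assoc, h, one_mul]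
theorem rc {a b u v : G} (h : a * b = u * v) (x : G) : a * (b * x) = u * (v * x) := by
  rw [← mul_assoc, h, mul_assoc]
theorem r3 {a b u v w : G} (h : a * b = u * v * w) (x : G) : a * (b * x) = u * (v * (w * x)) := by
  rw [← mul_assoc, h, mul_assoc, mul_assoc]
theorem r1 {a b u : G} (h : a * b = u) (x : G) : a * (b * x) = u * x := by rw [← mul_assoc, h]
theorem iv {a : G} (h : a * a = 1) : a⁻¹ = a := inv_eq_of_mul_eq_one_left h

theorem odd_pow2 {x : G} (h : Odd (orderOf x)) {k : ℕ} (e : x ^ 2 ^ k = 1) : x = 1 :=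
  orderOf_eq_one_iff.1 (Nat.Coprime.eq_one_of_dvd
    (Nat.Coprime.pow_right k h.coprime_two_right) (orderOf_dvd_of_pow_eq_one e))

theorem odd_sq {x : G} (h : Odd (orderOf x)) (e : x * x = 1) : x = 1 :=
  odd_pow2 h (k := 1) (by simpa [pow_two] using e)

theorem odd_pow {x : G} (h : Odd (orderOf x)) (k : ℕ) : Odd (orderOf (x ^ k)) :=
  Odd.of_dvd_nat h (orderOf_pow_dvd k)

theorem odd_of_pow {x : G} {n : ℕ} (hn : Odd n) (e : x ^ n = 1) : Odd (orderOf x) :=
  Odd.of_dvd_nat hn (orderOf_dvd_of_pow_eq_one e)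

theorem odd_root {u : G} {m : ℕ} (e : u ^ (2 * m + 1) = 1) : (u * u) ^ (m + 1) = u := by
  rw [← pow_two, ← pow_mul, show 2 * (m + 1) = (2 * m + 1) + 1 by ring, pow_succ, e, one_mul]

theorem odd_sq_inj {u v : G} (hu : Odd (orderOf u)) (hv : Odd (orderOf v)) (e : u * u = v * v) : u = v := by
  obtain ⟨m, hm⟩ := hu.mul hv
  have e1 : u ^ (2 * m + 1) = 1 := by rw [← hm, pow_mul, pow_orderOf_eq_one, one_pow]
  have e2 : v ^ (2 * m + 1) = 1 := by rw [← hm, mul_comm, pow_mul, pow_orderOf_eq_one, one_pow]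
  rw [← odd_root e1, e, odd_root e2]

theorem ord_conj (g x : G) : orderOf (g * x * g⁻¹) = orderOf x := (MulAut.conj g).orderOf_eq x

theorem ord_comm (a b : G) : orderOf (a * b) = orderOf (b * a) := by
  rw [← ord_conj b (a * b)]; congr 1; group

/-- adjacency in the graph of odd products -/
def Adj (a b : G) : Prop := a ≠ b ∧ Odd (orderOf (a * b))

theorem Adj.symm {a b : G} (h : Adj a b) : Adj b a := ⟨h.1.symm, ord_comm a b ▸ h.2⟩

theorem Adj.conj {a b : G} (h : Adj a b) (g : G) : Adj (g * a * g⁻¹) (g * b * g⁻¹) :=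
  ⟨fun e => h.1 (by simpa using e), by
    rw [show g * a * g⁻¹ * (g * b * g⁻¹) = g * (a * b) * g⁻¹ by group, ord_conj]; exact h.2⟩

theorem adj_conj {a b : G} (g : G) : Adj (g * a * g⁻¹) (g * b * g⁻¹) ↔ Adj a b :=
  ⟨fun h => by have := h.conj g⁻¹; simpa [mul_assoc] using this, fun h => h.conj g⟩

theorem Adj.cj {a b d : G} (h : Adj a b) (hd : d * d = 1) : Adj (d * a * d) (d * b * d) := by
  have := h.conj d; rwa [iv hd] at this

theorem Adj.npow {a b : G} (h : Adj a b) (ha : a * a = 1) {k : ℕ} : (a * b) ^ 2 ^ k ≠ 1 := fun e =>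
  h.1 (by rw [← iv ha]; exact inv_eq_of_mul_eq_one_right (odd_pow2 h.2 e))

theorem Adj.nq {a b : G} (h : Adj a b) (ha : a * a = 1) (hb : b * b = 1) :
    a * b * a * b ≠ b * a * b * a := fun e => h.npow ha (k := 2) (by
  rw [show (a * b) ^ 2 ^ 2 = (a * b * a * b) * (a * b * a * b) by norm_num [pow_succ, mul_assoc]]
  nth_rewrite 1 [e]
  apply W; simp only [mul_assoc, r2 ha, r2 hb, one_mul])

theorem Adj.nc {a b : G} (h : Adj a b) (ha : a * a = 1) (hb : b * b = 1) : a * b ≠ b * a := fun e =>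
  h.nq ha hb (by apply W; simp only [mul_assoc, rc e, r2 ha, r2 hb])

theorem Adj.self_cj {a b : G} (h : Adj a b) (ha : a * a = 1) (hb : b * b = 1) : Adj a (b * a * b) := by
  refine ⟨fun e => h.nc ha hb ?_, ?_⟩
  · nth_rewrite 1 [e]; apply W; simp only [mul_assoc, r2 hb]
  · have := odd_pow h.2 2
    rwa [pow_two, show a * b * (a * b) = a * (b * a * b) by simp only [mul_assoc]] at this

/-- non-adjacency modulo a normal `2`-subgroup -/
theorem not_adj_of_mem {Q : Subgroup G} (hQ : IsPGroup 2 Q) {a b : G} (ha : a * a = 1) {k : ℕ}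
    (m : (a * b) ^ 2 ^ k ∈ Q) : ¬ Adj a b := fun h => by
  obtain ⟨j, hj⟩ := hQ ⟨_, m⟩
  have := congrArg Subtype.val hj
  simp only [SubgroupClass.coe_pow, OneMemClass.coe_one, ← pow_mul, ← pow_add] at this
  exact h.npow ha this

theorem dih_mem {a b : G} (ha : a * a = 1) (hb : b * b = 1) {g : G} (hg : g ∈ closure ({a, b} : Set G)) :
    ∃ i : ℤ, g = (a * b) ^ i ∨ g = (a * b) ^ i * a := by
  have k : ∀ i : ℤ, a * (a * b) ^ i = (a * b) ^ (-i) * a := fun i => by
    have : a * (a * b) * a⁻¹ = (a * b)⁻¹ := by rw [_root_.mul_inv_rev, iv ha, iv hb, r2 ha]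
    rw [zpow_neg, ← inv_zpow, ← this, conj_zpow]; simp
  induction hg using closure_induction with
  | mem x hx =>
    rcases hx with rfl | rfl
    · exact ⟨0, Or.inr (by simp)⟩
    · exact ⟨-1, Or.inr (by rw [zpow_neg_one, _root_.mul_inv_rev, iv ha, iv hb, mul_assoc, ha, mul_one])⟩
  | one => exact ⟨0, Or.inl (by simp)⟩
  | mul x y _ _ hx hy =>
    obtain ⟨i, rfl | rfl⟩ := hx <;> obtain ⟨j, rfl | rfl⟩ := hy
    · exact ⟨i + j, Or.inl (by rw [zpow_add])⟩
    · exact ⟨i + j, Or.inr (by rw [zpow_add, mul_assoc])⟩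
    · exact ⟨i + -j, Or.inr (by rw [zpow_add, mul_assoc, k, mul_assoc])⟩
    · exact ⟨i + -j, Or.inl (by rw [zpow_add, mul_assoc, ← mul_assoc a, k, mul_assoc, ha, mul_one])⟩
  | inv x _ hx =>
    obtain ⟨i, rfl | rfl⟩ := hx
    · exact ⟨-i, Or.inl (by rw [zpow_neg])⟩
    · exact ⟨i, Or.inr (by rw [_root_.mul_inv_rev, iv ha, ← zpow_neg, k, neg_neg])⟩

theorem dih_sq {a b : G} (ha : a * a = 1) (hb : b * b = 1) (i : ℤ) :
    ((a * b) ^ i * a) * ((a * b) ^ i * a) = 1 := by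
  have : a * (a * b) * a⁻¹ = (a * b)⁻¹ := by rw [_root_.mul_inv_rev, iv ha, iv hb, r2 ha]
  have k : a * (a * b) ^ i * a = ((a * b) ^ i)⁻¹ := by
    rw [← inv_zpow, ← this, conj_zpow, iv ha]
  rw [mul_assoc, ← mul_assoc a, k, mul_inv_cancel]

theorem dih_pgroup {a b : G} (ha : a * a = 1) (hb : b * b = 1) {k : ℕ} (e : (a * b) ^ 2 ^ k = 1) :
    IsPGroup 2 (closure ({a, b} : Set G)) := by
  rintro ⟨g, hg⟩
  obtain ⟨i, rfl | rfl⟩ := dih_mem ha hb hg
  · exact ⟨k, Subtype.ext (by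
      show ((a * b) ^ i) ^ 2 ^ k = 1
      rw [← zpow_natCast, ← zpow_mul, mul_comm, zpow_mul, zpow_natCast, e, one_zpow])⟩
  · exact ⟨1, Subtype.ext (by
      show ((a * b) ^ i * a) ^ 2 ^ 1 = 1
      rw [pow_one, pow_two, dih_sq ha hb])⟩

theorem cj_closure {T S : Set G} (hT : ∀ t ∈ T, t * t = 1) (c : ∀ s ∈ S, ∀ t ∈ T, t * s * t ∈ S) {g : G}
    (hg : g ∈ closure T) : ∀ s ∈ S, g * s * g⁻¹ ∈ S := by
  have : (∀ s ∈ S, g * s * g⁻¹ ∈ S) ∧ (∀ s ∈ S, g⁻¹ * s * g ∈ S) := by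
    induction hg using closure_induction with
    | mem x hx => rw [iv (hT x hx)]; exact ⟨fun s hs => c s hs x hx, fun s hs => c s hs x hx⟩
    | one => simp
    | mul x y _ _ hx hy =>
      refine ⟨fun s hs => ?_, fun s hs => ?_⟩
      · have := hx.1 _ (hy.1 s hs); simpa [mul_assoc] using this
      · have := hy.2 _ (hx.2 s hs); simpa [mul_assoc] using this
    | inv x _ hx => simpa using hx.symm
  exact this.1

/-- Baer–Suzuki for a conjugation closed set of involutions -/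
theorem pgroup_closure [Finite G] {T : Set G} (hT : ∀ t ∈ T, t * t = 1) (c : ∀ s ∈ T, ∀ t ∈ T, t * s * t ∈ T)
    (p : ∀ s ∈ T, ∀ t ∈ T, ∃ k : ℕ, (s * t) ^ 2 ^ k = 1) : IsPGroup 2 (closure T) := by
  haveI : Fact (Nat.Prime 2) := ⟨Nat.prime_two⟩
  rw [← H2.pCore_eq_top_iff, eq_top_iff]
  have key : ∀ t (ht : t ∈ T), (⟨t, subset_closure ht⟩ : closure T) ∈ pCore 2 (closure T) := fun t ht => by
    refine H2.mem_pCore_of_forall_isPGroup_closure_conj _ fun g => ?_
    have h1 := cj_closure hT c g.2 t ht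
    obtain ⟨k, hk⟩ := p t ht _ h1
    exact dih_pgroup (k := k) (Subtype.ext (hT t ht)) (Subtype.ext (hT _ h1)) (Subtype.ext hk)
  rintro ⟨g, hg⟩ -
  induction hg using closure_induction with
  | mem x hx => exact key x hx
  | one => exact one_mem _
  | mul x y _ _ hx hy => exact mul_mem hx hy
  | inv x _ hx => exact inv_mem hx

/-- a set of root involutions of the subgroup it generates -/
structure RI (D : Set G) : Prop where
  ord : ∀ d ∈ D, orderOf d = 2
  cj : ∀ d ∈ D, ∀ e ∈ D, e * d * e ∈ D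
  pair : ∀ a ∈ D, ∀ b ∈ D, a * b = b * a ∨ Odd (orderOf (a * b)) ∨ (orderOf (a * b) = 4 ∧ (a * b) ^ 2 ∈ D)

theorem sq_of_ord {a : G} (h : orderOf a = 2) : a * a = 1 := by rw [← pow_two, ← h, pow_orderOf_eq_one]

theorem RI.of {D : Set G} (h : IsRootInvolutionSet D) : RI D :=
  ⟨h.1, fun d hd e he => by have := h.3 d hd e; rwa [iv (sq_of_ord (h.1 e he))] at this, h.4⟩

namespace RI
variable {D : Set G} (h : RI D) {a b c d e x y : G}
include h

theorem s2 (ha : a ∈ D) : a * a = 1 := sq_of_ord (h.ord a ha)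
theorem ne1 (ha : a ∈ D) : a ≠ 1 := fun e => by have := h.ord a ha; rw [e, orderOf_one] at this; omega
theorem cjc {g : G} (hg : g ∈ closure D) (ha : a ∈ D) : g * a * g⁻¹ ∈ D :=
  cj_closure (fun _ => h.s2) h.cj hg a ha

theorem sub {T : Set G} (hT : T ⊆ D) (c : ∀ s ∈ T, ∀ t ∈ T, t * s * t ∈ T)
    (q : ∀ s ∈ T, ∀ t ∈ T, ¬ Adj s t → s * t ≠ t * s → s * t * s * t ∈ T) : RI T := by
  refine ⟨fun d hd => h.ord d (hT hd), c, fun a ha b hb => ?_⟩
  by_cases nc : a * b = b * a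
  · exact Or.inl nc
  rcases h.pair a (hT ha) b (hT hb) with e | e | e
  · exact Or.inl e
  · exact Or.inr (Or.inl e)
  · refine Or.inr (Or.inr ⟨e.1, ?_⟩)
    have := q a ha b hb (fun n => by have := n.2; rw [e.1] at this; exact absurd this (by decide)) nc
    rwa [pow_two, ← mul_assoc]

theorem inter (U : Subgroup G) : RI (D ∩ U) :=
  ⟨fun d hd => h.ord d hd.1, fun d hd e he => ⟨h.cj d hd.1 e he.1, mul_mem (mul_mem he.2 hd.2) he.2⟩,
    fun a ha b hb => (h.pair a ha.1 b hb.1).imp id (Or.imp id fun e =>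
      ⟨e.1, e.2, pow_mem (mul_mem ha.2 hb.2) 2⟩)⟩

/-- the structure of a non-adjacent pair -/
theorem na (ha : a ∈ D) (hb : b ∈ D) (n : ¬ Adj a b) :
    ∃ f, (f = 1 ∨ f ∈ D) ∧ f * f = 1 ∧ f * a = a * f ∧ f * b = b * f ∧ b * a = a * b * f := by
  have a2 := h.s2 ha
  have b2 := h.s2 hb
  by_cases nc : a * b = b * a
  · exact ⟨1, Or.inl rfl, by simp, by simp, by simp, by simp [nc]⟩
  rcases h.pair a ha b hb with e | e | ⟨e, m⟩
  · exact absurd e nc
  · exact absurd ⟨fun e => nc (by rw [e]), e⟩ n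
  · have e4 : a * (b * (a * (b * (a * (b * (a * b)))))) = 1 := by
      have := pow_orderOf_eq_one (a * b)
      rw [e] at this; simpa [pow_succ, mul_assoc] using this
    have e5 : ∀ z, b * (a * (b * (a * z))) = a * (b * (a * (b * z))) := fun z => by
      rw [← one_mul (b * (a * (b * (a * z)))), ← e4]; simp only [mul_assoc, r2 a2, r2 b2]
    refine ⟨(a * b) ^ 2, Or.inr m, ?_, ?_, ?_, ?_⟩ <;> apply W <;>
      simp only [pow_two, mul_assoc, r2 a2, r2 b2, e5, one_mul]

theorem nv (ha : a ∈ D) (hb : b ∈ D) (n : ¬ Adj a b) (nc : a * b ≠ b * a) :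
    ∃ f ∈ D, f * a = a * f ∧ f * b = b * f ∧ b * a = a * b * f := by
  obtain ⟨f, rfl | m, -, h1, h2, h3⟩ := h.na ha hb n
  · exact absurd (by simpa using h3.symm) nc
  · exact ⟨f, m, h1, h2, h3⟩

theorem q4 (ha : a ∈ D) (hb : b ∈ D) (n : ¬ Adj a b) : a * b * a * b = b * a * b * a := by
  obtain ⟨f, -, h0, h1, h2, h3⟩ := h.na ha hb n
  apply W; simp only [mul_assoc, r2 (h.s2 ha), r2 (h.s2 hb), r3 h3, rc h1, rc h2, r2 h0]

theorem p4 (ha : a ∈ D) (hb : b ∈ D) (n : ¬ Adj a b) : (a * b) ^ 2 ^ 2 = 1 := by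
  obtain ⟨f, -, h0, h1, h2, h3⟩ := h.na ha hb n
  apply W
  simp only [show 2 ^ 2 = 1 + 1 + 1 + 1 by norm_num, pow_add, pow_one, mul_assoc, r2 (h.s2 ha), r2 (h.s2 hb),
    r3 h3, rc h1, rc h2, r2 h0, one_mul]

theorem cmD (ha : a ∈ D) (hb : b ∈ D) (n : ¬ Adj a b) (nc : a * b ≠ b * a) : a * b * a * b ∈ D := by
  obtain ⟨f, m, h1, h2, h3⟩ := h.nv ha hb n nc
  rwa [show a * b * a * b = f by apply W; simp only [mul_assoc, r2 (h.s2 ha), r2 (h.s2 hb), r3 h3, rc h1, rc h2]]

theorem nadj (ha : a ∈ D) (hb : b ∈ D) (c : a * b = b * a) : ¬ Adj a b := fun n => n.nc (h.s2 ha) (h.s2 hb) c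

theorem four_iff (ha : a ∈ D) (hb : b ∈ D) : orderOf (a * b) = 4 ↔ ¬ Adj a b ∧ a * b ≠ b * a := by
  constructor
  · intro e
    refine ⟨fun n => by have := n.2; rw [e] at this; exact absurd this (by decide), fun c => ?_⟩
    have : (a * b) ^ 2 = 1 := by apply W; simp only [pow_two, mul_assoc, rc c, r2 (h.s2 ha), r2 (h.s2 hb), one_mul]
    have := orderOf_dvd_of_pow_eq_one this
    rw [e] at this; omega
  · rintro ⟨n, nc⟩
    rcases h.pair a ha b hb with e | e | e
    · exact absurd e nc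
    · exact absurd ⟨fun e => nc (by rw [e]), e⟩ n
    · exact e.1

/-- Lemma N -/
theorem lemN {z : G} (ha : a ∈ D) (hx : x ∈ D) (hz : a * z ∈ D) (z1 : z ≠ 1) (z2 : z * z = 1)
    (za : z * a = a * z) (zx : z * x = x * z) : ¬ Adj a x := fun n => by
  have c : Commute (a * x) z := by
    show a * x * z = z * (a * x); apply W; simp only [mul_assoc, rc za, rc zx]
  have e : a * z * x = a * x * z := by apply W; simp only [mul_assoc, rc zx]
  by_cases m : Adj (a * z) x
  · obtain ⟨k, hk⟩ := n.2.mul m.2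
    have e1 : (a * x * z) ^ (2 * k + 1) = 1 := by rw [← e, ← hk, mul_comm, pow_mul, pow_orderOf_eq_one, one_pow]
    have e2 : (a * x) ^ (2 * k + 1) = 1 := by rw [← hk, pow_mul, pow_orderOf_eq_one, one_pow]
    rw [c.mul_pow, e2, one_mul, pow_succ, pow_mul, pow_two, z2, one_pow, one_mul] at e1
    exact z1 e1
  · have e1 := h.p4 hz hx m
    rw [e, c.mul_pow, show z ^ 2 ^ 2 = 1 by rw [pow_two 2, pow_mul, pow_two z, z2, one_pow], mul_one] at e1
    exact n.npow (h.s2 ha) e1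

theorem dihD (ha : a ∈ D) (hx : x ∈ D) : ∀ i : ℕ, (a * x) ^ i * a ∈ D
  | 0 => by simpa using ha
  | 1 => by simpa using h.cj x hx a ha
  | (i + 2) => by
    have := h.cj _ (h.cj _ (dihD ha hx i) x hx) a ha
    rwa [show a * (x * ((a * x) ^ i * a) * x) * a = (a * x) ^ (i + 2) * a by
      rw [show i + 2 = 1 + i + 1 by ring, pow_add, pow_add]; simp only [pow_one, mul_assoc]] at this

/-- the swapper of a pair with odd product -/
theorem swap (ha : a ∈ D) (hx : x ∈ D) (o : Odd (orderOf (a * x))) :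
    ∃ k : ℕ, (a * x) ^ k * a ∈ D ∧ (a * x) ^ k * a * a * ((a * x) ^ k * a) = x := by
  obtain ⟨k, hk⟩ := o
  refine ⟨k, h.dihD ha hx k, ?_⟩
  have e : (a * x) ^ k * (a * x) ^ k * (a * x) = 1 := by
    rw [← pow_add, ← pow_succ, ← two_mul, ← hk, pow_orderOf_eq_one]
  rw [mul_assoc _ a a, h.s2 ha, mul_one, ← mul_assoc, eq_inv_of_mul_eq_one_left e, _root_.mul_inv_rev,
    iv (h.s2 ha), iv (h.s2 hx), mul_assoc, h.s2 ha, mul_one]

theorem swap' (ha : a ∈ D) (hx : x ∈ D) (o : Odd (orderOf (a * x))) :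
    ∃ s ∈ D, s ∈ closure ({a, x} : Set G) ∧ s * a * s = x := by
  obtain ⟨k, m, e⟩ := h.swap ha hx o
  exact ⟨_, m, mul_mem (pow_mem (mul_mem (subset_closure (by simp)) (subset_closure (by simp))) _)
    (subset_closure (by simp)), e⟩

theorem swap_adj {s : G} (ha : a ∈ D) (hs : s ∈ D) (n : Adj a x) (e : s * a * s = x) : Adj a s := by
  by_contra m
  have := h.p4 ha hs m
  refine n.npow (h.s2 ha) (k := 1) ?_
  rw [← this, ← e, pow_two 2, pow_mul, pow_two (a * s), pow_one]; simp only [mul_assoc]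

theorem swap_uniq {s t : G} (ha : a ∈ D) (hs : s ∈ D) (ht : t ∈ D) (n : Adj a x) (e : s * a * s = x)
    (e' : t * a * t = x) : s = t :=
  mul_left_cancel (odd_sq_inj (h.swap_adj ha hs n e).2 (h.swap_adj ha ht n e').2 (by
    rw [mul_assoc, mul_assoc, ← mul_assoc s, ← mul_assoc t, e, e']))

/-- Lemma A -/
theorem lemA (hb : b ∈ D) (hc : c ∈ D) (bc : b * c = c * b) (m : b * c ∈ D) (hx : x ∈ D)
    (n : Adj (b * c) x) : Adj b x ∨ Adj c x := by
  by_contra k
  rw [not_or] at k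
  have b2 := h.s2 hb
  have c2 := h.s2 hc
  have x2 := h.s2 hx
  have q1 := h.q4 hb hx k.1
  have q2 := h.q4 hc hx k.2
  have hb' := h.cj b hb x hx
  have hc' := h.cj c hc x hx
  have e1 : b * (x * b * x) = (x * b * x) * b := by simpa only [mul_assoc] using q1
  have e2 : c * (x * c * x) = (x * c * x) * c := by simpa only [mul_assoc] using q2
  have e3 : (x * b * x) * (x * c * x) = (x * c * x) * (x * b * x) := by
    apply W; simp only [mul_assoc, r2 x2, rc bc]
  have e4 : (b * c * x) ^ 2 = b * c * (x * b * x) * (x * c * x) := by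
    apply W; simp only [pow_two, mul_assoc, r2 x2]
  have hr : Adj b (x * c * x) := by
    by_contra hr
    have hr' : ¬ Adj c (x * b * x) := fun j => hr (by
      have := (j.cj x2).symm
      rwa [show x * (x * b * x) * x = b by apply W; simp only [mul_assoc, r2 x2]] at this)
    have p1 := h.p4 hb hc' hr
    have p2 := h.p4 hc hb' hr'
    generalize x * b * x = b' at *
    generalize x * c * x = c' at *
    have cm : Commute (b * c') (c * b') := by
      show b * c' * (c * b') = c * b' * (b * c')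
      apply W; simp only [mul_assoc, rc bc.symm, rc e1.symm, rc e2.symm, rc e3.symm]
    refine n.npow (h.s2 m) (k := 3) ?_
    rw [pow_succ' 2 2, pow_mul, e4, show b * c * b' * c' = (b * c') * (c * b') by
      apply W; simp only [mul_assoc, rc bc.symm, rc e1.symm, rc e2.symm, rc e3.symm], cm.mul_pow, p1, p2, mul_one]
  by_cases cm : b * x = x * b
  · refine h.nadj hb hc' ?_ hr
    have : x * b * x = b := by apply W; simp only [mul_assoc, rc cm.symm, r2 x2]
    rw [this] at e3; exact e3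
  · refine h.lemN (z := x * b * x) hb hc' ?_ (h.ne1 hb') (h.s2 hb') e1.symm e3 hr
    have := h.cmD hb hx k.1 cm
    simpa only [mul_assoc] using this

end RI

end Cfsg.Agent.H3.Rt
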