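import Cfsg.Agent.H1.PLow
import Cfsg.Agent.S0618
import Cfsg.Agent.S0609
import Cfsg.Agent.H2.Cores

/-!
Primes dividing the order of automizers of `p`-subgroups (Thompson).
-/

set_option autoImplicit false
set_option linter.unusedSectionVars false

namespace Cfsg.Agent.H3.AQ

open Cfsg Subgroup Cfsg.Agent.FT Cfsg.Agent.H1
open Cfsg.Agent.H5b (Jn)
open scoped commutatorElement

universe u

theorem psolv_of_ker_le {X Y1 Y2 : Type*} [Group X] [Group Y1] [Group Y2] [Finite Y1] {p : ℕ}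
    (hp : p.Prime) (f1 : X →* Y1) (h1 : Function.Surjective f1) (f2 : X →* Y2)
    (h2 : Function.Surjective f2) (hk : f1.ker ≤ f2.ker) (h : IsPSolvable p Y1) :
    IsPSolvable p Y2 := by
  refine isPSolvable_of_surjective hp (f1.liftOfSurjective h1 ⟨f2, hk⟩) ?_ h
  intro y
  obtain ⟨x, rfl⟩ := h2 y
  exact ⟨f1 x, by simp⟩

variable {G : Type u} [Group G] [Finite G] {p q : ℕ} {A B H K L M P Q W X Y : Subgroup G}

theorem psol_of_quo (hp : p.Prime) (hA : A ≤ N(K)) (hK : PSol p (A ⊓ K)) (h : PSol p (A /ₛ K)) :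
    PSol p A := by
  haveI : (K.subgroupOf A).Normal := by
    rw [← qker K, ← pmapHom_ker (qhom K) hA]; infer_instance
  refine isPSolvable_of_normal_of_quotient hp (K.subgroupOf A) ?_ ?_
  · rw [← inf_subgroupOf_left]
    exact isPSolvable_of_injective hp (subgroupOfEquivOfLe (inf_le_left : A ⊓ K ≤ A)).toMonoidHom
      (subgroupOfEquivOfLe (inf_le_left : A ⊓ K ≤ A)).injective hK
  · refine psolv_of_ker_le hp _ (pmapHom_surjective (qhom K) hA) (QuotientGroup.mk' _)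
      (QuotientGroup.mk'_surjective _) ?_ h
    rw [pmapHom_ker, qker, QuotientGroup.ker_mk']

theorem psol_of_p' (hp : p.Prime) (h : PiGrp {p}ᶜ A) : PSol p A :=
  (isPSolvable_iff hp).2 (isPiSeparable_of_isPiNum_compl h)

theorem psol_of_p (hp : p.Prime) (h : PGrp p A) : PSol p A :=
  (isPSolvable_iff hp).2 (isPiSeparable_of_isPiNum h)

theorem psol_of_npc (hp : p.Prime) (h : NPC p A) : PSol p A :=
  psol_of_quo hp (pcore_nrm {p}ᶜ A) (psol_of_p' hp ((pcore_pi _ _).inf_right _))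
    (psol_of_p hp ((piGrp_quo_iff (pcore_nrm _ _)).2 h.relIndex))

theorem exists_hall_pq (hp : p.Prime) (hq : q.Prime) (n : ℕ) : ∀ {G : Type u} [Group G] [Finite G]
    {M : Subgroup G}, #M = n → PSol p M → ∃ L, Hall {p, q} L M := by
  induction n using Nat.strong_induction_on with
  | _ n ih =>
  intro G _ _ M hn hs
  by_cases h1 : O[{p}](M) = ⊥
  · by_cases h2 : O[{p}ᶜ](M) = ⊥
    · rw [hs.core hp h1 h2]
      exact ⟨⊥, hall_self (piGrp_bot _)⟩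
    · have hK := pcore_nml {p}ᶜ M
      have hK' := pcore_pi {p}ᶜ M
      generalize O[{p}ᶜ](M) = K at *
      obtain ⟨Q, hQ⟩ := exists_syl q K
      by_cases h3 : Q = ⊥
      · have hKq : PiGrp {q}ᶜ K := hQ.eq_bot_iff.1 h3
        have hKπ : PiGrp ({p, q} : Set ℕ)ᶜ K := fun r hr hd h => by
          rcases h with h | h
          · exact hK' r hr hd h
          · exact hKq r hr hd h
        obtain ⟨U, hU⟩ := ih _ (hn ▸ card_quo_lt hK h2) rfl (hs.quo hp hK.nrm)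
        have hle : qpre(K, U) ≤ M := qpre_le_of_le_quo hK.le hU.le
        have h4 : Hall ({p, q} : Set ℕ)ᶜ K qpre(K, U) :=
          hall_of_quo_pi' (nml_qpre U) hKπ (by rw [quo_qpre, compl_compl]; exact hU.pi)
        obtain ⟨R, hR, -⟩ := h4.exists_compl (qpre_le U)
        rw [compl_compl] at hR
        exact ⟨R, hR.of_relIndex hle (by rw [relIndex_qpre U hK.nrm]; exact hU.idx)⟩
      · have hF := hQ.frattini hK
        have hQn : Q ⊴ M ⊓ N(Q) := ⟨le_inf (hQ.le.trans hK.le) (le_nrm Q), inf_le_right⟩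
        obtain ⟨U, hU⟩ := ih _ ((card_quo_lt hQn h3).trans_le (hn ▸ card_le inf_le_left)) rfl
          ((hs.mono hp inf_le_left).quo hp inf_le_right)
        refine ⟨_, (hU.qpre (hQ.pi.sub (by simp)) hQn).of_relIndex inf_le_left ?_⟩
        rw [hF.relIndex_right]
        intro r hr hd h
        rcases h with h | h
        · exact hK' r hr (hd.trans (relIndex_dvd_card _ _)) h
        · exact hQ.idx r hr (hd.trans (relIndex_dvd_of_le_left K hQn.le)) h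
  · have hK := pcore_nml {p} M
    obtain ⟨U, hU⟩ := ih _ (hn ▸ card_quo_lt hK h1) rfl (hs.quo hp hK.nrm)
    exact ⟨_, hU.qpre ((pcore_pi {p} M).sub (by simp)) hK⟩

theorem exists_hall_pq' (hp : p.Prime) (hq : q.Prime) (hs : PSol p M) (hP : Syl p P M) :
    ∃ L, Hall {p, q} L M ∧ P ≤ L := by
  obtain ⟨L, hL⟩ := exists_hall_pq hp hq _ rfl hs
  obtain ⟨R, hR⟩ := exists_syl p L
  obtain ⟨g, hg, rfl⟩ := (hL.subHall_syl (by simp) hR).syl_trans hP
  exact ⟨cj g L, hL.cj_mem hg, cj_mono g hR.le⟩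

theorem tf_type {L : Type u} [Group L] [Finite L] [hp : Fact p.Prime]
    (h23 : ¬ ((p = 2 ∧ q = 3) ∨ (p = 3 ∧ q = 2))) (hs : IsPSolvable p L)
    (hL : PiNat {p, q} (Nat.card L)) : IsThompsonFactorizable p L := by
  rw [S0609.result]
  by_contra hnf
  obtain ⟨h1, E, -, -, -, hn, ⟨e⟩⟩ := S0618.result (isPSolvable_quotient hp.out hs _)
    H2.pPrimeCore_quotient_self hnf
  have h2 := Nat.card_congr e.toEquiv
  rw [P22.card_sl2] at h2
  have h3 : p * (p - 1) * (p + 1) ∣ Nat.card L := by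
    rw [← h2]
    exact ((card_quotient_dvd_card _).trans (card_subgroup_dvd_card E)).trans (card_quotient_dvd_card _)
  have h6 : 6 ∣ Nat.card L := by
    refine Dvd.dvd.trans ?_ h3
    rcases h1 with rfl | rfl <;> norm_num
  have a2 := hL 2 Nat.prime_two (Dvd.dvd.trans (by norm_num) h6)
  have a3 := hL 3 Nat.prime_three (Dvd.dvd.trans (by norm_num) h6)
  simp only [Set.mem_insert_iff, Set.mem_singleton_iff] at a2 a3
  omega

theorem tf (hp : p.Prime) (h23 : ¬ ((p = 2 ∧ q = 3) ∨ (p = 3 ∧ q = 2))) (hs : PSol p L)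
    (hL : PiGrp {p, q} L) (hP : Syl p P L) :
    L ≤ O[{p}ᶜ](L) ⊔ (L ⊓ C(Ω[p](Z(P)))) ⊔ (L ⊓ N(Jn p P)) := by
  haveI := Fact.mk hp
  obtain ⟨T, rfl⟩ := hP.exists_sylow hp
  intro g hg
  obtain ⟨x, hx, c, hc, n, hn, e⟩ := tf_type h23 hs hL T ⟨g, hg⟩
  rw [← mem_map_iff_mem L.subtype_injective, map_subtype_cen, map_Ohm_inj L.subtype_injective,
      map_subcent_inj L.subtype_injective] at hc
  rw [← mem_map_iff_mem L.subtype_injective, map_subtype_nrm, H5b.thompsonOf_eq_Jn,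
      H5b.map_Jn L.subtype_injective] at hn
  have e' : g = x * c * n := congrArg Subtype.val e
  rw [e']
  refine mul_mem_sup (mul_mem_sup ?_ hc) hn
  rw [pcore_compl_singleton hp]
  exact mem_map_of_mem _ hx

theorem exists_q (hK : X ≤ N(K)) (hY : Y ≤ X) (hm : X ≤ K ⊔ Y) (hQ : PGrp q Q) (hQX : Q ≤ X)
    (hn : ¬ Q ≤ K) : ∃ Q', PGrp q Q' ∧ Q' ≤ Y ∧ ¬ Q' ≤ K := by
  obtain ⟨R, hR⟩ := exists_syl q Y
  refine ⟨R, hR.pi, hR.le, fun h => hn ?_⟩
  have h1 := hR.quo (hY.trans hK)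
  have h2 : PiGrp {q}ᶜ (Y /ₛ K) := h1.eq_bot_iff.1 (quo_eq_bot_of_le h)
  exact hQ.le_of_quo hQX hK (h2.mono ((quo_le_quo hK (hY.trans hK)).2 hm))

/-- some `q`-subgroup of `M` acts non-trivially on the `p`-subgroup `H` of `M` -/
def Good (p q : ℕ) (M H : Subgroup G) : Prop :=
  H ≤ M ∧ PGrp p H ∧ ∃ Q, PGrp q Q ∧ Q ≤ M ⊓ N(H) ∧ ¬ Q ≤ C(H)

/-- automizers are `p`-solvable -/
def Hyp (p : ℕ) (M : Subgroup G) : Prop :=
  ∀ H, H ≤ M → PGrp p H → PSol p ((M ⊓ N(H)) /ₛ C(H))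

theorem Good.mono (h : Good p q L H) (hL : L ≤ M) : Good p q M H :=
  let ⟨h1, h2, Q, h3, h4, h5⟩ := h
  ⟨h1.trans hL, h2, Q, h3, h4.trans (inf_le_inf_right _ hL), h5⟩

theorem Hyp.mono (h : Hyp p M) (hp : p.Prime) (hL : L ≤ M) : Hyp p L := fun H h1 h2 =>
  (h H (h1.trans hL) h2).mono hp (quo_mono _ (inf_le_inf_right _ hL))

theorem Hyp.quo (h : Hyp p M) (hp : p.Prime) (hW : W ⊴ M) (pW : PGrp p W) : Hyp p (M /ₛ W) := by
  intro U hU pU
  obtain ⟨H, h1, h2, rfl⟩ := exists_quo_eq hW.le hU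
  have pH : PGrp p H := piGrp_of_quo pW h1.nrm pU
  rw [← quo_subnorm M h1]
  have n1 : M ⊓ N(H) ≤ N(C(H)) := norms_cent inf_le_right
  have n2 : M ⊓ N(H) ≤ N(W) := inf_le_left.trans hW.nrm
  have n3 : (M ⊓ N(H)) /ₛ W ≤ N(C(H /ₛ W)) := norms_cent (quo_norms W inf_le_right)
  refine psolv_of_ker_le hp _ (pmapHom_surjective (qhom C(H)) n1)
    ((pmapHom (qhom C(H /ₛ W)) n3).comp (pmapHom (qhom W) n2))
    ((pmapHom_surjective _ n3).comp (pmapHom_surjective _ n2)) ?_ (h H h2 pH)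
  intro x hx
  rw [pmapHom_ker, qker, mem_subgroupOf] at hx
  rw [← MonoidHom.comap_ker, mem_comap, pmapHom_ker, qker, mem_subgroupOf, pmapHom_apply]
  exact quo_cents W (le_refl C(H)) (mem_quo_of_mem (n2 x.2) hx)

theorem main (hp : p.Prime) (hq : q.Prime) (hpq : p ≠ q)
    (h23 : ¬ ((p = 2 ∧ q = 3) ∨ (p = 3 ∧ q = 2))) (n : ℕ) : ∀ {G : Type u} [Group G] [Finite G]
    {M H : Subgroup G}, #M = n → Hyp p M → Good p q M H →
      ∃ K P, Good p q M K ∧ Syl p P M ∧ P ≤ N(K) := by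
  induction n using Nat.strong_induction_on with
  | _ n ih =>
  intro G _ _ M H0 hn hyp h0
  obtain ⟨P, ⟨pP, H1, g1, hP1⟩, hPmax⟩ := exists_max_fun
    (fun R => PGrp p R ∧ ∃ K, Good p q M K ∧ R ≤ M ⊓ N(K)) (fun R => #R)
    (A := ⊥) ⟨piGrp_bot _, H0, h0, bot_le⟩
  obtain ⟨H, ⟨gH, hPH⟩, hHmax⟩ := exists_max_fun
    (fun K => Good p q M K ∧ P ≤ M ⊓ N(K)) (fun K => #K) (A := H1) ⟨g1, hP1⟩
  by_cases hS : Syl p P M
  · exact ⟨H, P, gH, hS, hPH.trans inf_le_right⟩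
  have hP : Syl p P (M ⊓ N(H)) := syl_of_max pP hPH fun R pR h1 h2 =>
    (eq_of_le_of_card_ge h1 (hPmax R ⟨pR, H, gH, h2⟩)).symm
  have hPM : P ≤ M := hPH.trans inf_le_left
  obtain ⟨P1, sP1, hP1⟩ := pP.exists_syl (le_inf hPM (le_nrm P))
  have lt1 : #P < #P1 := card_lt (lt_of_le_of_ne hP1 fun e => hS (syl_of_subnorm hPM (e ▸ sP1)))
  obtain ⟨hHM, pH, Q, pQ, hQ, hQn⟩ := gH
  have nH : H ⊴ M ⊓ N(H) := ⟨le_inf hHM (le_nrm H), inf_le_right⟩
  have hHP : H ≤ P := hP.ge_of_nml pH nH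
  have nC : M ⊓ C(H) ⊴ M ⊓ N(H) := subcent_nml_subnorm M H
  have nD : H ⊔ M ⊓ C(H) ⊴ M ⊓ N(H) := nH.sup nC
  have nK : M ⊓ N(H) ≤ N(C(H)) := norms_cent inf_le_right
  -- `P ⊓ H C(H) = H`
  have hstar : P ⊓ (H ⊔ M ⊓ C(H)) ≤ H := by
    have s1 := hP.inf_nml nD
    have f1 := (s1.frattini nD).sup
    have l1 : H ≤ P ⊓ (H ⊔ M ⊓ C(H)) := le_inf hHP le_sup_left
    have l2 : P ≤ N(P ⊓ (H ⊔ M ⊓ C(H))) := normsI (le_nrm P) (hPH.trans nD.nrm)
    have l3 : P ⊓ (H ⊔ M ⊓ C(H)) ≤ P := inf_le_left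
    generalize P ⊓ (H ⊔ M ⊓ C(H)) = E at f1 l1 l2 l3 ⊢
    have l4 : M ⊓ N(H) ≤ C(H) ⊔ M ⊓ N(H) ⊓ N(E) := by
      refine f1.ge.trans ?_
      refine sup_le (sup_le ?_ (inf_le_right.trans le_sup_left)) le_sup_right
      exact (le_inf nH.le (hHP.trans l2)).trans le_sup_right
    obtain ⟨Q', a1, a2, a3⟩ := exists_q nK inf_le_left l4 pQ hQ hQn
    have gE : Good p q M E := ⟨l3.trans hPM, pP.mono l3, Q', a1,
      a2.trans (inf_le_inf_right _ inf_le_left), fun h => a3 (h.trans (cen_anti l1))⟩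
    have := hHmax E ⟨gE, le_inf hPM l2⟩
    exact (eq_of_le_of_card_ge l1 this).ge
  have npc : NPC p (M ⊓ C(H)) := npc_of_syl_center (hP.inf_nml nC)
    (inf_le_right.trans (cen_anti ((inf_le_inf_left _ le_sup_right).trans hstar)))
  have hs : PSol p (M ⊓ N(H)) := psol_of_quo hp nK
    ((psol_of_npc hp npc).mono hp (inf_le_inf_right _ inf_le_left)) (hyp H hHM pH)
  obtain ⟨L, hL, hPL⟩ := exists_hall_pq' hp hq hs hP
  have sP : Syl p P L := hP.subl hPL hL.le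
  obtain ⟨R, hR⟩ := exists_syl q L
  have hRn : ¬ R ≤ C(H) := fun h =>
    hQn ((hL.subHall_syl (by simp) hR).le_of_syl_le nK h pQ hQ)
  have hne : P ≠ ⊥ := by
    rintro rfl
    rw [le_bot_iff.1 hHP, cen_bot] at hQn
    exact hQn le_top
  -- the characteristic subgroup
  obtain ⟨W, w1, w2, w3, Q1, q1, q2, q3⟩ : ∃ W, W ≠ ⊥ ∧ W ≤ P ∧ N(P) ≤ N(W) ∧
      ∃ Q1, PGrp q Q1 ∧ Q1 ≤ L ⊓ N(W) ∧ ¬ Q1 ≤ C(H) := by
    by_contra hcon
    push Not at hcon
    have key : ∀ A, A ≤ L → P ≤ A → (∀ Q1, PGrp q Q1 → Q1 ≤ A → Q1 ≤ C(H)) → A ≤ C(H) ⊔ P := by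
      intro A h1 h2 h3
      refine le_of_forall_syl fun r hr hd => ?_
      rcases hL.pi r hr (hd.trans (card_dvd h1)) with h | h
      · subst h
        exact ⟨P, sP.subl h2 h1, le_sup_right⟩
      · rw [Set.mem_singleton_iff] at h
        subst h
        obtain ⟨T, hT⟩ := exists_syl r A
        exact ⟨T, hT, (h3 T hT.pi hT.le).trans le_sup_left⟩
    have k1 := key (L ⊓ C(Ω[p](Z(P)))) inf_le_left
      (le_inf hPL (centsC ((Ohm_le _ _).trans inf_le_right))) fun Q1 a1 a2 =>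
      hcon _ (pP.Ohm_center_ne_bot hne) ((Ohm_le _ _).trans inf_le_left)
        (norms_Ohm p (norms_center le_rfl)) Q1 a1 (a2.trans (inf_le_inf_left _ (cen_le_nrm _)))
    have k2 := key (L ⊓ N(Jn p P)) inf_le_left (le_inf hPL (P22.norms_Jn (le_nrm P))) fun Q1 a1 a2 =>
      hcon _ (P22.Jn_ne_bot hp pP hne) (H5b.Jn_le p P) (P22.norms_Jn le_rfl) Q1 a1 a2
    have k3 : O[{p}ᶜ](L) ≤ C(H) := (pcore_nml _ L).cents_of_cop
      ⟨hHP.trans hPL, hL.le.trans inf_le_right⟩ ((pcore_pi _ L).cop' pH)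
    have k4 : L ≤ C(H) ⊔ P := (tf hp h23 (hs.mono hp hL.le) hL.pi sP).trans
      (sup_le (sup_le (k3.trans le_sup_left) k1) k2)
    obtain ⟨Q', a1, a2, a3⟩ := exists_q (hL.le.trans nK) hPL k4 hR.pi hR.le hRn
    apply a3
    rw [a1.eq_bot ((pP.mono a2).p' hpq)]
    exact bot_le
  have hQ1 : Q1 ≤ M ⊓ N(H) := q2.trans (inf_le_left.trans hL.le)
  have hP1W : P1 ≤ M ⊓ N(W) := sP1.le.trans (inf_le_inf_left _ w3)
  have pW : PGrp p W := pP.mono w2
  by_cases hM : M ≤ N(W)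
  · have nW : W ⊴ M := ⟨w2.trans hPM, hM⟩
    by_cases hc : Q1 ≤ C(W)
    · have g2 : Good p q (M /ₛ W) (H /ₛ W) := by
        refine ⟨quo_mono W hHM, pH.quo W, Q1 /ₛ W, q1.quo W,
          (quo_mono W hQ1).trans (quo_subnorm_le W M H), fun h => q3 ?_⟩
        refine stable_factor_cent (hQ1.trans inf_le_right) (pH.cop_of_ne q1 hpq) ?_ hc
        rw [commutator_comm]
        exact (quo_cents_iff (hQ1.trans (inf_le_left.trans hM)) (hHM.trans hM)).1 h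
      obtain ⟨K, P2, ⟨b1, b2, U, b3, b4, b5⟩, s2, n2⟩ :=
        ih _ (hn ▸ card_quo_lt nW w1) rfl (hyp.quo hp nW pW) g2
      refine ⟨qpre(W, K), qpre(W, P2), ⟨qpre_le_of_le_quo nW.le b1, b2.qpre pW, ?_⟩,
        s2.qpre pW nW, qpre_norms n2⟩
      obtain ⟨T, hT⟩ := exists_syl q qpre(W, U)
      refine ⟨T, hT.pi, hT.le.trans (le_inf (qpre_le_of_le_quo nW.le (b4.trans inf_le_left))
        (qpre_norms (b4.trans inf_le_right))), fun h => b5 ?_⟩
      have e1 := hT.quo (qpre_le U)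
      rw [quo_qpre] at e1
      rw [← e1.eq_of_piGrp b3, ← quo_qpre K]
      exact quo_cents W h
    · have := hPmax P1 ⟨sP1.pi, W, ⟨nW.le, pW, Q1, q1, le_inf (hQ1.trans inf_le_left)
        (q2.trans inf_le_right), hc⟩, hP1W⟩
      omega
  · have hlt : M ⊓ N(W) < M := lt_of_le_of_ne inf_le_left fun e => hM (e ▸ inf_le_right)
    have hPW : P ≤ M ⊓ N(W) := le_inf hPM ((le_nrm P).trans w3)
    obtain ⟨K, P2, gK, s2, n2⟩ := ih _ (hn ▸ card_lt hlt) rfl (hyp.mono hp inf_le_left)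
      (show Good p q (M ⊓ N(W)) H from ⟨hHP.trans hPW, pH, Q1, q1,
        le_inf (le_inf (hQ1.trans inf_le_left) (q2.trans inf_le_right)) (hQ1.trans inf_le_right), q3⟩)
    have h1 := hPmax P2 ⟨s2.pi, K, gK.mono inf_le_left, le_inf (s2.le.trans inf_le_left) n2⟩
    have h2 := s2.card_le sP1.pi hP1W
    omega

theorem thompson [hp : Fact p.Prime] [hq : Fact q.Prime] (hpq : p ≠ q)
    (h23 : ¬ ((p = 2 ∧ q = 3) ∨ (p = 3 ∧ q = 2)))
    (hsol : ∀ H : Subgroup G, IsPGroup p ↥H →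
      IsPSolvable p (↥(normalizer (H : Set G)) ⧸ (centralizer (H : Set G)).subgroupOf (normalizer (H : Set G))))
    (H : Subgroup G) (hH : IsPGroup p ↥H)
    (hd : q ∣ ((centralizer (H : Set G)).subgroupOf (normalizer (H : Set G))).index)
    (Gp : Sylow p G) :
    ∃ K : Subgroup G, K ≤ (Gp : Subgroup G) ∧ (Gp : Subgroup G) ≤ normalizer (K : Set G) ∧
      q ∣ ((centralizer (K : Set G)).subgroupOf (normalizer (K : Set G))).index := by
  have hyp : Hyp p (⊤ : Subgroup G) := by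
    intro H _ pH
    rw [top_inf_eq]
    have n1 : N(H) ≤ N(C(H)) := norms_cent le_rfl
    refine psolv_of_ker_le hp.out (QuotientGroup.mk' _) (QuotientGroup.mk'_surjective _) _
      (pmapHom_surjective (qhom C(H)) n1) ?_ (hsol H ((pGrp_iff hp.out).1 pH))
    rw [pmapHom_ker, qker, QuotientGroup.ker_mk']
  have g0 : Good p q ⊤ H := by
    obtain ⟨Q, hQ⟩ := exists_syl q N(H)
    refine ⟨le_top, (pGrp_iff hp.out).2 hH, Q, hQ.pi, le_inf le_top hQ.le, fun h => ?_⟩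
    exact hQ.not_dvd hq.out (Dvd.dvd.trans hd (relIndex_dvd_of_le_left N(H) h))
  obtain ⟨K, P, ⟨-, pK, Q, pQ, h1, h2⟩, sP, nK⟩ := main hp.out hq.out hpq h23 _ rfl hyp g0
  obtain ⟨g, -, e⟩ := sP.syl_trans (syl_top hp.out Gp)
  rw [e]
  refine ⟨cj g K, cj_mono g (sP.le_of_normed pK le_top nK), cj_norms.2 nK, ?_⟩
  by_contra hcon
  apply h2
  rw [← cj_cents (g := g)]
  exact (pQ.cj g).le_of_relIndex (cj_norms.2 (h1.trans inf_le_right)) (norms_cent le_rfl)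
    ((p'nat_iff hq.out).2 hcon)

end Cfsg.Agent.H3.AQ
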