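import Cfsg.Agent.H3.Blk2

/-! Automorphisms of order `p` of a metacyclic `p`-group. -/

set_option autoImplicit false
set_option linter.unusedSectionVars false
set_option linter.style.haveILetI false

namespace Cfsg.Agent.H3
open Cfsg Subgroup Cfsg.Agent.FT
open scoped commutatorElement
universe u

variable {G : Type u} [Group G] [Finite G] {p n : ℕ} [hp : Fact p.Prime] {T : Subgroup G} {x : G}

theorem Reg.root (h : Reg p T) (hT : PGrp p T) (c : #Ω[p](T) = p ^ 2) (hn : ∀ C ≤ T, Cyc C → C.relIndex T ≠ p) :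
    ∀ v ∈ Ω[p](T), ∃ w ∈ T, v = w ^ p := fun v hv => by_contra fun k => by
  obtain ⟨g, e⟩ := h.exists_gen hT c hv k
  have l : ⟪g⟫ ≤ T := le_sup_right.trans e.le
  have hV : Abelem p Ω[p](T) := abelem_Ohm_of_ab (ab_of_card_sq hp.out c)
  rcases (Nat.dvd_prime hp.out).1 ((hV.mono (inf_le_left (b := ⟪g⟫))).card_dvd_of_cyc
    ((cyc_zpowers g).mono inf_le_right)) with q | q
  · have := hT.inf_eq_bot_of_Ohm (card_eq_one.1 q)
    rw [inf_eq_right.2 l] at this
    rw [this, sup_bot_eq] at e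
    obtain ⟨X, x1, x2⟩ := exists_card_prime_le hp.out (c ▸ dvd_pow_self p two_ne_zero : p ∣ #Ω[p](T))
    exact hn X (x1.trans e.le) (cyc_of_prime (x2.symm ▸ hp.out))
      ((relIndex_eq_pow hp.out (x1.trans e.le) (e ▸ c) (x2.trans (pow_one p).symm)).2.trans (pow_one p))
  · have := FT.card_sup_mul_card_inf (l.trans (Ohm_nml p T).nrm)
    rw [e, q, c, ← FT.card_mul_relIndex l, sq, mul_assoc, mul_comm, mul_comm _ p] at this
    exact hn _ l (cyc_zpowers g) (Nat.eq_of_mul_eq_mul_left hp.out.pos (Nat.eq_of_mul_eq_mul_right (card_pos _) this))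

theorem meta_aut (h2 : p ≠ 2) (hG : Nat.card G = p ^ (n + 1)) [T.Normal] (hT : #T = p ^ n) (hm : Metacyc T) (h1 : T ≠ ⊥)
    (hn : ∀ C ≤ T, Cyc C → C.relIndex T ≠ p) (hx : x ∉ T) (x1 : x ^ p = 1) :
    x ∉ C(Ω[p](T)) ↔ p = 3 ∧ Group.nilpotencyClass G = n := by
  have pG := IsPGroup.of_card hG
  have pT := pGrp_top pG
  have pC := pT.mono (le_top (a := T))
  have rg := reg_of_isMetacyclic pC.isPGroup h2 hm
  have n1 : n ≠ 0 := fun e => h1 (card_eq_one.1 (by rw [hT, e, pow_zero]))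
  have nc : ¬ Cyc T := fun c => by
    obtain ⟨Q, q1, q2⟩ := exists_card_pow_le hp.out (n := n - 1) (hT ▸ pow_dvd_pow p (Nat.sub_le _ _) : _ ∣ #T)
    exact hn Q q1 (c.mono q1) (by rw [(relIndex_eq_pow hp.out q1 hT q2).2, show n - (n - 1) = 1 by omega, pow_one])
  have e := Ohm1_metacyclic_p2Elem hp.out hm pC (odd_of_pGrp h2 pC) nc
  have rt := rg.root pC e.card hn
  have iT : T.index = p := Nat.eq_of_mul_eq_mul_left (card_pos T) (by rw [card_mul_index, hG, hT, pow_succ])
  have nT : x ∈ N(T) := mem_normalizer_of_normal _ _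
  rw [← Nat.add_sub_cancel n 1, ← maxCl_top_iff hG (by omega)]
  constructor
  · intro hc
    obtain ⟨z1, z2⟩ := sq_act e.abelem e.card (pT.mono le_top) (norms_Ohm p le_rfl nT) hc
    constructor
    · refine (show 3 ≤ p by have := hp.out.two_le; omega).eq_or_lt.elim Eq.symm fun h3 => absurd ?_ hc
      obtain ⟨W, hW⟩ : ∃ W : Subgroup G, ∀ w, w ∈ W ↔ w ∈ T ∧ (w ^ p) ^ p = 1 :=
        ⟨(rg.omega pC.isPGroup 2).map T.subtype, fun w => ⟨by
          rintro ⟨w, k, rfl⟩; exact ⟨w.2, by rw [← pow_mul, ← sq]; exact congrArg Subtype.val k⟩,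
          fun k => ⟨⟨w, k.1⟩, Subtype.ext (show w ^ p ^ 2 = 1 by rw [sq, pow_mul, k.2]), rfl⟩⟩⟩
      have l : W ≤ T := fun w k => ((hW w).1 k).1
      have cW : #W ≤ p ^ 2 * p ^ 2 := by
        rw [← (rg.mono l).card_omegaOne_mul (pC.mono l).isPGroup, ← e.card]
        exact Nat.mul_le_mul (card_le (omegaOne_mono p l))
          (card_le (Mho_le_iff.2 fun w k => mem_Ohm (pow_mem (l k) p) ((hW w).1 k).2))
      have xW : x ∈ N(W) := mem_normalizer_of_conj_mem fun w k => (hW _).2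
        ⟨conj_mem_of_mem_normalizer nT (l k), by rw [conj_pow, conj_pow, ((hW w).1 k).2]; simp⟩
      have pH := pT.mono (le_top (a := W ⊔ ⟪x⟫))
      have rH := reg_subgroup_of_card_le pH.isPGroup h3 ((Nat.le_of_dvd (Nat.mul_pos (card_pos _) (card_pos _))
        (card_sup_dvd (zpowers_le.2 xW))).trans ((Nat.mul_le_mul cW (Nat.le_of_dvd hp.out.pos
          ((card_zpowers' x).dvd.trans (orderOf_dvd_of_pow_eq_one x1)))).trans_eq (by ring)))
      refine FT.mem_cen.2 fun v hv => ?_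
      obtain ⟨w, hw, rfl⟩ := rt v hv
      have m1 : w ∈ W ⊔ ⟪x⟫ := mem_sup_left ((hW w).2 ⟨hw, e.abelem.pow hv⟩)
      have m2 : x ∈ W ⊔ ⟪x⟫ := mem_sup_right (mem_zpowers x)
      refine (rH.commute_of_mem pH m1 m2).2 ?_
      rw [← commutatorElement_inv, inv_pow, (rH.commute_of_mem pH m2 m1).1 (x1 ▸ Commute.one_left w), inv_one]
    · have k : ∀ d ∈ T ⊓ C[x], d ^ p = 1 := by_contra fun k => by
        obtain ⟨c, hc', c1, c2⟩ := exists_ord_sq (pT.mono le_top) k
        obtain ⟨w, -, -, q⟩ := rg.not_commute h2 pC e.card rt (pT.mono le_top) nT hc hc'.1 hc'.2 c1 c2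
        exact q (x1 ▸ Commute.one_left w)
      refine maxCl_of_cen1' hp.out (card_top'.trans hG) (by omega) (mem_top x) ?_
      rw [top_inf_eq, sq]
      refine (card_le_card_inf_mul_index T C[x]).trans (Nat.mul_le_mul (z1 ▸ card_le fun d hd => ?_) iT.le)
      exact ⟨mem_Ohm hd.1 (k d hd), hd.2⟩
  · rintro ⟨-, h⟩ hc
    have nT := nml_top_iff.2 ‹T.Normal›
    have n3 : 3 ≤ n := by_contra fun l => by
      have q : Ω[p](T) = T := eq_of_card_le e.le (by rw [e.card, hT]; exact Nat.pow_le_pow_right hp.out.pos (by omega))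
      refine e.ne_bot (eq_bot_iff.2 fun v hv => ?_)
      obtain ⟨w, hw, rfl⟩ := rt v hv
      exact e.abelem.pow (q.ge hw)
    have cy : Cyc ⁅T, T⁆ := der_eq_map T ▸ Cyc.map _ (isCyclic_commutator_of_isMetacyclic hm)
    have d : ∀ u ∈ ⁅T, T⁆, u ^ p = 1 := fun u hu => by
      obtain ⟨j, hj⟩ := (pC.mono (der_le T)).card
      have : j ≤ 1 := by_contra fun l => e.not_cyc_of_le (h.le_of_card_le (nT.Ohm p) nT.der e.card (by omega)
        (by rw [e.card, hj]; exact Nat.pow_le_pow_right hp.out.pos (by omega))) cy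
      exact orderOf_dvd_iff_pow_eq_one.1 ((orderOf_dvd_card' hu).trans (hj ▸ (pow_dvd_pow p this).trans (pow_one p).dvd))
    have l : Ω[p](T) ≤ Z((⊤ : Subgroup G)) := le_inf le_top (by
      rw [← sup_zpowers_eq_top_of_index_prime hp.out iT hx]
      refine centsY (fun v hv => FT.mem_cen.2 fun t ht => ?_) (centsC (zpowers_le.2 hc))
      obtain ⟨w, hw, rfl⟩ := rt v hv
      exact ((rg.commute_of_mem pC hw ht).2 (d _ (commutator_mem_commutator hw ht))).symm)
    exact p_lt_sq.not_ge (e.card ▸ h.card_center (by omega) ▸ card_le l)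

theorem meta_aut_ext {L : Type u} [Group L] [Finite L] (h2 : p ≠ 2) (hmc : IsMetacyclic L)
    (hnc : ∀ C : Subgroup L, IsCyclic C → C.index ≠ p) (a : MulAut L) (ha : orderOf a = p) (hm : Nat.card L = p ^ n) :
    (∃ x : L, orderOf x = p ∧ a x ≠ x) ↔ (p = 3 ∧ Group.nilpotencyClass (Hol L ⟪a⟫) = n) := by
  have a1 : a ≠ 1 := fun e => hp.out.one_lt.ne (by rw [← ha, e, orderOf_one])
  rw [← meta_aut (T := holL ⟪a⟫ ⊤) (x := SemidirectProduct.inr ⟨a, mem_zpowers a⟩) h2
    (by rw [SemidirectProduct.card, hm, card_zpowers', ha, pow_succ]) ((card_holL _).trans (card_top'.trans hm))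
    (isMetacyclic_of_surjective hmc (SemidirectProduct.inl.codRestrict _ fun x => inl_mem_holL.2 (mem_top x))
      (by rintro ⟨_, x, -, rfl⟩; exact ⟨x, rfl⟩))
    (fun e => a1 (MulEquiv.ext fun y => by
      have k : ∀ y : L, y = 1 := fun y => mem_bot.1 (holL_injective (e.trans (Subgroup.map_bot _).symm) ▸ mem_top y)
      rw [k y, map_one, map_one]))
    (fun C h c => by
      obtain ⟨U, rfl⟩ := exists_holL_eq h
      rw [relIndex_map_map_of_injective _ _ SemidirectProduct.inl_injective, relIndex_top_right]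
      exact hnc U ((isCyclic_map_iff SemidirectProduct.inl_injective).1 c))
    (by rintro ⟨y, -, e⟩; exact a1 (congrArg Subtype.val (congrArg SemidirectProduct.right e)).symm)
    (by rw [← map_pow, ← map_one SemidirectProduct.inr]; exact congrArg _ (Subtype.ext (ha ▸ pow_orderOf_eq_one a))),
    ← map_Ohm_inj SemidirectProduct.inl_injective, inr_mem_centralizer_holL]
  constructor
  · rintro ⟨x, h1, h3⟩ k
    exact h3 (k x (mem_Ohm (mem_top x) (h1 ▸ pow_orderOf_eq_one x)))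
  · intro k
    by_contra! q
    refine k fun x hx => (Ohm_le_iff (K := a.toMonoidHom.eqLocus (MonoidHom.id L))).2 (fun y _ e => ?_) hx
    by_cases y1 : y = 1
    · exact y1 ▸ one_mem _
    · exact q y (orderOf_eq_prime e y1)

end Cfsg.Agent.H3
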