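import Cfsg.Agent.FT.Nil
import Cfsg.Agent.H7.Sect
import Cfsg.Agent.H7.Small

/-!
Every finite solvable group embeds in the central quotient of a group of central type (Gagola).
-/

set_option autoImplicit false

namespace Cfsg.Agent.H3.CType

open Cfsg Subgroup

universe u

/-- a normalised non-degenerate 2-cocycle with values in `ZMod m` -/
structure CT (m : ℕ) (Q : Type u) [Group Q] where
  /-- the cocycle -/
  α : Q → Q → ZMod m
  coc : ∀ x y z, α x y + α (x * y) z = α y z + α x (y * z)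
  one_left : ∀ x, α 1 x = 0
  one_right : ∀ x, α x 1 = 0
  nondeg : ∀ x, x ≠ 1 → ∃ y, x * y = y * x ∧ α x y ≠ α y x

theorem exists_form {m p : ℕ} (hm : m ≠ 0) (hp : p.Prime) (hpm : p ∣ m) (K : Type u) [Group K]
    (hK : Nat.card K = p) : ∃ b : K → K → ZMod m, (∀ x y z, b (x * y) z = b x z + b y z) ∧
      (∀ x y z, b x (y * z) = b x y + b x z) ∧ ∀ x y, x ≠ 1 → y ≠ 1 → b x y ≠ 0 := by
  haveI := Fact.mk hp
  haveI : NeZero m := ⟨hm⟩
  obtain ⟨c, hc⟩ := exists_prime_addOrderOf_dvd_card' (G := ZMod m) p (by rw [Nat.card_zmod]; exact hpm)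
  let ι : ZMod p →+ ZMod m := ZMod.lift p ⟨zmultiplesHom _ c, by
    rw [zmultiplesHom_apply, natCast_zsmul, ← hc, addOrderOf_nsmul_eq_zero]⟩
  have hι : Function.Injective ι := ZMod.lift_injective p |>.2 fun k hk => by
    rw [ZMod.intCast_zmod_eq_zero_iff_dvd, ← hc]
    exact addOrderOf_dvd_iff_zsmul_eq_zero.2 hk
  let e : K ≃* Multiplicative (ZMod p) := mulEquivOfPrimeCardEq hK (by simp)
  refine ⟨fun x y => ι ((e x).toAdd * (e y).toAdd), fun x y z => ?_, fun x y z => ?_,
    fun x y hx hy h => ?_⟩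
  · simp only [map_mul, toAdd_mul, add_mul, map_add]
  · simp only [map_mul, toAdd_mul, mul_add, map_add]
  · rcases mul_eq_zero.1 ((map_eq_zero_iff ι hι).1 h) with h | h
    · exact hx ((map_eq_one_iff e e.injective).1 (toAdd_eq_zero.1 h))
    · exact hy ((map_eq_one_iff e e.injective).1 (toAdd_eq_zero.1 h))

theorem CT.step {m p : ℕ} (hm : m ≠ 0) (hp : p.Prime) (hpm : p ∣ m) {Q K : Type u} [Group Q] [Group K]
    [Finite K] (hK : Nat.card K = p) (c : CT m Q) : Nonempty (CT m ((Q ≀ᵣ K) × K)) := by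
  classical
  haveI := Fintype.ofFinite K
  haveI := Fact.mk hp
  obtain ⟨b, b1, b2, b3⟩ := exists_form hm hp hpm K hK
  have b4 : ∀ x, b 1 x = 0 := fun x => by
    have := b1 1 1 x
    rw [mul_one] at this
    exact left_eq_add.1 this
  have b5 : ∀ x, b x 1 = 0 := fun x => by
    have := b2 x 1 1
    rw [mul_one] at this
    exact left_eq_add.1 this
  haveI : Nontrivial K := Finite.one_lt_card_iff_nontrivial.1 (hK ▸ hp.one_lt)
  obtain ⟨k, hk⟩ := exists_ne (1 : K)
  have hcomm : ∀ x y : K, x * y = y * x := fun x y =>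
    haveI := isCyclic_of_prime_card hK
    (IsCyclic.commGroup (α := K)).mul_comm x y
  refine ⟨⟨fun x y => ∑ t, c.α (x.1.left t) (y.1.left (x.1.right⁻¹ * t)) + b x.1.right y.2,
    fun x y z => ?_, fun x => ?_, fun x => ?_, fun x hx => ?_⟩⟩
  · have e1 : ∑ t, c.α (y.1.left t) (z.1.left (y.1.right⁻¹ * t)) =
        ∑ t, c.α (y.1.left (x.1.right⁻¹ * t)) (z.1.left (y.1.right⁻¹ * (x.1.right⁻¹ * t))) :=
      (Equiv.sum_comp (Equiv.mulLeft x.1.right⁻¹)
        fun t => c.α (y.1.left t) (z.1.left (y.1.right⁻¹ * t))).symm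
    simp only [Prod.fst_mul, Prod.snd_mul, RegularWreathProduct.mul_left,
      RegularWreathProduct.mul_right, Pi.mul_apply, b1, b2, mul_inv_rev, mul_assoc]
    have e2 := Finset.sum_congr (s₁ := Finset.univ) rfl fun t _ => c.coc (x.1.left t)
      (y.1.left (x.1.right⁻¹ * t)) (z.1.left (y.1.right⁻¹ * (x.1.right⁻¹ * t)))
    rw [Finset.sum_add_distrib, Finset.sum_add_distrib] at e2
    rw [e1]
    linear_combination e2
  · simp only [Prod.fst_one, RegularWreathProduct.one_left, RegularWreathProduct.one_right,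
      Pi.one_apply, c.one_left, b4, Finset.sum_const_zero, add_zero]
  · simp only [Prod.fst_one, Prod.snd_one, RegularWreathProduct.one_left, Pi.one_apply, c.one_right, b5,
      Finset.sum_const_zero, add_zero]
  · by_cases h1 : x.1.right = 1
    · by_cases h2 : x.1.left = 1
      · have h3 : x.1 = 1 := RegularWreathProduct.ext h2 h1
        have h4 : x.2 ≠ 1 := fun h => hx (Prod.ext h3 h)
        refine ⟨(RegularWreathProduct.inl k, 1), Prod.ext ?_ (hcomm _ _), ?_⟩
        · simp only [Prod.fst_mul, h3, one_mul, mul_one]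
        · simp only [h1, h2, RegularWreathProduct.left_inl, RegularWreathProduct.right_inl, Pi.one_apply,
            c.one_left, b5, Finset.sum_const_zero, add_zero, zero_add]
          exact (b3 _ _ hk h4).symm
      · obtain ⟨t, ht⟩ := Function.ne_iff.1 h2
        obtain ⟨y, hy, hy'⟩ := c.nondeg _ ht
        refine ⟨(⟨Pi.mulSingle t y, 1⟩, 1), Prod.ext (RegularWreathProduct.ext ?_ ?_) (hcomm _ _), ?_⟩
        · funext s
          simp only [Prod.fst_mul, RegularWreathProduct.mul_left, Pi.mul_apply, h1, inv_one, one_mul]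
          by_cases h : s = t
          · rw [h, Pi.mulSingle_eq_same, hy]
          · rw [Pi.mulSingle_eq_of_ne h, one_mul, mul_one]
        · simp only [Prod.fst_mul, RegularWreathProduct.mul_right, one_mul, mul_one]
        · simp only [h1, inv_one, one_mul, b4, add_zero]
          rw [Finset.sum_eq_single t, Finset.sum_eq_single t, Pi.mulSingle_eq_same]
          · exact hy'
          · intro s _ h
            rw [Pi.mulSingle_eq_of_ne h, c.one_left]
          · simp
          · intro s _ h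
            rw [Pi.mulSingle_eq_of_ne h, c.one_right]
          · simp
    · refine ⟨(1, k), Prod.ext ?_ (hcomm _ _), ?_⟩
      · simp only [Prod.fst_mul, one_mul, mul_one]
      · simp only [RegularWreathProduct.one_left, RegularWreathProduct.one_right, Pi.one_apply,
          c.one_left, c.one_right, b4, Finset.sum_const_zero, add_zero, zero_add]
        exact b3 _ _ h1 hk

theorem exists_wreath {G Q : Type u} [Group G] [Group Q] (N : Subgroup G) [N.Normal] (f : N →* Q)
    (hf : Function.Injective f) : ∃ φ : G →* Q ≀ᵣ (G ⧸ N), Function.Injective φ := by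
  have hm : ∀ (g : G) (t : G ⧸ N), t.out⁻¹ * g * ((g : G ⧸ N)⁻¹ * t).out ∈ N := fun g t => by
    rw [← QuotientGroup.eq_one_iff]
    simp only [QuotientGroup.mk_mul, QuotientGroup.mk_inv, QuotientGroup.out_eq']
    group
  refine ⟨MonoidHom.mk' (fun g => ⟨fun t => f ⟨_, hm g t⟩, g⟩) fun g h => ?_,
    (injective_iff_map_eq_one _).2 fun g hg => ?_⟩
  · refine RegularWreathProduct.ext ?_ rfl
    funext t
    simp only [RegularWreathProduct.mul_left, Pi.mul_apply, ← map_mul]
    congr 1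
    apply Subtype.ext
    simp only [coe_mul, QuotientGroup.mk_mul, mul_inv_rev, mul_assoc, mul_inv_cancel_left]
  · have h1 : (g : G ⧸ N) = 1 := congrArg RegularWreathProduct.right hg
    have h2 : f ⟨_, hm g 1⟩ = 1 := congrFun (congrArg RegularWreathProduct.left hg) 1
    have h3 := congrArg Subtype.val ((map_eq_one_iff f hf).1 h2)
    simp only [h1, inv_one, mul_one, OneMemClass.coe_one] at h3
    rw [mul_assoc, inv_mul_eq_one] at h3
    exact right_eq_mul.1 h3

theorem exists_ct {m : ℕ} (hm : m ≠ 0) (n : ℕ) : ∀ {G : Type u} [Group G] [Finite G], Nat.card G = n →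
    Group.IsSolvable G → (∀ p, p.Prime → p ∣ Nat.card G → p ∣ m) →
    ∃ (Q : Type u) (_ : Group Q) (_ : Finite Q) (_ : CT m Q) (f : G →* Q), Function.Injective f ∧
      ∀ p, p.Prime → p ∣ Nat.card Q → p ∣ m := by
  induction n using Nat.strong_induction_on with
  | _ n ih =>
  intro G _ _ hn hs hp
  by_cases h1 : (⊤ : Subgroup G) = ⊥
  · refine ⟨G, inferInstance, inferInstance, ⟨fun _ _ => 0, fun _ _ _ => rfl, fun _ => rfl, fun _ => rfl,
      fun x hx => absurd ?_ hx⟩, MonoidHom.id G, fun _ _ h => h, hp⟩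
    exact mem_bot.1 (h1 ▸ mem_top x)
  obtain ⟨N, hN, hi⟩ := FT.Sol.exists_prime_factor (M := (⊤ : Subgroup G))
    (inferInstanceAs (Group.IsSolvable (⊤ : Subgroup G))) h1
  haveI : N.Normal := normalizer_eq_top_iff.1 (top_le_iff.1 hN.nrm)
  rw [relIndex_top_right] at hi
  have h2 := N.card_mul_index
  have h3 : Nat.card N < n := by
    have := hi.one_lt
    have : 0 < Nat.card N := Nat.card_pos
    nlinarith
  obtain ⟨Q, _, _, c, f, hf, hQ⟩ := ih _ h3 (G := N) rfl inferInstance fun p h4 h5 =>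
    hp p h4 (h5.trans (card_subgroup_dvd_card N))
  have h4 : N.index ∣ m := hp _ hi (index_dvd_card N)
  obtain ⟨c'⟩ := c.step hm hi h4 (K := G ⧸ N) rfl
  obtain ⟨φ, hφ⟩ := exists_wreath N f hf
  refine ⟨(Q ≀ᵣ (G ⧸ N)) × (G ⧸ N), inferInstance, inferInstance, c', (MonoidHom.inl _ _).comp φ,
    fun x y h => hφ (congrArg Prod.fst h), fun p h5 h6 => ?_⟩
  rw [Nat.card_prod, RegularWreathProduct.card] at h6
  have h7 : p ∣ Nat.card (G ⧸ N) → p ∣ m := fun h => h.trans h4
  rcases h5.dvd_mul.1 h6 with h | h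
  · rcases h5.dvd_mul.1 h with h | h
    · exact hQ p h5 (h5.dvd_of_dvd_pow h)
    · exact h7 h
  · exact h7 h

/-- the central extension defined by a cocycle -/
@[ext] structure Ex {m : ℕ} {Q : Type u} [Group Q] (c : CT m Q) where
  /-- central component -/
  a : ZMod m
  /-- quotient component -/
  q : Q

namespace Ex

variable {m : ℕ} {Q : Type u} [Group Q] {c : CT m Q}

instance : Mul (Ex c) := ⟨fun x y => ⟨x.a + y.a + c.α x.q y.q, x.q * y.q⟩⟩
instance : One (Ex c) := ⟨⟨0, 1⟩⟩
instance : Inv (Ex c) := ⟨fun x => ⟨-x.a - c.α x.q⁻¹ x.q, x.q⁻¹⟩⟩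

theorem mul_a (x y : Ex c) : (x * y).a = x.a + y.a + c.α x.q y.q := rfl
theorem mul_q (x y : Ex c) : (x * y).q = x.q * y.q := rfl
theorem one_a : (1 : Ex c).a = 0 := rfl
theorem one_q : (1 : Ex c).q = 1 := rfl
theorem inv_a (x : Ex c) : x⁻¹.a = -x.a - c.α x.q⁻¹ x.q := rfl
theorem inv_q (x : Ex c) : x⁻¹.q = x.q⁻¹ := rfl

instance : Group (Ex c) := Group.ofLeftAxioms
  (fun x y z => Ex.ext (by
    simp only [mul_a, mul_q]
    linear_combination c.coc x.q y.q z.q) (mul_assoc _ _ _))
  (fun x => Ex.ext (by simp only [mul_a, one_a, one_q, c.one_left, zero_add, add_zero]) (one_mul _))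
  (fun x => Ex.ext (by simp only [mul_a, inv_a, inv_q, one_a]; ring) (inv_mul_cancel _))

/-- the underlying set -/
def equivProd (c : CT m Q) : Ex c ≃ ZMod m × Q :=
  ⟨fun x => (x.a, x.q), fun x => ⟨x.1, x.2⟩, fun _ => rfl, fun _ => rfl⟩

/-- the projection -/
def pr (c : CT m Q) : Ex c →* Q := MonoidHom.mk' (fun x => x.q) fun _ _ => rfl

/-- the central inclusion -/
def inc (c : CT m Q) : Multiplicative (ZMod m) →* Ex c :=
  MonoidHom.mk' (fun a => ⟨a.toAdd, 1⟩) fun a b => Ex.ext (by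
    simp only [mul_a, c.one_left, add_zero, toAdd_mul]) (mul_one _).symm

theorem inc_inj : Function.Injective (inc c) := fun _ _ h =>
  Multiplicative.toAdd.injective (congrArg Ex.a h)

theorem mem_center {x : Ex c} : x ∈ center (Ex c) ↔ x.q = 1 := by
  rw [mem_center_iff]
  refine ⟨fun h => ?_, fun h y => Ex.ext ?_ ?_⟩
  · by_contra h1
    obtain ⟨y, -, h2⟩ := c.nondeg _ h1
    have := congrArg Ex.a (h ⟨0, y⟩)
    simp only [mul_a, zero_add, add_zero, add_right_inj] at this
    exact h2 this.symm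
  · simp only [mul_a, h, c.one_left, c.one_right, add_comm]
  · simp only [mul_q, h, one_mul, mul_one]

theorem center_eq_ker : center (Ex c) = (pr c).ker := by
  ext x
  exact mem_center

theorem center_eq_range : center (Ex c) = (inc c).range := by
  ext x
  rw [mem_center]
  exact ⟨fun h => ⟨Multiplicative.ofAdd x.a, Ex.ext rfl h.symm⟩, fun ⟨a, h⟩ => h ▸ rfl⟩

theorem card_center : Nat.card (center (Ex c)) = m := by
  rw [center_eq_range, ← Nat.card_congr (MonoidHom.ofInjective (inc_inj (c := c))).toEquiv]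
  exact Nat.card_zmod m

theorem exists_conj {x : Ex c} (h : x.q ≠ 1) : ∃ y d, d ≠ 1 ∧ y⁻¹ * x * y = inc c d * x := by
  obtain ⟨y, h1, h2⟩ := c.nondeg _ h
  refine ⟨⟨0, y⟩, Multiplicative.ofAdd (c.α x.q y - c.α y x.q), fun h3 => h2 ?_, ?_⟩
  · exact sub_eq_zero.1 (ofAdd_eq_one.1 h3)
  · rw [mul_assoc, inv_mul_eq_iff_eq_mul]
    refine Ex.ext ?_ ?_
    · simp only [mul_a, mul_q, inc, MonoidHom.mk'_apply, toAdd_ofAdd, c.one_left, one_mul]
      ring
    · simp only [mul_q, inc, MonoidHom.mk'_apply, one_mul, h1]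

open Cfsg.Agent.H7 in
theorem exists_char [Finite (Ex c)] (hm : m ≠ 0) : ∃ χ : IrrCharacter (Ex c),
    (∀ h, (χ : Ex c → ℂ) h = (χ : Ex c → ℂ) 1 → h = 1) ∧
      charDegree (χ : Ex c → ℂ) ^ 2 = (center (Ex c)).index := by
  haveI : NeZero m := ⟨hm⟩
  haveI := Fintype.ofFinite (Ex c)
  let lam : Multiplicative (ZMod m) →* ℂˣ := (ZMod.stdAddChar (N := m)).toMonoidHom.toHomUnits
  have hl : ∀ d, linFun lam d = 1 → d = 1 := fun d h => by
    have h1 : ZMod.stdAddChar (N := m) d.toAdd = ZMod.stdAddChar (N := m) 0 := by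
      rw [AddChar.map_zero_eq_one]; exact h
    exact toAdd_eq_zero.1 (ZMod.injective_stdAddChar h1)
  obtain ⟨χ, hχ, h1⟩ := exists_irr_over (inc_inj (c := c)) (irr_linFun lam)
  have h2 := central_mul (f := inc c) (fun n => mem_center.2 rfl) hχ (irr_linFun lam) h1
  have h3 : ∀ x : Ex c, x.q ≠ 1 → χ x = 0 := fun x hx => by
    obtain ⟨y, d, hd, e⟩ := exists_conj hx
    have h4 := h2 d x
    rw [← e, cf_apply_conj' (irr_cf hχ)] at h4
    by_contra h5
    exact hd (hl d ((mul_eq_right₀ h5).1 h4.symm))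
  have h4 : ∀ d, χ (inc c d) = linFun lam d * χ 1 := fun d => by rw [← h2, mul_one]
  have h0 := irr_one_ne_zero hχ
  refine ⟨⟨χ, hχ⟩, fun x hx => ?_, ?_⟩
  · have hx' : χ x = χ 1 := hx
    have h5 : x.q = 1 := by
      by_contra h5
      exact h0 (hx' ▸ h3 x h5)
    obtain ⟨d, rfl⟩ : x ∈ (inc c).range := center_eq_range (c := c) ▸ mem_center.2 h5
    rw [h4] at hx'
    rw [hl d ((mul_eq_right₀ h0).1 hx'), map_one]
  · have h5 := ip_irr_self hχ
    rw [ip_def, ← Fintype.sum_of_injective (inc c) inc_inj (fun _ => χ 1 * χ 1) _ (fun x hx => ?_)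
      fun d => ?_] at h5
    · rw [Finset.sum_const, Finset.card_univ, ← Nat.card_eq_fintype_card, nsmul_eq_mul,
        ← (center (Ex c)).card_mul_index, card_center, char_one_eq (irr_char hχ)] at h5
      have h6 : Nat.card (Multiplicative (ZMod m)) = m := by simp
      rw [h6, inv_mul_eq_one₀ (by
        exact_mod_cast mul_ne_zero hm index_ne_zero_of_finite)] at h5
      have h7 : m * (center (Ex c)).index = m * (charDegree χ * charDegree χ) := by exact_mod_cast h5
      rw [sq]
      exact (Nat.eq_of_mul_eq_mul_left (Nat.pos_of_ne_zero hm) h7).symm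
    · rw [h3 x fun h => hx (show x ∈ (inc c).range from center_eq_range (c := c) ▸ mem_center.2 h), zero_mul]
    · rw [← char_inv (irr_char hχ), ← map_inv, h4, h4, mul_mul_mul_comm, linFun_apply, linFun_apply,
        ← Units.val_mul, ← map_mul, mul_inv_cancel, map_one, Units.val_one, one_mul]

end Ex

theorem gagola {G : Type u} [Group G] [Finite G] (hsolv : Group.IsSolvable G) :
    ∃ (H : Type u) (_ : Group H) (_ : Finite H) (χ : IrrCharacter H),
      (∀ h : H, (χ : H → ℂ) h = (χ : H → ℂ) 1 → h = 1) ∧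
      (charDegree (χ : H → ℂ)) ^ 2 = (center H).index ∧
      (∃ f : G →* H ⧸ center H, Function.Injective f) ∧
      (∀ p : ℕ, p.Prime → ((p ∣ Nat.card H ↔ p ∣ Nat.card G) ∧
        (p ∣ Nat.card (center H) ↔ p ∣ Nat.card G))) ∧ Squarefree (Nat.card (center H)) := by
  have hm : UniqueFactorizationMonoid.radical (Nat.card G) ≠ 0 :=
    UniqueFactorizationMonoid.radical_ne_zero
  have hd : ∀ p : ℕ, p.Prime → (p ∣ UniqueFactorizationMonoid.radical (Nat.card G) ↔ p ∣ Nat.card G) :=
    fun p hp => UniqueFactorizationMonoid.dvd_radical_iff_of_irreducible hp Nat.card_pos.ne'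
  have hs : Squarefree (UniqueFactorizationMonoid.radical (Nat.card G)) :=
    UniqueFactorizationMonoid.squarefree_radical
  generalize UniqueFactorizationMonoid.radical (Nat.card G) = m at hm hd hs
  haveI : NeZero m := ⟨hm⟩
  obtain ⟨Q, _, _, c, f, hf, hQ⟩ := exists_ct hm _ rfl hsolv fun p hp h => (hd p hp).2 h
  haveI : Finite (Ex c) := Finite.of_equiv _ (Ex.equivProd c).symm
  obtain ⟨χ, h1, h2⟩ := Ex.exists_char (c := c) hm
  let e : Ex c ⧸ center (Ex c) ≃* Q := (QuotientGroup.quotientMulEquivOfEq Ex.center_eq_ker).trans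
    (QuotientGroup.quotientKerEquivOfSurjective (Ex.pr c) fun x => ⟨⟨0, x⟩, rfl⟩)
  refine ⟨Ex c, inferInstance, inferInstance, χ, h1, h2,
    ⟨e.symm.toMonoidHom.comp f, e.symm.injective.comp hf⟩, fun p hp => ⟨?_, ?_⟩, ?_⟩
  · rw [Nat.card_congr (Ex.equivProd c), Nat.card_prod, Nat.card_zmod, hp.dvd_mul, ← hd p hp]
    exact ⟨fun h => h.elim id (hQ p hp), Or.inl⟩
  · rw [Ex.card_center, hd p hp]
  · rw [Ex.card_center]
    exact hs

end Cfsg.Agent.H3.CType
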