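import Cfsg.Agent.GO.Fg0

/-! Groups of order 64 with a self-centralizing element of order 8 conjugate to its odd powers: generators. -/

set_option autoImplicit false
set_option linter.unusedVariables false

namespace Cfsg.Agent.GO.Fg

open Subgroup

section
variable {Γ : Type*} [Group Γ] {f : Γ}

theorem fS_pw {s : Γ} {j : ℕ} (h : s * f = f ^ j * s) (n : ℕ) : s * f ^ n = f ^ (j * n) * s := by
  induction n with
  | zero => simp
  | succ n ih => rw [pow_succ, ← mul_assoc, ih, mul_assoc, h, ← mul_assoc, ← pow_add, Nat.mul_succ]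

theorem fS_E (hf : orderOf f = 8) (a b : ℕ) : f ^ a = f ^ b ↔ a % 8 = b % 8 := by
  rw [pow_eq_pow_iff_modEq, hf]; rfl

theorem fS_E1 (hf : orderOf f = 8) (a : ℕ) : f ^ a = 1 ↔ a % 8 = 0 := by
  rw [← pow_zero f, fS_E hf]

theorem fS_f (hf : orderOf f = 8) {a : ℕ} (h : a % 8 = 1) : f ^ a = f := by
  conv_rhs => rw [← pow_one f]
  rw [fS_E hf, h]

/-- the normalizer of `⟨f⟩` -/
def fS_N (hf : orderOf f = 8) : Subgroup Γ where
  carrier := {s | ∃ j : ℕ, j % 2 = 1 ∧ j < 8 ∧ s * f = f ^ j * s}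
  one_mem' := ⟨1, rfl, by norm_num, by simp⟩
  mul_mem' := by
    rintro s t ⟨i, i1, i2, es⟩ ⟨j, j1, j2, et⟩
    refine ⟨i * j % 8, ?_, Nat.mod_lt _ (by norm_num), ?_⟩
    · rw [Nat.mod_mod_of_dvd _ (by norm_num), Nat.mul_mod, i1, j1]
    · rw [mul_assoc, et, ← mul_assoc, fS_pw es, mul_assoc, (fS_E hf (i * j % 8) (i * j)).2 (Nat.mod_mod _ _)]
  inv_mem' := by
    rintro s ⟨j, j1, j2, es⟩
    refine ⟨j, j1, j2, ?_⟩
    have e := fS_pw es j
    rw [fS_f hf (a := j * j) (by interval_cases j <;> simp_all)] at e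
    calc s⁻¹ * f = s⁻¹ * (f * s) * s⁻¹ := by group
      _ = f ^ j * s⁻¹ := by rw [← e]; group

theorem fS_key (hf : orderOf f = 8) (hs : ∀ w, w * f = f * w → ∃ i < 8, w = f ^ i) {g : Γ}
    (hg : g * f * g⁻¹ ∈ fS_N hf) (ng : g ∉ fS_N hf) :
    g * f * g⁻¹ * f = f ^ 5 * (g * f * g⁻¹) ∧
      (g * f * g⁻¹ * (g * f * g⁻¹) = f ^ 2 ∨ g * f * g⁻¹ * (g * f * g⁻¹) = f ^ 6) := by
  have p : ∀ n : ℕ, (g * f * g⁻¹) ^ n = 1 ↔ n % 8 = 0 := fun n => by
    rw [conj_pow, conj_eq_one_iff, fS_E1 hf]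
  have c : g * f = g * f * g⁻¹ * g := by group
  generalize g * f * g⁻¹ = F at hg p c ⊢
  obtain ⟨j, j1, j2, e⟩ := hg
  obtain ⟨i, i8, ei⟩ := hs (F * F) (by
    rw [mul_assoc, e, ← mul_assoc, fS_pw e, fS_f hf (a := j * j) (by interval_cases j <;> simp_all), mul_assoc])
  have q : ∀ n : ℕ, (i * n) % 8 = 0 ↔ (2 * n) % 8 = 0 := fun n => by
    rw [← fS_E1 hf (i * n), ← p (2 * n), pow_mul, pow_mul, pow_two, ei]
  have q4 := (q 4).2 rfl
  have q2 : ¬ (i * 2) % 8 = 0 := fun h => by simpa using (q 2).1 h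
  have r : (j * i) % 8 = i % 8 := by
    rw [← fS_E hf]
    have := fS_pw e i
    rw [← ei, ← mul_assoc, mul_left_inj, ei] at this
    exact this.symm
  have j1' : j ≠ 1 := by
    rintro rfl
    obtain ⟨m, m8, em⟩ := hs F (by rw [e, pow_one])
    have : ¬ (m * 4) % 8 = 0 := fun h => by
      have := (p 4).1 (by rw [em, ← pow_mul, fS_E1 hf, h])
      simp at this
    exact ng ⟨m, by omega, m8, by rw [c, em]⟩
  have hi : i = 2 ∨ i = 6 := by omega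
  have hj : j = 5 := by rcases hi with rfl | rfl <;> omega
  subst hj
  exact ⟨e, by rcases hi with rfl | rfl <;> simp [ei]⟩

theorem fS_g [Finite Γ] (h64 : Nat.card Γ = 64) (hf : orderOf f = 8)
    (hs : ∀ w, w * f = f * w → ∃ i < 8, w = f ^ i) {x3 x5 x7 : Γ} (e3 : x3 * f = f ^ 3 * x3)
    (e5 : x5 * f = f ^ 5 * x5) (e7 : x7 * f = f ^ 7 * x7) :
    ∃ g F : Γ, g * f = F * g ∧ F * f = f ^ 5 * F ∧ F * F = f ^ 2 ∧ ∀ w ∈ fS_N hf, g * w * g⁻¹ ∈ fS_N hf := by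
  have : Fact (Nat.Prime 2) := ⟨Nat.prime_two⟩
  have hp : IsPGroup 2 Γ := IsPGroup.of_card (n := 6) (by rw [h64]; norm_num)
  have := hp.isNilpotent
  have hlt : fS_N hf < ⊤ := by
    rw [lt_top_iff_ne_top]
    intro ht
    have hsur : Function.Surjective fun p : Fin 4 × Fin 8 => ![1, x3, x5, x7] p.1 * f ^ p.2.val := by
      intro s
      obtain ⟨j, j1, j2, e⟩ : s ∈ fS_N hf := ht ▸ mem_top s
      have k : ∀ x : Γ, x * f = f ^ j * x → ∃ i : Fin 8, x * f ^ i.val = s := fun x ex => by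
        obtain ⟨i, i8, ei⟩ := hs (x⁻¹ * s) (by
          calc x⁻¹ * s * f = x⁻¹ * (f ^ j * x) * (x⁻¹ * s) := by rw [mul_assoc, e]; group
            _ = f * (x⁻¹ * s) := by rw [← ex]; group)
        exact ⟨⟨i, i8⟩, by rw [← ei]; group⟩
      have hj : j = 1 ∨ j = 3 ∨ j = 5 ∨ j = 7 := by omega
      rcases hj with rfl | rfl | rfl | rfl
      · obtain ⟨i, ei⟩ := k 1 (by simp); exact ⟨(0, i), ei⟩
      · obtain ⟨i, ei⟩ := k x3 e3; exact ⟨(1, i), ei⟩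
      · obtain ⟨i, ei⟩ := k x5 e5; exact ⟨(2, i), ei⟩
      · obtain ⟨i, ei⟩ := k x7 e7; exact ⟨(3, i), ei⟩
    have := Nat.card_le_card_of_surjective _ hsur
    rw [h64] at this
    simp at this
  obtain ⟨g, hg, ng⟩ := SetLike.exists_of_lt (normalizerCondition_of_isNilpotent _ hlt)
  have fN : f ∈ fS_N hf := ⟨1, rfl, by norm_num, by simp⟩
  have xN : x7 ∈ fS_N hf := ⟨7, rfl, by norm_num, e7⟩
  have n0 : ∀ w ∈ fS_N hf, g * w * g⁻¹ ∈ fS_N hf := fun w hw => (mem_normalizer_iff.1 hg w).1 hw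
  obtain ⟨a1, a2 | a2⟩ := fS_key hf hs (n0 f fN) ng
  · exact ⟨g, _, by group, a1, a2, n0⟩
  have n1 : ∀ w ∈ fS_N hf, g * x7 * w * (g * x7)⁻¹ ∈ fS_N hf := fun w hw => by
    have := n0 _ (mul_mem (mul_mem xN hw) (inv_mem xN))
    convert this using 1; group
  obtain ⟨b1, -⟩ := fS_key hf hs (n1 f fN) fun h => ng (by simpa using mul_mem h (inv_mem xN))
  refine ⟨g * x7, _, by group, b1, ?_, n1⟩
  have : g * x7 * f * (g * x7)⁻¹ = (g * f * g⁻¹) ^ 7 := by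
    rw [conj_pow, mul_assoc g x7, e7]; group
  rw [this, ← pow_two, ← pow_mul, mul_comm 7 2, pow_mul, pow_two (g * f * g⁻¹), a2, ← pow_mul, fS_E hf]

theorem fS_c (hf : orderOf f = 8) (hs : ∀ w, w * f = f * w → ∃ i < 8, w = f ^ i) {y w : Γ} (yy : y * y = 1)
    (yf : y * f = f ^ 5 * y) (wf : w * f = f ^ 5 * w) : ∃ i < 8, w = y * f ^ i := by
  obtain ⟨i, i8, e⟩ := hs (y * w) (by
    rw [mul_assoc, wf, ← mul_assoc, fS_pw yf, fS_f hf (a := 5 * 5) rfl, mul_assoc])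
  exact ⟨i, i8, by rw [← e, ← mul_assoc, yy, one_mul]⟩

theorem fS_inv (hf : orderOf f = 8) (hs : ∀ w, w * f = f * w → ∃ i < 8, w = f ^ i) {y w : Γ} (yy : y * y = 1)
    (yf : y * f = f ^ 5 * y) (wf : w * f = f ^ 5 * w) (ww : w * w = 1) : w = y ∨ w = y * f ^ 4 := by
  obtain ⟨i, i8, rfl⟩ := fS_c hf hs yy yf wf
  rw [fS_pw yf, mul_assoc, ← mul_assoc y, fS_pw yf, mul_assoc, yy, mul_one, ← pow_add, fS_E1 hf] at ww
  have : i = 0 ∨ i = 4 := by omega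
  rcases this with rfl | rfl <;> simp

theorem fS_cen (hf : orderOf f = 8) (hs : ∀ w, w * f = f * w → ∃ i < 8, w = f ^ i) {y w : Γ} (yy : y * y = 1)
    (yf : y * f = f ^ 5 * y) (wf : w * f = f ^ 5 * w) (wy : w * y = y * w) : ∃ k < 4, w = y * f ^ (2 * k) := by
  obtain ⟨i, i8, rfl⟩ := fS_c hf hs yy yf wf
  rw [mul_assoc, mul_right_inj, fS_pw yf, mul_left_inj, fS_E hf] at wy
  exact ⟨i / 2, by omega, by rw [show 2 * (i / 2) = i by omega]⟩

/-- adjusting `s` by `f` so that it fixes `y` -/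
theorem fS_adj (hf : orderOf f = 8) {y s : Γ} (yy : y * y = 1) (yf : y * f = f ^ 5 * y)
    (s4 : s * f ^ 4 = f ^ 4 * s) (h : s * y * s⁻¹ = y ∨ s * y * s⁻¹ = y * f ^ 4) :
    ∃ s' : Γ, (s' = s ∨ s' = s * f) ∧ s' * y = y * s' := by
  rcases h with h | h
  · exact ⟨s, .inl rfl, by rw [← mul_inv_eq_iff_eq_mul, h]⟩
  · refine ⟨s * f, .inr rfl, ?_⟩
    have e1 : f * y = y * f ^ 5 := by rw [fS_pw yf, fS_f hf (a := 5 * 5) rfl]
    have e2 : s * y = y * f ^ 4 * s := by rw [← h]; group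
    have e3 : f ^ 4 * f ^ 5 = f := by rw [← pow_add, fS_f hf (a := 4 + 5) rfl]
    rw [mul_assoc, e1, ← mul_assoc, e2, mul_assoc y, ← s4, mul_assoc, mul_assoc, e3]

theorem fS_core [Finite Γ] (h64 : Nat.card Γ = 64) (hf : orderOf f = 8)
    (hs : ∀ w, w * f = f * w → ∃ i < 8, w = f ^ i) {x3 x5 x7 : Γ} (e3 : x3 * f = f ^ 3 * x3)
    (e5 : x5 * f = f ^ 5 * x5) (e7 : x7 * f = f ^ 7 * x7) :
    ∃ (a k l : ℕ) (y g x : Γ), a < 2 ∧ k < 4 ∧ l < 4 ∧ FR a k l f y g x := by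
  obtain ⟨g0, F, g1, F1, F2, gN⟩ := fS_g h64 hf hs e3 e5 e7
  have f8 : f ^ 8 = 1 := (fS_E1 hf 8).2 rfl
  have z1 : f ^ 4 ≠ 1 := fun e => by simpa using (fS_E1 hf 4).1 e
  obtain ⟨y, rfl⟩ : ∃ y, F = f ^ 3 * y := ⟨(f ^ 3)⁻¹ * F, by group⟩
  have yf : y * f = f ^ 5 * y := by
    rw [mul_assoc, ← mul_assoc (f ^ 5), ← pow_add, add_comm 5 3, pow_add, mul_assoc, mul_right_inj] at F1
    exact F1
  have yy : y * y = 1 := by
    have e := F2
    rw [mul_assoc, ← mul_assoc y, fS_pw yf, mul_assoc, ← mul_assoc, ← pow_add,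
      (fS_E hf (3 + 5 * 3) 2).2 rfl, mul_eq_left] at e
    exact e
  have gp : ∀ (g : Γ), g * f = f ^ 3 * y * g → ∀ n : ℕ, g * f ^ n = (f ^ 3 * y) ^ n * g := fun g e n => by
    have : f ^ 3 * y = g * f * g⁻¹ := by rw [e]; group
    rw [this, conj_pow]; group
  have g2 : g0 * f ^ 2 = f ^ 2 * g0 := by rw [gp g0 g1, pow_two (f ^ 3 * y), F2]
  have g4 : g0 * f ^ 4 = f ^ 4 * g0 := by
    rw [show f ^ 4 = f ^ 2 * f ^ 2 by rw [← pow_add], ← mul_assoc, g2, mul_assoc, g2, mul_assoc]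
  have cc : ∀ s : Γ, s * y * s⁻¹ * (s * y * s⁻¹) = 1 := fun s => by
    calc s * y * s⁻¹ * (s * y * s⁻¹) = s * (y * y) * s⁻¹ := by group
      _ = 1 := by rw [yy]; group
  have gw : g0 * y * g0⁻¹ * f = f ^ 5 * (g0 * y * g0⁻¹) := by
    obtain ⟨j, j1, j2, e⟩ := gN y ⟨5, rfl, by norm_num, yf⟩
    have c2 : g0 * y * g0⁻¹ * f ^ 2 = f ^ 2 * (g0 * y * g0⁻¹) := by
      have y2 : y * f ^ 2 = f ^ 2 * y := by rw [fS_pw yf, (fS_E hf (5 * 2) 2).2 rfl]
      calc g0 * y * g0⁻¹ * f ^ 2 = g0 * y * g0⁻¹ * (f ^ 2 * g0) * g0⁻¹ := by group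
        _ = g0 * (y * f ^ 2) * g0⁻¹ := by rw [← g2]; group
        _ = g0 * f ^ 2 * (y * g0⁻¹) := by rw [y2]; group
        _ = _ := by rw [g2]; group
    rw [fS_pw e, mul_left_inj, fS_E hf] at c2
    have hj : j = 1 ∨ j = 5 := by omega
    rcases hj with rfl | rfl
    swap
    · exact e
    exfalso
    obtain ⟨m, m8, em⟩ := hs _ (by rw [e, pow_one])
    have := cc g0
    rw [em, ← pow_add, fS_E1 hf] at this
    have ey : y = f ^ m := by
      have hm : m = 0 ∨ m = 4 := by omega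
      have : g0 * f ^ m = f ^ m * g0 := by
        rcases hm with rfl | rfl
        · simp
        · exact g4
      calc y = g0⁻¹ * (g0 * y * g0⁻¹ * g0) := by group
        _ = f ^ m := by rw [em, ← this]; group
    rw [ey, ← pow_succ, ← pow_add, fS_E hf] at yf
    omega
  obtain ⟨g, hg, gy⟩ := fS_adj hf yy yf g4 (fS_inv hf hs yy yf gw (cc g0))
  have gf : g * f = f ^ 3 * y * g := by
    rcases hg with rfl | rfl
    · exact g1
    · rw [← mul_assoc, ← g1]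
  have xw : x7 * y * x7⁻¹ * f = f ^ 5 * (x7 * y * x7⁻¹) := by
    have a7 : f * x7 = x7 * f ^ 7 := by rw [fS_pw e7, fS_f hf (a := 7 * 7) rfl]
    calc x7 * y * x7⁻¹ * f = x7 * y * x7⁻¹ * (f * x7) * x7⁻¹ := by group
      _ = x7 * (y * f ^ 7) * x7⁻¹ := by rw [a7]; group
      _ = x7 * f ^ (5 * 7) * (y * x7⁻¹) := by rw [fS_pw yf]; group
      _ = _ := by rw [fS_pw e7, (fS_E hf (7 * (5 * 7)) 5).2 rfl]; group
  obtain ⟨x, hx, xy⟩ := fS_adj hf yy yf (s := x7) (by rw [fS_pw e7, (fS_E hf (7 * 4) 4).2 rfl])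
    (fS_inv hf hs yy yf xw (cc x7))
  have xf : x * f = f ^ 7 * x := by
    rcases hx with rfl | rfl
    · exact e7
    · rw [← mul_assoc, ← e7]
  have F3 : (f ^ 3 * y) ^ 3 * y = f ^ 5 := by
    rw [pow_succ, pow_two (f ^ 3 * y), F2, mul_assoc, mul_assoc, yy, mul_one, ← pow_add]
  obtain ⟨k, k4, gg⟩ := fS_cen hf hs yy yf (w := g * g) (by
    rw [mul_assoc, gf, ← mul_assoc, ← mul_assoc, gp g gf, mul_assoc _ g y, gy, ← mul_assoc, F3, mul_assoc])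
    (by rw [mul_assoc, gy, ← mul_assoc, gy, mul_assoc])
  obtain ⟨i, i8, xx⟩ := hs (x * x) (by
    rw [mul_assoc, xf, ← mul_assoc, fS_pw xf, fS_f hf (a := 7 * 7) rfl, mul_assoc])
  have hi : (7 * i) % 8 = i % 8 := by
    have := fS_pw xf i
    rw [← xx, ← mul_assoc, mul_left_inj, xx] at this
    rw [← fS_E hf]; exact this.symm
  have A1 : x * g * (f * y) = f ^ 5 * (x * g) := by
    calc x * g * (f * y) = x * (g * f) * y := by group
      _ = x * f ^ 3 * y * (g * y) := by rw [gf]; group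
      _ = x * f ^ 3 * (y * y) * g := by rw [gy]; group
      _ = _ := by rw [yy, mul_one, fS_pw xf, (fS_E hf (7 * 3) 5).2 rfl, mul_assoc]
  have F7 : (f ^ 3 * y) ^ 7 = f * y := by
    rw [show (f ^ 3 * y) ^ 7 = (f ^ 3 * y * (f ^ 3 * y)) ^ 3 * (f ^ 3 * y) by
      rw [← pow_two, ← pow_mul, ← pow_succ], F2, ← pow_mul, ← mul_assoc, ← pow_add,
      fS_f hf (a := 2 * 3 + 3) rfl]
  have By : g * x * y = y * (g * x) := by rw [mul_assoc, xy, ← mul_assoc, gy, mul_assoc]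
  have B1 : g * x * (f * y) = f * (g * x) := by
    calc g * x * (f * y) = g * (x * f) * y := by group
      _ = g * f ^ 7 * x * y := by rw [xf]; group
      _ = f * y * (g * x * y) := by rw [gp g gf, F7]; group
      _ = f * (y * y) * (g * x) := by rw [By]; group
      _ = _ := by rw [yy, mul_one]
  have Ay : x * g * y = y * (x * g) := by rw [mul_assoc, gy, ← mul_assoc, xy, mul_assoc]
  obtain ⟨l, l4, xg⟩ := fS_cen hf hs yy yf (w := x * g * (g * x)⁻¹) (by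
    calc x * g * (g * x)⁻¹ * f = x * g * (g * x)⁻¹ * (f * (g * x)) * (g * x)⁻¹ := by group
      _ = x * g * (f * y) * (g * x)⁻¹ := by rw [← B1]; group
      _ = _ := by rw [A1]; group) (by
    calc x * g * (g * x)⁻¹ * y = x * g * (g * x)⁻¹ * (y * (g * x)) * (g * x)⁻¹ := by group
      _ = x * g * y * (g * x)⁻¹ := by rw [← By]; group
      _ = _ := by rw [Ay]; group)
  refine ⟨i / 4, k, l, y, g, x, by omega, k4, l4, f8, z1, yy, yf, gf, gy, xf, xy, gg, ?_, ?_⟩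
  · rw [xx, show 4 * (i / 4) = i by omega]
  · rw [← xg]; group

end

theorem fS {G : Type*} [Group G] [Finite G] (P : Subgroup G) (hP : Nat.card P = 64) (f : G) (hfP : f ∈ P)
    (hf : orderOf f = 8) (hself : ∀ x ∈ P, x * f = f * x → x ∈ Subgroup.zpowers f)
    (hodd : ∀ k ∈ ({3, 5, 7} : Set ℕ), ∃ x ∈ P, x * f * x⁻¹ = f ^ k) :
    ∃ (a k l : ℕ) (y g x : G), a < 2 ∧ k < 4 ∧ l < 4 ∧ y ∈ P ∧ g ∈ P ∧ x ∈ P ∧ FR a k l f y g x := by
  obtain ⟨x3, p3, e3⟩ := hodd 3 (by simp)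
  obtain ⟨x5, p5, e5⟩ := hodd 5 (by simp)
  obtain ⟨x7, p7, e7⟩ := hodd 7 (by simp)
  rw [mul_inv_eq_iff_eq_mul] at e3 e5 e7
  obtain ⟨a, k, l, y, g, x, h1, h2, h3, h⟩ := fS_core (f := (⟨f, hfP⟩ : P)) hP
    (by rw [← Subgroup.orderOf_coe]; exact hf) (fun w hw => by
      obtain ⟨n, hn⟩ := mem_powers_iff_mem_zpowers.2 (hself w w.2 (congrArg Subtype.val hw))
      refine ⟨n % 8, Nat.mod_lt _ (by norm_num), Subtype.ext ?_⟩
      show w.1 = f ^ (n % 8)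
      rw [← hf, pow_mod_orderOf]; exact hn.symm)
    (x3 := ⟨x3, p3⟩) (x5 := ⟨x5, p5⟩) (x7 := ⟨x7, p7⟩) (Subtype.ext e3) (Subtype.ext e5) (Subtype.ext e7)
  exact ⟨a, k, l, y, g, x, h1, h2, h3, y.2, g.2, x.2, congrArg Subtype.val h.f8,
    fun e => h.z1 (Subtype.ext e), congrArg Subtype.val h.yy, congrArg Subtype.val h.yf,
    congrArg Subtype.val h.gf, congrArg Subtype.val h.gy, congrArg Subtype.val h.xf,
    congrArg Subtype.val h.xy, congrArg Subtype.val h.gg, congrArg Subtype.val h.xx,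
    congrArg Subtype.val h.xg⟩

end Cfsg.Agent.GO.Fg
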