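import Mathlib
import Cfsg.Agent.H21.SecTr
import Cfsg.Agent.H5.ZJ
import Cfsg.Agent.H3.HallPetrescu

/-! Thompson's replacement lemma and elementwise iterated commutators. -/

set_option autoImplicit false

namespace Cfsg.Agent.H3.JT

open Subgroup Cfsg.Agent.H22 Cfsg.Agent.H18 Cfsg.Agent.H21 Cfsg.Agent.H5b
open scoped commutatorElement

universe u

variable {G : Type u} [Group G]

theorem dd_comm {a b x : G} (hab : a * b = b * a) (h : ⁅a, x⁆ * ⁅b, x⁆ = ⁅b, x⁆ * ⁅a, x⁆) :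
    ⁅a, ⁅b, x⁆⁆ = ⁅b, ⁅a, x⁆⁆ := by
  have e1 : ⁅a * b, x⁆ = ⁅a, ⁅b, x⁆⁆ * (⁅b, x⁆ * ⁅a, x⁆) := by
    simp only [commutatorElement_def]; group
  have e2 : ⁅b * a, x⁆ = ⁅b, ⁅a, x⁆⁆ * (⁅a, x⁆ * ⁅b, x⁆) := by
    simp only [commutatorElement_def]; group
  rw [hab, e2, h] at e1
  exact (mul_right_cancel e1).symm

theorem comm_mem_N {H : Subgroup G} {a x : G} (ha : a ∈ N[H]) (hx : x ∈ H) : ⁅a, x⁆ ∈ H := by
  rw [commutatorElement_def]
  exact mul_mem (conj_mem_of_N ha hx) (inv_mem hx)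

theorem comm_mem_nrm {H : Subgroup G} [H.Normal] (a : G) {x : G} (hx : x ∈ H) : ⁅a, x⁆ ∈ H :=
  comm_mem_N (mem_N_of_normal a H) hx

theorem comm_mem_comm' {H K : Subgroup G} {a x : G} (ha : a ∈ K) (hx : x ∈ H) : ⁅a, x⁆ ∈ ⁅H, K⁆ := by
  rw [Subgroup.commutator_comm]; exact commutator_mem_commutator ha hx

theorem comm_eq_one_of_C {H : Subgroup G} {a x : G} (ha : a ∈ H) (hx : x ∈ C[H]) : ⁅a, x⁆ = 1 :=
  commutatorElement_eq_one_iff_mul_comm.2 (mem_C.1 hx a ha)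

theorem comm_mul_of_one {a m b : G} (h : ⁅a, b⁆ = 1) : ⁅a, m * b⁆ = ⁅a, m⁆ := by
  rw [H3.comm_mul_right, h]; group

/-- `Kn A V n x`: all `n`-fold commutators of `x` with elements of `A` lie in `V`. -/
def Kn (A V : Subgroup G) : ℕ → G → Prop
  | 0, x => x ∈ V
  | n + 1, x => ∀ a ∈ A, Kn A V n ⁅a, x⁆

theorem Kn_of_mem {A V : Subgroup G} [V.Normal] : ∀ (n : ℕ) {x : G}, x ∈ V → Kn A V n x
  | 0, _, h => h
  | n + 1, _, h => fun a _ => Kn_of_mem n (comm_mem_nrm a h)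

theorem Kn_mul {A V H : Subgroup G} [V.Normal] [H.Normal] (hH : ⁅H, H⁆ ≤ V) :
    ∀ (n : ℕ) {x y : G}, x ∈ H → y ∈ H → Kn A V n x → Kn A V n y → Kn A V n (x * y)
  | 0, _, _, _, _, h1, h2 => mul_mem h1 h2
  | n + 1, x, y, hx, hy, h1, h2 => fun a ha => by
    have e : ⁅a, x * y⁆ = ⁅a, x⁆ * (⁅x, ⁅a, y⁆⁆ * ⁅a, y⁆) := by
      simp only [commutatorElement_def]; group
    have h3 := comm_mem_nrm a hy
    have h4 := comm_mem_nrm x h3
    rw [e]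
    exact Kn_mul hH n (comm_mem_nrm a hx) (mul_mem h4 h3) (h1 a ha)
      (Kn_mul hH n h4 h3 (Kn_of_mem n (hH (commutator_mem_commutator hx h3))) (h2 a ha))

theorem Kn_inv {A V H : Subgroup G} [V.Normal] [H.Normal] (hH : ⁅H, H⁆ ≤ V) :
    ∀ (n : ℕ) {x : G}, x ∈ H → Kn A V n x → Kn A V n x⁻¹
  | 0, _, _, h1 => inv_mem h1
  | n + 1, x, hx, h1 => fun a ha => by
    have e : ⁅a, x⁻¹⁆ = ⁅x⁻¹, ⁅a, x⁆⁻¹⁆ * ⁅a, x⁆⁻¹ := by
      simp only [commutatorElement_def]; group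
    have h3 := inv_mem (comm_mem_nrm a hx)
    rw [e]
    exact Kn_mul hH n (comm_mem_nrm _ h3) h3
      (Kn_of_mem n (hH (commutator_mem_commutator (inv_mem hx) h3)))
      (Kn_inv hH n (comm_mem_nrm a hx) (h1 a ha))

/-- The elements of `H` satisfying `Kn A V n`. -/
def Ks (A V H : Subgroup G) [V.Normal] [H.Normal] (hH : ⁅H, H⁆ ≤ V) (n : ℕ) : Subgroup G where
  carrier := {x | x ∈ H ∧ Kn A V n x}
  one_mem' := ⟨one_mem _, Kn_of_mem n (one_mem _)⟩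
  mul_mem' := fun h1 h2 => ⟨mul_mem h1.1 h2.1, Kn_mul hH n h1.1 h2.1 h1.2 h2.2⟩
  inv_mem' := fun h1 => ⟨inv_mem h1.1, Kn_inv hH n h1.1 h1.2⟩

theorem mem_Ks {A V H : Subgroup G} [V.Normal] [H.Normal] {hH : ⁅H, H⁆ ≤ V} {n : ℕ} {x : G} :
    x ∈ Ks A V H hH n ↔ x ∈ H ∧ Kn A V n x := Iff.rfl

theorem comm_Ks_le {A V H : Subgroup G} [V.Normal] [H.Normal] (hH : ⁅H, H⁆ ≤ V) (n : ℕ) :
    ⁅A, Ks A V H hH (n + 1)⁆ ≤ Ks A V H hH n :=
  commutator_le.2 fun a ha _ hx => ⟨comm_mem_nrm a hx.1, hx.2 a ha⟩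

theorem ic_iff {A V H U : Subgroup G} [V.Normal] [H.Normal] (hH : ⁅H, H⁆ ≤ V) (hU : U ≤ H) (n : ℕ) :
    ∀ k, (∀ x ∈ iterCommutator U A k, Kn A V n x) ↔ iterCommutator U A (k + n) ≤ V := by
  induction n with
  | zero => exact fun k => Iff.rfl
  | succ n ih =>
    intro k
    rw [← add_assoc, add_right_comm, ← ih (k + 1)]
    have hk : iterCommutator U A k ≤ H := (ic_mono hU le_rfl k).trans (ic_le (le_N_of_normal _ _) k)
    refine ⟨fun h x hx => ?_, fun h x hx a ha => h _ (comm_mem_comm' ha hx)⟩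
    have : iterCommutator U A (k + 1) ≤ Ks A V H hH n := by
      rw [ic_succ, Subgroup.commutator_comm]
      refine le_trans (commutator_mono le_rfl ?_) (comm_Ks_le hH n)
      exact fun y hy => mem_Ks.2 ⟨hk hy, h y hy⟩
    exact (this hx).2

theorem ic_le_of_Kn {A V H U : Subgroup G} [V.Normal] [H.Normal] (hH : ⁅H, H⁆ ≤ V) (hU : U ≤ H)
    {n : ℕ} (h : ∀ x ∈ U, Kn A V n x) : iterCommutator U A n ≤ V := by
  have := (ic_iff (A := A) hH hU n 0).1 h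
  rwa [zero_add] at this

theorem ic_induction {H A : Subgroup G} (hA : A ≤ N[H]) {n : ℕ} (hn : iterCommutator H A n = ⊥)
    {Q : G → Prop} (h1 : Q 1) (h : ∀ x ∈ H, (∀ d ∈ A, Q ⁅d, x⁆) → Q x) : ∀ x ∈ H, Q x := by
  have key : ∀ m, ∀ x ∈ iterCommutator H A (n - m), Q x := by
    intro m
    induction m with
    | zero =>
      intro x hx
      rw [Nat.sub_zero, hn, mem_bot] at hx
      exact hx ▸ h1
    | succ m ih =>
      intro x hx
      refine h x (ic_le hA _ hx) fun d hd => ih _ ?_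
      exact ic_anti hA (show n - m ≤ n - (m + 1) + 1 by omega) (comm_mem_comm' hd hx)
  have := key n
  rwa [Nat.sub_self] at this

theorem exists_ic_eq_bot [Finite G] {p : ℕ} [Fact p.Prime] {S H A : Subgroup G} (hS : IsPGroup p S)
    (hH : H ≤ S) (hA : A ≤ S) : ∃ n, iterCommutator H A n = ⊥ := by
  obtain ⟨n, hn⟩ := (isNilpotent_iff_lowerCentralSeries S).1 hS.isNilpotent
  refine ⟨n, le_bot_iff.1 (hn ▸ ?_)⟩
  clear hn
  induction n with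
  | zero => exact hH
  | succ n ih => exact commutator_mono ih hA

/-- `[A, x]`. -/
def cx (A : Subgroup G) (x : G) : Subgroup G := closure {g | ∃ a ∈ A, ⁅a, x⁆ = g}

theorem mem_cx {A : Subgroup G} {a : G} (x : G) (ha : a ∈ A) : ⁅a, x⁆ ∈ cx A x :=
  subset_closure ⟨a, ha, rfl⟩

theorem cx_le {A K : Subgroup G} {x : G} : cx A x ≤ K ↔ ∀ a ∈ A, ⁅a, x⁆ ∈ K := by
  rw [cx, closure_le]
  exact ⟨fun h a ha => h ⟨a, ha, rfl⟩, by rintro h _ ⟨a, ha, rfl⟩; exact h a ha⟩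

theorem mem_cx2 {A : Subgroup G} {a b : G} (x : G) (ha : a ∈ A) (hb : b ∈ A) :
    ⁅a, ⁅b, x⁆⁆ ∈ cx A x := by
  have e : ⁅a, ⁅b, x⁆⁆ = ⁅a * b, x⁆ * ⁅a, x⁆⁻¹ * ⁅b, x⁆⁻¹ := by
    simp only [commutatorElement_def]; group
  rw [e]
  exact mul_mem (mul_mem (mem_cx x (mul_mem ha hb)) (inv_mem (mem_cx x ha))) (inv_mem (mem_cx x hb))

theorem mem_C_cx {A : Subgroup G} {x e : G} (h : ∀ a ∈ A, ⁅e, ⁅a, x⁆⁆ = 1) : e ∈ C[cx A x] := by
  have : cx A x ≤ C[zpowers e] := cx_le.2 fun a ha => by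
    rw [C_zpowers, mem_centralizer_singleton_iff]
    exact (commutatorElement_eq_one_iff_mul_comm.1 (h a ha)).symm
  exact le_centralizer_iff.1 this (mem_zpowers e)

theorem mem_C_cx_of_mem {A : Subgroup G} (hA : A ≤ C[A]) {x e : G} (hM : cx A x ≤ C[cx A x])
    (he : e ∈ A) (h : ⁅e, x⁆ ∈ A) : e ∈ C[cx A x] :=
  mem_C_cx fun a ha => by
    rw [dd_comm (mem_C.1 (hA ha) e he) (mem_C.1 (hM (mem_cx x ha)) _ (mem_cx x he))]
    exact comm_eq_one_of_C ha (hA h)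

variable [Finite G]

theorem _root_.Cfsg.Agent.H5b.MaxAb.mem0 {S A : Subgroup G} (h : MaxAb 0 S A) {x : G} (hx : x ∈ S)
    (hc : ∀ a ∈ A, ⁅a, x⁆ = 1) : x ∈ A :=
  h.mem_of_C hx (pow_zero x) (mem_C.2 fun a ha => commutatorElement_eq_one_iff_mul_comm.1 (hc a ha))

omit [Finite G] in
theorem card_repl {A M : Subgroup G} (hM : M ≤ C[M]) :
    Nat.card ↥(M ⊔ (A ⊓ C[M])) * Nat.card ↥(A ⊓ M) = Nat.card M * Nat.card ↥(A ⊓ C[M]) := by
  have e : M ⊓ (A ⊓ C[M]) = A ⊓ M :=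
    le_antisymm (le_inf (inf_le_right.trans inf_le_left) inf_le_left)
      (le_inf inf_le_right (inf_le_inf_left _ hM))
  rw [← e]
  exact card_sup_mul_of_le_N' (inf_le_right.trans (C_le_N _))

omit [Finite G] in
theorem ab_repl {A M : Subgroup G} (hA : A ≤ C[A]) (hM : M ≤ C[M]) :
    IsElementaryAbelian 0 (M ⊔ (A ⊓ C[M])) :=
  H22.elemAb_sup (elemAb_iff.2 ⟨hM, fun a _ => pow_zero a⟩)
    (elemAb_iff.2 ⟨(inf_le_left.trans hA).trans (C_anti inf_le_left), fun a _ => pow_zero a⟩)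
    (le_centralizer_iff.1 inf_le_right)

omit [Finite G] in
theorem card_repl_le {S A M : Subgroup G} (hA : MaxAb 0 S A) (hMS : M ≤ S) (hM : M ≤ C[M]) :
    Nat.card M * Nat.card ↥(A ⊓ C[M]) ≤ Nat.card A * Nat.card ↥(A ⊓ M) := by
  rw [← card_repl hM]
  exact Nat.mul_le_mul_right _ (hA.max _ (sup_le hMS (inf_le_left.trans hA.le)) (ab_repl hA.le_C hM))

theorem maxAb_repl {S A M : Subgroup G} (hA : MaxAb 0 S A) (hMS : M ≤ S) (hM : M ≤ C[M])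
    (h : Nat.card A * Nat.card ↥(A ⊓ M) ≤ Nat.card M * Nat.card ↥(A ⊓ C[M])) :
    MaxAb 0 S (M ⊔ (A ⊓ C[M])) := by
  refine hA.of_card_le (sup_le hMS (inf_le_left.trans hA.le)) (ab_repl hA.le_C hM) ?_
  rw [← card_repl hM] at h
  exact Nat.le_of_mul_le_mul_right h (card_pos' _)

/-- Thompson's replacement lemma. -/
theorem thompson {S A : Subgroup G} (hA : MaxAb 0 S A) {x : G} (hx : x ∈ S)
    (hM : cx A x ≤ C[cx A x]) :
    Nat.card A * Nat.card ↥(A ⊓ cx A x) ≤ Nat.card (cx A x) * Nat.card ↥(A ⊓ C[cx A x]) ∧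
      ∀ m ∈ cx A x, ∃ a ∈ A, ⁅a, x⁆⁻¹ * m ∈ A := by
  have hMS : cx A x ≤ S := cx_le.2 fun a ha => comm_mem_N (le_normalizer (hA.le ha)) hx
  let φ : A ⧸ (C[cx A x]).subgroupOf A → cx A x ⧸ A.subgroupOf (cx A x) := fun q =>
    QuotientGroup.mk ⟨⁅(q.out : G), x⁆, mem_cx x q.out.2⟩
  have hφ : Function.Injective φ := by
    intro q q' h
    have h1 : ⁅(q.out : G), x⁆⁻¹ * ⁅(q'.out : G), x⁆ ∈ A :=
      (QuotientGroup.eq (s := A.subgroupOf (cx A x))).1 h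
    rw [← q.out_eq', ← q'.out_eq', QuotientGroup.eq]
    generalize q.out = a at h1 ⊢
    generalize q'.out = b at h1 ⊢
    change ((a : G)⁻¹ * b) ∈ C[cx A x]
    refine mem_C_cx_of_mem hA.le_C hM (mul_mem (inv_mem a.2) b.2) ?_
    rw [mem_C.1 (hM (mem_cx x b.2)) _ (inv_mem (mem_cx x a.2))] at h1
    have e : ⁅(a : G)⁻¹ * b, x⁆ = (a : G)⁻¹ * (⁅(b : G), x⁆ * ⁅(a : G), x⁆⁻¹) * a := by
      simp only [commutatorElement_def]; group
    rw [e]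
    exact mul_mem (mul_mem (inv_mem a.2) h1) a.2
  have h1 : (C[cx A x]).relIndex A ≤ A.relIndex (cx A x) := Nat.card_le_card_of_injective φ hφ
  have e1 := card_inf_mul_relIndex C[cx A x] A
  have e2 := card_inf_mul_relIndex A (cx A x)
  rw [inf_comm] at e1
  have h2 := card_repl_le hA hMS hM
  refine ⟨?_, fun m hm => ?_⟩
  · rw [← e1, ← e2]
    have := Nat.mul_le_mul_left (Nat.card ↥(A ⊓ C[cx A x]) * Nat.card ↥(A ⊓ cx A x)) h1
    nlinarith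
  · have h3 : A.relIndex (cx A x) ≤ (C[cx A x]).relIndex A := by
      rw [← e1, ← e2] at h2
      refine Nat.le_of_mul_le_mul_left (c := Nat.card ↥(A ⊓ C[cx A x]) * Nat.card ↥(A ⊓ cx A x)) ?_
        (Nat.mul_pos (card_pos' _) (card_pos' _))
      nlinarith
    obtain ⟨q, hq⟩ := (hφ.bijective_of_nat_card_le h3).2 (QuotientGroup.mk ⟨m, hm⟩)
    exact ⟨q.out, q.out.2, (QuotientGroup.eq (s := A.subgroupOf (cx A x))).1 hq⟩

end Cfsg.Agent.H3.JT
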