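import Mathlib
import Cfsg.Agent.H3.JT1
import Cfsg.Agent.H4.Control

/-! The Thompson subgroup controls transfer for primes at least seven. -/

set_option autoImplicit false

namespace Cfsg.Agent.H3.JT

open Subgroup Cfsg.Agent.H22 Cfsg.Agent.H18 Cfsg.Agent.H21 Cfsg.Agent.H5b
open scoped commutatorElement

universe u

variable {G : Type u} [Group G]

/-- An optimal abelian subgroup of maximal order outside `P`. -/
structure St (S P C Z A : Subgroup G) : Prop where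
  PS : P ≤ S
  CP : C ≤ P
  ZC : Z ≤ C
  ZCC : Z ≤ C[C]
  comm : ⁅P, C⁆ ≤ Z
  max : MaxAb 0 S A
  nle : ¬ A ≤ P
  m1 : ∀ B, MaxAb 0 S B → ¬ B ≤ P → Nat.card ↥(B ⊓ P) ≤ Nat.card ↥(A ⊓ P)
  m2 : ∀ B, MaxAb 0 S B → ¬ B ≤ P → Nat.card ↥(A ⊓ P) ≤ Nat.card ↥(B ⊓ P) →
    Nat.card ↥(B ⊓ Z) ≤ Nat.card ↥(A ⊓ Z)
  nil : ∃ n, iterCommutator C A n = ⊥

variable [Finite G] {S P C Z A : Subgroup G} [P.Normal] [C.Normal] [Z.Normal]

namespace St

omit [Finite G] [P.Normal] [C.Normal] [Z.Normal]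

theorem ZS (h : St S P C Z A) : Z ≤ S := h.ZC.trans (h.CP.trans h.PS)
theorem CS (h : St S P C Z A) : C ≤ S := h.CP.trans h.PS
theorem ZP (h : St S P C Z A) : Z ≤ P := h.ZC.trans h.CP
theorem ZZ (h : St S P C Z A) : Z ≤ C[Z] := h.ZCC.trans (C_anti h.ZC)
theorem CC (h : St S P C Z A) : ⁅C, C⁆ ≤ Z := (commutator_mono h.CP le_rfl).trans h.comm
theorem AA (h : St S P C Z A) {a b : G} (ha : a ∈ A) (hb : b ∈ A) : a * b = b * a :=
  mem_C.1 (h.max.le_C hb) a ha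
theorem cA (h : St S P C Z A) {a b : G} (ha : a ∈ A) (hb : b ∈ A) : ⁅a, b⁆ = 1 :=
  comm_eq_one_of_C ha (h.max.le_C hb)
theorem zc (h : St S P C Z A) {z c : G} (hz : z ∈ Z) (hc : c ∈ C) : z * c = c * z :=
  (mem_C.1 (h.ZCC hz) c hc).symm
theorem ab_of_le (h : St S P C Z A) {M : Subgroup G} (hM : M ≤ Z) : M ≤ C[M] :=
  (hM.trans h.ZZ).trans (C_anti hM)

end St

omit [C.Normal] [Z.Normal] in
theorem St.card_inf_le (h : St S P C Z A) {M : Subgroup G} (hMP : M ≤ P)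
    (hB : MaxAb 0 S (M ⊔ (A ⊓ C[M]))) :
    Nat.card ↥(A ⊓ P) ≤ Nat.card ↥((M ⊔ (A ⊓ C[M])) ⊓ P) := by
  set B := M ⊔ (A ⊓ C[M]) with hBd
  have e1 := card_sup_mul_of_le_N (le_N_of_normal A P)
  have e2 := card_sup_mul_of_le_N (le_N_of_normal B P)
  have e3 : Nat.card A ≤ Nat.card B := hB.max A h.max.le h.max.ab
  have e4 : Nat.card ↥(B ⊔ P) ≤ Nat.card ↥(A ⊔ P) :=
    card_le_of_le (sup_le (sup_le (hMP.trans le_sup_right) (inf_le_left.trans le_sup_left))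
      le_sup_right)
  refine Nat.le_of_mul_le_mul_left (c := Nat.card ↥(A ⊔ P)) ?_ (card_pos' _)
  calc _ = Nat.card A * Nat.card P := e1
    _ ≤ Nat.card B * Nat.card P := Nat.mul_le_mul_right _ e3
    _ = _ := e2.symm
    _ ≤ _ := Nat.mul_le_mul_right _ e4

omit [C.Normal] [Z.Normal] in
theorem St.le_of_Z (h : St S P C Z A) {M : Subgroup G} (hM : M ≤ Z)
    (hB : MaxAb 0 S (M ⊔ (A ⊓ C[M]))) (hn : ¬ A ⊓ C[M] ≤ P) : M ≤ A := by
  have h1 := h.m2 _ hB (fun e => hn (le_sup_right.trans e)) (h.card_inf_le (hM.trans h.ZP) hB)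
  have h2 : A ⊓ Z ≤ (M ⊔ (A ⊓ C[M])) ⊓ Z :=
    le_inf (le_sup_of_le_right (inf_le_inf_left _ (h.ZZ.trans (C_anti hM)))) inf_le_right
  have := eq_of_le_of_card_ge h2 h1
  exact ((le_inf le_sup_left hM).trans this.ge).trans inf_le_left

omit [P.Normal] [C.Normal] [Z.Normal] in
theorem St.le_of_P (h : St S P C Z A) {M : Subgroup G} (hM : M ≤ P) (hc : A ⊓ P ≤ C[M])
    (hB : MaxAb 0 S (M ⊔ (A ⊓ C[M]))) (hn : ¬ A ⊓ C[M] ≤ P) : M ≤ A := by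
  have h1 := h.m1 _ hB (fun e => hn (le_sup_right.trans e))
  have h2 : A ⊓ P ≤ (M ⊔ (A ⊓ C[M])) ⊓ P :=
    le_inf (le_sup_of_le_right (le_inf inf_le_left hc)) inf_le_right
  have := eq_of_le_of_card_ge h2 h1
  exact ((le_inf le_sup_left hM).trans this.ge).trans inf_le_left

omit [Finite G] [P.Normal] [C.Normal] in
theorem St.cx_le_Z (_ : St S P C Z A) {x : G} (hx : x ∈ Z) : cx A x ≤ Z :=
  cx_le.2 fun a _ => comm_mem_nrm a hx

omit [C.Normal] in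
theorem St.f0 (h : St S P C Z A) {x d e : G} (hx : x ∈ Z) (hd : d ∈ A) (he : e ∈ A)
    (hne : ⁅d, ⁅e, x⁆⁆ ≠ 1) : A ⊓ C[cx A x] ≤ P := by
  by_contra hn
  have hM := h.ab_of_le (h.cx_le_Z hx)
  have := h.le_of_Z (h.cx_le_Z hx)
    (maxAb_repl h.max ((h.cx_le_Z hx).trans h.ZS) hM (thompson h.max (h.ZS hx) hM).1) hn
  exact hne (h.cA hd (this (mem_cx x he)))

omit [Finite G] [P.Normal] in
/-- commutation of the operators when one of the commutators is central in `C`. -/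
theorem St.dd (h : St S P C Z A) {a b x : G} (ha : a ∈ A) (hb : b ∈ A) (hx : x ∈ C)
    (hz : ⁅a, x⁆ ∈ Z) : ⁅a, ⁅b, x⁆⁆ = ⁅b, ⁅a, x⁆⁆ :=
  dd_comm (h.AA ha hb) (h.zc hz (comm_mem_nrm b hx))

omit [Finite G] [P.Normal] in
theorem St.ddZ (h : St S P C Z A) {a b x : G} (ha : a ∈ A) (hb : b ∈ A) (hx : x ∈ Z) :
    ⁅a, ⁅b, x⁆⁆ = ⁅b, ⁅a, x⁆⁆ := h.dd ha hb (h.ZC hx) (comm_mem_nrm a hx)

omit [Finite G] [P.Normal] [C.Normal] in
theorem St.d_div (h : St S P C Z A) (d : G) {x y : G} (hx : x ∈ Z) (hy : y ∈ Z) :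
    ⁅d, x⁻¹ * y⁆ = ⁅d, x⁆⁻¹ * ⁅d, y⁆ := by
  have h1 : ⁅d, x⁻¹ * y⁆ = x⁻¹ * (⁅d, x⁆⁻¹ * ⁅d, y⁆) * x := by
    simp only [commutatorElement_def]; group
  have h2 := h.zc (mul_mem (inv_mem (comm_mem_nrm d hx)) (comm_mem_nrm d hy)) (h.ZC hx)
  rw [h1, mul_assoc, h2]; group

theorem St.f1' (h : St S P C Z A) : ∀ x ∈ Z, ∀ a ∈ A, ∀ b ∈ A, ∀ c ∈ A,
    ⁅c, x⁆⁻¹ * ⁅a, ⁅b, x⁆⁆ ∈ A → (∃ d ∈ A, ∃ e ∈ A, ⁅d, ⁅e, x⁆⁆ ≠ 1) → c ∈ P := by
  obtain ⟨n, hn⟩ := h.nil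
  refine ic_induction (le_N_of_normal A Z) (n := n)
    (le_bot_iff.1 ((ic_mono h.ZC le_rfl n).trans hn.le)) ?_ ?_
  · rintro a - b - c - - ⟨d, -, e, -, hne⟩
    simp at hne
  · rintro x hx ih a ha b hb c hc h1 ⟨d, hd, e, he, hne⟩
    by_cases h3 : ∃ d ∈ A, ∃ e ∈ A, ∃ f ∈ A, ⁅e, ⁅f, ⁅d, x⁆⁆⁆ ≠ 1
    · obtain ⟨d, hd, h3⟩ := h3
      refine ih d hd a ha b hb c hc ?_ h3
      rw [h.ddZ hc hd hx, h.ddZ hb hd hx, h.ddZ ha hd (comm_mem_nrm b hx),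
        ← h.d_div d (comm_mem_nrm c hx) (comm_mem_nrm a (comm_mem_nrm b hx)), h.cA hd h1]
      exact one_mem _
    · push Not at h3
      have h4 : ⁅a, ⁅b, x⁆⁆ ∈ A :=
        h.max.mem0 (h.ZS (comm_mem_nrm a (comm_mem_nrm b hx))) fun f hf => h3 b hb f hf a ha
      have h5 : ⁅c, x⁆ ∈ A := by
        exact inv_mem_iff.1 ((mul_mem_cancel_right h4).1 h1)
      exact h.f0 hx hd he hne
        ⟨hc, mem_C_cx_of_mem h.max.le_C (h.ab_of_le (h.cx_le_Z hx)) hc h5⟩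

theorem St.f1 (h : St S P C Z A) {x a b : G} (hx : x ∈ Z) (ha : a ∈ A) (hb : b ∈ A) :
    ∃ c ∈ A, c ∈ P ∧ ⁅c, x⁆⁻¹ * ⁅a, ⁅b, x⁆⁆ ∈ A := by
  by_cases h1 : ⁅a, ⁅b, x⁆⁆ = 1
  · exact ⟨1, one_mem _, one_mem _, by rw [h1]; simp⟩
  · obtain ⟨c, hc, h2⟩ := (thompson h.max (h.ZS hx) (h.ab_of_le (h.cx_le_Z hx))).2 _
      (mem_cx2 x ha hb)
    exact ⟨c, hc, h.f1' x hx a ha b hb c hc h2 ⟨a, ha, b, hb, h1⟩, h2⟩

theorem St.chief3 (h : St S P C Z A) {U V : Subgroup G} [V.Normal] (hU : U ≤ Z)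
    (hUP : ⁅U, P⁆ ≤ V) : iterCommutator U A 3 ≤ V := by
  refine ic_le_of_Kn (H := Z) ((le_C_iff_comm.1 h.ZZ).le.trans bot_le) hU
    fun x hx b hb a ha d hd => ?_
  obtain ⟨c, -, hc, h1⟩ := h.f1 (hU hx) ha hb
  change ⁅d, ⁅a, ⁅b, x⁆⁆⁆ ∈ V
  rw [← mul_inv_cancel_left ⁅c, x⁆ ⁅a, ⁅b, x⁆⁆, comm_mul_of_one (h.cA hd h1)]
  exact comm_mem_nrm d (hUP (comm_mem_comm' hc hx))

omit [P.Normal] [C.Normal] in
/-- The Timmesfeld type replacement. -/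
theorem St.exists_M (h : St S P C Z A) :
    ∃ M, M ≤ Z ∧ (∀ x ∈ Z, cx A x ≤ M) ∧ MaxAb 0 S (M ⊔ (A ⊓ C[M])) := by
  have hAZ : A ≤ C[A ⊓ Z] := h.max.le_C.trans (C_anti inf_le_left)
  have hinf : ∀ M, A ⊓ Z ≤ M → M ≤ Z → A ⊓ M = A ⊓ Z := fun M h1 h2 =>
    le_antisymm (inf_le_inf_left _ h2) (le_inf inf_le_left h1)
  obtain ⟨M, -, ⟨m1, m2, m3⟩, m4⟩ := exists_maximal_subgroup (H := A ⊓ Z)
    (P := fun M => A ⊓ Z ≤ M ∧ M ≤ Z ∧
      Nat.card A * Nat.card ↥(A ⊓ Z) ≤ Nat.card M * Nat.card ↥(A ⊓ C[M]))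
    ⟨le_rfl, inf_le_right, by rw [inf_eq_left.2 hAZ, mul_comm]⟩
  refine ⟨M, m2, fun x hx => ?_,
    maxAb_repl h.max (m2.trans h.ZS) (h.ab_of_le m2) (by rwa [hinf M m1 m2])⟩
  have hX := h.cx_le_Z hx
  set X := cx A x ⊔ (A ⊓ Z) with hXd
  have x2 : X ≤ Z := sup_le hX inf_le_right
  have x3 : Nat.card A * Nat.card ↥(A ⊓ Z) ≤ Nat.card X * Nat.card ↥(A ⊓ C[X]) := by
    have e1 : A ⊓ C[X] = A ⊓ C[cx A x] := by
      rw [hXd, C_sup, ← inf_assoc, inf_right_comm, inf_eq_left.2 hAZ]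
    have e2 : cx A x ⊓ (A ⊓ Z) = A ⊓ cx A x :=
      le_antisymm (le_inf (inf_le_right.trans inf_le_left) inf_le_left)
        (le_inf inf_le_right (inf_le_inf_left _ hX))
    have t1 := (thompson h.max (h.ZS hx) (h.ab_of_le hX)).1
    have t2 := card_mul_le_card_sup_mul (cx A x) (A ⊓ Z)
    rw [e2, ← hXd] at t2
    rw [e1]
    refine Nat.le_of_mul_le_mul_left (c := Nat.card ↥(A ⊓ cx A x)) ?_ (card_pos' _)
    have t3 := Nat.mul_le_mul_right (Nat.card ↥(A ⊓ Z)) t1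
    have t4 := Nat.mul_le_mul_right (Nat.card ↥(A ⊓ C[cx A x])) t2
    nlinarith
  have key : Nat.card A * Nat.card ↥(A ⊓ Z) ≤ Nat.card ↥(M ⊔ X) * Nat.card ↥(A ⊓ C[M ⊔ X]) := by
    have t1 := card_mul_le_card_sup_mul M X
    have t2 := card_mul_le_card_sup_mul (A ⊓ C[M]) (A ⊓ C[X])
    have e1 : A ⊓ C[M] ⊓ (A ⊓ C[X]) = A ⊓ C[M ⊔ X] := by
      rw [C_sup M X]; exact (inf_inf_distrib_left _ _ _).symm
    have t3 : Nat.card ↥(A ⊓ C[M] ⊔ A ⊓ C[X]) ≤ Nat.card ↥(A ⊓ C[M ⊓ X]) :=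
      card_le_of_le (sup_le (inf_le_inf_left _ (C_anti inf_le_left))
        (inf_le_inf_left _ (C_anti inf_le_right)))
    have t4 := card_repl_le h.max ((inf_le_left.trans m2).trans h.ZS : M ⊓ X ≤ S)
      (h.ab_of_le (inf_le_left.trans m2))
    rw [hinf _ (le_inf m1 le_sup_right) (inf_le_left.trans m2)] at t4
    rw [e1] at t2
    have hpos : 0 < Nat.card A * Nat.card ↥(A ⊓ Z) := Nat.mul_pos (card_pos' _) (card_pos' _)
    refine Nat.le_of_mul_le_mul_left ?_ hpos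
    generalize Nat.card A * Nat.card ↥(A ⊓ Z) = m at *
    calc m * m ≤ (Nat.card M * Nat.card ↥(A ⊓ C[M])) * (Nat.card X * Nat.card ↥(A ⊓ C[X])) :=
          Nat.mul_le_mul m3 x3
      _ = (Nat.card M * Nat.card X) * (Nat.card ↥(A ⊓ C[M]) * Nat.card ↥(A ⊓ C[X])) := by ring
      _ ≤ (Nat.card ↥(M ⊔ X) * Nat.card ↥(M ⊓ X)) *
          (Nat.card ↥(A ⊓ C[M ⊓ X]) * Nat.card ↥(A ⊓ C[M ⊔ X])) :=
          Nat.mul_le_mul t1 (t2.trans (Nat.mul_le_mul_right _ t3))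
      _ = (Nat.card ↥(M ⊓ X) * Nat.card ↥(A ⊓ C[M ⊓ X])) *
          (Nat.card ↥(M ⊔ X) * Nat.card ↥(A ⊓ C[M ⊔ X])) := by ring
      _ ≤ _ := Nat.mul_le_mul_right _ t4
  have := m4 (M ⊔ X) ⟨m1.trans le_sup_left, sup_le m2 x2, key⟩ le_sup_left
  exact (le_sup_left.trans le_sup_right).trans this.le

theorem St.caseI (h : St S P C Z A) {M : Subgroup G} (hM : M ≤ Z) (hX : ∀ x ∈ Z, cx A x ≤ M)
    (hB : MaxAb 0 S (M ⊔ (A ⊓ C[M]))) (hP : A ⊓ C[M] ≤ P) : iterCommutator C A 4 ≤ Z := by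
  have hPZ : ∀ b ∈ P, ∀ x ∈ C, ⁅b, x⁆ ∈ Z := fun b hb x hx =>
    h.comm (commutator_mem_commutator hb hx)
  have k1 : ∀ b ∈ A ⊓ C[M], ∀ x ∈ C, ∀ a ∈ A, ∀ a' ∈ A, ⁅a, ⁅a', ⁅b, x⁆⁆⁆ ∈ A := by
    intro b hb x hx a ha a' ha'
    obtain ⟨c, hc, hcP, h1⟩ := h.f1 (hPZ b (hP hb) x hx) ha ha'
    have hw := hPZ c hcP x hx
    have h2 : ⁅c, ⁅b, x⁆⁆ ∈ A := by
      rw [h.dd hc hb.1 hx hw]
      refine h.max.mem0 (h.ZS (comm_mem_nrm b hw)) fun e he => ?_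
      rw [h.ddZ he hb.1 hw, ← commutatorElement_inv,
        comm_eq_one_of_C (hX _ hw (mem_cx _ he)) hb.2, inv_one]
    exact (mul_mem_cancel_left (inv_mem h2)).1 h1
  refine ic_le_of_Kn h.CC le_rfl fun x hx a3 h3 a2 h2 a1 h1 a ha => ?_
  change ⁅a, ⁅a1, ⁅a2, ⁅a3, x⁆⁆⁆⁆ ∈ Z
  have y3 := comm_mem_nrm a3 hx
  have y2 := comm_mem_nrm a2 y3
  have y1 := comm_mem_nrm a1 y2
  have hy : ⁅a1, ⁅a2, ⁅a3, x⁆⁆⁆ ∈ M ⊔ (A ⊓ C[M]) := by
    refine hB.mem_of_C (h.CS y1) (pow_zero _) ?_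
    rw [C_sup]
    refine ⟨le_centralizer_iff.1 (hM.trans h.ZCC) y1, mem_C.2 fun b hb => ?_⟩
    rw [← commutatorElement_eq_one_iff_mul_comm, h.dd hb.1 h1 y2 (hPZ b (hP hb) _ y2),
      h.dd hb.1 h2 y3 (hPZ b (hP hb) _ y3), h.dd hb.1 h3 hx (hPZ b (hP hb) _ hx)]
    exact h.cA h1 (k1 b hb x hx a2 h2 a3 h3)
  obtain ⟨m, hm, b, hb, e⟩ := (mem_sup_of_le_N' (inf_le_right.trans (C_le_N _))).1 hy
  rw [← e, comm_mul_of_one (h.cA ha hb.1)]
  exact comm_mem_nrm a (hM hm)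

theorem St.caseII (h : St S P C Z A) (hZ : ⁅Z, A⁆ ≤ A) : iterCommutator C A 5 ≤ Z := by
  have hAb : ⁅A, A⁆ = ⊥ := le_C_iff_comm.1 h.max.le_C
  have z1 : ⁅Z, A⁆ ≤ Z ⊓ A := le_inf (commutator_le_left _ _) hZ
  have z0 : ⁅Z ⊓ A, A⁆ ≤ ⊥ := (commutator_mono inf_le_right le_rfl).trans hAb.le
  have nA : A ≤ N[Z ⊓ A] := le_N_inf (le_N_of_normal _ _) le_normalizer
  have nC : C ≤ N[Z ⊓ A] := (le_centralizer_iff.1 (inf_le_left.trans h.ZCC)).trans (C_le_N _)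
  have hc : ∀ n, iterCommutator C A n ≤ C := ic_le (le_N_of_normal _ _)
  have hw : ∀ n, Ks A Z C h.CC n ≤ C := fun n x hx => hx.1
  have w0 : ∀ n, ⁅⁅A, Ks A Z C h.CC 1⁆, iterCommutator C A n⁆ ≤ ⊥ := fun n =>
    (commutator_mono ((comm_Ks_le h.CC 0).trans fun x hx => hx.2) (hc n)).trans
      (le_C_iff_comm.1 h.ZCC).le
  have wz : ∀ s n, ⁅⁅Ks A Z C h.CC s, iterCommutator C A n⁆, A⁆ ≤ Z ⊓ A := fun s n =>
    (commutator_mono ((commutator_mono (hw s) (hc n)).trans h.CC) le_rfl).trans z1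
  have e11 : ⁅iterCommutator C A 1, Ks A Z C h.CC 1⁆ ≤ Z ⊓ A :=
    three_subgroups ((hc 0).trans nC) nA ((hw 1).trans nC) ((w0 0).trans bot_le) (wz 1 0)
  have e21 : ⁅iterCommutator C A 2, Ks A Z C h.CC 1⁆ ≤ ⊥ :=
    three_subgroups (le_N_of_normal _ _) (le_N_of_normal _ _) (le_N_of_normal _ _) (w0 1)
      ((commutator_mono (by rw [Subgroup.commutator_comm]; exact e11) le_rfl).trans z0)
  have e22 : ⁅iterCommutator C A 2, Ks A Z C h.CC 2⁆ ≤ Z ⊓ A :=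
    three_subgroups ((hc 1).trans nC) nA ((hw 2).trans nC)
      ((commutator_mono (comm_Ks_le h.CC 1) le_rfl).trans
        (by rw [Subgroup.commutator_comm]; exact e11)) (wz 2 1)
  have e32 : ⁅iterCommutator C A 3, Ks A Z C h.CC 2⁆ ≤ ⊥ :=
    three_subgroups (le_N_of_normal _ _) (le_N_of_normal _ _) (le_N_of_normal _ _)
      ((commutator_mono (comm_Ks_le h.CC 1) le_rfl).trans
        (by rw [Subgroup.commutator_comm]; exact e21))
      ((commutator_mono (by rw [Subgroup.commutator_comm]; exact e22) le_rfl).trans z0)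
  have a0 : ∀ X : Subgroup G, ⁅⁅A, A ⊓ P⁆, X⁆ ≤ ⊥ := fun X =>
    (commutator_mono ((commutator_mono le_rfl inf_le_left).trans hAb.le) le_rfl).trans (by simp)
  have f1 : ⁅iterCommutator C A 1, A ⊓ P⁆ ≤ Z ⊓ A :=
    three_subgroups ((hc 0).trans nC) nA (inf_le_left.trans nA) ((a0 _).trans bot_le)
      ((commutator_mono ((commutator_mono inf_le_right (hc 0)).trans h.comm) le_rfl).trans z1)
  have f2 : ⁅iterCommutator C A 2, A ⊓ P⁆ ≤ ⊥ :=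
    three_subgroups (le_N_of_normal _ _) (le_N_of_normal _ _) (le_N_of_normal _ _) (a0 _)
      ((commutator_mono (by rw [Subgroup.commutator_comm]; exact f1) le_rfl).trans z0)
  have c32 : iterCommutator C A 3 ≤ C[Ks A Z C h.CC 2] := le_C_iff_comm.2 (le_bot_iff.1 e32)
  have c3 : iterCommutator C A 3 ≤ C[A ⊓ P] :=
    (ic_anti (le_N_of_normal _ _) (by norm_num)).trans (le_C_iff_comm.2 (le_bot_iff.1 f2))
  have step : ∀ y ∈ iterCommutator C A 3, Kn A Z 3 y → Kn A Z 2 y := by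
    intro y hy hK
    have m1 : cx A y ≤ iterCommutator C A 3 :=
      cx_le.2 fun a ha => comm_mem_N (le_N_ic (le_N_of_normal _ _) 3 ha) hy
    have m2 : cx A y ≤ Ks A Z C h.CC 2 :=
      cx_le.2 fun a ha => mem_Ks.2 ⟨comm_mem_nrm a (hc 3 hy), hK a ha⟩
    have m3 : iterCommutator C A 3 ≤ C[cx A y] := c32.trans (C_anti m2)
    have hM := m1.trans m3
    have hB := maxAb_repl h.max ((m1.trans (hc 3)).trans h.CS) hM
      (thompson h.max (h.CS (hc 3 hy)) hM).1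
    by_cases hn : A ⊓ C[cx A y] ≤ P
    · have hyB : y ∈ cx A y ⊔ (A ⊓ C[cx A y]) := by
        refine hB.mem_of_C (h.CS (hc 3 hy)) (pow_zero _) ?_
        rw [C_sup]
        exact ⟨m3 hy, C_anti (le_inf inf_le_left hn) (c3 hy)⟩
      obtain ⟨m, hm, b, hb, e⟩ := (mem_sup_of_le_N' (inf_le_right.trans (C_le_N _))).1 hyB
      intro a ha
      rw [← e, comm_mul_of_one (h.cA ha hb.1)]
      exact (m2 hm).2 a ha
    · have := h.le_of_P ((m1.trans (hc 3)).trans h.CP) (le_centralizer_iff.1 (m1.trans c3)) hB hn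
      intro a ha b hb
      change ⁅b, ⁅a, y⁆⁆ ∈ Z
      rw [h.cA hb (this (mem_cx y ha))]
      exact one_mem _
  have fin : ∀ n, iterCommutator C A (3 + n + 2) ≤ Z → iterCommutator C A 5 ≤ Z := by
    intro n
    induction n with
    | zero => exact id
    | succ n ih =>
      intro h1
      refine ih ((ic_iff h.CC le_rfl 2 (3 + n)).1 fun y hy => step y
        (ic_anti (le_N_of_normal _ _) (Nat.le_add_right 3 n) hy) ?_)
      exact (ic_iff h.CC le_rfl 3 (3 + n)).2 h1 y hy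
  obtain ⟨n, hn⟩ := h.nil
  exact fin n (((ic_anti (le_N_of_normal _ _) (by omega)).trans hn.le).trans bot_le)

omit [Finite G] [P.Normal] in
theorem chief_ic_le {U V : Subgroup G} (hUV : IsChiefFactor U V) (hU : U ≤ C) {i j : ℕ}
    (hij : j ≤ i) (h1 : iterCommutator C A i ≤ Z)
    (h2 : ∀ U V, IsChiefFactor U V → U ≤ Z → iterCommutator U A j ≤ V) :
    iterCommutator U A i ≤ V := by
  have := hUV.2.1
  have := hUV.2.2.1
  by_cases hc : U ⊓ Z ≤ V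
  · exact le_trans (le_inf (ic_le (le_N_of_normal _ _) _) ((ic_mono hU le_rfl _).trans h1)) hc
  · refine ic_le_of_le_sup (chief_le_sup hUV hc) ((ic_anti (le_N_of_normal _ _) hij).trans ?_)
    exact (h2 _ _ (chief_inf hUV hc) inf_le_right).trans inf_le_left

variable {p : ℕ} [Fact p.Prime]

omit [Z.Normal] in
theorem St.deg6 (hC : Crit P C) (hP : IsPGroup p P) (h : St S P C (C ⊓ C[C]) A) {U V : Subgroup G}
    (hUV : IsChiefFactor U V) (hU : U ≤ P) : iterCommutator U A 6 ≤ V := by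
  have := H21.normal_center C
  have h3 : ∀ U V, IsChiefFactor U V → U ≤ C ⊓ C[C] → iterCommutator U A 3 ≤ V := by
    intro U V a b
    have := a.2.2.1
    exact h.chief3 b (chief_comm_le a (hP.to_le (b.trans h.ZP)) hP)
  obtain ⟨M, m1, m2, m3⟩ := h.exists_M
  by_cases hn : A ⊓ C[M] ≤ P
  · exact hC.ic_le hP A (i := 4) (j := 3) (by norm_num)
      (fun U V a b => chief_ic_le a b (by norm_num) (h.caseI m1 m2 m3 hn) h3) h3 hUV hU
  · have hZ : ⁅C ⊓ C[C], A⁆ ≤ A := by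
      rw [Subgroup.commutator_comm]
      exact commutator_le.2 fun a ha x hx => h.le_of_Z m1 m3 hn (m2 x hx (mem_cx x ha))
    have h2 : ∀ U V, IsChiefFactor U V → U ≤ C ⊓ C[C] → iterCommutator U A 2 ≤ V :=
      fun U V _ b => (ic_mono b le_rfl 2).trans (((commutator_mono hZ le_rfl).trans
        (le_C_iff_comm.1 h.max.le_C).le).trans bot_le)
    exact hC.ic_le hP A (i := 5) (j := 2) (by norm_num)
      (fun U V a b => chief_ic_le a b (by norm_num) (h.caseII hZ) h2) h2 hUV hU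

omit [C.Normal] [Z.Normal] in
theorem exists_deg6 (hS : IsPGroup p S) (hPS : P ≤ S) (hn : ¬ (Jn 0 S).Normal) :
    ∃ g ∈ S, g ∉ P ∧ ∀ U V, IsChiefFactor U V → U ≤ P → iterCommutator U (zpowers g) 6 ≤ V := by
  have hP := hS.to_le hPS
  obtain ⟨C, hC⟩ := exists_crit hP
  have := hC.normal
  have hex : ∃ A, MaxAb 0 S A ∧ ¬ A ≤ P := by
    by_contra! hc
    refine hn (normal_of_top_le_N fun g _ => mem_N_iff_cj.2 ?_)
    rw [← Jn_eq_of_le hPS (Jn_le_iff.2 hc), cj, map_Jn (MulAut.conj g).injective, cj_def,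
      cj_eq_of_normal]
  obtain ⟨A₁, h1, h2⟩ := Set.exists_max_image {A | MaxAb 0 S A ∧ ¬ A ≤ P}
    (fun A => Nat.card ↥(A ⊓ P)) (Set.toFinite _) hex
  obtain ⟨A, ⟨⟨a1, a2⟩, a3⟩, a4⟩ := Set.exists_max_image
    {A | (MaxAb 0 S A ∧ ¬ A ≤ P) ∧ Nat.card ↥(A₁ ⊓ P) ≤ Nat.card ↥(A ⊓ P)}
    (fun A => Nat.card ↥(A ⊓ (C ⊓ C[C]))) (Set.toFinite _) ⟨A₁, h1, le_rfl⟩
  have h : St S P C (C ⊓ C[C]) A := ⟨hPS, hC.le, inf_le_left, inf_le_right, hC.comm, a1, a2,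
    fun B b1 b2 => (h2 B ⟨b1, b2⟩).trans a3, fun B b1 b2 b3 => a4 B ⟨⟨b1, b2⟩, a3.trans b3⟩,
    exists_ic_eq_bot hS (hC.le.trans hPS) a1.le⟩
  obtain ⟨g, hg, hgP⟩ := SetLike.not_le_iff_exists.1 a2
  exact ⟨g, a1.le hg, hgP, fun U V b1 b2 =>
    (ic_mono le_rfl (zpowers_le.2 hg) 6).trans (h.deg6 hC hP b1 b2)⟩

/-- The abelian Thompson subgroup as a functor. -/
def jW : CFun.{u} := fun Q _ => thompsonSubgroupA Q

theorem isCharPFunctor_jW (p : ℕ) [Fact p.Prime] : IsCharPFunctor.{u} p jW := by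
  refine ⟨fun Q _ _ hQ _ => ?_, fun Q R _ _ _ _ φ => ?_⟩
  · rw [jW, ← Jn_top_zero]
    exact Jn_ne_bot (hQ.to_subgroup ⊤) top_ne_bot (Or.inl rfl)
  · rw [jW, jW, ← Jn_top_zero, ← Jn_top_zero, map_Jn φ.injective, ← MonoidHom.range_eq_map,
      MonoidHom.range_eq_top.2 φ.surjective]

theorem trT_jW (hp : 7 ≤ p) : TrT p {jW} G := by
  refine trT_of_deg (G := G) (isCharPFunctor_jW p) (fun X _ _ _ _ S hS hn => ?_) G (Sec.refl G)
  have := H21.normal_pCore (p := p) (G := X)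
  obtain ⟨g, h1, h2, h3⟩ := exists_deg6 hS.isP (pCore_le_syl hS)
    (by rw [← thompsonAOf_eq_Jn]; exact hn)
  refine ⟨g, h1, h2, fun U V a b => ?_⟩
  have := a.2.1
  exact (ic_anti (le_N_of_normal _ _) (by omega)).trans (h3 U V a b)

theorem res_eq (S : Sylow p G) {H : Subgroup G} (hS : (S : Subgroup G) ≤ H)
    (h : (S : Subgroup G) ⊓ ⁅(⊤ : Subgroup G), ⊤⁆ = (S : Subgroup G) ⊓ ⁅H, H⁆) :
    H ⊓ pResidual p G = (pResidual p H).map H.subtype := by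
  refine H4.tate_of_le_commutator_sup
    ((H4.sylow_index_coprime S).of_dvd_left (index_dvd_of_le hS)) fun x hx => ?_
  obtain ⟨a, ha, s, hs, rfl⟩ := (mem_sup_of_le_N' (hS.trans (le_N_pResidualOf H))).1
    ((pResidualOf_sup_syl ((sylIn_top S).mono hS le_top)).ge hx.1)
  refine mul_mem (mem_sup_right ha) (mem_sup_left (h.le ⟨hs, ?_⟩).2)
  have h1 : s ∈ pResidual p G :=
    (mul_mem_cancel_left (pResidualOf_top (p := p) (G := G) ▸ pResidualOf_mono le_top ha)).1 hx.2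
  have h2 := H4.le_commutator_of_pResidual_eq_top (H4.pResidual_pResidual p)
    (H18.isPGroup_subgroupOf (H := pResidual p G) S.isPGroup') (x := ⟨s, h1⟩) hs
  have := mem_map_of_mem (pResidual p G).subtype h2
  rw [commutator_def, map_commutator] at this
  exact commutator_mono le_top le_top this

theorem quot_equiv (S : Sylow p G) {H : Subgroup G} (hS : (S : Subgroup G) ≤ H)
    [(pResidual p G).Normal] [(pResidual p H).Normal]
    (h : H ⊓ pResidual p G = (pResidual p H).map H.subtype) :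
    Nonempty (G ⧸ pResidual p G ≃* H ⧸ pResidual p H) := by
  let f : H →* G ⧸ pResidual p G := (QuotientGroup.mk' _).comp H.subtype
  have hf : Function.Surjective f := by
    intro y
    obtain ⟨x, rfl⟩ := QuotientGroup.mk'_surjective _ y
    obtain ⟨a, ha, b, hb, rfl⟩ := (mem_sup_of_le_N' (le_N_of_normal H _)).1
      ((H4.pResidual_sup_eq_top ((H4.sylow_index_coprime S).of_dvd_left (index_dvd_of_le hS))).ge
        (mem_top x))
    refine ⟨⟨b, hb⟩, ?_⟩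
    rw [map_mul, (QuotientGroup.eq_one_iff (N := pResidual p G) a).2 ha |> fun e =>
      (show QuotientGroup.mk' (pResidual p G) a = 1 from e), one_mul]
    rfl
  have hk : pResidual p H = f.ker := by
    apply map_injective H.subtype_injective
    rw [← h]
    ext x
    constructor
    · exact fun hx => ⟨⟨x, hx.1⟩, (QuotientGroup.eq_one_iff _).2 hx.2, rfl⟩
    · rintro ⟨y, hy, rfl⟩
      exact ⟨y.2, (QuotientGroup.eq_one_iff _).1 hy⟩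
  exact ⟨((QuotientGroup.quotientMulEquivOfEq hk).trans
    (QuotientGroup.quotientKerEquivOfSurjective f hf)).symm⟩

theorem main (hp : 7 ≤ p) (S : Sylow p G) [(pResidual p G).Normal]
    [(pResidual p ↥N[thompsonSubgroupAOf (S : Subgroup G)]).Normal] :
    Nonempty (G ⧸ pResidual p G ≃* ↥N[thompsonSubgroupAOf (S : Subgroup G)] ⧸
      pResidual p ↥N[thompsonSubgroupAOf (S : Subgroup G)]) := by
  have hS : (S : Subgroup G) ≤ N[thompsonSubgroupAOf (S : Subgroup G)] := fun g hg => by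
    rw [mem_N_iff_cj, thompsonAOf_eq_Jn, cj, map_Jn (MulAut.conj g).injective, cj_def,
      cj_eq_of_mem hg]
  exact quot_equiv S hS (res_eq S hS ((trT_jW hp).inf_comm_eq (sylIn_top S)))

end Cfsg.Agent.H3.JT
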