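import Mathlib
import Cfsg.Agent.H18.SylIn

/-! A group of order `4896` with a maximal core-free Sylow `2`-subgroup has an element of order `16`. -/

set_option autoImplicit false
set_option linter.unusedSectionVars false

namespace Cfsg.Agent.H3.Ln

open Subgroup MulAction

variable {X : Type*} [Group X] [Finite X]

theorem x32_core (T : Subgroup X) (hT : IsCoatom T) (hc : Nat.card T = 32)
    (hcore : ∀ K : Subgroup X, K.Normal → IsPGroup 2 K → K = ⊥) (hX : Nat.card X = 4896) :
    ∃ a ∈ T, orderOf a = 16 := by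
  haveI : Fact (Nat.Prime 17) := ⟨by norm_num⟩
  haveI : Fact (Nat.Prime 2) := ⟨Nat.prime_two⟩
  have cP : ∀ P : Sylow 17 X, Nat.card (P : Subgroup X) = 17 := fun P => by
    have := P.card_eq_multiplicity
    rw [hX, show (4896 : ℕ) = 17 ^ 1 * 288 from rfl, Nat.factorization_mul (by norm_num) (by norm_num),
      Nat.Prime.factorization_pow (by norm_num), Finsupp.add_apply, Finsupp.single_eq_same,
      Nat.factorization_eq_zero_of_not_dvd (by norm_num)] at this
    exact this
  obtain ⟨P⟩ : Nonempty (Sylow 17 X) := inferInstance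
  have iP : (P : Subgroup X).index = 288 := by
    have := (P : Subgroup X).index_mul_card
    rw [cP, hX] at this
    omega
  have n18 : Nat.card (Sylow 17 X) = 18 := by
    have h1 := P.card_dvd_index
    have h2 := card_sylow_modEq_one 17 X
    have h3 : Nat.card (Sylow 17 X) ≠ 1 := fun h => by
      haveI := (Nat.card_eq_one_iff_unique.1 h).1
      haveI : (P : Subgroup X).Normal := P.normal_of_subsingleton
      have lt : T < T ⊔ P := left_lt_sup.2 fun le => by
        have := card_dvd_of_le le
        rw [cP, hc] at this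
        norm_num at this
      have := relIndex_sup_right T (P : Subgroup X)
      rw [hT.2 _ lt, relIndex_top_right, iP] at this
      have d := relIndex_dvd_card (P : Subgroup X) T
      rw [← this, hc] at d
      norm_num at d
    rw [iP] at h1
    generalize Nat.card (Sylow 17 X) = n at *
    have : n ∈ Nat.divisors 288 := Nat.mem_divisors.2 ⟨h1, by norm_num⟩
    unfold Nat.ModEq at h2
    revert h2 h3
    clear h1
    revert n
    decide
  have cN : Nat.card (normalizer ((P : Subgroup X) : Set X)) = 272 := by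
    have := (normalizer ((P : Subgroup X) : Set X)).index_mul_card
    have h := P.card_eq_index_normalizer
    rw [n18] at h
    change 18 = (normalizer ((P : Subgroup X) : Set X)).index at h
    rw [← h, hX] at this
    omega
  -- the kernel of the action on the Sylow subgroups is trivial
  have ker : (toPermHom X (Sylow 17 X)).ker = ⊥ := by
    set K := (toPermHom X (Sylow 17 X)).ker
    have mem : ∀ k ∈ K, ∀ Q : Sylow 17 X, k • Q = Q := fun k hk Q => congrArg (· Q) (MonoidHom.mem_ker.1 hk)
    have d : Nat.card K ∣ 272 := cN ▸ card_dvd_of_le fun k hk => Sylow.smul_eq_iff_mem_normalizer.1 (mem k hk P)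
    have nd : ¬ 17 ∣ Nat.card K := fun h => by
      obtain ⟨x, hx⟩ := exists_prime_orderOf_dvd_card' 17 h
      have hx' : orderOf (x : X) = 17 := by rw [orderOf_coe, hx]
      have pz : IsPGroup 17 (zpowers (x : X)) := IsPGroup.of_card (n := 1) (by rw [Nat.card_zpowers, hx', pow_one])
      have all : ∀ Q : Sylow 17 X, zpowers (x : X) = Q := fun Q =>
        eq_of_le_of_card_ge (pz.sylow_mem_fixedPoints_iff.1 fun g => mem _ (zpowers_le.2 x.2 g.2) Q)
          (by rw [cP, Nat.card_zpowers, hx'])
      haveI : Subsingleton (Sylow 17 X) := ⟨fun Q R => Sylow.ext ((all Q).symm.trans (all R))⟩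
      have := Nat.card_of_subsingleton P
      omega
    obtain ⟨n, -, hn⟩ := (Nat.dvd_prime_pow Nat.prime_two (m := 4)).1
      (((Nat.Prime.coprime_iff_not_dvd (by norm_num)).2 nd).symm.dvd_of_dvd_mul_right (show _ ∣ 2 ^ 4 * 17 from d))
    exact hcore K inferInstance (IsPGroup.of_card hn)
  -- no involution centralizes `P`
  have odd : ¬ 2 ∣ Nat.card (centralizer ((P : Subgroup X) : Set X)) := fun h => by
    obtain ⟨b, hb⟩ := exists_prime_orderOf_dvd_card' 2 h
    have hb' : orderOf (b : X) = 2 := by rw [orderOf_coe, hb]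
    have pz : IsPGroup 2 (zpowers (b : X)) := IsPGroup.of_card (n := 1) (by rw [Nat.card_zpowers, hb', pow_one])
    obtain ⟨Q, hQ, ne⟩ := pz.exists_fixed_point_of_prime_dvd_card_of_fixed_point (Sylow 17 X) (by rw [n18]; norm_num)
      (a := P) ((sylow_mem_fixedPoints_iff _).2 (zpowers_le.2 (centralizer_le_normalizer _ b.2)))
    have bQ : (b : X) • Q = Q := hQ ⟨b, mem_zpowers _⟩
    have o17 : (orbit (P : Subgroup X) Q).ncard = 17 := by
      have d := (stabilizer (P : Subgroup X) Q).index_dvd_card
      rw [index_stabilizer, cP] at d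
      refine ((Nat.dvd_prime (by norm_num)).1 d).resolve_left fun z => ne ?_
      rw [← index_stabilizer, index_eq_one] at z
      exact Sylow.ext (P.3 Q.2 (P.2.sylow_mem_fixedPoints_iff.1 fun g => z.ge (mem_top g))).symm
    have sub : orbit (P : Subgroup X) Q ⊆ {P}ᶜ := by
      rintro _ ⟨g, rfl⟩ e
      refine ne ?_
      have e' : (g : X) • Q = P := e
      rw [← inv_smul_smul (g : X) Q, e']
      exact (Sylow.smul_eq_iff_mem_normalizer.2 (le_normalizer (inv_mem g.2))).symm
    have eq : orbit (P : Subgroup X) Q = {P}ᶜ := Set.eq_of_subset_of_ncard_le sub (by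
      have := Set.ncard_add_ncard_compl ({P} : Set (Sylow 17 X))
      rw [Set.ncard_singleton, n18] at this
      omega)
    have : (b : X) ∈ (toPermHom X (Sylow 17 X)).ker := MonoidHom.mem_ker.2 (Equiv.ext fun R => by
      change (b : X) • R = R
      by_cases z : R = P
      · rw [z]; exact Sylow.smul_eq_iff_mem_normalizer.2 (centralizer_le_normalizer _ b.2)
      · obtain ⟨g, rfl⟩ : R ∈ orbit (P : Subgroup X) Q := eq ▸ z
        change (b : X) • (g : X) • Q = (g : X) • Q
        rw [← mul_smul, ← mem_centralizer_iff.1 b.2 g g.2, mul_smul, bQ])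
    rw [ker, mem_bot] at this
    rw [this, orderOf_one] at hb'
    omega
  -- the automizer is cyclic of order 16
  haveI : IsCyclic (P : Subgroup X) := isCyclic_of_prime_card (cP P)
  let f := (P : Subgroup X).normalizerMonoidHom
  haveI : IsCyclic (MulAut (P : Subgroup X)) := by
    have : IsCyclic (ZMod (Nat.card (P : Subgroup X)))ˣ := by rw [cP]; infer_instance
    exact isCyclic_of_surjective _ (IsCyclic.mulAutMulEquiv (P : Subgroup X)).symm.surjective
  have cA : Nat.card (MulAut (P : Subgroup X)) = 16 := by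
    rw [IsCyclic.card_mulAut, cP, Nat.totient_prime (by norm_num)]
  have cr : Nat.card f.range = 16 := by
    refine Nat.dvd_antisymm (cA ▸ card_subgroup_dvd_card _) ?_
    have h1 := f.ker.index_mul_card
    rw [index_ker, cN, normalizerMonoidHom_ker,
      Nat.card_congr (subgroupOfEquivOfLe (centralizer_le_normalizer _)).toEquiv] at h1
    exact (((Nat.Prime.coprime_iff_not_dvd Nat.prime_two).2 odd).pow_left 4).dvd_of_dvd_mul_right
      (h1 ▸ by norm_num)
  obtain ⟨⟨_, n, rfl⟩, hg⟩ := IsCyclic.exists_ofOrder_eq_natCard (α := f.range)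
  rw [cr, ← orderOf_coe] at hg
  have d : 16 ∣ orderOf (n : X) := by rw [orderOf_coe, ← hg]; exact orderOf_map_dvd f n
  have o := orderOf_pow_orderOf_div (orderOf_pos (n : X)).ne' d
  have hS : H18.SylIn 2 T ⊤ := H18.sylIn_of_not_dvd_relIndex le_top (IsPGroup.of_card (n := 5) hc) (by
    have := T.index_mul_card
    rw [hc, hX] at this
    rw [relIndex_top_right]
    omega)
  obtain ⟨g, -, hg⟩ := hS.exists_conj_mem (le_top : zpowers ((n : X) ^ (orderOf (n : X) / 16)) ≤ ⊤)
    (IsPGroup.of_card (n := 4) (by rw [Nat.card_zpowers, o]; rfl))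
  exact ⟨_, hg _ (mem_zpowers _), ((MulAut.conj g).orderOf_eq _).trans o⟩

/-- part (P2) -/
theorem x32 (T : Subgroup X) (hT : IsCoatom T) (hc : Nat.card T = 32)
    (hcore : ∀ K : Subgroup X, K.Normal → IsPGroup 2 K → K = ⊥) (N : Subgroup X) [N.Normal] (hN : N.index = 2)
    (hcN : Nat.card N = 2448) (_hcit : ∀ u ∈ N, orderOf u = 2 → IsPGroup 2 ↥(centralizer {u} ⊓ N)) :
    ∃ a ∈ T, orderOf a = 16 :=
  x32_core T hT hc hcore (by rw [← N.index_mul_card, hN, hcN])

end Cfsg.Agent.H3.Ln
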