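import Cfsg.Agent.H3.Ln4a
import Cfsg.Agent.H18.SylIn
import Cfsg.Agent.H4.Control
import Cfsg.Agent.H1.Coprime2

/-! A perfect group with self-centralizing `2`-central involutions has no maximal `2`-local `C₂ × S₄`. -/

set_option autoImplicit false
set_option linter.unusedSectionVars false

namespace Cfsg.Agent.H3.Ln

open Subgroup

variable {G : Type*} [Group G] [Finite G]

/-- conjugation by `y` carries `φ a` to `φ b` -/
def Sg (φ : X48 →* G) (y : G) (a b : X48) : Prop := y * φ a * y⁻¹ = φ b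

/-- the configuration -/
structure Cx (S R : Subgroup G) (φ : X48 →* G) : Prop where
  inj : Function.Injective φ
  hR : ∀ x, φ x ∈ R ↔ Cm x z0
  rng : ∀ r ∈ R, ∃ x, φ x = r
  le : R ≤ S
  pS : IsPGroup 2 S
  cR : Nat.card R = 16
  mt : ∀ P ≤ centralizer {φ t0}, IsPGroup 2 P → Nat.card P ≤ 16
  mq : ∀ y ∈ S, (∀ q, Cm q z0 → Cm q v0 → ∃ q', Cm q' z0 ∧ Cm q' v0 ∧ Sg φ y q q') → y ∈ R

/-- elements of `N_S(R)` outside `R` -/
structure Out (S R : Subgroup G) (y : G) : Prop where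
  s : y ∈ S
  n : y ∈ normalizer (R : Set G)
  o : y ∉ R

variable {S R : Subgroup G} {φ : X48 →* G} {x y : G} {a b c a' b' : X48}

theorem Sg.mul (e : Sg φ y a a') (e' : Sg φ y b b') : Sg φ y (a * b) (a' * b') := by
  rw [Sg, map_mul, map_mul, ← e, ← e', conj_mul]

theorem Sg.symm (e : Sg φ y⁻¹ a b) : Sg φ y b a := by
  rw [Sg, ← e]; group

theorem Sg.one : Sg φ y 1 1 := by simp [Sg]

theorem Sg.of_comm (e : y * φ a = φ a * y) : Sg φ y a a := by rw [Sg, e, mul_inv_cancel_right]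

theorem Sg.comm (e : Sg φ y a a) : y * φ a = φ a * y := by
  rw [Sg, mul_inv_eq_iff_eq_mul] at e; exact e

theorem Out.inv (h : Out S R y) : Out S R y⁻¹ := ⟨inv_mem h.s, inv_mem h.n, fun z => h.o (inv_mem_iff.1 z)⟩

namespace Cx

variable (h : Cx S R φ)
include h

theorem sig (hy : y ∈ normalizer (R : Set G)) (ha : Cm a z0) : ∃ b, Cm b z0 ∧ Sg φ y a b := by
  have := (mem_normalizer_iff.1 hy _).1 ((h.hR a).2 ha)
  obtain ⟨b, hb⟩ := h.rng _ this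
  exact ⟨b, (h.hR b).1 (hb ▸ this), hb.symm⟩

theorem cm (e : Sg φ y a a') (e' : Sg φ y b b') : Cm a b ↔ Cm a' b' := by
  rw [Cm, Cm, ← h.inj.eq_iff, ← h.inj.eq_iff (a := a' * b'), ← show _ = _ from e.mul e', ← show _ = _ from e'.mul e,
    mul_left_inj, mul_right_inj]

theorem li (e : Sg φ y a c) (e' : Sg φ y b c) : a = b :=
  h.inj (mul_left_cancel (mul_right_cancel (Eq.trans e (Eq.symm e'))))

theorem ri (e : Sg φ y c a) (e' : Sg φ y c b) : a = b := h.inj (Eq.trans (Eq.symm e) e')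

theorem sz (hy : y ∈ normalizer (R : Set G)) : Sg φ y z0 z0 := by
  obtain ⟨b, hb, e⟩ := h.sig hy f2.2
  have := e.mul e
  rw [f2.1] at this
  rcases f1 b hb with k | k <;> rw [k] at this
  · exact absurd (h.li this Sg.one) f0.1
  · exact this

theorem R_le : R ≤ centralizer {φ t0} := fun r hr => by
  obtain ⟨x, rfl⟩ := h.rng r hr
  rw [mem_centralizer_singleton_iff, ← map_mul, ← map_mul, f9 x]

theorem ct (hy : y ∈ S) (e : y * φ t0 = φ t0 * y) : y ∈ R := by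
  have := eq_of_le_of_card_ge (le_inf h.le h.R_le) (h.cR ▸ h.mt _ inf_le_right (h.pS.to_le inf_le_left))
  rw [this]
  exact ⟨hy, mem_centralizer_singleton_iff.2 e⟩

theorem st (hy : Out S R y) : Sg φ y t0 (t0 * z0) := by
  obtain ⟨-, t1, tz, -, -, -, wz, vz, tz', -⟩ := f0
  obtain ⟨b, hb, e⟩ := h.sig hy.n tz'
  have k : ∀ c, Cm c z0 → Cm b c := fun c hc => by
    obtain ⟨c', -, e'⟩ := h.sig hy.inv.n hc
    exact (h.cm e e'.symm).1 (f9 c').symm
  rcases f3 b hb (k _ vz) (k _ wz) with rfl | rfl | rfl | rfl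
  · exact absurd (h.li e Sg.one) t1
  · exact absurd (h.ct hy.s e.comm) hy.o
  · exact absurd (h.li e (h.sz hy.n)) tz
  · exact e

theorem sv (hy : Out S R y) : ∃ w, Pw w ∧ Sg φ y v0 w := by
  obtain ⟨-, -, -, -, wv, -, wz, vz, -, vv, -⟩ := f0
  obtain ⟨b, hb, e⟩ := h.sig hy.n vz
  refine ⟨b, ⟨hb, h.ri (vv ▸ e.mul e) Sg.one, fun z => ?_⟩, e⟩
  rcases f4 b hb z with k | k
  · obtain ⟨c, hc, e'⟩ := h.sig hy.n wz
    exact wv ((h.cm e' e).2 (k c hc))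
  · refine hy.o (h.mq y hy.s fun q h1 h2 => ?_)
    obtain ⟨c, hc, e'⟩ := h.sig hy.n h1
    exact ⟨c, hc, k c hc ((h.cm e' e).1 h2), e'⟩

theorem out2 (hx : Out S R x) (hy : Out S R y) : x⁻¹ * y ∈ R := by
  refine h.ct (mul_mem (inv_mem hx.s) hy.s) ?_
  have e : x * φ t0 * x⁻¹ = y * φ t0 * y⁻¹ := Eq.trans (h.st hx) (Eq.symm (h.st hy))
  calc x⁻¹ * y * φ t0 = x⁻¹ * (y * φ t0 * y⁻¹) * y := by group
    _ = φ t0 * (x⁻¹ * y) := by rw [← e]; group

theorem fix (hy : Out S R y) (ha : Cm a z0) (h2 : a * a = 1) (e : y * φ a = φ a * y) : a = 1 ∨ a = z0 := by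
  obtain ⟨w, hw, ev⟩ := h.sv hy
  have e' := Sg.of_comm e
  rcases f5 w hw a ha h2 (h.cm e' ev) with rfl | rfl | rfl | rfl
  · exact .inl rfl
  · exact absurd (h.ri (h.st hy) e') f0.2.2.2.1
  · exact .inr rfl
  · exact absurd (h.li e' (h.st hy)) f0.2.2.2.1

theorem le_norm : S ≤ normalizer (R : Set G) := by
  haveI : Fact (Nat.Prime 2) := ⟨Nat.prime_two⟩
  by_contra z
  obtain ⟨z1, t1, -, -, wv, tw, wz, vz, tz, vv, tt, -, tv2, tvt, tvz⟩ := f0
  have lt : S ⊓ normalizer (R : Set G) < S := inf_lt_left.2 z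
  obtain ⟨x, hx, hx1, hxn⟩ := H1.exists_mem_normalizer_of_lt h.pS.isNilpotent lt
  have cj : ∀ g ∈ S ⊓ normalizer (R : Set G), x * g * x⁻¹ ∈ S ⊓ normalizer (R : Set G) :=
    fun g hg => (mem_normalizer_iff.1 hxn g).1 hg
  have inR : ∀ c, Cm c z0 → φ c ∈ S ⊓ normalizer (R : Set G) := fun c hc =>
    ⟨h.le ((h.hR c).2 hc), le_normalizer ((h.hR c).2 hc)⟩
  have K : ∀ g ∈ S ⊓ normalizer (R : Set G), ∀ c, Sg φ x c z0 → g * φ c = φ c * g := fun g hg c e => by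
    have := (h.sz (cj g hg).2).comm
    rw [← show _ = _ from e, conj_mul, conj_mul, mul_left_inj, mul_right_inj] at this
    exact this
  have K' : ∀ c a, Sg φ x c a → a = 1 ∨ a = z0 → Cm c w0 := fun c a e k => by
    rcases k with rfl | rfl
    · rw [h.li e Sg.one, Cm, one_mul, mul_one]
    · exact h.inj (by rw [map_mul, map_mul, K _ (inR _ wz) c e])
  have key : ∀ {u : G} {c d : X48}, u = x * φ d * x⁻¹ → Out S R u → Cm c d → c * c = 1 → x * φ c * x⁻¹ ∈ R →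
      ∃ a, Sg φ x c a ∧ (a = 1 ∨ a = z0) := fun {u c d} hu ho hc c2 m => by
    obtain ⟨a, ha⟩ := h.rng _ m
    have e : Sg φ x c a := ha.symm
    refine ⟨a, e, h.fix ho ((h.hR a).1 (ha ▸ m)) (h.ri (c2 ▸ e.mul e) Sg.one) ?_⟩
    rw [hu, ha, conj_mul, conj_mul, ← map_mul, ← map_mul, hc]
  have hu : x * φ t0 * x⁻¹ ∈ R := by
    by_contra u
    have ou : Out S R (x * φ t0 * x⁻¹) := ⟨(cj _ (inR _ tz)).1, (cj _ (inR _ tz)).2, u⟩
    by_cases v : x * φ v0 * x⁻¹ ∈ R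
    · obtain ⟨a, e, k⟩ := key rfl ou (f9 v0) vv v
      exact wv (K' _ _ e k).symm
    · have m := h.out2 ou ⟨(cj _ (inR _ vz)).1, (cj _ (inR _ vz)).2, v⟩
      obtain ⟨a, e, k⟩ := key rfl ou tvt tv2 (by rw [map_mul, map_inv]; convert m using 1; group)
      exact tw (K' _ _ e k)
  refine hx1 ⟨hx, H18.mem_normalizer_of_conj_mem fun r hr => ?_⟩
  by_contra o
  obtain ⟨c, rfl⟩ := h.rng r hr
  have hc := (h.hR c).1 hr
  have ou : Out S R (x * φ c * x⁻¹) := ⟨(cj _ (inR _ hc)).1, (cj _ (inR _ hc)).2, o⟩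
  obtain ⟨a, e, k⟩ := key rfl ou (f9 c).symm tt hu
  rcases k with rfl | rfl
  · exact t1 (h.li e Sg.one)
  · exact o (h.ct ou.s (K _ ⟨ou.s, ou.n⟩ _ e))

/-- fusion of the involution `t` -/
theorem fus (hy : Out S R y) (hz : centralizer {φ z0} = S) (hS : 16 < Nat.card S) (ε : Multiplicative (ZMod 2))
    {g : G} (hg : g⁻¹ * φ t0 * g ∈ S) : ∃ s ∈ S, ∃ d, Dm ε d ∧ g⁻¹ * φ t0 * g = s⁻¹ * φ (t0 * d) * s := by
  haveI : Fact (Nat.Prime 2) := ⟨Nat.prime_two⟩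
  obtain ⟨z1, -, -, -, -, -, -, -, -, -, -, zz, -⟩ := f0
  have NZ : ∀ k : G, k * φ z0 * k⁻¹ ≠ φ t0 := fun k e => by
    have := h.mt (S.map (MulAut.conj k).toMonoidHom) (by
      rintro _ ⟨s, hs, rfl⟩
      rw [← hz] at hs
      rw [mem_centralizer_singleton_iff, ← e]
      change k * s * k⁻¹ * _ = _ * (k * s * k⁻¹)
      rw [conj_mul, conj_mul, mem_centralizer_singleton_iff.1 hs]) (h.pS.map _)
    rw [card_map_of_injective (MulAut.conj k).injective] at this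
    omega
  have syl : H18.SylIn 2 R (centralizer {φ t0}) :=
    H18.sylIn_of_card_le h.R_le (h.pS.to_le h.le) fun T hT pT _ => h.cR ▸ h.mt T hT pT
  have z2 : (g * φ z0 * g⁻¹) ^ 2 = 1 := by rw [sq, conj_mul, ← map_mul, zz, map_one]; group
  obtain ⟨c, hc, k⟩ := syl.exists_conj_mem (P := zpowers (g * φ z0 * g⁻¹)) (zpowers_le.2 (by
      rw [← hz, mem_centralizer_singleton_iff] at hg
      rw [mem_centralizer_singleton_iff]
      calc g * φ z0 * g⁻¹ * φ t0 = g * (φ z0 * (g⁻¹ * φ t0 * g)) * g⁻¹ := by group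
        _ = φ t0 * (g * φ z0 * g⁻¹) := by rw [← hg]; group))
    (fun u => ⟨1, Subtype.ext (by
      obtain ⟨n, hn⟩ := u.2
      rw [pow_one, coe_pow, ← hn, ← zpow_natCast, ← zpow_mul, mul_comm, zpow_mul, zpow_natCast, z2, one_zpow,
        coe_one])⟩)
  obtain ⟨b, hb⟩ := h.rng _ (k _ (mem_zpowers _))
  have hb0 := (h.hR b).1 (hb ▸ k _ (mem_zpowers _))
  have e : Sg φ (c * g) z0 b := by rw [Sg, hb]; group
  have eu : g⁻¹ * φ t0 * g = (c * g)⁻¹ * φ t0 * (c * g) := by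
    calc g⁻¹ * φ t0 * g = g⁻¹ * c⁻¹ * (c * φ t0) * g := by group
      _ = _ := by rw [mem_centralizer_singleton_iff.1 hc]; group
  rw [eu]
  generalize c * g = m at e
  obtain ⟨w, hw, ev⟩ := h.sv hy
  have Q : ∀ {m : G} {b : X48}, Sg φ m z0 b → Cm b z0 → Cm b v0 → ∃ k, (φ k)⁻¹ * m ∈ S := fun {m b} e h1 h2 => by
    rcases f7 b h1 h2 with rfl | ⟨k, rfl⟩ | rfl | ⟨k, rfl⟩
    · exact absurd (h.li e Sg.one) z1
    · refine ⟨k, hz ▸ mem_centralizer_singleton_iff.2 ?_⟩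
      rw [Sg, map_mul, map_mul, map_inv] at e
      calc (φ k)⁻¹ * m * φ z0 = (φ k)⁻¹ * (m * φ z0 * m⁻¹) * m := by group
        _ = φ z0 * ((φ k)⁻¹ * m) := by rw [e]; group
    · exact absurd e (NZ m)
    · refine absurd ?_ (NZ (y⁻¹ * (φ k)⁻¹ * m))
      rw [Sg, map_mul, map_mul, map_inv, ← show _ = _ from h.st hy] at e
      calc y⁻¹ * (φ k)⁻¹ * m * φ z0 * (y⁻¹ * (φ k)⁻¹ * m)⁻¹ = y⁻¹ * (φ k)⁻¹ * (m * φ z0 * m⁻¹) * φ k * y := by group
        _ = φ t0 := by rw [e]; group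
  rcases f6 w hw b hb0 (h.ri (zz ▸ e.mul e) Sg.one) with q | q
  · obtain ⟨k, hk⟩ := Q e hb0 q
    refine ⟨_, hk, 1, (d_el ε).1, ?_⟩
    have : φ k * φ t0 = φ t0 * φ k := by rw [← map_mul, ← map_mul, f9 k]
    calc m⁻¹ * φ t0 * m = m⁻¹ * (φ t0 * φ k) * (φ k)⁻¹ * m := by group
      _ = _ := by rw [← this, mul_one]; group
  · obtain ⟨b', hb', e'⟩ := h.sig hy.inv.n hb0
    have e2 : Sg φ (y⁻¹ * m) z0 b' := by rw [Sg, ← show _ = _ from e', ← show _ = _ from e]; group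
    obtain ⟨k, hk⟩ := Q e2 hb' ((h.cm e'.symm ev).2 q)
    obtain ⟨d, hd, ed⟩ := d_hz ε k
    refine ⟨_, hk, d, hd, ?_⟩
    rw [← ed, map_mul, map_mul, map_inv, ← show _ = _ from h.st hy.inv]
    group

theorem final (hperf : commutator G = ⊤) (hi : ¬ 2 ∣ S.index) (hne : R ≠ S)
    (hz : ∀ z ∈ S, z ≠ 1 → (∀ s ∈ S, s * z = z * s) → centralizer {z} = S) : False := by
  have lt : R < S := lt_of_le_of_ne h.le hne
  obtain ⟨y, hy1, hy2⟩ := SetLike.exists_of_lt lt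
  have hy : Out S R y := ⟨hy1, h.le_norm hy1, hy2⟩
  have hz' : centralizer {φ z0} = S := hz _ (h.le ((h.hR _).2 rfl)) (fun e => f0.1 (h.inj (e.trans (map_one φ).symm)))
    fun s hs => (h.sz (h.le_norm hs)).comm
  have hS : 16 < Nat.card S := by
    by_contra z
    exact hne (eq_of_le_of_card_ge h.le (by rw [h.cR]; omega))
  obtain ⟨w, hw, ev⟩ := h.sv hy
  obtain ⟨dw, dl⟩ := d_list w hw
  obtain ⟨d1, dz, dv, dt⟩ := d_el w.1
  let D : Subgroup G := (D0 w.1).map φ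
  have mD : ∀ {a}, Dm w.1 a → φ a ∈ D := fun ha => mem_map_of_mem φ ha
  have yD : ∀ d ∈ D, y * d * y⁻¹ ∈ D := by
    obtain ⟨r, hr⟩ := h.rng _ (h.out2 hy.inv hy)
    have r0 := (h.hR r).1 (hr ▸ h.out2 hy.inv hy)
    let E : Subgroup X48 := D.comap ((MulAut.conj y).toMonoidHom.comp φ)
    have m : ∀ {a b}, Sg φ y a b → Dm w.1 b → a ∈ E := fun {a b} e hb => by
      change y * φ a * y⁻¹ ∈ D
      rw [show _ = _ from e]; exact mD hb
    have e1 : z0 ∈ E := m (h.sz hy.n) dz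
    have e2 : v0 ∈ E := m ev dw
    have e3 : w ∈ E := m (by rw [Sg, ← show _ = _ from ev, map_mul, map_mul, map_inv, hr]; group) (d_conj _ _ dv r r0)
    rintro _ ⟨a, ha, rfl⟩
    change a ∈ E
    rcases dl a ha with rfl | rfl | rfl | rfl | rfl | rfl | rfl | rfl
    exacts [one_mem _, e1, e2, mul_mem e2 e1, e3, mul_mem e3 e1, mul_mem e2 e3, mul_mem (mul_mem e2 e3) e1]
  have RD : ∀ r ∈ R, ∀ d ∈ D, r * d * r⁻¹ ∈ D := by
    rintro r hr _ ⟨a, ha, rfl⟩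
    obtain ⟨c, rfl⟩ := h.rng r hr
    rw [← map_inv, ← map_mul, ← map_mul]
    exact mD (d_conj _ _ ha c ((h.hR c).1 hr))
  have dec : ∀ s ∈ S, s ∈ R ∨ y⁻¹ * s ∈ R := fun s hs =>
    or_iff_not_imp_left.2 fun o => h.out2 hy ⟨hs, h.le_norm hs, o⟩
  haveI : (D.subgroupOf S).Normal := ⟨fun d hd s => by
    rw [mem_subgroupOf] at hd ⊢
    change (s : G) * d * (s : G)⁻¹ ∈ D
    rcases dec s s.2 with k | k
    · exact RD _ k _ hd
    · convert yD _ (RD _ k _ hd) using 1; group⟩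
  let π := QuotientGroup.mk' (D.subgroupOf S)
  have tS : φ t0 ∈ S := h.le ((h.hR _).2 (f9 z0).symm)
  have πD : ∀ {s : S}, (s : G) ∈ D → π s = 1 := fun hs => (QuotientGroup.eq_one_iff _).2 hs
  let τ := π ⟨_, tS⟩
  let η := π ⟨_, hy1⟩
  have πR : ∀ s : S, (s : G) ∈ R → π s = 1 ∨ π s = τ := fun s hs => by
    obtain ⟨c, hc⟩ := h.rng _ hs
    rcases d_split w.1 c ((h.hR c).1 (hc ▸ hs)) with k | k
    · exact .inl (πD (hc ▸ mD k))
    · refine .inr (Eq.symm (inv_mul_eq_one.1 ?_))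
      rw [← map_inv, ← map_mul]
      refine πD ?_
      have := mD k
      rwa [map_mul, map_inv, hc] at this
  have all : ∀ q : S ⧸ D.subgroupOf S, q = 1 ∨ q = τ ∨ q = η ∨ q = η * τ := fun q => by
    obtain ⟨s, rfl⟩ := QuotientGroup.mk'_surjective _ q
    rcases dec s s.2 with k | k
    · rcases πR s k with e | e
      exacts [.inl e, .inr (.inl e)]
    · have := πR (⟨_, hy1⟩⁻¹ * s) k
      rw [map_mul, map_inv, inv_mul_eq_one, inv_mul_eq_iff_eq_mul] at this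
      rcases this with e | e
      exacts [.inr (.inr (.inl e.symm)), .inr (.inr (.inr e))]
  have c1 : Commute η τ := by
    have : π (⟨_, tS⟩⁻¹ * (⟨_, hy1⟩ * ⟨_, tS⟩ * ⟨_, hy1⟩⁻¹)) = 1 := πD (by
      change (φ t0)⁻¹ * (y * φ t0 * y⁻¹) ∈ D
      rw [show _ = _ from h.st hy, map_mul, inv_mul_cancel_left]; exact mD dz)
    rw [map_mul, map_mul, map_mul, map_inv, map_inv, inv_mul_eq_one, eq_mul_inv_iff_mul_eq] at this
    exact this.symm
  have c2 : ∀ q : S ⧸ D.subgroupOf S, Commute q τ ∧ Commute q η := fun q => by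
    rcases all q with rfl | rfl | rfl | rfl
    exacts [⟨.one_left _, .one_left _⟩, ⟨.refl _, c1.symm⟩, ⟨c1, .refl _⟩,
      ⟨c1.mul_left (.refl _), (Commute.refl _).mul_left c1.symm⟩]
  have c3 : ∀ q q' : S ⧸ D.subgroupOf S, q * q' = q' * q := fun q q' => by
    rcases all q' with rfl | rfl | rfl | rfl
    exacts [Commute.one_right _, (c2 q).1, (c2 q).2, (c2 q).2.mul_right (c2 q).1]
  letI : CommGroup (S ⧸ D.subgroupOf S) := { (inferInstance : Group _) with mul_comm := c3 }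
  have t2 : φ t0 ^ 2 = 1 := by rw [sq, ← map_mul, f0.2.2.2.2.2.2.2.2.2.2.1, map_one]
  have τ2 : τ ^ 2 = 1 := by rw [← map_pow, ← map_one π]; exact congrArg π (Subtype.ext t2)
  have tr := H4.transfer_eq_pow_of_forall π (φ t0) τ fun k g hg => by
    rcases Nat.even_or_odd' k with ⟨j, rfl | rfl⟩
    · rw [pow_mul τ, τ2, one_pow, ← map_one π]
      exact congrArg π (Subtype.ext (by simp [pow_mul, t2]))
    · have e : φ t0 ^ (2 * j + 1) = φ t0 := by rw [pow_succ, pow_mul, t2, one_pow, one_mul]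
      obtain ⟨s, hs, d, hd, ed⟩ := h.fus hy hz' hS w.1 (e ▸ hg)
      have dS : φ d ∈ S := h.le ((h.hR d).2 hd.1)
      rw [show (⟨_, hg⟩ : S) = ⟨s, hs⟩⁻¹ * (⟨_, tS⟩ * ⟨_, dS⟩) * ⟨s, hs⟩ from Subtype.ext (by
        change g⁻¹ * φ t0 ^ (2 * j + 1) * g = s⁻¹ * (φ t0 * φ d) * s
        rw [e, ed, map_mul]), map_mul, map_mul, map_mul, map_inv, πD (s := ⟨_, dS⟩) (mD hd), pow_succ, pow_mul, τ2,
        one_pow, one_mul, mul_one, c3 _ τ, inv_mul_cancel_right]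
  rw [show MonoidHom.transfer π (φ t0) = 1 from
    Abelianization.commutator_subset_ker _ (hperf ▸ mem_top _)] at tr
  obtain ⟨j, hj⟩ := Nat.not_even_iff_odd.1 (_root_.mt even_iff_two_dvd.1 hi)
  rw [hj, pow_succ, pow_mul, τ2, one_pow, one_mul] at tr
  obtain ⟨a, ha, e⟩ : φ t0 ∈ D := (QuotientGroup.eq_one_iff (N := D.subgroupOf S) _).1 tr.symm
  exact dt (h.inj e ▸ ha)

end Cx

theorem exists_phi (H R : Subgroup G) (hRH : R ≤ H) (hRc : Nat.card R = 16) (e : H ≃* X48) :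
    ∃ φ : X48 →* G, Function.Injective φ ∧ (∀ u ∈ H, ∃ x, φ x = u) ∧ ∀ x, φ x ∈ R ↔ Cm x z0 := by
  haveI : Fact (Nat.Prime 2) := ⟨Nat.prime_two⟩
  obtain ⟨ψ, ψi, ψr⟩ : ∃ ψ : X48 →* G, Function.Injective ψ ∧ ∀ g ∈ H, ∃ x, ψ x = g :=
    ⟨H.subtype.comp e.symm.toMonoidHom, H.subtype_injective.comp e.symm.injective,
      fun g hg => ⟨e ⟨g, hg⟩, congrArg Subtype.val (e.symm_apply_apply ⟨g, hg⟩)⟩⟩
  have cR : Nat.card (R.comap ψ) = 16 := by
    rw [← card_map_of_injective ψi, map_comap_eq_self (fun g hg => ψr g (hRH hg)), hRc]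
  have syl : ∀ A : Subgroup X48, Nat.card A = 16 → H18.SylIn 2 A ⊤ := fun A hA =>
    H18.sylIn_of_not_dvd_relIndex le_top (IsPGroup.of_card (n := 4) hA) (by
      have := A.index_mul_card
      rw [hA, card_X48] at this
      rw [relIndex_top_right]
      omega)
  obtain ⟨g, -, hg⟩ := (syl _ card_R0).exists_conj_iff (syl _ cR)
  refine ⟨ψ.comp (MulAut.conj g).toMonoidHom, ψi.comp (MulAut.conj g).injective, fun u hu => ?_, fun x => ?_⟩
  · obtain ⟨x, rfl⟩ := ψr u hu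
    exact ⟨_, congrArg ψ ((MulAut.conj g).apply_symm_apply x)⟩
  · have := hg x
    rw [mem_centralizer_singleton_iff, mem_comap] at this
    exact this.symm

section

variable {H : Subgroup G} (φi : Function.Injective φ) (φr : ∀ u ∈ H, ∃ x, φ x = u) (hR : ∀ x, φ x ∈ R ↔ Cm x z0)
  (pR : IsPGroup 2 R) (hmax : ∀ K : Subgroup G, K ≠ ⊥ → IsPGroup 2 K → H ≤ normalizer (K : Set G) →
      ∀ P ≤ normalizer (K : Set G), IsPGroup 2 P → Nat.card P ≤ 16)
include φi φr hR pR hmax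

theorem mt_of (P : Subgroup G) (hP : P ≤ centralizer {φ t0}) (pP : IsPGroup 2 P) : Nat.card P ≤ 16 := by
  have c : centralizer {φ t0} ≤ normalizer (zpowers (φ t0) : Set G) := fun u hu =>
    H18.mem_normalizer_of_conj_mem fun x hx => by
      obtain ⟨n, rfl⟩ := mem_zpowers_iff.1 hx
      rw [← conj_zpow, mem_centralizer_singleton_iff.1 hu, mul_inv_cancel_right]
      exact zpow_mem_zpowers _ n
  refine hmax (zpowers (φ t0)) (fun z => f0.2.1 (φi ((zpowers_eq_bot.1 z).trans (map_one φ).symm)))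
    (pR.to_le (zpowers_le.2 ((hR _).2 (f9 z0).symm))) (fun u hu => c ?_) P (hP.trans c) pP
  obtain ⟨x, rfl⟩ := φr u hu
  rw [mem_centralizer_singleton_iff, ← map_mul, ← map_mul, f9 x]

theorem mq_of (hRS : R ≤ S) (pS : IsPGroup 2 S) (hRH : R ≤ H) (hRc : Nat.card R = 16) (y : G) (hy : y ∈ S)
    (k : ∀ q, Cm q z0 → Cm q v0 → ∃ q', Cm q' z0 ∧ Cm q' v0 ∧ Sg φ y q q') : y ∈ R := by
  obtain ⟨Q, hQ⟩ : ∃ Q : Subgroup G, ∀ u, u ∈ Q ↔ ∃ q, (Cm q z0 ∧ Cm q v0) ∧ φ q = u :=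
    ⟨(centralizer {z0} ⊓ centralizer {v0}).map φ, fun u => by
      simp only [mem_map, mem_inf, mem_centralizer_singleton_iff]⟩
  have mQ : ∀ q, Cm q z0 → Cm q v0 → φ q ∈ Q := fun q h1 h2 => (hQ _).2 ⟨q, ⟨h1, h2⟩, rfl⟩
  have nQ : ∀ u : G, (∀ q, Cm q z0 → Cm q v0 → u * φ q * u⁻¹ ∈ Q) → u ∈ normalizer (Q : Set G) := fun u hu =>
    H18.mem_normalizer_of_conj_mem fun x hx => by
      obtain ⟨q, hq, e⟩ := (hQ _).1 hx
      rw [← e]
      exact hu q hq.1 hq.2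
  have HN : H ≤ normalizer (Q : Set G) := fun u hu => nQ u fun q h1 h2 => by
    obtain ⟨x, e⟩ := φr u hu
    rw [← e, ← map_inv, ← map_mul, ← map_mul]
    exact mQ _ (f8 q h1 h2 x).1 (f8 q h1 h2 x).2
  have nb : Q ≠ ⊥ := fun z => by
    have := mQ z0 (Eq.refl _) f0.2.2.2.2.2.2.2.1.symm
    rw [z, mem_bot, ← map_one φ] at this
    exact f0.1 (φi this)
  have QR : Q ≤ R := fun x hx => by
    obtain ⟨q, hq, e⟩ := (hQ _).1 hx
    rw [← e]
    exact (hR q).2 hq.1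
  have := hmax Q nb (pR.to_le QR) HN (S ⊓ normalizer (Q : Set G)) inf_le_right (pS.to_le inf_le_left)
  rw [eq_of_le_of_card_ge (le_inf hRS (hRH.trans HN)) (this.trans hRc.ge)]
  refine ⟨hy, nQ y fun q h1 h2 => ?_⟩
  obtain ⟨q', h3, h4, e'⟩ := k q h1 h2
  rw [show y * φ q * y⁻¹ = φ q' from e']
  exact mQ _ h3 h4

end

/-- part (P4) -/
theorem no_2S4 (hperf : commutator G = ⊤) (S : Sylow 2 G) (H R : Subgroup G) (hRS : R ≤ S) (hne : R ≠ S)
    (hRH : R ≤ H) (hRc : Nat.card R = 16) (e : H ≃* Multiplicative (ZMod 2) × Equiv.Perm (Fin 4))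
    (hz : ∀ z ∈ (S : Subgroup G), z ≠ 1 → (∀ s ∈ (S : Subgroup G), s * z = z * s) → centralizer {z} = S)
    (hmax : ∀ K : Subgroup G, K ≠ ⊥ → IsPGroup 2 K → H ≤ normalizer (K : Set G) →
      ∀ P ≤ normalizer (K : Set G), IsPGroup 2 P → Nat.card P ≤ 16) : False := by
  haveI : Fact (Nat.Prime 2) := ⟨Nat.prime_two⟩
  obtain ⟨φ, φi, φr, hR⟩ := exists_phi H R hRH hRc e
  have pR : IsPGroup 2 R := S.2.to_le hRS
  have h : Cx (S : Subgroup G) R φ := ⟨φi, hR, fun r hr => φr r (hRH hr), hRS, S.2, hRc,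
    mt_of φi φr hR pR hmax, mq_of φi φr hR pR hmax hRS S.2 hRH hRc⟩
  exact h.final hperf S.not_dvd_index hne hz

end Cfsg.Agent.H3.Ln
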