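import Mathlib

/-! Finite computations in `C₂ × S₄`. -/

set_option autoImplicit false
set_option linter.unusedSectionVars false
set_option synthInstance.maxSize 4000
set_option synthInstance.maxHeartbeats 200000

namespace Cfsg.Agent.H3.Ln

open Equiv

/-- the model -/
abbrev X48 := Multiplicative (ZMod 2) × Perm (Fin 4)

/-- central involution -/
def t0 : X48 := (Multiplicative.ofAdd 1, 1)
/-- the square -/
def z0 : X48 := (1, swap 0 1 * swap 2 3)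
/-- another element of the four group -/
def v0 : X48 := (1, swap 0 2 * swap 1 3)
/-- a transposition -/
def w0 : X48 := (1, swap 0 1)

/-- commuting -/
abbrev Cm (a b : X48) : Prop := a * b = b * a

/-- involutions of the second `E₈` -/
abbrev Pw (w : X48) : Prop := Cm w z0 ∧ w * w = 1 ∧ ¬ Cm w v0

/-- membership in the dihedral complement -/
abbrev Dm (ε : Multiplicative (ZMod 2)) (x : X48) : Prop := Cm x z0 ∧ x.1 = if Cm x v0 then 1 else ε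

theorem f0 : z0 ≠ 1 ∧ t0 ≠ 1 ∧ t0 ≠ z0 ∧ t0 * z0 ≠ t0 ∧ ¬ Cm w0 v0 ∧ ¬ Cm (t0⁻¹ * v0) w0 ∧ Cm w0 z0 ∧ Cm v0 z0 ∧
    Cm t0 z0 ∧ v0 * v0 = 1 ∧ t0 * t0 = 1 ∧ z0 * z0 = 1 ∧ t0⁻¹ * v0 * (t0⁻¹ * v0) = 1 ∧ Cm (t0⁻¹ * v0) t0 ∧
    Cm (t0⁻¹ * v0) z0 := by decide +kernel
theorem f1 : ∀ x, Cm x z0 → x * x = 1 ∨ x * x = z0 := by decide +kernel
theorem f2 : v0 * w0 * (v0 * w0) = z0 ∧ Cm (v0 * w0) z0 := by decide +kernel
theorem f3 : ∀ b, Cm b z0 → Cm b v0 → Cm b w0 → b = 1 ∨ b = t0 ∨ b = z0 ∨ b = t0 * z0 := by decide +kernel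
theorem f4 : ∀ b, Cm b z0 → Cm b v0 → (∀ c, Cm c z0 → Cm c b) ∨ (∀ c, Cm c z0 → Cm c b → Cm c v0) := by
  decide +kernel
theorem f5 : ∀ w, Pw w → ∀ a, Cm a z0 → a * a = 1 → (Cm a v0 ↔ Cm a w) →
    a = 1 ∨ a = t0 ∨ a = z0 ∨ a = t0 * z0 := by decide +kernel
theorem f6 : ∀ w, Pw w → ∀ b, Cm b z0 → b * b = 1 → Cm b v0 ∨ Cm b w := by decide +kernel
theorem f7 : ∀ b, Cm b z0 → Cm b v0 →
    b = 1 ∨ (∃ h, h * z0 * h⁻¹ = b) ∨ b = t0 ∨ ∃ h, h * (t0 * z0) * h⁻¹ = b := by decide +kernel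
theorem f8 : ∀ q, Cm q z0 → Cm q v0 → ∀ h, Cm (h * q * h⁻¹) z0 ∧ Cm (h * q * h⁻¹) v0 := by decide +kernel
theorem f9 : ∀ h, Cm h t0 := by decide +kernel
theorem f10 : ∀ x, Cm x z0 → x ^ 2 ^ 2 = 1 := by decide +kernel
theorem d_mul : ∀ ε x, Dm ε x → ∀ y, Dm ε y → Dm ε (x * y) := by decide +kernel
theorem d_inv : ∀ ε x, Dm ε x → Dm ε x⁻¹ := by decide +kernel
theorem d_el : ∀ ε, Dm ε 1 ∧ Dm ε z0 ∧ Dm ε v0 ∧ ¬ Dm ε t0 := by decide +kernel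
theorem d_list : ∀ w, Pw w → Dm w.1 w ∧ ∀ x, Dm w.1 x → x = 1 ∨ x = z0 ∨ x = v0 ∨ x = v0 * z0 ∨ x = w ∨ x = w * z0 ∨
    x = v0 * w ∨ x = v0 * w * z0 := by decide +kernel
theorem d_conj : ∀ ε x, Dm ε x → ∀ r, Cm r z0 → Dm ε (r * x * r⁻¹) := by decide +kernel
theorem d_split : ∀ ε x, Cm x z0 → Dm ε x ∨ Dm ε (t0⁻¹ * x) := by decide +kernel
theorem d_hz : ∀ ε h, ∃ d, Dm ε d ∧ h⁻¹ * (t0 * z0) * h = t0 * d := by decide +kernel

/-- the dihedral complement -/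
def D0 (ε : Multiplicative (ZMod 2)) : Subgroup X48 where
  carrier := {x | Dm ε x}
  mul_mem' hx hy := d_mul ε _ hx _ hy
  one_mem' := (d_el ε).1
  inv_mem' hx := d_inv ε _ hx

theorem card_X48 : Nat.card X48 = 48 := by
  rw [Nat.card_prod, Nat.card_perm]
  simp [Nat.factorial]

theorem card_R0 : Nat.card (Subgroup.centralizer ({z0} : Set X48)) = 16 := by
  have : Nat.card (Subgroup.centralizer ({z0} : Set X48)) = Nat.card {x : X48 // Cm x z0} :=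
    Nat.card_congr (Equiv.subtypeEquivRight fun _ => Subgroup.mem_centralizer_singleton_iff)
  rw [this, Nat.card_eq_fintype_card, Fintype.card_subtype]
  decide +kernel

end Cfsg.Agent.H3.Ln
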