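import Mathlib

/-! Combinatorics of groups generated by full groups of transvections (McLaughlin). -/

set_option autoImplicit false
set_option linter.unusedSectionVars false
set_option linter.unusedSimpArgs false

namespace Cfsg.Agent.H3.McL

open Module Submodule

variable {F V : Type*} [Field F] [AddCommGroup V] [Module F V] [FiniteDimensional F V]

theorem exists_gen {M : Type*} [AddCommGroup M] [Module F M] {S : Set M} {x : M} (f : M →ₗ[F] F)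
    (hx : x ∈ span F S) (h : f x ≠ 0) : ∃ y ∈ S, f y ≠ 0 := by
  by_contra hc
  push Not at hc
  exact h ((span_le (p := LinearMap.ker f)).2 hc hx)

/-- closure properties of the set of transvections of an irreducible component -/
structure Tr (T : V → Dual F V → Prop) : Prop where
  ne1 : ∀ {u φ}, T u φ → u ≠ 0
  ne2 : ∀ {u φ}, T u φ → φ ≠ 0
  z : ∀ {u φ}, T u φ → φ u = 0
  sm1 : ∀ {u φ} {c : F}, T u φ → c ≠ 0 → T (c • u) φ
  sm2 : ∀ {u φ} {c : F}, T u φ → c ≠ 0 → T u (c • φ)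
  cj : ∀ {u φ w ψ} (c : F), T u φ → T w ψ → T (w + (c * φ w) • u) (ψ - (c * ψ u) • φ)
  ad1 : ∀ {u w φ}, T u φ → T w φ → u + w ≠ 0 → T (u + w) φ
  ad2 : ∀ {u φ ψ}, T u φ → T u ψ → φ + ψ ≠ 0 → T u (φ + ψ)
  irr : ∀ X : Submodule F V, (∀ u φ x, T u φ → x ∈ X → φ x ≠ 0 → u ∈ X) →
    (∀ u φ, T u φ → u ∈ X) ∨ ∀ u φ, T u φ → ∀ x ∈ X, φ x = 0
  c1 : ∀ {u φ}, T u φ → ∃ w ψ, T w ψ ∧ ψ u ≠ 0
  c2 : ∀ {u φ}, T u φ → ∃ w ψ, T w ψ ∧ φ w ≠ 0
  t2 : ∀ {u φ w ψ}, T u φ → T w ψ → (∀ x χ, T x χ → χ u = χ w) → (∀ x χ, T x χ → φ x = ψ x) →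
    u = w ∧ φ = ψ

variable {T : V → Dual F V → Prop} {u w x y : V} {φ ψ χ η : Dual F V}

/-- the span of the centres -/
def UU (T : V → Dual F V → Prop) : Submodule F V := span F {u | ∃ φ, T u φ}

/-- the span of the axes -/
def PP (T : V → Dual F V → Prop) : Submodule F (Dual F V) := span F {φ | ∃ u, T u φ}

/-- centres with many axes -/
def Big (T : V → Dual F V → Prop) (u : V) : Prop := ∀ x, ∃ φ, T u φ ∧ φ x = 0

namespace Tr

variable (h : Tr T)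
include h

theorem dirr (Ψ : Submodule F (Dual F V)) (hΨ : ∀ u φ ψ, T u φ → ψ ∈ Ψ → ψ u ≠ 0 → φ ∈ Ψ) :
    (∀ u φ, T u φ → φ ∈ Ψ) ∨ ∀ u φ, T u φ → ∀ ψ ∈ Ψ, ψ u = 0 := by
  rcases h.irr Ψ.dualCoannihilator (fun u φ x t hx e => by
    rw [mem_dualCoannihilator] at hx ⊢
    intro ψ hψ
    by_contra e'
    exact e (hx _ (hΨ u φ ψ t hψ e'))) with e | e
  · exact Or.inr fun u φ t => (mem_dualCoannihilator _).1 (e u φ t)
  · refine Or.inl fun u φ t => ?_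
    rw [← Subspace.dualCoannihilator_dualAnnihilator_eq (W := Ψ), mem_dualAnnihilator]
    exact e u φ t

theorem cj1 (h1 : T u φ) (h2 : T w ψ) (e : φ w ≠ 0) (t : F) :
    T (w + t • u) (ψ - (t * (φ w)⁻¹ * ψ u) • φ) := by
  have := h.cj (t * (φ w)⁻¹) h1 h2
  rwa [inv_mul_cancel_right₀ e] at this

theorem cm (h1 : T u φ) (h2 : T w ψ) (e : φ w ≠ 0) (e' : ψ u = 0) : T u ψ := by
  have := h.cj1 h1 h2 e 1
  rw [e', mul_zero, zero_smul, sub_zero, one_smul] at this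
  simpa using h.ad1 (h.sm1 h2 (neg_ne_zero.2 one_ne_zero)) this (by simpa using h.ne1 h1)

theorem opp (h1 : T u φ) : ∃ w ψ, T w ψ ∧ φ w ≠ 0 ∧ ψ u ≠ 0 := by
  by_contra hc
  push Not at hc
  rcases h.dirr (span F {ψ | ∃ w, T w ψ ∧ φ w ≠ 0}) (fun x χ θ t hθ e => by
    obtain ⟨ψ, ⟨w, t', e1⟩, e2⟩ := exists_gen (Dual.eval F V x) hθ e
    by_cases e3 : φ x = 0
    · have := sub_mem (subset_span (R := F) (s := {ψ | ∃ w, T w ψ ∧ φ w ≠ 0}) ⟨w, t', e1⟩)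
        (subset_span ⟨_, h.cj 1 t t', by simpa [e3] using e1⟩)
      rw [sub_sub_cancel, one_mul] at this
      exact (smul_mem_iff _ e2).1 this
    · exact subset_span ⟨x, t, e3⟩) with e | e
  · obtain ⟨w, ψ, t, e'⟩ := h.c1 h1
    obtain ⟨_, ⟨w', t', e1⟩, e2⟩ := exists_gen (Dual.eval F V u) (e w ψ t) e'
    exact e2 (hc _ _ t' e1)
  · obtain ⟨w, ψ, t, e'⟩ := h.c2 h1
    obtain ⟨x, χ, t', e''⟩ := h.c2 t
    exact e'' (e x χ t' ψ (subset_span ⟨w, t, e'⟩))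

theorem nonperp (h1 : T x χ) (h2 : T w ψ) : ∃ y η, T y η ∧ χ y ≠ 0 ∧ ψ y ≠ 0 := by
  rcases h.irr (span F {y | ∃ η, T y η ∧ χ y ≠ 0}) (fun u φ v t hv e => by
    obtain ⟨y, ⟨η, t', e1⟩, e2⟩ := exists_gen φ hv e
    by_cases e3 : χ u = 0
    · have := sub_mem (subset_span (R := F) (s := {y | ∃ η, T y η ∧ χ y ≠ 0})
        ⟨_, h.cj 1 t t', by simpa [e3] using e1⟩) (subset_span ⟨η, t', e1⟩)
      rw [add_sub_cancel_left, one_mul] at this
      exact (smul_mem_iff _ e2).1 this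
    · exact subset_span ⟨φ, t, e3⟩) with e | e
  · obtain ⟨u, φ, t, e'⟩ := h.c2 h2
    obtain ⟨y, ⟨η, t', e1⟩, e2⟩ := exists_gen ψ (e u φ t) e'
    exact ⟨y, η, t', e1, e2⟩
  · obtain ⟨u, φ, t, e'⟩ := h.c2 h1
    exact absurd (e x χ h1 u (subset_span ⟨φ, t, e'⟩)) e'

/-- the axes of a centre -/
def Ax (u : V) : Submodule F (Dual F V) where
  carrier := {φ | φ = 0 ∨ T u φ}
  zero_mem' := Or.inl rfl
  add_mem' := by
    rintro a b (rfl | ha) (rfl | hb)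
    · simp
    · simp [hb]
    · simp [ha]
    · exact or_iff_not_imp_left.2 (h.ad2 ha hb)
  smul_mem' := by
    rintro c a (rfl | ha)
    · simp
    · by_cases e : c = 0
      · simp [e]
      · exact Or.inr (h.sm2 ha e)

theorem Ax_z (e : φ ∈ h.Ax u) : φ u = 0 := by
  rcases e with rfl | e
  · rfl
  · exact h.z e

/-- the centres -/
def Ce (ad : ∀ u φ w ψ, T u φ → T w ψ → u + w ≠ 0 → ∃ χ, T (u + w) χ) : Submodule F V where
  carrier := {u | u = 0 ∨ ∃ φ, T u φ}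
  zero_mem' := Or.inl rfl
  add_mem' := by
    rintro a b (rfl | ⟨_, ha⟩) (rfl | ⟨_, hb⟩)
    · simp
    · exact Or.inr ⟨_, by simpa using hb⟩
    · exact Or.inr ⟨_, by simpa using ha⟩
    · exact or_iff_not_imp_left.2 (ad _ _ _ _ ha hb)
  smul_mem' := by
    rintro c a (rfl | ⟨_, ha⟩)
    · simp
    · by_cases e : c = 0
      · simp [e]
      · exact Or.inr ⟨_, h.sm1 ha e⟩

theorem big_of (h1 : T u φ) (h2 : T u ψ) (e1 : φ w ≠ 0) (e2 : ψ w = 0) : Big T u := fun x => by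
  by_cases e : ψ x = 0
  · exact ⟨ψ, h2, e⟩
  · have : φ - (φ x * (ψ x)⁻¹) • ψ ∈ h.Ax u := sub_mem (Or.inr h1) (smul_mem _ _ (Or.inr h2))
    refine ⟨_, this.resolve_left fun e' => e1 ?_, by simp [e]⟩
    simpa [e2] using LinearMap.congr_fun e' w

theorem big_all (hb : Big T u) (h2 : T w ψ) : Big T w := by
  rcases h.irr (span F {y | Big T y}) (fun x χ v t hv e => by
    obtain ⟨y, b, e2⟩ := exists_gen χ hv e
    have b' : Big T (y + (1 * χ y) • x) := fun v => by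
      obtain ⟨φ, t', e'⟩ := b (v - χ v • x)
      exact ⟨_, h.cj 1 t t', by simpa [mul_comm] using e'⟩
    have := sub_mem (subset_span b') (subset_span (R := F) (s := {y | Big T y}) b)
    rw [add_sub_cancel_left, one_mul] at this
    exact (smul_mem_iff _ e2).1 this) with e | e
  · obtain ⟨y, η, t, e'⟩ := h.c2 h2
    obtain ⟨u', b, e2⟩ := exists_gen ψ (e y η t) e'
    obtain ⟨φ, t', e3⟩ := b w
    exact h.big_of h2 (h.cm h2 t' e2 e3) e2 (h.z t')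
  · obtain ⟨φ, t, -⟩ := hb 0
    obtain ⟨y, η, t', e'⟩ := h.c1 t
    exact absurd (e y η t' u (subset_span hb)) e'

theorem L2 {φ1 : Dual F V} (h1 : T y η) (h2 : T x χ) (e1 : η u ≠ 0) (e2 : χ u ≠ 0) (t : T u φ)
    (e3 : φ y ≠ 0) (t1 : T u φ1) (e4 : φ1 y = 0) (e5 : φ1 x ≠ 0) : η ∈ h.Ax u ⊔ F ∙ χ := by
  have a := h.cj1 t h1 e3 (-(χ y * (χ u)⁻¹))
  generalize hs : -(χ y * (χ u)⁻¹) * (φ y)⁻¹ * η u = s at a
  have b := h.cm a t1 (by simpa [h.z t] using e1) (by simp [e4, h.z t1])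
  have c := h.cm b h2 e5 (by simp [e2])
  have d : η - s • φ - (η u * (χ u)⁻¹) • χ ∈ h.Ax u := by
    rcases (sub_mem (Or.inr a) (smul_mem _ (η u * (χ u)⁻¹) (Or.inr c)) : _ ∈ h.Ax _) with e | e
    · exact Or.inl e
    · exact Or.inr (h.cm t e (by simpa [h.z t] using e3) (by simp [h.z t, e2]))
  have : η = (η - s • φ - (η u * (χ u)⁻¹) • χ + s • φ) + (η u * (χ u)⁻¹) • χ := by abel
  rw [this]
  exact add_mem_sup (add_mem d (smul_mem _ _ (Or.inr t))) (smul_mem _ _ (mem_span_singleton_self _))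

theorem exch (e : χ ∈ h.Ax u ⊔ F ∙ η) (e2 : χ u ≠ 0) : h.Ax u ⊔ F ∙ η ≤ h.Ax u ⊔ F ∙ χ := by
  obtain ⟨a, ha, b, hb, rfl⟩ := mem_sup.1 e
  obtain ⟨c, rfl⟩ := mem_span_singleton.1 hb
  have c0 : c ≠ 0 := fun e => e2 (by simp [e, h.Ax_z ha])
  refine sup_le le_sup_left ((span_singleton_le_iff_mem _ _).2 ((smul_mem_iff _ c0).1 ?_))
  have := sub_mem (mem_sup_right (S := h.Ax u) (mem_span_singleton_self (a + c • η))) (mem_sup_left ha)
  rwa [add_sub_cancel_left] at this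

theorem L3 {φ' : Dual F V} (hb : Big T u) (h1 : T y η) (h2 : T x χ) (e2 : χ u ≠ 0) (t : T u φ)
    (e3 : φ y ≠ 0) (t' : T u φ') (e4 : φ' x ≠ 0) : η ∈ h.Ax u ⊔ F ∙ χ := by
  by_cases e1 : η u = 0
  · exact mem_sup_left (Or.inr (h.cm t h1 e3 e1))
  obtain ⟨φ1, t1, e5⟩ := hb y
  by_cases e6 : φ1 x = 0
  · obtain ⟨y', η', t2, e7, e8⟩ := h.opp t1
    exact h.exch (h.L2 h2 t2 e2 e8 t' e4 t1 e6 e7) e2 (h.L2 h1 t2 e1 e8 t e3 t1 e5 e7)
  · exact h.L2 h1 h2 e1 e2 t e3 t1 e5 e6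

theorem big_main (hb : Big T u) {θ : Dual F V} (hθ : θ ∈ PP T) (h0 : θ ≠ 0) (e : θ u = 0) : T u θ := by
  obtain ⟨φ0, t0, -⟩ := hb 0
  obtain ⟨x0, χ0, t1, e1, e2⟩ := h.opp t0
  rcases h.dirr (h.Ax u ⊔ F ∙ χ0) (fun y η θ t hθ e => by
    by_cases c : ∃ φ, T u φ ∧ φ y ≠ 0
    · obtain ⟨φ, t', e'⟩ := c
      exact h.L3 hb t t1 e2 t' e' t0 e1
    · push Not at c
      obtain ⟨a, ha, b, hb', rfl⟩ := mem_sup.1 hθ
      obtain ⟨d, rfl⟩ := mem_span_singleton.1 hb'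
      have a0 : a y = 0 := by
        rcases ha with rfl | ha
        · rfl
        · exact c a ha
      have e3 : χ0 y ≠ 0 := fun e' => e (by simp [a0, e'])
      have := add_mem (h.L3 hb (h.cj 1 t1 t) t1 e2 t0 (by simp [c _ t0, e3, e1]) t0 e1)
        (mem_sup_right (smul_mem _ (1 * η x0) (mem_span_singleton_self χ0)))
      rwa [sub_add_cancel] at this) with e' | e'
  · obtain ⟨a, ha, b, hb', rfl⟩ := mem_sup.1
      ((span_le.2 fun φ ⟨w, t⟩ => e' w φ t : PP T ≤ h.Ax u ⊔ F ∙ χ0) hθ)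
    obtain ⟨d, rfl⟩ := mem_span_singleton.1 hb'
    have : d = 0 := by simpa [h.Ax_z ha, e2] using e
    rw [this, zero_smul, add_zero] at h0 ⊢
    exact ha.resolve_left h0
  · exact absurd (e' u φ0 t0 χ0 (mem_sup_right (mem_span_singleton_self _))) e2

theorem caseB (hb : Big T x) (hu : u ∈ UU T) (h0 : u ≠ 0) : Big T u := by
  have : UU T ≤ h.Ce fun u φ w ψ t t' e => by
      by_cases c : φ w = 0
      · exact ⟨φ, h.ad1 t (h.big_main (h.big_all hb t') (subset_span ⟨u, t⟩) (h.ne2 t) c) e⟩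
      · exact ⟨_, by simpa [add_comm] using h.cj1 t t' c 1⟩ :=
    span_le.2 fun u hu => Or.inr hu
  obtain ⟨φ, t⟩ := (this hu).resolve_left h0
  exact h.big_all hb t

section A

variable (h2 : (2 : F) ≠ 0) {L : Submodule F (V × Dual F V)}
  (hL : ∀ a ∈ L, ∀ b ∈ L, a.2 b.1 = -b.2 a.1) (hr : ∀ w ψ, T w ψ → ∃ d : F, d ≠ 0 ∧ (w, d • ψ) ∈ L)
  {a b c : V × Dual F V}
include hL

theorem sh (ha : a ∈ L) (hb : b ∈ L) (ta : T a.1 a.2) (tb : T b.1 b.2) (e : a.2 b.1 ≠ 0) (t : F) :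
    T (b + t • a).1 (b + t • a).2 := by
  have := h.cj1 ta tb e t
  rwa [hL b hb a ha, mul_neg, inv_mul_cancel_right₀ e,
    show b.2 - -t • a.2 = b.2 + t • a.2 by module] at this

theorem line (ha : a ∈ L) (hb : b ∈ L) (hc : c ∈ L) (ta : T a.1 a.2) (tb : T b.1 b.2) (tc : T c.1 c.2)
    (e : a.2 b.1 = 0) (e1 : c.2 a.1 ≠ 0) (e2 : c.2 b.1 ≠ 0) (s t : F) (e3 : c.2 (s • a + t • b).1 ≠ 0) :
    T (s • a + t • b).1 (s • a + t • b).2 := by
  have y := h.sh hL ha hc ta tc (by rwa [hL a ha c hc, neg_ne_zero]) (-s)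
  have z := h.sh hL hb hc tb tc (by rwa [hL b hb c hc, neg_ne_zero]) t
  have := h.sh hL (add_mem hc (smul_mem _ _ ha)) (add_mem hc (smul_mem _ _ hb)) y z (by
    convert e3 using 1
    simp [h.z tc, e, hL a ha c hc, add_comm]) (-1)
  rwa [show c + t • b + (-1 : F) • (c + -s • a) = s • a + t • b by module] at this

include h2 hr

theorem aux (ha : a ∈ L) (hb : b ∈ L) (hc : c ∈ L) (ta : T a.1 a.2) (tb : T b.1 b.2) (tc : T c.1 c.2)
    (e : a.2 b.1 = 0) (e1 : c.2 a.1 ≠ 0) (e3 : c.2 (a + b).1 ≠ 0) : T (a + b).1 (a + b).2 := by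
  by_cases e2 : c.2 b.1 = 0
  swap
  · simpa using h.line hL ha hb hc ta tb tc e e1 e2 1 1 (by simpa using e3)
  obtain ⟨y, η, t, f1, f2⟩ := h.nonperp ta tb
  obtain ⟨d, d0, hd⟩ := hr y η t
  have g1 : (d • η) a.1 ≠ 0 := by rw [hL _ hd a ha]; exact neg_ne_zero.2 f1
  have g2 : (d • η) b.1 ≠ 0 := by rw [hL _ hd b hb]; exact neg_ne_zero.2 f2
  have t' := h.sm2 t d0
  generalize d • η = ζ at hd g1 g2 t'
  by_cases g3 : ζ a.1 + ζ b.1 = 0
  swap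
  · simpa using h.line hL ha hb hd ta tb t' e g1 g2 1 1 (by simpa using g3)
  have tb' := h.line hL ha hb hd ta tb t' e g1 g2 1 (-1) (by
    have : ζ a.1 + -ζ b.1 = 2 * ζ a.1 := by linear_combination -g3
    simpa [this, h2] using g1)
  have := h.line hL ha (add_mem (smul_mem _ 1 ha) (smul_mem _ (-1) hb)) hc ta tb' tc (by simp [e, h.z ta])
    e1 (by simpa [e2] using e1) 2 (-1)
  rw [show (2 : F) • a + (-1 : F) • ((1 : F) • a + (-1 : F) • b) = a + b by module] at this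
  exact this e3

theorem addA (ha : a ∈ L) (hb : b ∈ L) (ta : T a.1 a.2) (tb : T b.1 b.2) (h0 : a + b ≠ 0) :
    T (a + b).1 (a + b).2 := by
  by_cases e : a.2 b.1 = 0
  swap
  · simpa [add_comm] using h.sh hL ha hb ta tb e 1
  have : ∃ c ∈ L, T c.1 c.2 ∧ c.2 (a + b).1 ≠ 0 := by
    by_contra hc
    push Not at hc
    have k : ∀ x χ, T x χ → χ (a + b).1 = 0 ∧ (a + b).2 x = 0 := fun x χ t => by
      obtain ⟨d, d0, hd⟩ := hr x χ t
      have := hc _ hd (h.sm2 t d0)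
      exact ⟨(mul_eq_zero.1 this).resolve_left d0, by rw [hL _ (add_mem ha hb) _ hd, this, neg_zero]⟩
    have n1 : (-1 : F) ≠ 0 := neg_ne_zero.2 one_ne_zero
    obtain ⟨e1, e2⟩ := h.t2 ta (h.sm2 (h.sm1 tb n1) n1)
      (fun x χ t => by simpa [add_eq_zero_iff_eq_neg] using (k x χ t).1)
      (fun x χ t => by simpa [add_eq_zero_iff_eq_neg] using (k x χ t).2)
    exact h0 (Prod.ext (by simp [e1]) (LinearMap.ext fun v => by simp [e2]))
  obtain ⟨c, hc, tc, e1⟩ := this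
  by_cases e2 : c.2 a.1 = 0
  · rw [add_comm] at e1 ⊢
    exact h.aux h2 hL hr hb ha hc tb ta tc (by rw [hL b hb a ha, e, neg_zero]) (by simpa [e2] using e1) e1
  · exact h.aux h2 hL hr ha hb hc ta tb tc e e2 e1

end A

theorem caseA (h2 : (2 : F) ≠ 0) (hA : ∀ u φ w ψ, T u φ → T w ψ → φ w ≠ 0 → ψ u ≠ 0) :
    ∃ L : Submodule F (V × Dual F V), (∀ a ∈ L, a ≠ 0 → T a.1 a.2) ∧
      (∀ a ∈ L, ∀ b ∈ L, a.2 b.1 = -b.2 a.1) ∧ ∀ w ψ, T w ψ → ∃ d : F, d ≠ 0 ∧ (w, d • ψ) ∈ L := by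
  by_cases hne : ∃ x χ, T x χ
  swap
  · exact ⟨⊥, fun a ha h0 => absurd ha h0, fun a ha b hb => by
      rw [(mem_bot F).1 ha, (mem_bot F).1 hb]; simp, fun w ψ t => absurd ⟨w, ψ, t⟩ hne⟩
  obtain ⟨x, χ, tx⟩ := hne
  let S : Set (V × Dual F V) := {a | T a.1 a.2 ∧ (a = (x, χ) ∨ χ a.1 ≠ 0 ∧ a.2 x = -χ a.1)}
  have c0 : ∀ a ∈ S, ∀ b ∈ S, a.2 b.1 = -b.2 a.1 := by
    rintro a ⟨ta, rfl | ⟨a1, a2⟩⟩ b ⟨tb, rfl | ⟨b1, b2⟩⟩
    · simp [h.z tx]
    · simp [b2]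
    · exact a2
    · have t := h.cj1 tx tb b1 (a.2 b.1 * (χ a.1)⁻¹)
      have := not_not.1 fun e => hA _ _ _ _ t ta e (by simp [a2, a1])
      simp only [LinearMap.sub_apply, LinearMap.smul_apply, smul_eq_mul, b2] at this
      field_simp at this
      linear_combination this
  have c1 : ∀ a ∈ span F S, ∀ b ∈ span F S, a.2 b.1 = -b.2 a.1 := fun a ha b hb => by
    induction ha, hb using span_induction₂ with
    | mem_mem a b ha hb => exact c0 a ha b hb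
    | zero_left => simp
    | zero_right => simp
    | add_left a b c _ _ _ h1 h2 => simp [h1, h2, add_comm]
    | add_right a b c _ _ _ h1 h2 => simp [h1, h2, add_comm]
    | smul_left r a b _ _ h1 => simp [h1]
    | smul_right r a b _ _ h1 => simp [h1]
  have r0 : ∀ w ψ, T w ψ → χ w ≠ 0 → ∃ d : F, d ≠ 0 ∧ (w, d • ψ) ∈ S := fun w ψ t e =>
    have e' := hA _ _ _ _ tx t e
    have d0 : -χ w * (ψ x)⁻¹ ≠ 0 := mul_ne_zero (neg_ne_zero.2 e) (inv_ne_zero e')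
    ⟨_, d0, h.sm2 t d0, Or.inr ⟨e, by simp [e']⟩⟩
  have r1 : ∀ w ψ, T w ψ → ∃ d : F, d ≠ 0 ∧ (w, d • ψ) ∈ span F S := fun w ψ t => by
    by_cases e : χ w = 0
    swap
    · exact (r0 w ψ t e).imp fun d hd => ⟨hd.1, subset_span hd.2⟩
    obtain ⟨y, η, ty, e1, e2⟩ := h.nonperp tx t
    obtain ⟨d, -, hd⟩ := r0 y η ty e1
    generalize d • η = ζ at hd
    have e3 : ψ x = 0 := by_contra fun e' => hA _ _ _ _ t tx e' e
    have e4 : ζ x = -χ y := by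
      rcases hd.2 with e' | e'
      · exact absurd (h.z tx) (by rw [← show y = x from (Prod.ext_iff.1 e').1]; exact e1)
      · exact e'.2
    have m : (y + (1 * ψ y) • w, ζ - (1 * ζ w) • ψ) ∈ S :=
      ⟨h.cj 1 t hd.1, Or.inr ⟨by simpa [e] using e1, by simp [e, e3, e4]⟩⟩
    refine ⟨-((ψ y)⁻¹ * ζ w), neg_ne_zero.2 (mul_ne_zero (inv_ne_zero e2) (hA _ _ _ _ t hd.1 e2)), ?_⟩
    convert smul_mem _ (ψ y)⁻¹ (sub_mem (subset_span m) (subset_span (R := F) hd)) using 1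
    refine Prod.ext ?_ ?_
    · simp [smul_smul, e2]
    · exact LinearMap.ext fun v => by simp [mul_assoc]
  refine ⟨span F S, fun a ha => ?_, c1, r1⟩
  induction ha using span_induction with
  | mem a ha => exact fun _ => ha.1
  | zero => exact fun e => absurd rfl e
  | add a b ha hb h3 h4 =>
    intro e
    by_cases a0 : a = 0
    · rw [a0, zero_add] at e ⊢; exact h4 e
    by_cases b0 : b = 0
    · rw [b0, add_zero] at e ⊢; exact h3 e
    exact h.addA h2 c1 r1 ha hb (h3 a0) (h4 b0) e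
  | smul r a _ h3 =>
    intro e
    have r0 : r ≠ 0 := fun e' => e (by simp [e'])
    exact h.sm2 (h.sm1 (h3 fun e' => e (by simp [e'])) r0) r0

theorem main (h2 : (2 : F) ≠ 0) :
    (∀ u ∈ UU T, u ≠ 0 → ∃ φ, T u φ) ∧ (∀ θ ∈ PP T, (∀ u ∈ UU T, θ u = 0) → θ = 0) ∧
    ((∀ u ∈ UU T, u ≠ 0 → ∀ θ ∈ PP T, θ ≠ 0 → θ u = 0 → T u θ) ∨
      ∃ B : LinearMap.BilinForm F (UU T), B.IsAlt ∧ B.Nondegenerate ∧
        (∀ u : UU T, u ≠ 0 → ∃ φ, T u φ ∧ ∀ w : UU T, φ w = B w u) ∧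
        ∀ (u : UU T) φ, T u φ → ∃ c, ∀ w : UU T, φ w = c * B w u) := by
  have k : ∀ u θ, T u θ → ¬ ∀ u ∈ UU T, θ u = 0 := fun u θ t e =>
    let ⟨w, ψ, t', e'⟩ := h.c2 t; e' (e w (subset_span ⟨ψ, t'⟩))
  by_cases hA : ∀ u φ w ψ, T u φ → T w ψ → φ w ≠ 0 → ψ u ≠ 0
  swap
  · push Not at hA
    obtain ⟨u, φ, w, ψ, t, t', e, e'⟩ := hA
    have hb := h.big_of t (h.cm t t' e e') e (h.z t')
    refine ⟨fun v hv h0 => (h.caseB hb hv h0 0).imp fun _ e => e.1, fun θ hθ e => by_contra fun h0 =>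
      k u θ (h.big_main hb hθ h0 (e u (subset_span ⟨φ, t⟩))) e,
      Or.inl fun v hv h0 θ hθ => h.big_main (h.caseB hb hv h0) hθ⟩
  obtain ⟨L, l1, l2, l3⟩ := h.caseA h2 hA
  have m : ∀ a : L, a.1.1 ∈ UU T := fun a => by
    by_cases e : a.1 = 0
    · rw [e]; exact zero_mem _
    · exact subset_span ⟨_, l1 _ a.2 e⟩
  let f : L →ₗ[F] UU T := ((LinearMap.fst F _ _).comp L.subtype).codRestrict _ m
  have inj : Function.Injective f := LinearMap.ker_eq_bot.1 <| LinearMap.ker_eq_bot'.2 fun a e =>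
    Subtype.ext (by_contra fun e' => h.ne1 (l1 _ a.2 e') (congrArg Subtype.val e))
  have sur : Function.Surjective f := fun u => by
    obtain ⟨a, ha, e⟩ := (span_le.2 fun w ⟨ψ, t⟩ => let ⟨_, _, hd⟩ := l3 w ψ t; ⟨_, hd, rfl⟩ :
      UU T ≤ L.map (LinearMap.fst F _ _)) u.2
    exact ⟨⟨a, ha⟩, Subtype.ext e⟩
  let e := LinearEquiv.ofBijective f ⟨inj, sur⟩
  have e1 : ∀ u : UU T, (e.symm u).1.1 = u := fun u => congrArg Subtype.val (e.apply_symm_apply u)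
  have e0 : ∀ u : UU T, u ≠ 0 → T u (e.symm u).1.2 := fun u u0 => by
    have := l1 _ (e.symm u).2 fun e' => u0 (Subtype.ext (by rw [← e1, e']; rfl))
    rwa [e1] at this
  let B : LinearMap.BilinForm F (UU T) := LinearMap.flip
    ((UU T).subtype.dualMap ∘ₗ LinearMap.snd F _ _ ∘ₗ L.subtype ∘ₗ e.symm.toLinearMap)
  have hB : ∀ u w : UU T, B w u = (e.symm u).1.2 w := fun _ _ => rfl
  have alt : B.IsAlt := fun u => by
    by_cases u0 : u = 0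
    · simp [u0]
    · exact h.z (e0 u u0)
  refine ⟨fun u hu u0 => ⟨_, e0 ⟨u, hu⟩ fun e => u0 (congrArg Subtype.val e)⟩, fun θ hθ e => ?_,
    Or.inr ⟨B, alt, ?_, fun u u0 => ⟨_, e0 u u0, fun w => rfl⟩, fun u φ t => ?_⟩⟩
  · obtain ⟨a, ha, rfl⟩ := (span_le.2 fun ψ ⟨w, t⟩ => let ⟨_, d0, hd⟩ := l3 w ψ t
      (smul_mem_iff _ d0).1 ⟨_, hd, rfl⟩ : PP T ≤ L.map (LinearMap.snd F _ _)) hθ
    by_contra h0
    exact k _ _ (l1 a ha fun e' => h0 (by simp [e'])) e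
  · have : B.SeparatingRight := fun u hu => by_contra fun u0 => k _ _ (e0 u u0) fun w hw => hu ⟨w, hw⟩
    exact ⟨fun u hu => this u fun w => alt.isRefl _ _ (hu w), this⟩
  · obtain ⟨d, d0, hd⟩ := l3 u φ t
    have : e.symm u = ⟨_, hd⟩ := e.symm_apply_eq.2 rfl
    exact ⟨d⁻¹, fun w => by simp [hB, this, d0]⟩

end Tr

end Cfsg.Agent.H3.McL
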