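import Cfsg.Agent.H3.McL1
import Cfsg.Agent.H10.Alt
import Cfsg.Agent.H10.SL

/-! McLaughlin's theorem over prime fields of odd order. -/

set_option autoImplicit false
set_option linter.unusedSectionVars false
set_option linter.unusedSimpArgs false

namespace Cfsg.Agent.H3.McL

open Module Submodule

variable {F V : Type*} [Field F] [AddCommGroup V] [Module F V] [FiniteDimensional F V]
  {K H : Subgroup (V ≃ₗ[F] V)} {g : V ≃ₗ[F] V} {u w x : V} {φ ψ : Dual F V}
  {C D : Set (V × Dual F V)} {X Y : Submodule F V}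

theorem sl_gen (R : Subgroup (V ≃ₗ[F] V))
    (h : ∀ (f : Dual F V) (v : V) (e : f v = 0), LinearEquiv.transvection e ∈ R)
    (e : LinearMap.det (g : V →ₗ[F] V) = 1) : g ∈ R := by
  classical
  let b := Module.finBasis F V
  have : ∀ A : Matrix.SpecialLinearGroup (Fin (finrank F V)) F, ∃ f ∈ R,
      LinearMap.toMatrix b b (f : V →ₗ[F] V) = A.1 := fun A => by
    refine H10.SL_transvection_induction (fun A => ∃ f ∈ R, LinearMap.toMatrix b b (f : V →ₗ[F] V) = A.1)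
      ⟨1, one_mem _, LinearMap.toMatrix_id b⟩ (fun i j hij a => ?_) ?_ A
    · refine ⟨_, h (a • b.coord j) (b i) (by simp [hij]), Matrix.ext fun r s => ?_⟩
      change _ = Matrix.transvection i j a r s
      simp only [LinearMap.toMatrix_apply, LinearEquiv.transvection.coe_toLinearMap,
        LinearMap.transvection.apply, map_add, map_smul, Basis.repr_self, Matrix.transvection,
        Matrix.add_apply, Matrix.one_apply, Matrix.single_apply, Finsupp.add_apply, Finsupp.smul_apply,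
        LinearMap.smul_apply, Basis.coord_apply, Finsupp.single_apply, smul_eq_mul]
      by_cases e1 : i = r <;> by_cases e2 : j = s <;> simp [e1, e2, eq_comm]
    · rintro A B ⟨f, hf, e1⟩ ⟨f', hf', e2⟩
      exact ⟨f * f', mul_mem hf hf', by
        rw [Matrix.SpecialLinearGroup.coe_mul, ← e1, ← e2, ← LinearMap.toMatrix_mul]; rfl⟩
  obtain ⟨f, hf, e'⟩ := this ⟨LinearMap.toMatrix b b (g : V →ₗ[F] V), by rw [LinearMap.det_toMatrix, e]⟩
  rwa [← LinearEquiv.toLinearMap_injective ((LinearMap.toMatrix b b).injective e')]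

/-- `g` is the transvection with centre `u` and axis `φ` -/
def Is (g : V ≃ₗ[F] V) (u : V) (φ : Dual F V) : Prop := ∀ v, g v = v + φ v • u

/-- the transvections of `K` -/
def TK (K : Subgroup (V ≃ₗ[F] V)) (u : V) (φ : Dual F V) : Prop :=
  u ≠ 0 ∧ φ ≠ 0 ∧ φ u = 0 ∧ ∃ g ∈ K, Is g u φ

theorem Is.inv (h : Is g u φ) (e : φ u = 0) : Is g⁻¹ u ((-1 : F) • φ) := fun v => by
  change g.symm v = _
  rw [LinearEquiv.symm_apply_eq, h]
  simp [e]

theorem exists_ne (h : φ ≠ 0) : ∃ v, φ v ≠ 0 := by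
  by_contra hc
  push Not at hc
  exact h (LinearMap.ext hc)

theorem TK.mono (h : TK K u φ) (e : K ≤ H) : TK H u φ :=
  let ⟨h1, h2, h3, g, hg, h4⟩ := h; ⟨h1, h2, h3, g, e hg, h4⟩

theorem TK.ad1 (h : TK K u φ) (h' : TK K w φ) (e : u + w ≠ 0) : TK K (u + w) φ := by
  obtain ⟨-, h2, h3, g, hg, h4⟩ := h
  obtain ⟨-, -, h5, g', hg', h6⟩ := h'
  refine ⟨e, h2, by simp [h3, h5], g * g', mul_mem hg hg', fun v => ?_⟩
  rw [LinearEquiv.mul_apply, h6, h4]
  simp only [map_add, map_smul, h5]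
  module

theorem TK.ad2 (h : TK K u φ) (h' : TK K u ψ) (e : φ + ψ ≠ 0) : TK K u (φ + ψ) := by
  obtain ⟨h1, -, h3, g, hg, h4⟩ := h
  obtain ⟨-, -, h5, g', hg', h6⟩ := h'
  refine ⟨h1, e, by simp [h3, h5], g * g', mul_mem hg hg', fun v => ?_⟩
  rw [LinearEquiv.mul_apply, h6, h4]
  simp only [map_add, map_smul, h3, LinearMap.add_apply]
  module

/-- the group generated by a set of transvections -/
def KC (C : Set (V × Dual F V)) : Subgroup (V ≃ₗ[F] V) := Subgroup.closure {g | ∃ a ∈ C, Is g a.1 a.2}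

/-- invariant subspaces -/
def Inv (C : Set (V × Dual F V)) (X : Submodule F V) : Prop := ∀ a ∈ C, ∀ x ∈ X, a.2 x ≠ 0 → a.1 ∈ X

/-- the common kernel -/
def NC (C : Set (V × Dual F V)) : Submodule F V := ⨅ a ∈ C, LinearMap.ker a.2

theorem mem_NC : x ∈ NC C ↔ ∀ a ∈ C, a.2 x = 0 := by simp [NC]

theorem KC_ind (hz : ∀ a ∈ C, a.2 a.1 = 0) {P : (V ≃ₗ[F] V) → Prop} (h1 : P 1)
    (hm : ∀ g, ∀ a ∈ C, ∀ c : F, Is g a.1 (c • a.2) → P g) (hmul : ∀ g g', P g → P g' → P (g * g'))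
    (hg : g ∈ KC C) : P g := by
  induction hg using Subgroup.closure_induction'' with
  | mem g hg => obtain ⟨a, ha, e⟩ := hg; exact hm g a ha 1 (by rwa [one_smul])
  | inv_mem g hg => obtain ⟨a, ha, e⟩ := hg; exact hm _ a ha _ (e.inv (hz a ha))
  | one => exact h1
  | mul g g' _ _ h h' => exact hmul g g' h h'

theorem k1 (hz : ∀ a ∈ C, a.2 a.1 = 0) (h : ∀ a ∈ C, a.1 ∈ X) (hg : g ∈ KC C) : ∀ v, g v - v ∈ X := by
  refine KC_ind hz (P := fun g => ∀ v, g v - v ∈ X) (fun v => by simp) (fun g a ha c e v => ?_)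
    (fun g g' h h' v => ?_) hg
  · rw [e, add_sub_cancel_left]; exact smul_mem _ _ (h a ha)
  · simpa using add_mem (h (g' v)) (h' v)

theorem k2 (hz : ∀ a ∈ C, a.2 a.1 = 0) (h : x ∈ NC C) (hg : g ∈ KC C) : g x = x :=
  KC_ind hz (P := fun g => g x = x) rfl (fun g a ha c e => by rw [e]; simp [mem_NC.1 h a ha])
    (fun g g' h h' => by rw [LinearEquiv.mul_apply, h', h]) hg

theorem k4 (hz : ∀ a ∈ C, a.2 a.1 = 0) (h : Inv C X) (hg : g ∈ KC C) : ∀ x ∈ X, g x ∈ X := by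
  refine KC_ind hz (P := fun g => ∀ x ∈ X, g x ∈ X) (fun x hx => hx) (fun g a ha c e x hx => ?_)
    (fun g g' h h' x hx => h _ (h' x hx)) hg
  rw [e]
  by_cases e' : a.2 x = 0
  · simpa [e'] using hx
  · exact add_mem hx (smul_mem _ _ (h a ha x hx e'))

theorem map_eq (hz : ∀ a ∈ C, a.2 a.1 = 0) (h : Inv C X) (hg : g ∈ KC C) :
    X.map (g : V →ₗ[F] V) = X :=
  le_antisymm (map_le_iff_le_comap.2 (k4 hz h hg)) fun x hx =>
    ⟨_, k4 hz h (inv_mem hg) x hx, g.apply_symm_apply x⟩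

theorem TK.mem (t : TK (KC C) u φ) (hz : ∀ a ∈ C, a.2 a.1 = 0) (h : ∀ a ∈ C, a.1 ∈ X) : u ∈ X := by
  obtain ⟨-, h2, -, g, hg, e⟩ := t
  obtain ⟨v, hv⟩ := exists_ne h2
  have := k1 hz h hg v
  rwa [e, add_sub_cancel_left, smul_mem_iff _ hv] at this

theorem TK.kill (t : TK (KC C) u φ) (hz : ∀ a ∈ C, a.2 a.1 = 0) (h : x ∈ NC C) : φ x = 0 := by
  obtain ⟨h1, -, -, g, hg, e⟩ := t
  have := k2 hz h hg
  rw [e, add_eq_left, smul_eq_zero] at this
  exact this.resolve_right h1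

variable (hF : ∀ c : F, ∃ n : ℕ, (n : F) = c)

section

include hF

theorem TK.ex (h : TK K u φ) (c : F) : ∃ g ∈ K, Is g u (c • φ) := by
  obtain ⟨-, -, h3, g, hg, h4⟩ := h
  obtain ⟨n, rfl⟩ := hF c
  refine ⟨g ^ n, pow_mem hg n, ?_⟩
  induction n with
  | zero => exact fun v => by simp
  | succ n ih =>
    intro v
    rw [pow_succ', LinearEquiv.mul_apply, ih, h4]
    simp only [map_add, map_smul, h3, LinearMap.smul_apply, smul_eq_mul, Nat.cast_add, Nat.cast_one]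
    module

theorem TK.sm2 (h : TK K u φ) {c : F} (hc : c ≠ 0) : TK K u (c • φ) :=
  ⟨h.1, smul_ne_zero hc h.2.1, by simp [h.2.2.1], h.ex hF c⟩

theorem TK.sm1 (h : TK K u φ) {c : F} (hc : c ≠ 0) : TK K (c • u) φ := by
  obtain ⟨g, hg, e⟩ := h.ex hF c
  exact ⟨smul_ne_zero hc h.1, h.2.1, by simp [h.2.2.1], g, hg, fun v => by
    rw [e]; simp [smul_smul, mul_comm]⟩

theorem TK.cj (c : F) (h : TK K u φ) (h' : TK K w ψ) :
    TK K (w + (c * φ w) • u) (ψ - (c * ψ u) • φ) := by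
  obtain ⟨g, hg, e⟩ := h.ex hF c
  have z := h.2.2.1
  have e' := e.inv (by simp [z])
  obtain ⟨h1, h2, h3, g', hg', h4⟩ := h'
  refine ⟨fun e0 => h1 (g.injective (by rw [e, map_zero]; exact e0)), fun e0 => h2 (LinearMap.ext fun v => ?_),
    by simp [z, h3]; ring, g * g' * g⁻¹, mul_mem (mul_mem hg hg') (inv_mem hg), fun v => ?_⟩
  · have := LinearMap.congr_fun e0 (g v)
    rw [e] at this
    simpa [z, mul_comm, mul_left_comm] using this
  · rw [LinearEquiv.mul_apply, LinearEquiv.mul_apply, e', h4, e]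
    simp only [map_add, map_smul, z, LinearMap.smul_apply, LinearMap.sub_apply, smul_eq_mul]
    module

theorem TK.cm (h1 : TK K u φ) (h2 : TK K w ψ) (e : φ w ≠ 0) (e' : ψ u = 0) : TK K u ψ := by
  have := h1.cj hF (φ w)⁻¹ h2
  rw [e', mul_zero, zero_smul, sub_zero, inv_mul_cancel₀ e, one_smul] at this
  simpa using (h2.sm1 hF (neg_ne_zero.2 one_ne_zero)).ad1 this (by simpa using h1.1)

end

/-- all transvections of `H` -/
def Sg (H : Subgroup (V ≃ₗ[F] V)) : Set (V × Dual F V) := {a | TK H a.1 a.2}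

theorem Sg_z : ∀ a ∈ Sg H, a.2 a.1 = 0 := fun _ h => h.2.2.1

/-- noncommuting transvections -/
def adj (H : Subgroup (V ≃ₗ[F] V)) (a b : V × Dual F V) : Prop :=
  a ∈ Sg H ∧ b ∈ Sg H ∧ (a.2 b.1 ≠ 0 ∨ b.2 a.1 ≠ 0)

/-- components -/
structure Good (H : Subgroup (V ≃ₗ[F] V)) (C : Set (V × Dual F V)) : Prop where
  sub : C ⊆ Sg H
  cl : ∀ a ∈ C, ∀ b, adj H a b → b ∈ C
  con : ∀ a ∈ C, ∀ b ∈ C, Relation.ReflTransGen (adj H) a b

theorem good_comp {a : V × Dual F V} (ha : a ∈ Sg H) :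
    Good H {b | Relation.ReflTransGen (adj H) a b} := by
  refine ⟨fun b hb => ?_, fun b hb c e => hb.tail e, fun b hb c hc => .trans ?_ hc⟩
  · cases hb with
    | refl => exact ha
    | tail _ e => exact e.2.1
  · clear hc
    induction hb with
    | refl => exact .refl
    | tail _ e ih => exact .head ⟨e.2.1, e.1, e.2.2.symm⟩ ih

theorem good_empty : Good H ∅ := ⟨Set.empty_subset _, fun _ h => h.elim, fun _ h => h.elim⟩

theorem Good.z (h : Good H C) : ∀ a ∈ C, a.2 a.1 = 0 := fun a ha => Sg_z a (h.sub ha)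

theorem Good.le (h : Good H C) : KC C ≤ H := (Subgroup.closure_le _).2 fun g ⟨a, ha, e⟩ => by
  obtain ⟨-, -, -, g', hg', e'⟩ := h.sub ha
  rwa [show g = g' from LinearEquiv.ext fun v => (e v).trans (e' v).symm]

theorem Good.tk (h : Good H C) {a : V × Dual F V} (ha : a ∈ C) : TK (KC C) a.1 a.2 :=
  let ⟨h1, h2, h3, g, _, e⟩ := h.sub ha; ⟨h1, h2, h3, g, Subgroup.subset_closure ⟨a, ha, e⟩, e⟩

theorem Good.path (h : Good H C) {a b : V × Dual F V} (ha : a ∈ C)
    (e : Relation.ReflTransGen (adj H) a b) : b ∈ C := by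
  induction e with
  | refl => exact ha
  | tail _ e ih => exact h.cl _ ih _ e

theorem Good.eq (h : Good H C) (h' : Good H D) {a : V × Dual F V} (ha : a ∈ C) (ha' : a ∈ D) : C = D :=
  Set.Subset.antisymm (fun b hb => h'.path ha' (h.con a ha b hb)) fun b hb => h.path ha (h'.con a ha' b hb)

/-- the module of a component -/
abbrev U (C : Set (V × Dual F V)) : Submodule F V := UU (TK (KC C))

theorem Good.memU (h : Good H C) {a : V × Dual F V} (ha : a ∈ C) : a.1 ∈ U C := subset_span ⟨_, h.tk ha⟩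

theorem Good.U_le (h : Good H C) (hX : ∀ a ∈ C, a.1 ∈ X) : U C ≤ X :=
  span_le.2 fun _ ⟨_, t⟩ => t.mem h.z hX

theorem Good.gen (h : Good H C) (hx : x ∈ U C) (e : φ x ≠ 0) : ∃ a ∈ C, φ a.1 ≠ 0 := by
  by_contra hc
  push Not at hc
  exact e (h.U_le (X := LinearMap.ker φ) hc hx)

theorem Good.inv (h : Good H C) (hX : Inv C X) : Inv (Sg H) (X ⊓ U C) := fun b hb x hx e => by
  obtain ⟨a, ha, e'⟩ := h.gen hx.2 e
  have := h.cl a ha b ⟨h.sub ha, hb, Or.inr e'⟩
  exact ⟨hX b this x hx.1 e, h.memU this⟩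

theorem Good.invU (h : Good H C) : Inv (Sg H) (U C) := by
  simpa using h.inv (X := ⊤) fun _ _ _ _ _ => mem_top

theorem invN : Inv C (NC C) := fun a ha _ hx e => absurd (mem_NC.1 hx a ha) e

theorem Good.orth (h : Good H C) (h' : Good H D) (e : C ≠ D) : U C ≤ NC D :=
  h.U_le fun a ha => mem_NC.2 fun b hb => by_contra fun e' =>
    e (h.eq h' ha (h'.cl b hb a ⟨h'.sub hb, h.sub ha, Or.inl e'⟩))

variable {p : ℕ} [hp : Fact p.Prime] [CharP F p] (h3 : 3 ≤ p) (hH : H ≤ KC (Sg H))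
  (hO : ∀ N : Subgroup H, N.Normal → IsPGroup p N → N = ⊥)
include h3 hH hO

theorem triv (hX : Inv (Sg H) X) (hY : Inv (Sg H) Y) (hg : g ∈ H) (h1 : ∀ v, g v - v ∈ X)
    (h2 : ∀ x ∈ X, g x - x ∈ Y) (h4 : ∀ y ∈ Y, g y = y) : g = 1 := by
  have kX : ∀ g : H, ∀ x ∈ X, g.1 x ∈ X := fun g => k4 Sg_z hX (hH g.2)
  have kY : ∀ g : H, ∀ x ∈ Y, g.1 x ∈ Y := fun g => k4 Sg_z hY (hH g.2)
  have iv : ∀ (g : H) v, g.1 (g⁻¹.1 v) = v := fun g v => g.1.apply_symm_apply v
  let N : Subgroup H :=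
    { carrier := {g | (∀ v, g.1 v - v ∈ X) ∧ (∀ x ∈ X, g.1 x - x ∈ Y) ∧ ∀ y ∈ Y, g.1 y = y}
      one_mem' := ⟨fun v => by simp, fun v _ => by simp, fun _ _ => rfl⟩
      mul_mem' := fun {a b} ha hb => ⟨fun v => by simpa using add_mem (ha.1 (b.1 v)) (hb.1 v),
        fun x hx => by simpa using add_mem (ha.2.1 _ (kX b x hx)) (hb.2.1 x hx),
        fun y hy => by change a.1 (b.1 y) = y; rw [hb.2.2 y hy, ha.2.2 y hy]⟩
      inv_mem' := fun {a} ha => ⟨fun v => by simpa only [iv, neg_sub] using neg_mem (ha.1 (a⁻¹.1 v)),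
        fun x hx => by simpa only [iv, neg_sub] using neg_mem (ha.2.1 _ (kX a⁻¹ x hx)),
        fun y hy => a.1.injective (by rw [iv, ha.2.2 y hy])⟩ }
  have hn : N.Normal := ⟨fun a ha b => ⟨fun v => by
      have := kX b _ (ha.1 (b⁻¹.1 v))
      rwa [map_sub, iv] at this,
    fun x hx => by
      have := kY b _ (ha.2.1 _ (kX b⁻¹ x hx))
      rwa [map_sub, iv] at this,
    fun y hy => by change b.1 (a.1 (b⁻¹.1 y)) = y; rw [ha.2.2 _ (kY b⁻¹ y hy), iv]⟩⟩
  have hP : IsPGroup p N := fun a => ⟨1, by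
    rw [pow_one]
    refine Subtype.ext (Subtype.ext (LinearEquiv.toLinearMap_injective ?_))
    let A : End F V := (a.1.1 : V →ₗ[F] V) - 1
    have A3 : A ^ 3 = 0 := LinearMap.ext fun v => sub_eq_zero.2 (a.2.2.2 _ (a.2.2.1 _ (a.2.1 v)))
    obtain ⟨r, e⟩ := (Commute.one_right A).exists_add_pow_prime_eq hp.out
    rw [sub_add_cancel, pow_eq_zero_of_le h3 A3, one_pow, zero_add, ← map_natCast (algebraMap F (End F V)),
      CharP.cast_eq_zero, map_zero, zero_mul, zero_mul, zero_mul, add_zero] at e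
    refine LinearMap.ext fun v => ?_
    have := LinearMap.congr_fun e v
    rw [End.pow_apply] at this
    exact (LinearEquiv.pow_apply _ _ _).trans this⟩
  have : (⟨g, hg⟩ : H) ∈ N := ⟨h1, h2, h4⟩
  rw [hO N hn hP, Subgroup.mem_bot] at this
  exact congrArg Subtype.val this

theorem t1 (hX : Inv (Sg H) X) (t : TK H u φ) (hu : u ∈ X) : ∃ x ∈ X, φ x ≠ 0 := by
  by_contra hc
  push Not at hc
  obtain ⟨h1, h2, -, g, hg, e⟩ := t
  have := triv h3 hH hO hX (Y := ⊥) (fun a _ x hx e => absurd (by simp [(mem_bot F).1 hx]) e) hg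
    (fun v => by rw [e, add_sub_cancel_left]; exact smul_mem _ _ hu)
    (fun x hx => by simp [e x, hc x hx]) fun y hy => by simp [(mem_bot F).1 hy]
  obtain ⟨v, hv⟩ := exists_ne h2
  have := e v
  simp_all

include hF

theorem Good.tr (h : Good H C) : Tr (TK (KC C)) where
  ne1 t := t.1
  ne2 t := t.2.1
  z t := t.2.2.1
  sm1 t := t.sm1 hF
  sm2 t := t.sm2 hF
  cj := TK.cj hF
  ad1 := TK.ad1
  ad2 := TK.ad2
  irr X hX := by
    have hX' : Inv C X := fun a ha x hx => hX _ _ x (h.tk ha) hx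
    by_cases e : ∃ a ∈ C, a.1 ∈ X
    · obtain ⟨a, ha, e⟩ := e
      refine Or.inl fun u φ t => t.mem h.z fun b hb => ?_
      have := h.con a ha b hb
      clear hb
      induction this with
      | refl => exact e
      | @tail b c r e' ih =>
        have hb := h.path ha r
        have hc := h.cl b hb c e'
        by_contra hn
        have k : ∀ x ∈ X, c.2 x = 0 := fun x hx => by_contra fun e => hn (hX' c hc x hx e)
        obtain ⟨x, hx, e''⟩ := t1 h3 hH hO (h.inv hX') (TK.cm hF e'.1 e'.2.1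
          (e'.2.2.resolve_right (not_not.2 (k _ ih))) (k _ ih)) ⟨ih, h.memU hb⟩
        exact e'' (k x hx.1)
    · push Not at e
      exact Or.inr fun u φ t x hx => t.kill h.z
        (mem_NC.2 fun a ha => by_contra fun e' => e a ha (hX' a ha x hx e'))
  c1 {u φ} t := by
    by_contra hc
    push Not at hc
    obtain ⟨x, hx, e⟩ := t1 h3 hH hO (h.inv invN) (t.mono h.le)
      ⟨mem_NC.2 fun a ha => hc _ _ (h.tk ha), subset_span ⟨_, t⟩⟩
    exact e (t.kill h.z hx.1)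
  c2 {u φ} t := by
    obtain ⟨x, hx, e⟩ := t1 h3 hH hO h.invU (t.mono h.le) (subset_span ⟨_, t⟩)
    obtain ⟨a, ha, e'⟩ := h.gen hx e
    exact ⟨_, _, h.tk ha, e'⟩
  t2 {u φ w ψ} t t' e1 e2 := by
    obtain ⟨x, hx, e⟩ := t1 h3 hH hO h.invU (t.mono h.le) (subset_span ⟨_, t⟩)
    have hu : u ∈ U C := subset_span ⟨_, t⟩
    have hw : w ∈ U C := subset_span ⟨_, t'⟩
    have e3 : ∀ x ∈ U C, φ x = ψ x := fun x hx => sub_eq_zero.1
      (h.U_le (X := LinearMap.ker (φ - ψ)) (fun a ha => sub_eq_zero.2 (e2 _ _ (h.tk ha))) hx)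
    have kφ := fun x => t.kill h.z (x := x)
    have kψ := fun x => t'.kill h.z (x := x)
    obtain ⟨u0, -, z, g, hg, i⟩ := t
    obtain ⟨-, -, z', g', hg', i'⟩ := t'
    have v0 : ∀ v, (g * g'⁻¹) v - v = φ v • u - ψ v • w := fun v => by
      rw [LinearEquiv.mul_apply, i'.inv z', i]
      simp only [map_add, map_smul, e3 w hw, z', LinearMap.smul_apply, smul_eq_mul]
      module
    have := triv h3 hH hO h.invU (h.inv invN) (h.le (mul_mem hg (inv_mem hg')))
      (fun v => by rw [v0]; exact sub_mem (smul_mem _ _ hu) (smul_mem _ _ hw))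
      (fun x hx => by
        rw [v0, e3 x hx, ← smul_sub]
        exact smul_mem _ _ ⟨mem_NC.2 fun a ha => by simp [e1 _ _ (h.tk ha)], sub_mem hu hw⟩)
      fun y hy => sub_eq_zero.1 (by rw [v0]; simp [kφ y hy.1, kψ y hy.1])
    simp only [this, LinearEquiv.coe_one, id, sub_self, eq_comm (a := (0 : V)), sub_eq_zero] at v0
    have uw : u = w := smul_right_injective V e ((v0 x).trans (by rw [e3 x hx]))
    exact ⟨uw, LinearMap.ext fun v => smul_left_injective F u0 ((v0 v).trans (by rw [uw]))⟩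

omit hF hH hO in
theorem two_ne : (2 : F) ≠ 0 := fun e => by
  have := Nat.le_of_dvd two_pos ((CharP.cast_eq_zero_iff F p 2).1 (by exact_mod_cast e))
  omega

theorem Good.inf (h : Good H C) (hx : x ∈ U C) (hx' : x ∈ NC C) : x = 0 := by
  by_contra e
  have t := h.tr hF h3 hH hO
  obtain ⟨φ, t'⟩ := (t.main (two_ne h3)).1 x hx e
  obtain ⟨w, ψ, t'', e'⟩ := t.c1 t'
  exact e' (t''.kill h.z hx')

theorem Good.sup (h : Good H C) (v : V) : ∃ u ∈ U C, v - u ∈ NC C := by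
  have : U C ⊔ (PP (TK (KC C))).dualCoannihilator = ⊤ := by
    rw [← dualAnnihilator_eq_bot_iff, dualAnnihilator_sup_eq, Subspace.dualCoannihilator_dualAnnihilator_eq,
      eq_bot_iff]
    exact fun θ hθ => ((h.tr hF h3 hH hO).main (two_ne h3)).2.1 θ hθ.2 ((mem_dualAnnihilator _).1 hθ.1)
  obtain ⟨u, hu, w, hw, rfl⟩ := mem_sup.1 (this ▸ mem_top : v ∈ _)
  exact ⟨u, hu, mem_NC.2 fun a ha => by
    simpa using (mem_dualCoannihilator _).1 hw a.2 (subset_span ⟨_, h.tk ha⟩)⟩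

theorem Good.ext (h : Good H C) (f : Dual F (U C)) : ∃ θ ∈ PP (TK (KC C)), ∀ w : U C, θ w = f w := by
  have : (PP (TK (KC C))).map (U C).subtype.dualMap = ⊤ := by
    rw [← Subspace.dualCoannihilator_dualAnnihilator_eq (W := Submodule.map _ _), dualAnnihilator_eq_top_iff,
      eq_bot_iff]
    exact fun x hx => Subtype.ext (h.inf hF h3 hH hO x.2 (mem_NC.2 fun a ha =>
      (mem_dualCoannihilator _).1 hx _ ⟨a.2, subset_span ⟨_, h.tk ha⟩, rfl⟩))
  obtain ⟨θ, hθ, e⟩ := (this ▸ mem_top : f ∈ _)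
  exact ⟨θ, hθ, fun w => LinearMap.congr_fun e w⟩

theorem Good.rep (h : Good H C) : ∃ ρ : KC C →* (U C ≃ₗ[F] U C),
    (∀ (g : KC C) (v : U C), ((ρ g v : U C) : V) = (g : V ≃ₗ[F] V) (v : V)) ∧
    ((ρ.range : Set (U C ≃ₗ[F] U C)) = {f : U C ≃ₗ[F] U C | LinearMap.det (f : U C →ₗ[F] U C) = 1} ∨
      ∃ B : LinearMap.BilinForm F (U C), B.IsAlt ∧ B.Nondegenerate ∧
        (ρ.range : Set (U C ≃ₗ[F] U C)) = {f : U C ≃ₗ[F] U C | ∀ x y, B (f x) (f y) = B x y}) := by
  have hI : Inv C (U C) := fun a ha _ _ _ => h.memU ha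
  let ρ : KC C →* (U C ≃ₗ[F] U C) :=
    { toFun := fun g => g.1.ofSubmodules _ _ (map_eq h.z hI g.2)
      map_one' := LinearEquiv.ext fun _ => rfl
      map_mul' := fun _ _ => LinearEquiv.ext fun _ => rfl }
  have hρ : ∀ (g : KC C) (v : U C), ((ρ g v : U C) : V) = (g : V ≃ₗ[F] V) (v : V) := fun _ _ => rfl
  have le : ∀ R : Subgroup (U C ≃ₗ[F] U C), (∀ (u : U C) φ, TK (KC C) u φ → ∀ f : U C ≃ₗ[F] U C,
      (∀ w, f w = w + φ w • u) → f ∈ R) → ρ.range ≤ R := fun R hR => by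
    rintro _ ⟨⟨g, hg⟩, rfl⟩
    induction hg using Subgroup.closure_induction with
    | mem g hg =>
      obtain ⟨a, ha, e⟩ := hg
      exact hR ⟨_, h.memU ha⟩ _ (h.tk ha) _ fun w => Subtype.ext (e w)
    | one => exact (map_one ρ).symm ▸ one_mem R
    | mul a b ha hb h1 h2 => exact (map_mul ρ ⟨a, ha⟩ ⟨b, hb⟩).symm ▸ mul_mem h1 h2
    | inv a ha h1 => exact (map_inv ρ ⟨a, ha⟩).symm ▸ inv_mem h1
  refine ⟨ρ, hρ, ((h.tr hF h3 hH hO).main (two_ne h3)).2.2.imp (fun m => ?_) ?_⟩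
  · refine Set.Subset.antisymm (fun f hf => ?_) fun f hf => sl_gen ρ.range (fun f v e => ?_) hf
    · have := le (LinearEquiv.det (R := F) (M := U C)).ker (fun u φ t f e => by
        rw [show f = LinearEquiv.transvection (f := φ ∘ₗ (U C).subtype) (v := u) t.2.2.1 from
          LinearEquiv.ext e]
        exact LinearEquiv.transvection.det_eq_one _) hf
      exact (LinearEquiv.coe_det f).symm.trans (congrArg Units.val this)
    · by_cases f0 : f = 0
      · exact ⟨1, by rw [map_one]; exact LinearEquiv.ext fun w => by simp [f0, LinearMap.transvection.apply]⟩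
      by_cases v0 : v = 0
      · exact ⟨1, by rw [map_one]; exact LinearEquiv.ext fun w => by simp [v0, LinearMap.transvection.apply]⟩
      obtain ⟨θ, hθ, e'⟩ := h.ext hF h3 hH hO f
      obtain ⟨-, -, -, g, hg, i⟩ := m v v.2 (fun e => v0 (Subtype.ext e)) θ hθ
        (fun e => f0 (LinearMap.ext fun w => by rw [← e', e]; rfl)) ((e' v).trans e)
      exact ⟨⟨g, hg⟩, LinearEquiv.ext fun w => Subtype.ext (by rw [hρ, i, e']; rfl)⟩
  · rintro ⟨B, alt, nd, m1, m2⟩
    refine ⟨B, alt, nd, Set.Subset.antisymm (le (H10.isomGroup B) fun u φ t f e => ?_) fun f hf => ?_⟩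
    · obtain ⟨c, hc⟩ := m2 u φ t
      rw [show f = (H10.tv alt u c).1 from LinearEquiv.ext fun w => by rw [e, hc]; rfl]
      exact (H10.tv alt u c).2
    · have := H10.eq_top_of_tv_mem nd alt (ρ.range.comap (H10.isomGroup B).subtype) fun a c => by
        by_cases a0 : a = 0
        · rw [a0, H10.tv_zero_left]; exact one_mem _
        obtain ⟨φ, t, e⟩ := m1 a a0
        obtain ⟨g, hg, i⟩ := t.ex hF c
        exact ⟨⟨g, hg⟩, LinearEquiv.ext fun w => Subtype.ext (by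
          rw [hρ, i, LinearMap.smul_apply, e]; rfl)⟩
      exact (this ▸ Subgroup.mem_top _ : (⟨f, hf⟩ : H10.isomGroup B) ∈ _)

theorem mclaughlin [Finite V] :
    ∃ (n : ℕ) (W : Fin (n + 1) → Submodule F V) (K : Fin n → Subgroup (V ≃ₗ[F] V)),
      1 ≤ n ∧ DirectSum.IsInternal W ∧
      (∀ h ∈ H, ∀ i, (W i).map (h : V →ₗ[F] V) = W i) ∧
      (∀ j, K j ≤ H ∧ ((K j).subgroupOf H).Normal) ∧ ⨆ j, K j = H ∧
      (∀ j, K j ⊓ (⨆ j' ∈ {j' : Fin n | j' ≠ j}, K j') = ⊥) ∧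
      (∀ j j', j ≠ j' → ∀ a ∈ K j, ∀ b ∈ K j', a * b = b * a) ∧
      (∀ j, ∀ h ∈ K j, ∀ i : Fin (n + 1), i ≠ j.succ → ∀ v ∈ W i, h v = v) ∧
      (∀ j, ∃ ρ : K j →* (W j.succ ≃ₗ[F] W j.succ),
        (∀ (h : K j) (v : W j.succ), ((ρ h v : W j.succ) : V) = (h : V ≃ₗ[F] V) (v : V)) ∧
        ((ρ.range : Set (W j.succ ≃ₗ[F] W j.succ)) =
            {f : W j.succ ≃ₗ[F] W j.succ | LinearMap.det (f : W j.succ →ₗ[F] W j.succ) = 1} ∨
          ∃ B : LinearMap.BilinForm F (W j.succ), B.IsAlt ∧ B.Nondegenerate ∧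
            (ρ.range : Set (W j.succ ≃ₗ[F] W j.succ)) =
              {f : W j.succ ≃ₗ[F] W j.succ | ∀ x y, B (f x) (f y) = B x y})) := by
  classical
  have : Finite F := Finite.of_surjective (fun n : Fin p => ((n : ℕ) : F)) fun c => by
    obtain ⟨n, rfl⟩ := hF c
    exact ⟨⟨n % p, Nat.mod_lt _ (by omega)⟩, (CharP.cast_eq_mod F p n).symm⟩
  have : Finite (Dual F V) := Finite.of_injective _ (DFunLike.coe_injective (F := V →ₗ[F] F))
  obtain ⟨n, ⟨e⟩⟩ := Finite.exists_equiv_fin {C : Set (V × Dual F V) // Good H C}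
  let c : Fin n → Set (V × Dual F V) := fun j => (e.symm j).1
  have gc : ∀ j, Good H (c j) := fun j => (e.symm j).2
  have ne : ∀ {i j}, i ≠ j → c i ≠ c j := fun h e' => h (e.symm.injective (Subtype.ext e'))
  have cov : ∀ a ∈ Sg H, ∃ j, a ∈ c j := fun a ha =>
    ⟨e ⟨_, good_comp ha⟩, by simp only [c, Equiv.symm_apply_apply]; exact .refl⟩
  let W : Fin (n + 1) → Submodule F V := Fin.cons (NC (Sg H)) fun j => U (c j)
  have WN : ∀ j i, i ≠ Fin.succ j → W i ≤ NC (c j) := fun j i => by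
    refine Fin.cases (fun _ x hx => mem_NC.2 fun a ha => mem_NC.1 hx a ((gc j).sub ha)) (fun i hi => ?_) i
    exact (gc i).orth (gc j) (ne fun e => hi (congrArg _ e))
  have fx : ∀ j, ∀ h ∈ KC (c j), ∀ i : Fin (n + 1), i ≠ j.succ → ∀ v ∈ W i, h v = v :=
    fun j h hh i hi v hv => k2 (gc j).z (WN j i hi hv) hh
  have cm : ∀ j j', j ≠ j' → ∀ a ∈ KC (c j), ∀ b ∈ KC (c j'), a * b = b * a := fun j j' hj a ha b hb => by
    refine LinearEquiv.ext fun v => ?_
    have h1 := fx j a ha j'.succ (fun e => hj (Fin.succ_injective _ e).symm) _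
      (k1 (gc j').z (fun _ => (gc j').memU) hb v)
    have h2 := fx j' b hb j.succ (fun e => hj (Fin.succ_injective _ e)) _
      (k1 (gc j).z (fun _ => (gc j).memU) ha v)
    rw [map_sub] at h1 h2
    change a (b v) = b (a v)
    linear_combination (norm := abel1) h1 - h2
  refine ⟨n, W, fun j => KC (c j), Nat.succ_le_of_lt (e ⟨∅, good_empty⟩).pos,
    (DirectSum.isInternal_submodule_iff_iSupIndep_and_iSup_eq_top W).2 ⟨?_, ?_⟩, fun h hh i => ?_,
    fun j => ⟨(gc j).le, ?_⟩, le_antisymm (iSup_le fun j => (gc j).le) (hH.trans ?_), fun j => ?_, cm, fx,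
    fun j => (gc j).rep hF h3 hH hO⟩
  · rw [iSupIndep_iff_finsetSum_eq_zero_imp_eq_zero]
    intro s v hv h0
    have k : ∀ j : Fin n, j.succ ∈ s → v j.succ = 0 := fun j hj => by
      refine (gc j).inf hF h3 hH hO (hv _ hj) ?_
      rw [← Finset.add_sum_erase s v hj, add_eq_zero_iff_eq_neg] at h0
      rw [h0]
      exact neg_mem (sum_mem fun i hi => WN j i (Finset.ne_of_mem_erase hi)
        (hv i (Finset.mem_of_mem_erase hi)))
    refine Fin.cases (fun hs => ?_) k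
    rwa [Finset.sum_eq_single_of_mem 0 hs (Fin.cases (fun _ e => absurd rfl e) fun j hj _ => k j hj)] at h0
  · refine eq_top_iff.2 fun v _ => ?_
    choose u hu hu' using fun j => (gc j).sup hF h3 hH hO v
    rw [← sub_add_cancel v (∑ j, u j)]
    refine add_mem (mem_iSup_of_mem 0 (mem_NC.2 fun a ha => ?_))
      (sum_mem fun j _ => mem_iSup_of_mem j.succ (hu j))
    obtain ⟨j, hj⟩ := cov a ha
    rw [← Finset.add_sum_erase _ u (Finset.mem_univ j), ← sub_sub]
    exact mem_NC.1 (sub_mem (hu' j) (sum_mem fun i hi => WN j i.succ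
      (fun e => Finset.ne_of_mem_erase hi (Fin.succ_injective _ e)) (hu i))) a hj
  · exact map_eq Sg_z (Fin.cases (motive := fun i => Inv (Sg H) (W i)) invN (fun j => (gc j).invU) i) (hH hh)
  · rw [Subgroup.normal_subgroupOf_iff_le_normalizer (gc j).le]
    refine hH.trans ((Subgroup.closure_le _).2 fun g ⟨a, ha, i⟩ => ?_)
    obtain ⟨j', hj⟩ := cov a ha
    have : g ∈ KC (c j') := Subgroup.subset_closure ⟨a, hj, i⟩
    by_cases e' : j = j'
    · exact Subgroup.le_normalizer (e' ▸ this)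
    · exact Subgroup.centralizer_le_normalizer _
        (Subgroup.mem_centralizer_iff.2 fun b hb => cm j j' e' b hb g this)
  · refine (Subgroup.closure_le _).2 fun g ⟨a, ha, i⟩ => ?_
    obtain ⟨j', hj⟩ := cov a ha
    exact Subgroup.mem_iSup_of_mem j' (Subgroup.subset_closure ⟨a, hj, i⟩)
  · refine eq_bot_iff.2 fun g hg => LinearEquiv.ext fun v => ?_
    obtain ⟨u, hu, hu'⟩ := (gc j).sup hF h3 hH hO v
    have h1 : g ∈ MulAction.stabilizer (V ≃ₗ[F] V) u := (iSup₂_le fun j' hj b hb =>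
      fx j' b hb j.succ (fun e => hj (Fin.succ_injective _ e).symm) u hu :
        _ ≤ MulAction.stabilizer (V ≃ₗ[F] V) u) hg.2
    have h2 := k2 (gc j).z hu' hg.1
    rw [map_sub, show g u = u from h1] at h2
    exact sub_left_injective h2

end Cfsg.Agent.H3.McL
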