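import Cfsg.Agent.H18.Dc2

/-! Every element of a perfect double cover of an alternating group is a commutator. -/

set_option autoImplicit false
set_option linter.unusedSectionVars false

namespace Cfsg.Agent.H3.Ore

open Equiv Equiv.Perm Cfsg.Agent.H18.Dc

variable {α : Type} [Fintype α] [DecidableEq α] {Γ : Type*} [Group Γ]

theorem card_swap_mul {s : Perm α} {x y : α} (hxy : x ≠ y) (hx : s x = x) (hy : s y = y) :
    (swap x y * s).support.card = s.support.card + 2 := by
  have hd : Perm.Disjoint (swap x y) s := by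
    intro w
    by_cases h1 : w = x
    · right; rw [h1, hx]
    by_cases h2 : w = y
    · right; rw [h2, hy]
    left; exact swap_apply_of_ne_of_ne h1 h2
  rw [hd.card_support_mul, card_support_swap hxy, add_comm]

theorem swap_comm_of_fix {s : Perm α} {x y : α} (hx : s x = x) (hy : s y = y) :
    s * swap x y = swap x y * s := by
  rw [mul_swap_eq_swap_mul, hx, hy]

/-- a balanced factorisation into two involutions -/
def Dec (σ : Perm α) (x : α) : Prop :=
  ∃ s t : Perm α, s * s = 1 ∧ t * t = 1 ∧ σ = s * t ∧ s x = x ∧ (∀ w, σ w = w → s w = w) ∧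
    (∀ w, σ w = w → t w = w) ∧
    t.support.card = s.support.card + (if sign σ = 1 then 0 else 2)

theorem dec_aux (n : ℕ) : ∀ σ : Perm α, σ.support.card ≤ n → ∀ x, Dec σ x := by
  induction n with
  | zero =>
    intro σ h x
    have : σ = 1 := card_support_eq_zero.1 (Nat.le_zero.1 h)
    subst this
    exact ⟨1, 1, by simp, by simp, by simp, rfl, fun _ _ => rfl, fun _ _ => rfl, by simp⟩
  | succ n ih =>
    intro σ h
    have key : ∀ x, σ x ≠ x → Dec σ x := by
      intro x hx
      set y := σ⁻¹ x with hy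
      have hyx : σ y = x := by simp [hy]
      have hne : y ≠ x := by
        intro e; apply hx; conv_lhs => rw [← e]
        exact hyx
      have hlt := card_support_swap_mul (f := σ) (x := y) (by rw [hyx]; exact hne.symm)
      rw [hyx] at hlt
      obtain ⟨s, t, hs, ht, he, hsx, hs', ht', hc⟩ := ih (swap y x * σ) (by omega) x
      have h0 : (swap y x * σ) y = y := by simp [hyx]
      have hsy := hs' y h0
      have hty := ht' y h0
      have hfix : ∀ w, σ w = w → (swap y x * σ) w = w := by
        intro w hw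
        have h1 : w ≠ x := by rintro rfl; exact hx hw
        have h2 : w ≠ y := by rintro rfl; exact hne (hw.symm.trans hyx)
        simp [hw, swap_apply_of_ne_of_ne h2 h1]
      have hcm := swap_comm_of_fix hsy hsx
      have hinv : swap y x * s * (swap y x * s) = 1 := by
        calc _ = swap y x * (s * swap y x) * s := by group
          _ = (swap y x * swap y x) * (s * s) := by rw [hcm]; group
          _ = 1 := by rw [swap_mul_self, hs, mul_one]
      have hσ : σ = swap y x * s * t := by
        rw [mul_assoc, ← he, ← mul_assoc, swap_mul_self, one_mul]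
      have hfix' : ∀ w, σ w = w → (swap y x * s) w = w := by
        intro w hw
        have h1 : w ≠ x := by rintro rfl; exact hx hw
        have h2 : w ≠ y := by rintro rfl; exact hne (hw.symm.trans hyx)
        simp [hs' w (hfix w hw), swap_apply_of_ne_of_ne h2 h1]
      have hinv' : (swap y x * s)⁻¹ = swap y x * s := inv_eq_of_mul_eq_one_right hinv
      refine ⟨swap y x * s * t * (swap y x * s)⁻¹, swap y x * s, ?_, hinv, ?_, ?_, ?_, hfix', ?_⟩
      · calc _ = swap y x * s * (t * t) * (swap y x * s)⁻¹ := by group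
          _ = 1 := by rw [ht]; group
      · rw [hσ]; group
      · rw [hinv']; simp [hsx, hty, hsy]
      · intro w hw
        rw [hinv']
        simp only [Perm.mul_apply] at hfix' ⊢
        rw [hfix' w hw, ht' w (hfix w hw), hfix' w hw]
      · rw [card_support_conj, card_swap_mul hne hsy hsx, hc]
        have hsg : sign (swap y x * σ) = - sign σ := by simp [sign_swap hne]
        rw [hsg]
        rcases Int.units_eq_one_or (sign σ) with e | e <;> simp [e]
    intro x
    by_cases hx : σ x = x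
    · by_cases h1 : σ = 1
      · subst h1
        exact ⟨1, 1, by simp, by simp, by simp, rfl, fun _ _ => rfl, fun _ _ => rfl, by simp⟩
      · obtain ⟨x', hx'⟩ : ∃ x', σ x' ≠ x' := by
          by_contra hc
          push Not at hc
          exact h1 (Equiv.ext hc)
        obtain ⟨s, t, hs, ht, he, -, hs', ht', hc⟩ := key x' hx'
        exact ⟨s, t, hs, ht, he, hs' x hx, hs', ht', hc⟩
    · exact key x hx

theorem invol_conj {s t : Perm α} (hs : s * s = 1) (ht : t * t = 1)
    (h : s.support.card = t.support.card) : IsConj s t := by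
  haveI : Fact (Nat.Prime 2) := ⟨Nat.prime_two⟩
  rw [isConj_iff_cycleType_eq]
  have h1 := (pow_prime_eq_one_iff (σ := s) (p := 2)).1 (by rw [sq, hs])
  have h2 := (pow_prime_eq_one_iff (σ := t) (p := 2)).1 (by rw [sq, ht])
  have e1 := Multiset.eq_replicate_card.2 h1
  have e2 := Multiset.eq_replicate_card.2 h2
  have c1 := sum_cycleType s
  have c2 := sum_cycleType t
  rw [e1, Multiset.sum_replicate, smul_eq_mul] at c1
  rw [e2, Multiset.sum_replicate, smul_eq_mul] at c2
  rw [e1, e2]
  congr 1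
  omega

theorem peel {s : Perm α} (hs : s * s = 1) {j : α} (hj : s j ≠ j) :
    ∃ s1 : Perm α, s = swap j (s j) * s1 ∧ s1 * s1 = 1 ∧ s1 j = j ∧ s1 (s j) = s j ∧
      (∀ w, s w = w → s1 w = w) ∧ s.support.card = s1.support.card + 2 ∧ sign s1 = - sign s := by
  have hss : ∀ w, s (s w) = w := fun w => by
    have := congrArg (fun f : Perm α => f w) hs
    simpa using this
  have h1 : (swap j (s j) * s) j = j := by simp
  have h2 : (swap j (s j) * s) (s j) = s j := by simp [hss]
  have he : s = swap j (s j) * (swap j (s j) * s) := by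
    rw [← mul_assoc, swap_mul_self, one_mul]
  refine ⟨swap j (s j) * s, he, ?_, h1, h2, ?_, ?_, by simp [sign_swap hj.symm]⟩
  · have hc : s * swap j (s j) = swap j (s j) * s := by
      rw [mul_swap_eq_swap_mul, hss, swap_comm]
    calc _ = swap j (s j) * (s * swap j (s j)) * s := by group
      _ = (swap j (s j) * swap j (s j)) * (s * s) := by rw [hc]; group
      _ = 1 := by rw [swap_mul_self, hs, mul_one]
  · intro w hw
    have a1 : w ≠ j := by rintro rfl; exact hj hw
    have a2 : w ≠ s j := by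
      rintro rfl
      rw [hss] at hw
      exact hj hw.symm
    simp [hw, swap_apply_of_ne_of_ne a1 a2]
  · conv_lhs => rw [he]
    exact card_swap_mul hj.symm h1 h2

/-- `b` contains two transposition cycles and the rest is even -/
def NS (b : Perm α) : Prop :=
  ∃ p q r u : α, ∃ b' : Perm α, p ≠ q ∧ p ≠ r ∧ p ≠ u ∧ q ≠ r ∧ q ≠ u ∧ r ≠ u ∧
    b = swap p q * swap r u * b' ∧ sign b' = 1 ∧ b' p = p ∧ b' q = q ∧ b' r = r ∧ b' u = u

theorem exists_moved {s : Perm α} (h : s ≠ 1) : ∃ j, s j ≠ j := by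
  by_contra hc
  push Not at hc
  exact h (Equiv.ext hc)

theorem ns_invol {t w : Perm α} (ht : t * t = 1) (hsg : sign t = 1) (h1 : t ≠ 1) (hw : sign w = 1)
    (hfix : ∀ x, t x ≠ x → w x = x) : NS (t * w) := by
  obtain ⟨p, hp⟩ := exists_moved h1
  obtain ⟨t1, e1, i1, a1, a2, f1, -, s1⟩ := peel ht hp
  have h2 : t1 ≠ 1 := by
    rintro rfl
    rw [hsg] at s1
    simp at s1
  obtain ⟨r, hr⟩ := exists_moved h2
  obtain ⟨t2, e2, -, b1, b2, f2, -, s2⟩ := peel i1 hr
  have hr' : t1 (t1 r) ≠ t1 r := fun e => hr (t1.injective e)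
  have n1 : p ≠ r := by rintro rfl; exact hr a1
  have n2 : p ≠ t1 r := by intro e; rw [← e] at hr'; exact hr' a1
  have n3 : t p ≠ r := by intro e; rw [← e] at hr; exact hr a2
  have n4 : t p ≠ t1 r := by intro e; rw [← e] at hr'; exact hr' a2
  have m1 : w p = p := hfix p hp
  have m2 : w (t p) = t p := hfix _ fun e => hp (t.injective e)
  have m3 : w r = r := hfix _ fun e => hr (f1 _ e)
  have m4 : w (t1 r) = t1 r := hfix _ fun e => hr' (f1 _ e)
  refine ⟨p, t p, r, t1 r, t2 * w, hp.symm, n1, n2, n3, n4, hr.symm, ?_, ?_, ?_, ?_, ?_, ?_⟩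
  · conv_lhs => rw [e1, e2]
    group
  · rw [map_mul, s2, s1, hsg, hw]; simp
  · simp [m1, f2 _ a1]
  · simp [m2, f2 _ a2]
  · simp [m3, b1]
  · simp [m4, b2]

theorem ns_dt {p q r u : α} (h1 : p ≠ q) (h2 : p ≠ r) (h3 : p ≠ u) (h4 : q ≠ r) (h5 : q ≠ u)
    (h6 : r ≠ u) : NS (swap p q * swap r u) :=
  ⟨p, q, r, u, 1, h1, h2, h3, h4, h5, h6, by simp, by simp, rfl, rfl, rfl, rfl⟩

theorem dt_conj {p q r u p' q' r' u' : α} (h1 : p ≠ q) (h2 : p ≠ r) (h3 : p ≠ u) (h4 : q ≠ r)
    (h5 : q ≠ u) (h6 : r ≠ u) (g1 : p' ≠ q') (g2 : p' ≠ r') (g3 : p' ≠ u') (g4 : q' ≠ r')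
    (g5 : q' ≠ u') (g6 : r' ≠ u') : IsConj (swap p' q' * swap r' u') (swap p q * swap r u) :=
  Disjoint.isConj_mul (isConj_swap g1 h1) (isConj_swap g6 h6)
    (disjoint_swap_swap (by simp [g1, g2, g3, g4, g5, g6]))
    (disjoint_swap_swap (by simp [h1, h2, h3, h4, h5, h6]))

theorem exists_two (h5 : 5 ≤ Fintype.card α) (i j m : α) :
    ∃ e f : α, e ≠ f ∧ e ≠ i ∧ e ≠ j ∧ e ≠ m ∧ f ≠ i ∧ f ≠ j ∧ f ≠ m := by
  obtain ⟨e, f, he, hf, hef⟩ : ∃ u v, u ∈ (Finset.univ : Finset α) \ {i, j, m} ∧
      v ∈ (Finset.univ : Finset α) \ {i, j, m} ∧ u ≠ v := by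
    rw [← Finset.one_lt_card_iff, Finset.card_univ_sdiff]
    have := Finset.card_le_three (a := i) (b := j) (c := m)
    omega
  simp only [Finset.mem_sdiff, Finset.mem_univ, Finset.mem_insert, Finset.mem_singleton, not_or,
    true_and] at he hf
  exact ⟨e, f, hef, he.1, he.2.1, he.2.2, hf.1, hf.2.1, hf.2.2⟩

/-- the factorisation of an even permutation -/
theorem factor (h5 : 5 ≤ Fintype.card α) {σ : Perm α} (hσ : sign σ = 1) :
    ∃ u b : Perm α, IsConj b u ∧ NS b ∧ σ = u * b⁻¹ := by
  by_cases h1 : σ = 1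
  · obtain ⟨i, k, a, b, d, d', hik⟩ := exists_four (α := α) (by omega)
    exact ⟨swap i a * swap b k, swap i a * swap b k, IsConj.refl _,
      ns_dt d.1 d.2.1 hik d.2.2 d'.1.symm d'.2.1.symm, by rw [h1]; group⟩
  obtain ⟨i, hi⟩ := exists_moved h1
  obtain ⟨s, t, hs, ht, he, hsi, -, -, hc⟩ := dec_aux _ σ le_rfl i
  rw [if_pos hσ, add_zero] at hc
  have hti : t i ≠ i := by
    intro e; apply hi; rw [he]; simp [e, hsi]
  have htinv : t⁻¹ = t := inv_eq_of_mul_eq_one_right ht
  rcases Int.units_eq_one_or (sign t) with hsg | hsg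
  · refine ⟨s, t, invol_conj ht hs hc, ?_, by rw [htinv, he]⟩
    have := ns_invol (w := 1) ht hsg (by rintro rfl; exact hti rfl) (by simp) (fun _ _ => rfl)
    rwa [mul_one] at this
  obtain ⟨j, hsj, htj⟩ : ∃ j, s j ≠ j ∧ t j = j := by
    by_contra hcon
    push Not at hcon
    have hsub : s.support ⊆ t.support := fun w hw =>
      mem_support.2 (hcon w (mem_support.1 hw))
    have := Finset.eq_of_subset_of_card_le hsub hc.le
    have h2 : i ∈ s.support := this ▸ mem_support.2 hti
    exact mem_support.1 h2 hsi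
  obtain ⟨s1, es, is1, a1, a2, fs, cs, -⟩ := peel hs hsj
  obtain ⟨t1, et, it1, b1, b2, ft, ct, st⟩ := peel ht hti
  have hij : i ≠ j := by rintro rfl; exact hsj hsi
  have n1 : s j ≠ i := by
    intro e; exact hij (s.injective (hsi.trans e.symm))
  have n2 : t i ≠ j := by
    intro e; exact hij (t.injective (e.trans htj.symm))
  have c1 : s1.support.card = t1.support.card := by omega
  by_cases ht1 : t1 = 1
  · have hs1 : s1 = 1 := by
      rw [← card_support_eq_zero, c1, ht1]; simp
    rw [hs1, mul_one] at es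
    rw [ht1, mul_one] at et
    generalize s j = j' at *
    generalize t i = i' at *
    by_cases hm : j' = i'
    · subst hm
      obtain ⟨e, f, g1, g2, g3, g4, g5, g6, g7⟩ := exists_two h5 i j j'
      refine ⟨swap j j' * swap e f, swap i j' * swap e f,
        dt_conj hsj.symm g3.symm g6.symm g4.symm g7.symm g1 hti.symm g2.symm g5.symm g4.symm
          g7.symm g1, ns_dt hti.symm g2.symm g5.symm g4.symm g7.symm g1, ?_⟩
      rw [he, es, et, mul_inv_rev, swap_inv, swap_inv, mul_assoc, ← mul_assoc (swap e f),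
        swap_mul_self, one_mul]
    · refine ⟨swap j i * swap j' i', swap j i' * swap j' i,
        dt_conj hij.symm hsj.symm n2.symm n1.symm hti.symm hm n2.symm hsj.symm hij.symm
          (Ne.symm hm) hti n1, ns_dt n2.symm hsj.symm hij.symm (Ne.symm hm) hti n1, ?_⟩
      rw [he, es, et, mul_inv_rev, swap_inv, swap_inv]
      ext x
      simp only [Perm.mul_apply, swap_apply_def]
      grind
  · have a3 : s1 i = i := fs i hsi
    have b3 : t1 j = j := ft j htj
    refine ⟨s * swap i j, t * swap i j, ?_, ?_, ?_⟩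
    · have e1 : s * swap i j = (swap j (s j) * swap j i) * s1 := by
        conv_lhs => rw [es]
        rw [mul_assoc, swap_comm_of_fix a3 a1, swap_comm i j, mul_assoc]
      have e2 : t * swap i j = (swap i (t i) * swap i j) * t1 := by
        conv_lhs => rw [et]
        rw [mul_assoc, swap_comm_of_fix b1 b3, mul_assoc]
      rw [e1, e2]
      refine Disjoint.isConj_mul ?_ (invol_conj it1 is1 c1.symm) ?_ ?_
      · rw [isConj_iff_cycleType_eq,
          (isThreeCycle_swap_mul_swap_same hti.symm hij n2).cycleType,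
          (isThreeCycle_swap_mul_swap_same hsj.symm hij.symm n1).cycleType]
      · intro w
        by_cases w1 : w = i
        · right; rw [w1, b1]
        by_cases w2 : w = j
        · right; rw [w2, b3]
        by_cases w3 : w = t i
        · right; rw [w3, b2]
        left
        simp [swap_apply_of_ne_of_ne w1 w2, swap_apply_of_ne_of_ne w1 w3]
      · intro w
        by_cases w1 : w = i
        · right; rw [w1, a3]
        by_cases w2 : w = j
        · right; rw [w2, a1]
        by_cases w3 : w = s j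
        · right; rw [w3, a2]
        left
        simp [swap_apply_of_ne_of_ne w2 w1, swap_apply_of_ne_of_ne w2 w3]
    · have e2 : t * swap i j = t1 * (swap i (t i) * swap i j) := by
        conv_lhs => rw [et]
        rw [← swap_comm_of_fix b1 b2, mul_assoc]
      rw [e2]
      refine ns_invol it1 (by rw [st, hsg]; simp) ht1 (by simp [sign_swap hti.symm, sign_swap hij]) ?_
      intro w hw
      have w1 : w ≠ i := by rintro rfl; exact hw b1
      have w2 : w ≠ j := by rintro rfl; exact hw b3
      have w3 : w ≠ t i := by rintro rfl; exact hw b2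
      simp [swap_apply_of_ne_of_ne w1 w2, swap_apply_of_ne_of_ne w1 w3]
    · rw [mul_inv_rev, swap_inv, htinv, he, mul_assoc, ← mul_assoc (swap i j), swap_mul_self,
        one_mul]

section cover

variable {π : Γ →* Perm α} {P : Γ → Prop} (H : Cov π P) {z : Γ} (hz1 : z ≠ 1) (hz : π z = 1)
  (hker : ∀ w, π w = 1 → w = 1 ∨ w = z) (hperf : commutator Γ = ⊤)
include H hz1 hz hker hperf

theorem zz : z * z = 1 := by
  rcases hker (z * z) (by simp [hz]) with e | e
  · exact e
  · exact absurd (mul_left_cancel (e.trans (mul_one z).symm)) hz1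

theorem sq_dt {p q r u : α} (h1 : p ≠ q) (h2 : p ≠ r) (h3 : p ≠ u) (h4 : q ≠ r) (h5 : q ≠ u)
    (h6 : r ≠ u) {y : Γ} (hy : π y = swap p q * swap r u) : y * y = z := by
  have d : D p q r := ⟨h1, h2, h4⟩
  have d' : D u q r := ⟨h5.symm, h6.symm, h4⟩
  have hb : z = β π P p u q r := by
    rcases H.ker_comm d d' h3 hz (by rw [hperf]; trivial) with e | e
    · exact absurd e hz1
    · exact e
  set c := L π P p q r * L π P u q r with hc
  have hπc : π c = swap p q * swap r u := by
    rw [hc, map_mul, (H.L_spec d).2, (H.L_spec d').2, T_sq d d' h3]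
  have hcc : c * c = z := hb.symm
  rcases hker (c⁻¹ * y) (by rw [map_mul, map_inv, hy, hπc, inv_mul_cancel]) with e | e
  · rw [inv_mul_eq_one] at e
    rw [← e, hcc]
  · rw [inv_mul_eq_iff_eq_mul] at e
    have hcz := H.cen z hz c
    rw [e]
    calc _ = c * (z * c) * z := by group
      _ = c * c * (z * z) := by rw [← hcz]; group
      _ = z := by rw [zz H hz1 hz hker hperf, hcc, mul_one]

theorem anti {b : Perm α} (hb : NS b) :
    ∃ x c : Γ, π x = b ∧ c * x * c⁻¹ = z * x := by
  obtain ⟨p, q, r, u, b', h1, h2, h3, h4, h5, h6, rfl, hs, f1, f2, f3, f4⟩ := hb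
  obtain ⟨x, hx⟩ := H.surj (swap p q * swap r u) (by simp [sign_swap h1, sign_swap h6])
  obtain ⟨y, rfl⟩ := H.surj b' hs
  have d : D p r q := ⟨h2, h1, h4.symm⟩
  have d' : D u r q := ⟨h6.symm, h5.symm, h4.symm⟩
  set c := L π P p r q * L π P u r q with hc
  have hπc : π c = swap p r * swap q u := by
    rw [hc, map_mul, (H.L_spec d).2, (H.L_spec d').2, T_sq d d' h3]
  have hyc : y * c * y⁻¹ = c := by
    have e1 := H.L_conj d y
    have e2 := H.L_conj d' y
    rw [f1, f2, f3] at e1
    rw [f4, f2, f3] at e2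
    calc _ = (y * L π P p r q * y⁻¹) * (y * L π P u r q * y⁻¹) := by rw [hc]; group
      _ = c := by rw [e1, e2]
  have hk : π (c * x * c⁻¹ * x⁻¹) = 1 := by
    rw [map_mul, map_mul, map_mul, map_inv, map_inv, hπc, hx, mul_inv_rev, mul_inv_rev]
    simp only [swap_inv]
    ext w
    simp only [Perm.mul_apply, swap_apply_def, Perm.one_apply]
    grind
  have hne : c * x * c⁻¹ * x⁻¹ ≠ 1 := by
    intro e
    have hcx : c * x = x * c := by
      rw [mul_inv_eq_one, mul_inv_eq_iff_eq_mul] at e
      exact e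
    have s1 := sq_dt H hz1 hz hker hperf h1 h2 h3 h4 h5 h6 hx
    have s2 := sq_dt H hz1 hz hker hperf h2 h1 h3 h4.symm h6 h5 hπc
    have s3 := sq_dt H hz1 hz hker hperf h3 h1 h2 h5.symm h6.symm h4 (y := x * c) (by
      rw [map_mul, hx, hπc]
      ext w
      simp only [Perm.mul_apply, swap_apply_def]
      grind)
    apply hz1
    calc z = x * (c * x) * c := by rw [← s3]; group
      _ = (x * x) * (c * c) := by rw [hcx]; group
      _ = 1 := by rw [s1, s2, zz H hz1 hz hker hperf]
  have e := (hker _ hk).resolve_left hne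
  refine ⟨x * y, c, by rw [map_mul, hx], ?_⟩
  have hcy : c * y * c⁻¹ = y := by
    rw [mul_inv_eq_iff_eq_mul] at hyc ⊢
    exact hyc.symm
  calc _ = (c * x * c⁻¹ * x⁻¹) * x * (c * y * c⁻¹) := by group
    _ = _ := by rw [e, hcy, mul_assoc]

theorem comm_of_cov (h5 : 5 ≤ Fintype.card α) (g : Γ) : ∃ a b : Γ, a * b * a⁻¹ * b⁻¹ = g := by
  obtain ⟨u, b, hub, hb, he⟩ := factor h5 (H.even g)
  obtain ⟨x, c, hx, hc⟩ := anti H hz1 hz hker hperf hb
  obtain ⟨a, ha⟩ : ∃ a : Γ, π a * b * (π a)⁻¹ = u := by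
    obtain ⟨a, ha⟩ := isConj_iff.1 hub
    rcases Int.units_eq_one_or (sign a) with hs | hs
    · obtain ⟨a', rfl⟩ := H.surj a hs
      exact ⟨a', ha⟩
    · obtain ⟨p, q, r, v, b', h1, h2, h3, h4, h5, h6, rfl, -, f1, f2, -, -⟩ := hb
      obtain ⟨a', ha'⟩ := H.surj (a * swap p q) (by simp [hs, sign_swap h1])
      refine ⟨a', ?_⟩
      rw [ha', ← ha, mul_inv_rev, swap_inv]
      have c1 : (swap p q * swap r v * b') * swap p q = swap p q * (swap p q * swap r v * b') := by
        have c2 : swap r v * swap p q = swap p q * swap r v :=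
          swap_comm_of_fix (swap_apply_of_ne_of_ne h2 h3) (swap_apply_of_ne_of_ne h4 h5)
        rw [mul_assoc, swap_comm_of_fix f1 f2, ← mul_assoc, mul_assoc (swap p q), c2]
        group
      calc _ = a * (swap p q * ((swap p q * swap r v * b') * swap p q)) * a⁻¹ := by group
        _ = _ := by rw [c1, ← mul_assoc (swap p q) (swap p q), swap_mul_self, one_mul]
  have hk : π (g * (a * x * a⁻¹ * x⁻¹)⁻¹) = 1 := by
    rw [map_mul, map_inv, map_mul, map_mul, map_mul, map_inv, map_inv, hx, ha, he]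
    group
  rcases hker _ hk with e | e
  · exact ⟨a, x, (mul_inv_eq_one.1 e).symm⟩
  · refine ⟨a * c, x, ?_⟩
    rw [mul_inv_eq_iff_eq_mul] at e
    have := H.cen z hz a
    calc _ = a * (c * x * c⁻¹) * a⁻¹ * x⁻¹ := by group
      _ = (a * z) * x * a⁻¹ * x⁻¹ := by rw [hc]; group
      _ = _ := by rw [this, e]; group

end cover

theorem main [Finite Γ] (hperf : commutator Γ = ⊤) (h5 : 5 ≤ Fintype.card α)
    (hZ : Nat.card (Subgroup.center Γ) = 2) (e : Γ ⧸ Subgroup.center Γ ≃* alternatingGroup α)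
    (g : Γ) : ∃ a b : Γ, a * b * a⁻¹ * b⁻¹ = g := by
  obtain ⟨π, H, hπ⟩ := ce_of_quot le_rfl e
  have h2 : ∀ w, π w = 1 → w * w = 1 := fun w hw => by
    have := pow_card_eq_one' (x := (⟨w, (hπ w).1 hw⟩ : Subgroup.center Γ))
    rw [hZ, sq] at this
    exact congrArg Subtype.val this
  have C := H.cov_of_three fun z hz h3 => by rwa [h2 z hz, one_mul] at h3
  obtain ⟨z, hz1, hz⟩ := (Nat.card_eq_two_iff' (1 : Subgroup.center Γ)).1 hZ
  refine comm_of_cov C (z := z) (fun h => hz1 (Subtype.ext h)) ((hπ _).2 z.2) ?_ hperf h5 g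
  intro w hw
  by_cases h : w = 1
  · exact Or.inl h
  · right
    have := hz ⟨w, (hπ w).1 hw⟩ (fun e => h (congrArg Subtype.val e))
    exact congrArg Subtype.val this

end Cfsg.Agent.H3.Ore
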