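import Mathlib

/-! Symplectic groups as quaternionic unitary groups over a finite field of odd order. -/

set_option autoImplicit false
set_option linter.unusedSectionVars false

namespace Cfsg.Agent.H3.Pn

open Quaternion Matrix

variable {F : Type*} [Field F]

theorem exists_ab [Finite F] : ∃ a b : F, a ^ 2 + b ^ 2 = -1 := by
  obtain ⟨p, hp⟩ := CharP.exists F
  haveI : NeZero p := ⟨CharP.char_ne_zero_of_finite F p⟩
  obtain ⟨a, b, h⟩ := CharP.sq_add_sq F p (-1)
  exact ⟨a, b, by simpa using h⟩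

/-- the splitting of the quaternion algebra -/
def spl (a b : F) (h : a ^ 2 + b ^ 2 = -1) (h2 : (2 : F) ≠ 0) : ℍ[F] ≃+* Matrix (Fin 2) (Fin 2) F where
  toFun x := !![x.re + a * x.imI + b * x.imK, b * x.imI - x.imJ - a * x.imK;
    b * x.imI + x.imJ - a * x.imK, x.re - a * x.imI - b * x.imK]
  invFun m := ⟨(m 0 0 + m 1 1) / 2, -(a * (m 0 0 - m 1 1) + b * (m 0 1 + m 1 0)) / 2, (m 1 0 - m 0 1) / 2,
    -(b * (m 0 0 - m 1 1) - a * (m 0 1 + m 1 0)) / 2⟩
  left_inv x := by
    ext <;> simp <;> field_simp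
    · ring
    · linear_combination (-2 * x.imI) * h
    · ring
    · linear_combination (-2 * x.imK) * h
  right_inv m := by
    ext i j
    fin_cases i <;> fin_cases j <;> simp <;> field_simp
    · linear_combination (m 1 1 - m 0 0) * h
    · linear_combination (-(m 0 1 + m 1 0)) * h
    · linear_combination (-(m 0 1 + m 1 0)) * h
    · linear_combination (m 0 0 - m 1 1) * h
  map_mul' x y := by
    ext i j
    fin_cases i <;> fin_cases j <;> simp [Matrix.mul_apply, Fin.sum_univ_two]
    · linear_combination (-(x.imI * y.imI) - x.imK * y.imK) * h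
    · linear_combination (x.imI * y.imK - x.imK * y.imI) * h
    · linear_combination (x.imK * y.imI - x.imI * y.imK) * h
    · linear_combination (-(x.imI * y.imI) - x.imK * y.imK) * h
  map_add' x y := by
    ext i j
    fin_cases i <;> fin_cases j <;> simp <;> ring

section

variable {a b : F} (h : a ^ 2 + b ^ 2 = -1) (h2 : (2 : F) ≠ 0)

theorem spl_apply (x : ℍ[F]) : spl a b h h2 x = !![x.re + a * x.imI + b * x.imK, b * x.imI - x.imJ - a * x.imK;
    b * x.imI + x.imJ - a * x.imK, x.re - a * x.imI - b * x.imK] := rfl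

theorem spl_star (x : ℍ[F]) : spl a b h h2 (star x) = adjugate (spl a b h h2 x) := by
  rw [spl_apply, spl_apply, adjugate_fin_two_of]
  ext i j
  fin_cases i <;> fin_cases j <;> simp <;> ring

theorem mem_unitary_iff_det (x : ℍ[F]) : x ∈ unitary ℍ[F] ↔ det (spl a b h h2 x) = 1 := by
  rw [Unitary.mem_iff, ← (spl a b h h2).injective.eq_iff, ← (spl a b h h2).injective.eq_iff (a := x * star x),
    map_mul, map_mul, map_one, spl_star, adjugate_mul, mul_adjugate, and_self]
  refine ⟨fun e => ?_, fun e => by rw [e, one_smul]⟩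
  simpa using congrFun (congrFun e 0) 0

/-- `SL₂` as the norm one quaternions -/
def sl2 : SpecialLinearGroup (Fin 2) F ≃* unitary ℍ[F] where
  toFun A := ⟨(spl a b h h2).symm A.1, (mem_unitary_iff_det h h2 _).2 (by rw [RingEquiv.apply_symm_apply, A.2])⟩
  invFun x := ⟨spl a b h h2 x.1, (mem_unitary_iff_det h h2 _).1 x.2⟩
  left_inv A := Subtype.ext ((spl a b h h2).apply_symm_apply _)
  right_inv x := Subtype.ext ((spl a b h h2).symm_apply_apply _)
  map_mul' A B := Subtype.ext (map_mul (spl a b h h2).symm A.1 B.1)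

variable {ι : Type*} [Fintype ι] [DecidableEq ι]

/-- index bookkeeping -/
def idx (ι : Type*) : ι × Fin 2 ≃ ι ⊕ ι where
  toFun p := if p.2 = 0 then .inl p.1 else .inr p.1
  invFun := Sum.elim (·, 0) (·, 1)
  left_inv := by
    rintro ⟨i, j⟩
    fin_cases j <;> simp
  right_inv := by
    rintro (i | i) <;> simp

/-- the splitting for matrices -/
def big : Matrix ι ι ℍ[F] ≃+* Matrix (ι ⊕ ι) (ι ⊕ ι) F :=
  ((spl a b h h2).mapMatrix.trans (Matrix.compRingEquiv ι (Fin 2) F)).trans
    (Matrix.reindexAlgEquiv F F (idx ι)).toRingEquiv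

theorem big_eq (X : Matrix ι ι ℍ[F]) : big h h2 X =
    fromBlocks (of fun s t => spl a b h h2 (X s t) 0 0) (of fun s t => spl a b h h2 (X s t) 0 1)
      (of fun s t => spl a b h h2 (X s t) 1 0) (of fun s t => spl a b h h2 (X s t) 1 1) := by
  ext (s | s) (t | t) <;> rfl

theorem big_star (X : Matrix ι ι ℍ[F]) : big h h2 (star X) = -J ι F * (big h h2 X)ᵀ * J ι F := by
  rw [big_eq, big_eq, J, fromBlocks_transpose, fromBlocks_neg, fromBlocks_multiply, fromBlocks_multiply]
  ext (s | s) (t | t) <;> simp [star_apply, spl_star, adjugate_fin_two]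

theorem mem_unitary_iff_sp (X : Matrix ι ι ℍ[F]) :
    X ∈ unitary (Matrix ι ι ℍ[F]) ↔ big h h2 X ∈ symplecticGroup ι F := by
  rw [Unitary.mem_iff, ← (big h h2).injective.eq_iff, ← (big h h2).injective.eq_iff (a := X * star X),
    map_mul, map_mul, map_one, big_star]
  refine ⟨fun e => ?_, fun e => ?_⟩
  · rw [SymplecticGroup.mem_iff]
    have := congrArg (· * J ι F) e.2
    simp only [mul_assoc, J_squared] at this
    simpa [mul_assoc] using this
  · exact ⟨congrArg Subtype.val (inv_mul_cancel (⟨_, e⟩ : symplecticGroup ι F)),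
      congrArg Subtype.val (mul_inv_cancel (⟨_, e⟩ : symplecticGroup ι F))⟩

/-- `Sp` as a quaternionic unitary group -/
def spU : symplecticGroup ι F ≃* unitary (Matrix ι ι ℍ[F]) where
  toFun A := ⟨(big h h2).symm A.1, (mem_unitary_iff_sp h h2 _).2 (by rw [RingEquiv.apply_symm_apply]; exact A.2)⟩
  invFun x := ⟨big h h2 x.1, (mem_unitary_iff_sp h h2 _).1 x.2⟩
  left_inv A := Subtype.ext ((big h h2).apply_symm_apply _)
  right_inv x := Subtype.ext ((big h h2).symm_apply_apply _)
  map_mul' A B := Subtype.ext (map_mul (big h h2).symm A.1 B.1)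

end

theorem B1 [Finite F] (h2 : (2 : F) ≠ 0) (ι : Type*) [Fintype ι] [DecidableEq ι] :
    Nonempty (Matrix.symplecticGroup ι F ≃* unitary (Matrix ι ι ℍ[F])) :=
  have ⟨_, _, h⟩ := exists_ab (F := F)
  ⟨spU h h2⟩

theorem B2 [Finite F] (h2 : (2 : F) ≠ 0) : Nonempty (Matrix.SpecialLinearGroup (Fin 2) F ≃* unitary ℍ[F]) :=
  have ⟨_, _, h⟩ := exists_ab (F := F)
  ⟨sl2 h h2⟩

end Cfsg.Agent.H3.Pn
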