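import Mathlib

/-!
A virtually free group acting on a tree, realised inside `F(E) ⋊ H`.
-/

set_option autoImplicit false

namespace Cfsg.Agent.H3.Tree

open FreeGroup hiding map_one map_mul map_inv

universe u

section

variable {H V E : Type u} [Group H] [MulAction H V] [MulAction H E] {st : E × Bool → V}

/-- literal paths in the graph -/
def LP (st : E × Bool → V) : V → List (E × Bool) → V → Prop
  | v, [], v' => v = v'
  | v, a :: L, v' => st a = v ∧ LP st (st (a.1, !a.2)) L v'

theorem LP.append {L' : List (E × Bool)} {v' v'' : V} : ∀ {L : List (E × Bool)} {v : V},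
    LP st v L v' → LP st v' L' v'' → LP st v (L ++ L') v''
  | [], _, h, h' => by
    have e : _ = _ := h
    rw [e]
    exact h'
  | _ :: _, _, h, h' => ⟨h.1, LP.append h.2 h'⟩

theorem LP.split {L' : List (E × Bool)} {v'' : V} : ∀ {L : List (E × Bool)} {v : V},
    LP st v (L ++ L') v'' → ∃ v', LP st v L v' ∧ LP st v' L' v''
  | [], v, h => ⟨v, rfl, h⟩
  | _ :: _, _, h =>
    let ⟨v', h1, h2⟩ := LP.split h.2
    ⟨v', ⟨h.1, h1⟩, h2⟩

theorem LP.step {L L' : List (E × Bool)} {v v' : V} (h : Red.Step L L') (h1 : LP st v L v') :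
    LP st v L' v' := by
  cases h with
  | not =>
    obtain ⟨u, h2, h3, -, h4⟩ := h1.split
    simp only [Bool.not_not] at h4
    exact h2.append (h3 ▸ h4)

theorem LP.red {L L' : List (E × Bool)} {v v' : V} (h : Red L L') (h1 : LP st v L v') :
    LP st v L' v' := by
  induction h with
  | refl => exact h1
  | tail _ h2 ih => exact ih.step h2

theorem LP.rev {v' : V} : ∀ {L : List (E × Bool)} {v : V}, LP st v L v' → LP st v' (invRev L) v
  | [], _, h => Eq.symm h
  | a :: L, v, h => by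
    rw [invRev_cons]
    refine (LP.rev h.2).append ⟨rfl, ?_⟩
    show st (a.1, !!a.2) = v
    rw [Bool.not_not]
    exact h.1

theorem LP.smul (hst : ∀ (h : H) e b, st (h • e, b) = h • st (e, b)) (h : H) {v' : V} :
    ∀ {L : List (E × Bool)} {v : V}, LP st v L v' →
      LP st (h • v) (L.map fun x => (h • x.1, x.2)) (h • v')
  | [], _, h1 => congrArg (h • ·) h1
  | a :: L, v, h1 => ⟨by rw [hst, ← h1.1], by
      have := LP.smul hst h h1.2
      rw [← hst] at this
      exact this⟩

/-- the action on the free group -/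
def act (H E : Type u) [Group H] [MulAction H E] : H →* MulAut (FreeGroup E) :=
  MonoidHom.mk' (fun h => freeGroupCongr (MulAction.toPerm h)) fun a b => by
    apply MulEquiv.toMonoidHom_injective
    ext x
    simp [mul_smul]

theorem act_mk (h : H) (L : List (E × Bool)) :
    act H E h (mk L) = mk (L.map fun x => (h • x.1, x.2)) := rfl

theorem toWord_act [DecidableEq E] (h : H) (w : FreeGroup E) :
    (act H E h w).toWord = w.toWord.map fun x => (h • x.1, x.2) := by
  conv_lhs => rw [← mk_toWord (x := w)]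
  rw [act_mk, toWord_mk, IsReduced.reduce_eq]
  exact List.isChain_map_of_isChain _ (fun a b h1 h2 => h1 (MulAction.injective h h2)) isReduced_toWord

theorem norm_act [DecidableEq E] (h : H) (w : FreeGroup E) : (act H E h w).norm = w.norm := by
  simp only [FreeGroup.norm, toWord_act, List.length_map]

/-- paths up to homotopy -/
def Path (st : E × Bool → V) (v : V) (w : FreeGroup E) (v' : V) : Prop := ∃ L, mk L = w ∧ LP st v L v'

theorem Path.toWord [DecidableEq E] {v v' : V} {w : FreeGroup E} (h : Path st v w v') :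
    LP st v w.toWord v' := by
  obtain ⟨L, rfl, h⟩ := h
  exact h.red reduce.red

theorem Path.one (v : V) : Path st v 1 v := ⟨[], rfl, rfl⟩

theorem Path.eq {v v' : V} (h : Path st v 1 v') : v = v' := by
  classical
  exact h.toWord

theorem Path.mul {v v' v'' : V} {w w' : FreeGroup E} (h : Path st v w v') (h' : Path st v' w' v'') :
    Path st v (w * w') v'' := by
  obtain ⟨L, rfl, h⟩ := h
  obtain ⟨L', rfl, h'⟩ := h'
  exact ⟨_, rfl, h.append h'⟩

theorem Path.inv {v v' : V} {w : FreeGroup E} (h : Path st v w v') : Path st v' w⁻¹ v := by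
  obtain ⟨L, rfl, h⟩ := h
  exact ⟨_, rfl, h.rev⟩

theorem Path.smul (hst : ∀ (h : H) e b, st (h • e, b) = h • st (e, b)) (h : H) {v v' : V}
    {w : FreeGroup E} (h1 : Path st v w v') : Path st (h • v) (act H E h w) (h • v') := by
  obtain ⟨L, rfl, h1⟩ := h1
  exact ⟨_, rfl, h1.smul hst h⟩

/-- the ambient group -/
abbrev Amb (H E : Type u) [Group H] [MulAction H E] := FreeGroup E ⋊[act H E] H

/-- the group of lifts to the universal cover -/
def GG (hst : ∀ (h : H) e b, st (h • e, b) = h • st (e, b)) (v0 : V) : Subgroup (Amb H E) where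
  carrier := {γ | Path st v0 γ.left (γ.right • v0)}
  mul_mem' := fun {a b} ha hb => by
    show Path st v0 (a.left * act H E a.right b.left) ((a.right * b.right) • v0)
    rw [mul_smul]
    exact Path.mul ha (Path.smul hst _ hb)
  one_mem' := by
    show Path st v0 1 ((1 : H) • v0)
    rw [one_smul]
    exact Path.one v0
  inv_mem' := fun {a} ha => by
    have := (Path.inv ha).smul hst a.right⁻¹
    rw [inv_smul_smul] at this
    exact this

/-- the action on the vertices of the Cayley tree -/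
def dot (γ : Amb H E) (x : FreeGroup E) : FreeGroup E := γ.left * act H E γ.right x

theorem conj_left {g k : Amb H E} (h : dot k g.left = g.left) : (g⁻¹ * k * g).left = 1 := by
  rw [mul_assoc]
  show act H E g.right⁻¹ g.left⁻¹ * act H E g.right⁻¹ (dot k g.left) = 1
  rw [h, ← map_mul, inv_mul_cancel, map_one]

/-- the exponent sum -/
def sg (E : Type u) : FreeGroup E →* Multiplicative ℤ := FreeGroup.lift fun _ => Multiplicative.ofAdd 1

theorem sg_act (h : H) (w : FreeGroup E) : sg E (act H E h w) = sg E w := by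
  have : (sg E).comp (act H E h).toMonoidHom = sg E := by
    ext x
    rfl
  exact DFunLike.congr_fun this w

theorem sg_letter (a : E × Bool) : sg E (mk [a]) ≠ 1 := by
  obtain ⟨e, _ | _⟩ := a
  · rw [show mk [(e, false)] = (of e)⁻¹ from rfl, map_inv, sg, lift_apply_of]
    decide
  · rw [show mk [(e, true)] = of e from rfl, sg, lift_apply_of]
    decide

theorem sg_fin {k : Amb H E} (hk : IsOfFinOrder k) : sg E k.left = 1 := by
  let σ : Amb H E →* Multiplicative ℤ := MonoidHom.mk' (fun γ => sg E γ.left) fun a b => by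
    simp only [SemidirectProduct.mul_left, map_mul, sg_act]
  exact (σ.isOfFinOrder hk).eq_one'

theorem norm_tail [DecidableEq E] {w : FreeGroup E} {a : E × Bool} {L : List (E × Bool)}
    (h : w.toWord = a :: L) : ((mk [a])⁻¹ * w).norm < w.norm := by
  have e : (mk [a])⁻¹ * w = mk L := by
    rw [inv_mul_eq_iff_eq_mul, mul_mk, ← mk_toWord (x := w), h]
    rfl
  rw [e]
  refine norm_mk_le.trans_lt ?_
  rw [FreeGroup.norm, h]
  exact Nat.lt_succ_self _

theorem norm_step [DecidableEq E] {u w : FreeGroup E} {a : E × Bool} {L : List (E × Bool)} {R : ℕ}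
    (h : u.toWord = a :: L) (hL : L ≠ []) (h1 : w.norm ≤ R) (h2 : (u⁻¹ * w).norm ≤ R) :
    ((mk [a])⁻¹ * w).norm < R := by
  by_cases h3 : ∃ M, w.toWord = a :: M
  · obtain ⟨M, h3⟩ := h3
    exact (norm_tail h3).trans_le h1
  have h4 : IsReduced (u⁻¹.toWord ++ w.toWord) := by
    refine List.IsChain.append isReduced_toWord isReduced_toWord fun x hx y hy h5 => ?_
    rw [toWord_inv, h, invRev_cons, show invRev [a] = [(a.1, !a.2)] from rfl, List.getLast?_concat,
      Option.mem_def, Option.some.injEq] at hx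
    subst hx
    obtain ⟨M, hM⟩ := List.head?_eq_some_iff.1 hy
    by_contra h6
    refine h3 ⟨M, ?_⟩
    rw [hM]
    congr 1
    refine Prod.ext h5.symm (Eq.symm ?_)
    simpa using h6
  have h5 : (u⁻¹ * w).norm = L.length + 1 + w.norm := by
    rw [FreeGroup.norm, toWord_mul, h4.reduce_eq, List.length_append, toWord_inv, invRev_length, h]
    rfl
  have h6 := norm_mul_le (mk [a])⁻¹ w
  have h7 : (mk [a])⁻¹.norm ≤ 1 := by
    rw [norm_inv_eq]
    exact norm_mk_le
  have h8 := List.length_pos_iff.2 hL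
  omega

theorem exists_fixed (hst : ∀ (h : H) e b, st (h • e, b) = h • st (e, b)) (v0 : V)
    (K : Subgroup (Amb H E)) (hK : K ≤ GG hst v0) [Finite K] :
    ∃ x v, Path st v0 x v ∧ ∀ k ∈ K, dot k x = x := by
  classical
  obtain ⟨R, hR⟩ := (Set.finite_range fun k : K => (k : Amb H E).left.norm).bddAbove
  have h0 : ∃ x v, Path st v0 x v ∧ ∀ k ∈ K, (x⁻¹ * k.left).norm ≤ R :=
    ⟨1, v0, Path.one v0, fun k hk => by
      rw [inv_one, one_mul]
      exact hR ⟨⟨k, hk⟩, rfl⟩⟩
  clear hR
  induction R using Nat.strong_induction_on with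
  | _ R ih =>
  obtain ⟨x, v, hx, hb⟩ := h0
  by_cases h1 : ∀ k ∈ K, dot k x = x
  · exact ⟨x, v, hx, h1⟩
  push Not at h1
  obtain ⟨k, hk, hne⟩ := h1
  have hy : Path st v0 (dot k x) (k.right • v) := Path.mul (hK hk) (hx.smul hst _)
  have hb' : ∀ k' ∈ K, ((dot k x)⁻¹ * k'.left).norm ≤ R := fun k' hk' => by
    have e : k'.left = dot k (k⁻¹ * k').left := by
      conv_lhs => rw [← mul_inv_cancel_left k k']
      rfl
    have e2 : (dot k x)⁻¹ * k'.left = act H E k.right (x⁻¹ * (k⁻¹ * k').left) := by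
      conv_lhs => rw [e]
      simp only [dot, map_mul, map_inv, mul_inv_rev, mul_assoc, inv_mul_cancel_left]
    rw [e2, norm_act]
    exact hb _ (K.mul_mem (K.inv_mem hk) hk')
  have hu := (hx.inv.mul hy).toWord
  have hs : sg E (x⁻¹ * dot k x) = 1 := by
    have : IsOfFinOrder k := K.subtype.isOfFinOrder (isOfFinOrder_of_finite (⟨k, hk⟩ : K))
    have e : sg E (dot k x) = sg E x := by
      rw [dot, map_mul, sg_fin this, sg_act, one_mul]
    rw [map_mul, e, map_inv, inv_mul_cancel]
  rcases hw : (x⁻¹ * dot k x).toWord with _ | ⟨a, L⟩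
  · exact absurd (inv_mul_eq_one.1 (toWord_eq_nil_iff.1 hw)).symm hne
  have hL : L ≠ [] := by
    rintro rfl
    rw [← mk_toWord (x := x⁻¹ * dot k x), hw] at hs
    exact sg_letter a hs
  rw [hw] at hu
  have key : ∀ k' ∈ K, ((x * mk [a])⁻¹ * k'.left).norm < R := fun k' hk' => by
    rw [mul_inv_rev, mul_assoc]
    refine norm_step hw hL (hb k' hk') ?_
    rw [mul_inv_rev, inv_inv, mul_assoc, mul_inv_cancel_left]
    exact hb' k' hk'
  have h2 := key 1 K.one_mem
  exact ih (R - 1) (by omega) ⟨x * mk [a], _, hx.mul ⟨[a], rfl, hu.1, rfl⟩, fun k' hk' => by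
    have := key k' hk'
    omega⟩

theorem free_ker (G : Subgroup (Amb H E)) :
    IsFreeGroup (SemidirectProduct.rightHom.comp G.subtype).ker := by
  let f : (SemidirectProduct.rightHom.comp G.subtype).ker →* FreeGroup E :=
    MonoidHom.mk' (fun n => n.1.1.left) fun a b => by
      have h : a.1.1.right = 1 := a.2
      show a.1.1.left * act H E a.1.1.right b.1.1.left = _
      rw [h, map_one]
      rfl
  have hf : Function.Injective f := fun a b h =>
    Subtype.ext (Subtype.ext (SemidirectProduct.ext h (Eq.trans a.2 (Eq.symm b.2))))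
  exact IsFreeGroup.ofMulEquiv (MonoidHom.ofInjective hf).symm

/-- the orbit map on cosets -/
def orbMap (Q : Subgroup H) (v : V) (h : ∀ q ∈ Q, q • v = v) (c : H ⧸ Q) : V :=
  Quotient.liftOn' c (fun g => g • v) fun a b hab => by
    have := h _ (QuotientGroup.leftRel_apply.1 hab)
    rw [mul_smul, inv_smul_eq_iff] at this
    exact this.symm

theorem orbMap_mk (Q : Subgroup H) (v : V) (h : ∀ q ∈ Q, q • v = v) (g : H) :
    orbMap Q v h (g : H ⧸ Q) = g • v := rfl

end

theorem realize {S H I : Type u} [Group S] [Group H] (lam : S →* H) (hlam : Function.Injective lam)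
    (P : I → Type u) [∀ i, Group (P i)] (f g : ∀ i, P i →* S) (hh : I → H)
    (hc : ∀ i x, hh i * lam (f i x) = lam (g i x) * hh i) :
    ∃ (G : Type u) (_ : Group G) (ι : S →* G) (t : I → G) (π : G →* H) (ℓ : G → ℕ),
      Function.Injective ι ∧ IsFreeGroup π.ker ∧
      (∀ i x, t i * ι (f i x) * (t i)⁻¹ = ι (g i x)) ∧
      (∀ K : Subgroup G, Finite K → ∃ c : G, ∀ k ∈ K, c * k * c⁻¹ ∈ ι.range) ∧
      (∀ i x y, ι y = t i * ι x * (t i)⁻¹ → y ∈ (g i).range) ∧
      ∀ c, c ∈ ι.range ∨ ∃ s i τ, (τ = t i ∨ τ = (t i)⁻¹) ∧ ℓ ((ι s * τ)⁻¹ * c) < ℓ c ∧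
        ∀ x y, ι y = c * ι x * c⁻¹ → (ι s * τ)⁻¹ * ι y * (ι s * τ) ∈ ι.range := by
  classical
  let Q : I → Subgroup H := fun i => (lam.comp (g i)).range
  let V := H ⧸ lam.range
  let E := Σ i, H ⧸ Q i
  let v0 : V := ((1 : H) : H ⧸ lam.range)
  have hv0 : ∀ h : H, h • v0 = v0 ↔ h ∈ lam.range := fun h => by
    show ((h * 1 : H) : H ⧸ lam.range) = ((1 : H) : H ⧸ lam.range) ↔ _
    rw [QuotientGroup.eq, mul_one, mul_one, inv_mem_iff]
  have hQ : ∀ i (b : Bool), ∀ q ∈ Q i, q • (cond b v0 (hh i • v0)) = cond b v0 (hh i • v0) := by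
    rintro i (_ | _) _ ⟨x, rfl⟩
    · show lam (g i x) • hh i • v0 = hh i • v0
      rw [← mul_smul, ← hc, mul_smul, (hv0 _).2 ⟨_, rfl⟩]
    · exact (hv0 _).2 ⟨_, rfl⟩
  let st : E × Bool → V := fun a => orbMap (Q a.1.1) _ (hQ a.1.1 a.2) a.1.2
  have hst : ∀ (h : H) e b, st (h • e, b) = h • st (e, b) := by
    rintro h ⟨i, c⟩ b
    obtain ⟨c, rfl⟩ := QuotientGroup.mk_surjective c
    exact mul_smul h c _
  let e0 : I → E := fun i => ⟨i, ((1 : H) : H ⧸ Q i)⟩
  have he0 : ∀ i (h : H), h • e0 i = ⟨i, (h : H ⧸ Q i)⟩ := fun i h => by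
    show (⟨i, ((h * 1 : H) : H ⧸ Q i)⟩ : E) = _
    rw [mul_one]
  have he1 : ∀ i (h : H), h • e0 i = e0 i ↔ h ∈ Q i := fun i h => by
    rw [he0]
    constructor
    · intro h1
      have h2 : (h : H ⧸ Q i) = ((1 : H) : H ⧸ Q i) := eq_of_heq (Sigma.mk.inj h1).2
      rwa [QuotientGroup.eq, mul_one, inv_mem_iff] at h2
    · intro h1
      have h2 : (h : H ⧸ Q i) = ((1 : H) : H ⧸ Q i) := by
        rwa [QuotientGroup.eq, mul_one, inv_mem_iff]
      rw [h2]
  let ι : S →* GG hst v0 := (SemidirectProduct.inr.comp lam).codRestrict _ fun s => by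
    show Path st v0 1 (lam s • v0)
    rw [(hv0 _).2 ⟨s, rfl⟩]
    exact Path.one v0
  let t : I → GG hst v0 := fun i => ⟨⟨mk [(e0 i, true)], hh i⟩, [(e0 i, true)], rfl,
    one_smul H v0, one_smul H (hh i • v0)⟩
  have hι : ∀ c : GG hst v0, c.1.left = 1 → c ∈ ι.range := fun c h => by
    have h1 : Path st v0 c.1.left (c.1.right • v0) := c.2
    rw [h] at h1
    obtain ⟨s, hs⟩ := (hv0 _).1 h1.eq.symm
    exact ⟨s, Subtype.ext (SemidirectProduct.ext h.symm hs)⟩
  have hfix : ∀ (c : GG hst v0) x y, ι y = c * ι x * c⁻¹ → act H E (lam y) c.1.left = c.1.left := by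
    intro c x y h
    have h1 : ι y * c = c * ι x := by rw [h, inv_mul_cancel_right]
    have h2 : (1 : FreeGroup E) * act H E (lam y) c.1.left = c.1.left * act H E c.1.right 1 :=
      congrArg (fun z : GG hst v0 => z.1.left) h1
    rwa [one_mul, map_one, mul_one] at h2
  have hhead : ∀ (w : FreeGroup E) (h : H) a L, w.toWord = a :: L → act H E h w = w → h • a.1 = a.1 := by
    intro w h a L h1 h2
    have h3 := toWord_act h w
    rw [h2, h1, List.map_cons] at h3
    exact (congrArg Prod.fst (List.cons.inj h3).1).symm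
  refine ⟨GG hst v0, inferInstance, ι, t, SemidirectProduct.rightHom.comp (GG hst v0).subtype,
    fun c => c.1.left.norm, fun a b h => hlam (congrArg (fun z : GG hst v0 => z.1.right) h),
    free_ker _, fun i x => ?_, fun K hK => ?_, fun i x y h => ?_, fun c => ?_⟩
  · rw [mul_inv_eq_iff_eq_mul]
    refine Subtype.ext (SemidirectProduct.ext ?_ (hc i x))
    show mk [(e0 i, true)] * act H E (hh i) 1 = 1 * mk [(lam (g i x) • e0 i, true)]
    rw [map_one, mul_one, one_mul, (he1 i (lam (g i x))).2 ⟨x, rfl⟩]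
  · haveI : Finite (K.map (GG hst v0).subtype) :=
      Finite.of_equiv _ (K.equivMapOfInjective _ (GG hst v0).subtype_injective).toEquiv
    obtain ⟨x, v, h1, h2⟩ := exists_fixed hst v0 _ (Subgroup.map_subtype_le K)
    obtain ⟨h, rfl⟩ := QuotientGroup.mk_surjective v
    let c : GG hst v0 := ⟨⟨x, h⟩, by
      show Path st v0 x ((h * 1 : H) : H ⧸ lam.range)
      rw [mul_one]
      exact h1⟩
    refine ⟨c⁻¹, fun k hk => hι _ ?_⟩
    rw [inv_inv]
    exact conj_left (g := c.1) (h2 k.1 ⟨k, hk, rfl⟩)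
  · obtain ⟨z, hz⟩ := (he1 i _).1 (hhead _ _ (e0 i, true) [] rfl (hfix (t i) x y h))
    exact ⟨z, hlam hz⟩
  · rcases hw : c.1.left.toWord with _ | ⟨a, L⟩
    · exact Or.inl (hι c (toWord_eq_nil_iff.1 hw))
    right
    have h1 : LP st v0 c.1.left.toWord _ := Path.toWord c.2
    rw [hw] at h1
    obtain ⟨s, i, τ, h2, h3⟩ : ∃ s i τ, (τ = t i ∨ τ = (t i)⁻¹) ∧ (ι s * τ).1.left = mk [a] := by
      obtain ⟨⟨i, d⟩, b⟩ := a
      obtain ⟨d, rfl⟩ := QuotientGroup.mk_surjective d
      cases b
      · have h4 : d • hh i • v0 = v0 := h1.1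
        rw [← mul_smul] at h4
        obtain ⟨s, hs⟩ := (hv0 _).1 h4
        refine ⟨s, i, _, Or.inr rfl, ?_⟩
        show 1 * mk [(lam s • (hh i)⁻¹ • e0 i, false)] = _
        rw [one_mul, ← mul_smul, hs, mul_inv_cancel_right, he0]
      · obtain ⟨s, hs⟩ := (hv0 _).1 (show d • v0 = v0 from h1.1)
        refine ⟨s, i, _, Or.inl rfl, ?_⟩
        show 1 * mk [(lam s • e0 i, true)] = _
        rw [one_mul, hs, he0]
    refine ⟨s, i, τ, h2, ?_, fun x y h => hι _ (conj_left (g := (ι s * τ).1) ?_)⟩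
    · generalize ι s * τ = z at h3
      show (act H E z.1.right⁻¹ z.1.left⁻¹ * act H E z.1.right⁻¹ c.1.left).norm < _
      rw [← map_mul, norm_act, h3]
      exact norm_tail hw
    · rw [h3]
      show 1 * mk [(lam y • a.1, a.2)] = _
      rw [one_mul, hhead _ _ a L hw (hfix c x y h)]

end Cfsg.Agent.H3.Tree
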