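import Cfsg.Agent.H3.Tree
import Cfsg.Prelude.Def_FusionSystem

/-!
Every fusion system is realised by a virtually free group (Leary–Stancu, Robinson).
-/

set_option autoImplicit false

namespace Cfsg.Agent.H3.Tree

open Cfsg Subgroup

universe u

theorem perm_ext {S P : Type u} [Group S] [Finite S] [Group P] (f g : P →* S)
    (hf : Function.Injective f) (hg : Function.Injective g) :
    ∃ h : Equiv.Perm S, ∀ x s, h (f x * s) = g x * h s := by
  obtain ⟨T, hT, -⟩ := exists_isComplement_right f.range 1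
  obtain ⟨U, hU, -⟩ := exists_isComplement_right g.range 1
  let ψ : f.range ≃* g.range := (MonoidHom.ofInjective hf).symm.trans (MonoidHom.ofInjective hg)
  have h1 : Nat.card T = Nat.card U := by
    have h2 := hT.card_mul_card
    have h3 := hU.card_mul_card
    have h4 : Nat.card f.range = Nat.card g.range := Nat.card_congr ψ.toEquiv
    have h5 : 0 < Nat.card g.range := Nat.card_pos
    exact Nat.eq_of_mul_eq_mul_left h5 (((congrArg (· * _) h4).symm.trans h2).trans h3.symm)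
  obtain ⟨τ⟩ := Finite.card_eq.1 h1
  refine ⟨hT.equiv.trans ((ψ.toEquiv.prodCongr τ).trans hU.equiv.symm), fun x s => ?_⟩
  have h2 : (ψ ⟨f x, x, rfl⟩ : S) = g x := by
    have : (MonoidHom.ofInjective hf).symm ⟨f x, x, rfl⟩ = x := by
      rw [MulEquiv.symm_apply_eq]
      rfl
    show ((MonoidHom.ofInjective hg ((MonoidHom.ofInjective hf).symm ⟨f x, x, rfl⟩) : g.range) : S) = _
    rw [this]
    rfl
  show (hU.equiv.symm ((ψ.toEquiv.prodCongr τ) (hT.equiv (f x * s))) : S) =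
    g x * hU.equiv.symm ((ψ.toEquiv.prodCongr τ) (hT.equiv s))
  rw [hT.equiv_mul_left_of_mem ⟨x, rfl⟩, IsComplement.equiv_symm_apply, IsComplement.equiv_symm_apply,
    ← mul_assoc, ← h2]
  congr 1
  exact congrArg Subtype.val (map_mul ψ _ _)

variable {Ω : Type u} [Group Ω] {S : Subgroup Ω} {G : Type u} [Group G]

/-- conjugation by `c` only induces maps of the system -/
def Fus (F : FusionSystem S) (ι : S →* G) (c : G) : Prop :=
  ∀ (P : Subgroup Ω) (hP : P ≤ S) (φ : P →* Ω) (hφ : ∀ x : P, φ x ∈ S),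
    (∀ x : P, ι ⟨φ x, hφ x⟩ = c * ι ⟨x, hP x.2⟩ * c⁻¹) → φ ∈ F.Hom P

theorem exists_hom {ι : S →* G} (hι : Function.Injective ι) {P : Subgroup Ω} (hP : P ≤ S) (c : G)
    (h : ∀ x : P, c * ι ⟨x, hP x.2⟩ * c⁻¹ ∈ ι.range) :
    ∃ (φ : P →* Ω) (hφ : ∀ x : P, φ x ∈ S), ∀ x : P, ι ⟨φ x, hφ x⟩ = c * ι ⟨x, hP x.2⟩ * c⁻¹ := by
  choose f hf using h
  refine ⟨MonoidHom.mk' (fun x => f x) fun a b => ?_, fun x => (f x).2, hf⟩
  rw [← coe_mul]
  congr 1
  apply hι
  rw [map_mul, hf, hf, hf, show (⟨(a * b : P), hP (a * b).2⟩ : S) = ⟨a, hP a.2⟩ * ⟨b, hP b.2⟩ from rfl,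
    map_mul]
  group

theorem Fus.comp {F : FusionSystem S} {ι : S →* G} (hι : Function.Injective ι) {c d : G}
    (hc : Fus F ι c) (hd : Fus F ι d) {P : Subgroup Ω} (hP : P ≤ S) (φ : P →* Ω)
    (hφ : ∀ x : P, φ x ∈ S) (h : ∀ x : P, ι ⟨φ x, hφ x⟩ = c * d * ι ⟨x, hP x.2⟩ * (c * d)⁻¹)
    (h1 : ∀ x : P, d * ι ⟨x, hP x.2⟩ * d⁻¹ ∈ ι.range) : φ ∈ F.Hom P := by
  obtain ⟨α, hα, h2⟩ := exists_hom hι hP d h1
  have hR : α.range ≤ S := by
    rintro _ ⟨x, rfl⟩
    exact hα x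
  have h3 : ∀ x : P, c * ι ⟨α x, hα x⟩ * c⁻¹ = ι ⟨φ x, hφ x⟩ := fun x => by
    rw [h, h2]
    group
  obtain ⟨β, hβ, h4⟩ := exists_hom hι hR c (by
    rintro ⟨_, x, rfl⟩
    exact ⟨_, (h3 x).symm⟩)
  have h5 := F.comp_mem (hd P hP α hα h2) (hc _ hR β hβ h4) fun x => ⟨x, rfl⟩
  convert h5 using 1
  ext x
  exact congrArg Subtype.val (hι ((h3 x).symm.trans (h4 ⟨α x, x, rfl⟩).symm))

theorem fus_range (F : FusionSystem S) {ι : S →* G} (hι : Function.Injective ι) (s : S) :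
    Fus F ι (ι s) := by
  intro P hP φ hφ h
  convert F.conj_mem hP s.2 using 1
  ext x
  have h1 := h x
  rw [← map_inv, ← map_mul, ← map_mul] at h1
  exact congrArg Subtype.val (hι h1)

theorem res_mem (F : FusionSystem S) {P Q : Subgroup Ω} (hP : P ≤ S) {ψ : Q →* Ω} (hψ : ψ ∈ F.Hom Q)
    (h : ∀ x : P, (x : Ω) ∈ Q) {φ : P →* Ω} (e : ∀ x : P, φ x = ψ ⟨x, h x⟩) : φ ∈ F.Hom P := by
  have h1 : ∀ x : P, conjHom P 1 x = x := fun x => by simp [conjHom]
  convert F.comp_mem (F.conj_mem hP S.one_mem) hψ fun x => (h1 x).symm ▸ h x using 1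
  ext x
  rw [e]
  exact congrArg ψ (Subtype.ext (h1 x).symm)

theorem leary_stancu [Finite S] (F : FusionSystem S) :
    ∃ (G : Type u) (_ : Group G) (ι : S →* G), F.IsRealizedBy ι ∧
      (∀ H : Subgroup G, Finite H → ∃ g : G, ∀ h ∈ H, g * h * g⁻¹ ∈ ι.range) ∧
      ∃ N : Subgroup G, N.Normal ∧ IsFreeGroup N ∧ N.index ∣ (Nat.card S).factorial := by
  let I := Σ P : Subgroup Ω, F.Hom P
  let f : ∀ i : I, i.1 →* S := fun i => inclusion (F.le_of_mem i.2.2).1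
  let g : ∀ i : I, i.1 →* S := fun i => i.2.1.codRestrict S (F.le_of_mem i.2.2).2
  have hf : ∀ i, Function.Injective (f i) := fun i => inclusion_injective _
  have hg : ∀ i, Function.Injective (g i) := fun i a b h =>
    F.injective_of_mem i.2.2 (congrArg Subtype.val h)
  choose hh hc using fun i => perm_ext (f i) (g i) (hf i) (hg i)
  obtain ⟨G, _, ι, t, π, ℓ, h1, h2, h3, h4, h5, h6⟩ := realize (MulAction.toPermHom S S)
    MulAction.toPerm_injective (fun i : I => i.1) f g hh fun i x => Equiv.ext fun s => hc i x s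
  have ft : ∀ i, Fus F ι (t i) := fun i P hP φ hφ h => by
    have h7 : ∀ x : P, ∃ z, f i z = ⟨x, hP x.2⟩ ∧ g i z = ⟨φ x, hφ x⟩ := fun x => by
      obtain ⟨z, hz⟩ := h5 i _ _ (h x)
      refine ⟨z, h1 ?_, hz⟩
      have h8 := h3 i z
      rw [hz, h x] at h8
      simpa using h8
    choose z hz hz' using h7
    have h8 : ∀ x, (z x : Ω) = x := fun x => congrArg Subtype.val (hz x)
    refine res_mem F hP i.2.2 (fun x => h8 x ▸ (z x).2) fun x => ?_
    exact (congrArg Subtype.val (hz' x)).symm.trans (congrArg i.2.1 (Subtype.ext (h8 x)))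
  have ft' : ∀ i, Fus F ι (t i)⁻¹ := fun i P hP φ hφ h => by
    have h7 : ∀ x : P, ∃ z, g i z = ⟨x, hP x.2⟩ ∧ f i z = ⟨φ x, hφ x⟩ := fun x => by
      have h8 : ι ⟨x, hP x.2⟩ = t i * ι ⟨φ x, hφ x⟩ * (t i)⁻¹ := by
        rw [h x]
        group
      obtain ⟨z, hz⟩ := h5 i _ _ h8
      refine ⟨z, hz, h1 ?_⟩
      have h9 := h3 i z
      rw [hz, h8] at h9
      simpa using h9
    choose z hz hz' using h7
    obtain ⟨ψ, hψ, h8⟩ := F.inv_mem i.2.2
    have h9 : ∀ x, i.2.1 (z x) = x := fun x => congrArg Subtype.val (hz x)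
    refine res_mem F hP hψ (fun x => ⟨z x, h9 x⟩) fun x => ?_
    exact (congrArg Subtype.val (hz' x)).symm.trans
      ((h8 (z x)).symm.trans (congrArg ψ (Subtype.ext (h9 x))))
  have key : ∀ n c, ℓ c = n → Fus F ι c := by
    intro n
    induction n using Nat.strong_induction_on with
    | _ n ih =>
    intro c hn
    rcases h6 c with ⟨s, rfl⟩ | ⟨s, i, τ, a1, a2, a3⟩
    · exact fus_range F h1 s
    have a4 : Fus F ι τ := by
      rcases a1 with rfl | rfl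
      exacts [ft i, ft' i]
    have a5 : Fus F ι (ι s * τ) := fun P hP φ hφ h =>
      (fus_range F h1 s).comp h1 a4 hP φ hφ h fun x => ⟨s⁻¹ * ⟨φ x, hφ x⟩ * s, by
        rw [map_mul, map_mul, map_inv, h x]
        group⟩
    intro P hP φ hφ h
    refine a5.comp h1 (ih _ (hn ▸ a2) _ rfl) hP φ hφ (by rwa [mul_inv_cancel_left]) fun x => ?_
    convert a3 _ _ (h x) using 1
    rw [h x]
    group
  refine ⟨G, inferInstance, ι, ⟨h1, fun P hP φ hφ => ⟨fun h => ⟨t ⟨P, φ, h⟩, fun x => ?_⟩,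
    fun ⟨c, h⟩ => key _ c rfl P hP φ hφ h⟩⟩, h4, π.ker, inferInstance, h2, ?_⟩
  · exact (h3 ⟨P, φ, h⟩ x).symm
  · rw [index_ker, ← Nat.card_perm]
    exact card_subgroup_dvd_card _

end Cfsg.Agent.H3.Tree
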