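import Cfsg.Agent.S2799
import Cfsg.Agent.FT.PLen

/-!
The weakly closed elements of a Sylow subgroup form a direct factor of its centre.
-/

set_option autoImplicit false

namespace Cfsg.Agent.H3.WC

open Subgroup

variable {G : Type*} [Group G] [Finite G] {p : ℕ} [hp : Fact p.Prime]

theorem direct_factor (S : Sylow p G) (N V : Subgroup G) (hSN : (S : Subgroup G) ≤ N)
    (hVS : V ≤ S) (hZV : (S : Subgroup G) ⊓ centralizer (S : Set G) ≤ V)
    (hab : ∀ a ∈ V, ∀ b ∈ V, a * b = b * a) (hN : ∀ n ∈ N, ∀ v ∈ V, n * v * n⁻¹ ∈ V) :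
    ∃ K : Subgroup G, K ≤ (S : Subgroup G) ⊓ centralizer (S : Set G) ∧
      (V ⊓ centralizer (N : Set G)) ⊓ K = ⊥ ∧
      (V ⊓ centralizer (N : Set G)) ⊔ K = (S : Subgroup G) ⊓ centralizer (S : Set G) := by
  classical
  letI : CommGroup V := { (inferInstance : Group V) with
    mul_comm := fun a b => Subtype.ext (hab a a.2 b b.2) }
  set Z : Subgroup G := (S : Subgroup G) ⊓ centralizer (S : Set G) with hZ
  let S' : Subgroup N := (S : Subgroup G).subgroupOf N
  letI : Fintype (N ⧸ S') := Fintype.ofFinite _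
  let c : N → V →* V := fun n => MonoidHom.mk' (fun v => ⟨n * v * (n : G)⁻¹, hN n n.2 v v.2⟩)
    (fun a b => Subtype.ext (by simp only [coe_mul]; group))
  have hc : ∀ (n : N) (v : V), ((c n v : V) : G) = n * v * (n : G)⁻¹ := fun _ _ => rfl
  let ν : V →* V := MonoidHom.mk' (fun v => ∏ q : N ⧸ S', c q.out v)
    (fun a b => by simp only [map_mul, Finset.prod_mul_distrib])
  have hν : ∀ v, ν v = ∏ q : N ⧸ S', c q.out v := fun _ => rfl
  have hcos : ∀ (n n' : N) (z : V), (z : G) ∈ Z → n⁻¹ * n' ∈ S' → c n z = c n' z := by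
    intro n n' z hz h
    apply Subtype.ext
    have h1 := (mem_centralizer_iff.mp hz.2) _ (show ((n⁻¹ * n' : N) : G) ∈ (S : Set G) from h)
    rw [hc, hc]
    simp only [coe_mul, coe_inv] at h1
    calc (n : G) * z * (n : G)⁻¹ = n * (z * ((n : G)⁻¹ * n')) * (n' : G)⁻¹ := by group
      _ = n * (((n : G)⁻¹ * n') * z) * (n' : G)⁻¹ := by rw [h1]
      _ = _ := by group
  have hfix : ∀ z : V, (z : G) ∈ Z → ((ν z : V) : G) ∈ centralizer (N : Set G) := by
    intro z hz
    rw [mem_centralizer_iff]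
    intro m hm
    have : c ⟨m, hm⟩ (ν z) = ν z := by
      rw [hν, map_prod]
      apply Fintype.prod_equiv (MulAction.toPerm (⟨m, hm⟩ : N))
      intro q
      have e : c ⟨m, hm⟩ (c q.out z) = c (⟨m, hm⟩ * q.out) z := by
        apply Subtype.ext
        simp only [hc, coe_mul]; group
      rw [e]
      apply hcos _ _ _ hz
      rw [← QuotientGroup.eq, QuotientGroup.out_eq', MulAction.toPerm_apply]
      conv_rhs => rw [← QuotientGroup.out_eq' q]
      rfl
    have h2 := congrArg Subtype.val this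
    rw [hc] at h2
    exact mul_inv_eq_iff_eq_mul.mp h2
  have hpow : ∀ w : V, (w : G) ∈ centralizer (N : Set G) → ν w = w ^ S'.index := by
    intro w hw
    rw [hν, Finset.prod_congr rfl (g := fun _ => w), Finset.prod_const, Finset.card_univ,
      index_eq_card, Nat.card_eq_fintype_card]
    intro q _
    apply Subtype.ext
    rw [hc, (mem_centralizer_iff.mp hw) _ (q.out).2, mul_inv_cancel_right]
  have hidx : ¬ p ∣ S'.index := fun h =>
    S.not_dvd_index (h.trans (relIndex_dvd_index_of_le hSN))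
  have hV : IsPGroup p V := S.isPGroup'.to_le hVS
  have hcop : ∀ w : V, (orderOf w).Coprime S'.index := by
    intro w
    obtain ⟨k, hk⟩ := IsPGroup.iff_orderOf.mp hV w
    rw [hk]
    exact Nat.Coprime.pow_left _ ((Nat.Prime.coprime_iff_not_dvd hp.out).mpr hidx)
  have hWZ : V ⊓ centralizer (N : Set G) ≤ Z := fun x hx =>
    ⟨hVS hx.1, centralizer_le (fun y hy => hSN hy) hx.2⟩
  refine ⟨ν.ker.map V.subtype ⊓ Z, inf_le_right, ?_, ?_⟩
  · rw [eq_bot_iff]
    rintro x ⟨hx, ⟨w, hw, rfl⟩, -⟩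
    have h1 : w ^ S'.index = 1 := by rw [← hpow w hx.2]; exact hw
    have h2 : orderOf w = 1 := Nat.Coprime.eq_one_of_dvd (hcop w) (orderOf_dvd_of_pow_eq_one h1)
    rw [orderOf_eq_one_iff] at h2
    simp [h2]
  · apply le_antisymm (sup_le hWZ inf_le_right)
    intro z hz
    let z' : V := ⟨z, hZV hz⟩
    obtain ⟨k, hk⟩ := exists_pow_eq_self_of_coprime (hcop (ν z')).symm
    have hw : (((ν z') ^ k : V) : G) ∈ centralizer (N : Set G) := by
      rw [coe_pow]; exact pow_mem (hfix z' hz) k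
    have e : z = (((ν z') ^ k : V) : G) * ((((ν z') ^ k)⁻¹ * z' : V) : G) := by
      simp [z']
    rw [e]
    refine mul_mem_sup ⟨((ν z') ^ k).2, hw⟩ ⟨⟨((ν z') ^ k)⁻¹ * z', ?_, rfl⟩, ?_⟩
    · show ν _ = 1
      rw [map_mul, map_inv, hpow _ hw, ← pow_mul, mul_comm k, pow_mul, hk, inv_mul_cancel]
    · rw [coe_mul, coe_inv]
      exact Z.mul_mem (Z.inv_mem (hWZ ⟨((ν z') ^ k).2, hw⟩)) hz

theorem of_local (S : Sylow p G) (N V : Subgroup G) (hSN : (S : Subgroup G) ≤ N)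
    (hVS : V ≤ S) (hZV : (S : Subgroup G) ⊓ centralizer (S : Set G) ≤ V)
    (hab : ∀ a ∈ V, ∀ b ∈ V, a * b = b * a) (hN : ∀ n ∈ N, ∀ v ∈ V, n * v * n⁻¹ ∈ V)
    (hwc : ∀ x ∈ V, x ∈ centralizer (N : Set G) →
      ∀ g : G, g * x * g⁻¹ ∈ (S : Subgroup G) → g * x * g⁻¹ = x) :
    ∃ W K : Subgroup G, (∀ x : G, x ∈ W ↔ (x ∈ (S : Subgroup G) ∧
        ∀ g : G, g * x * g⁻¹ ∈ (S : Subgroup G) → g * x * g⁻¹ = x)) ∧
      K ≤ ((S : Subgroup G) ⊓ centralizer ((S : Subgroup G) : Set G)) ∧ W ⊓ K = ⊥ ∧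
      W ⊔ K = ((S : Subgroup G) ⊓ centralizer ((S : Subgroup G) : Set G)) := by
  obtain ⟨K, h1, h2, h3⟩ := direct_factor S N V hSN hVS hZV hab hN
  refine ⟨V ⊓ centralizer (N : Set G), K, fun x => ⟨fun hx => ⟨hVS hx.1, hwc x hx.1 hx.2⟩, ?_⟩,
    h1, h2, h3⟩
  rintro ⟨hxS, hx⟩
  have hxV : x ∈ V := by
    refine hZV ⟨hxS, mem_centralizer_iff.mpr fun s hs => ?_⟩
    have := hx s ((S : Subgroup G).mul_mem ((S : Subgroup G).mul_mem hs hxS)
      ((S : Subgroup G).inv_mem hs))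
    exact mul_inv_eq_iff_eq_mul.mp this
  refine ⟨hxV, mem_centralizer_iff.mpr fun n hn => ?_⟩
  exact mul_inv_eq_iff_eq_mul.mp (hx n (hVS (hN n hn x hxV)))

omit [Finite G] in
theorem conj_mem_center {P : Subgroup G} {n v : G} (hn : n ∈ normalizer (P : Set G))
    (hv : v ∈ P ⊓ centralizer (P : Set G)) : n * v * n⁻¹ ∈ P ⊓ centralizer (P : Set G) := by
  refine ⟨(mem_normalizer_iff.mp hn v).mp hv.1, mem_centralizer_iff.mpr fun y hy => ?_⟩
  have h1 : n⁻¹ * y * n ∈ P := by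
    have := (mem_normalizer_iff.mp (inv_mem hn) y).mp hy
    simpa using this
  have h2 := mem_centralizer_iff.mp hv.2 _ h1
  calc y * (n * v * n⁻¹) = n * ((n⁻¹ * y * n) * v) * n⁻¹ := by group
    _ = n * (v * (n⁻¹ * y * n)) * n⁻¹ := by rw [h2]
    _ = _ := by group

open Cfsg Cfsg.Agent.FT in
theorem main (S : Sylow p G) (h : p ≠ 2 ∨ Group.IsSolvable G) :
    ∃ W K : Subgroup G, (∀ x : G, x ∈ W ↔ (x ∈ (S : Subgroup G) ∧
        ∀ g : G, g * x * g⁻¹ ∈ (S : Subgroup G) → g * x * g⁻¹ = x)) ∧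
      K ≤ ((S : Subgroup G) ⊓ centralizer ((S : Subgroup G) : Set G)) ∧ W ⊓ K = ⊥ ∧
      W ⊔ K = ((S : Subgroup G) ⊓ centralizer ((S : Subgroup G) : Set G)) := by
  rcases h with h | h
  · let J := thompsonSubgroupAOf (S : Subgroup G)
    have hJ : J ≤ S := map_subtype_le _
    apply of_local S (normalizer (J : Set G)) (J ⊓ centralizer (J : Set G))
      ((H18.posFunctor_thompsonA p).le_normalizer S.isPGroup') (inf_le_left.trans hJ)
    · intro z hz
      refine ⟨⟨⟨z, hz.1⟩, H18.center_le_thompsonA ?_, rfl⟩, centralizer_le (fun y hy => hJ hy) hz.2⟩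
      rw [mem_center_iff]
      intro g
      exact Subtype.ext (mem_centralizer_iff.mp hz.2 g g.2)
    · intro a ha b hb
      exact mem_centralizer_iff.mp hb.2 a ha.1
    · intro n hn v hv
      exact conj_mem_center hn hv
    · intro x hx hc
      refine Cfsg.Agent.S2799.result S x (hJ hx.1) ⟨⟨x, le_normalizer hx.1⟩, ?_, rfl⟩ (Or.inl h)
      show _ ∈ center _
      rw [mem_center_iff]
      intro g
      exact Subtype.ext (mem_centralizer_iff.mp hc g g.2)
  · have hS : Syl p (S : Subgroup G) ⊤ := syl_top hp.out S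
    have hs : Sol (⊤ : Subgroup G) := inferInstance
    let P := (S : Subgroup G) ⊓ ppCore p ⊤
    have hP : Syl p P (ppCore p ⊤) := hS.inf_nml (ppCore_nml p ⊤)
    have hF := ppCore_frattini hp.out hP
    apply of_local S (normalizer (P : Set G)) (P ⊓ centralizer (P : Set G))
    · exact normsI (le_nrm _) (le_top.trans (ppCore_nrm p ⊤))
    · exact inf_le_left.trans inf_le_left
    · intro z hz
      exact ⟨⟨hz.1, center_syl_le_ppCore hp.out hs hS hz⟩,
        centralizer_le (fun y hy => (show y ∈ P from hy).1) hz.2⟩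
    · intro a ha b hb
      exact mem_centralizer_iff.mp hb.2 a ha.1
    · intro n hn v hv
      exact conj_mem_center hn hv
    · intro x hx hc g hg
      obtain ⟨q, hq, n, hn, rfl⟩ := hF.mul g (mem_top g)
      have e1 : n * x * n⁻¹ = x := by
        rw [mem_centralizer_iff.mp hc n hn.2, mul_inv_cancel_right]
      have e2 : q * n * x * (q * n)⁻¹ = q * x * q⁻¹ := by
        calc _ = q * (n * x * n⁻¹) * q⁻¹ := by group
          _ = _ := by rw [e1]
      rw [e2] at hg ⊢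
      have h1 : q * x * q⁻¹ * x⁻¹ ∈ (S : Subgroup G) := mul_mem hg (inv_mem hx.1.1)
      have h2 : q * x * q⁻¹ * x⁻¹ ∈ O[{p}ᶜ]((⊤ : Subgroup G)) := by
        have := (mem_normalizer_iff.mp (pcore_nrm {p}ᶜ (⊤ : Subgroup G) (mem_top x)) q⁻¹).mp (inv_mem hq)
        have h3 := mul_mem hq this
        simpa only [mul_assoc] using h3
      have h4 : (S : Subgroup G) ⊓ O[{p}ᶜ]((⊤ : Subgroup G)) = ⊥ := hS.pi.inf_eq_bot (pcore_pi _ _)
      have h5 : q * x * q⁻¹ * x⁻¹ = 1 := mem_bot.mp (h4 ▸ ⟨h1, h2⟩)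
      exact mul_inv_eq_one.mp h5

end Cfsg.Agent.H3.WC
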