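import Cfsg.Agent.H3.Extra
import Cfsg.Agent.H3.Fus2
import Cfsg.Agent.H27.Real2
import Cfsg.Agent.H4.Ito

/-! A group of order 320. -/

set_option autoImplicit false
set_option linter.style.haveILetI false

namespace Cfsg.Agent.H3
open Cfsg Subgroup Cfsg.Agent.FT
open scoped commutatorElement

theorem x320 {G : Type*} [Group G] [Finite G] (hG : Nat.card G = 320) (hHF : pCore 2 G = fittingSubgroup G)
    {H : Subgroup G} (eH : H = pCore 2 G) (hex : IsExtraspecial 2 H) (h32 : #H = 32) {T : G} (hT : orderOf T = 2)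
    (hTH : T ∉ H) : Abelem 2 (H ⊓ C[T]) := by
  haveI := Fact.mk Nat.prime_two
  haveI : Fact (Nat.Prime 5) := ⟨by norm_num⟩
  haveI : H.Normal := eH ▸ inferInstance
  have T2 : T ^ 2 = 1 := hT ▸ pow_orderOf_eq_one T
  obtain ⟨z, h, -⟩ := exists_xs' hex
  obtain ⟨r, r1, ro, rT⟩ := H27.exists_odd_inverted T2 (eH ▸ hTH)
  have o5 : orderOf r = 5 := by
    have d : orderOf r ∣ 5 * 2 ^ 6 := (orderOf_dvd_natCard r).trans (by rw [hG]; decide)
    exact ((Nat.dvd_prime (by norm_num)).1 ((ro.coprime_two_right.pow_right 6).dvd_of_dvd_mul_right d)).resolve_left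
      fun e => r1 (orderOf_eq_one_iff.1 e)
  have r5 : r ^ 5 = 1 := o5 ▸ pow_orderOf_eq_one r
  have c5 : #⟪r⟫ = 5 := (card_zpowers' r).trans o5
  have cj : ∀ g, ∀ x ∈ H, g * x * g⁻¹ ∈ H := fun g x hx => Normal.conj_mem inferInstance x hx g
  have zc : ∀ g, ∀ w ∈ ⟪z⟫, g * w * g⁻¹ = w := fun g w hw => by
    have k : g * z * g⁻¹ ∈ ⟪z⟫ := h.center ▸ Normal.conj_mem (nml_top_iff.1 (nml_top_iff.2 ‹H.Normal›).center) z
      (h.zle_center (mem_zpowers z)) g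
    rcases (mem_zpowers_two h.z_pow).1 hw with rfl | rfl
    · simp
    · exact ((mem_zpowers_two h.z_pow).1 k).resolve_left fun e => h.z_ne (by simpa using e)
  have cr : H ⊓ C(⟪r⟫) = ⟪z⟫ := by
    have le : ⟪z⟫ ≤ H ⊓ C(⟪r⟫) := le_inf h.zle (by
      rw [cen_zpowers]; exact fun w hw => mem_cen1.2 (mul_inv_eq_iff_eq_mul.1 (zc r w hw)).symm)
    have m := H4.card_modEq_card_inf_centralizer (q := 5) (Q := H) (R := ⟪r⟫)
      (IsPGroup.of_card (n := 1) c5) (by rw [normalizer_eq_top]; exact le_top)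
    obtain ⟨k, hk, e⟩ := (Nat.dvd_prime_pow (m := 5) Nat.prime_two).1 (h32 ▸ card_dvd (inf_le_left (b := C(⟪r⟫))))
    rw [e, h32] at m
    have : k = 1 ∨ k = 5 := by interval_cases k <;> simp_all +decide
    rcases this with rfl | rfl
    · exact (eq_of_card_eq le (h.card_z.trans e.symm)).symm
    exfalso
    have l1 : H ≤ C(⟪r⟫) := inf_eq_left.1 (eq_of_card_eq inf_le_left (e.trans h32.symm))
    have l2 : H ⊔ ⟪T⟫ ≤ N(⟪r⟫) := sup_le (l1.trans (cen_le_nrm _)) (zpowers_le.2 (H27.mem_nrm_zpowers_of_inverts rT))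
    obtain ⟨j, hj⟩ := (h.pGrp.sup (pElt_of_pow_eq_one Nat.prime_two T2).zpowers
      (by rw [normalizer_eq_top]; exact le_top)).card
    have j5 : 5 ≤ j := (Nat.pow_dvd_pow_iff_le_right (by norm_num : 1 < 2)).1 (by
      rw [← hj]; exact (show 2 ^ 5 ∣ #H by rw [h32]; decide).trans (card_dvd le_sup_left))
    have j6 : j ≠ 5 := by
      rintro rfl
      exact hTH (eq_of_card_eq le_sup_left (h32.trans hj.symm) ▸ mem_sup_right (mem_zpowers T))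
    have d : 2 ^ 6 * 5 ∣ #N(⟪r⟫) := Nat.Coprime.mul_dvd_of_dvd_of_dvd (by norm_num)
      ((Nat.pow_dvd_pow 2 (by omega)).trans (hj ▸ card_dvd l2)) (c5 ▸ card_dvd (le_nrm _))
    haveI : ⟪r⟫.Normal := normalizer_eq_top_iff.1 (eq_top_of_le_card _ (hG ▸ Nat.le_of_dvd Nat.card_pos d))
    have l3 : ⟪r⟫ ≤ H := by
      rw [eH, hHF, ← fitting_top]; exact fitting_max (nml_top_iff.2 inferInstance) (ab_zpowers r).nil
    have := card_dvd l3
    rw [c5, h32] at this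
    exact absurd this (by decide)
  refine abelem_of_sq fun c hc => ?_
  have cT : T * c * T⁻¹ = c := mul_inv_eq_iff_eq_mul.2 (mem_cen1.1 hc.2).symm
  have ri : r⁻¹ = r ^ 4 := inv_eq_of_mul_eq_one_right (by rw [← pow_succ', r5])
  obtain ⟨a, ha⟩ : ∃ a : ℕ → G, ∀ i, a i = r ^ i * c * (r ^ i)⁻¹ := ⟨_, fun _ => rfl⟩
  have aH : ∀ i, a i ∈ H := fun i => ha i ▸ cj _ c hc.1
  have ra : ∀ i, r * a i * r⁻¹ = a (i + 1) := fun i => by rw [ha, ha]; group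
  have a5 : a 5 = c := by rw [ha, r5]; simp
  have Ta : ∀ i j, i + j = 5 → T * a i * T⁻¹ = a j := fun i j e => by
    have k : T * r ^ i * T⁻¹ = r ^ j := by
      rw [← conj_pow, rT, inv_pow, inv_eq_iff_mul_eq_one, ← pow_add, e, r5]
    rw [ha, ha, ← k]
    conv_rhs => rw [← cT]
    group
  obtain ⟨n, hn⟩ : ∃ n, n = c * (a 1 * a 2 * a 3 * a 4) := ⟨_, rfl⟩
  have nH : n ∈ H := hn ▸ mul_mem hc.1 (mul_mem (mul_mem (mul_mem (aH _) (aH _)) (aH _)) (aH _))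
  have rn : r * n * r⁻¹ = n * ⁅n⁻¹, c⁻¹⁆ := by
    have e0 : r * c * r⁻¹ = a 1 := by rw [ha, pow_one]
    calc r * n * r⁻¹ = (r * c * r⁻¹) * (r * a 1 * r⁻¹) * (r * a 2 * r⁻¹) * (r * a 3 * r⁻¹) * (r * a 4 * r⁻¹) := by
          rw [hn]; group
      _ = _ := by rw [e0, ra, ra, ra, ra, a5, commutatorElement_def, hn]; show a 1 * a 2 * a 3 * a 4 * c = _; group
  have nz : n ∈ ⟪z⟫ := by
    rw [← cr, cen_zpowers]
    refine ⟨nH, ?_⟩
    have hw := h.comm _ (inv_mem nH) _ (inv_mem hc.1)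
    generalize ⁅n⁻¹, c⁻¹⁆ = w at rn hw
    have e : r ^ 2 * n * (r ^ 2)⁻¹ = n := by
      calc _ = r * (r * n * r⁻¹) * r⁻¹ := by rw [pow_two]; group
        _ = (r * n * r⁻¹) * (r * w * r⁻¹) := by
          conv_lhs => rw [rn]
          group
        _ = n := by rw [rn, zc r w hw, mul_assoc, ← pow_two, h.pow_of_mem hw, mul_one]
    have : r ^ 2 ∈ C[n] := mem_cen1.2 (mul_inv_eq_iff_eq_mul.1 e)
    have := pow_mem this 3
    rw [← pow_mul, show 2 * 3 = 5 + 1 from rfl, pow_succ, r5, one_mul] at this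
    exact cen1_comm.1 this
  have s3 := h.pow_mem (aH 3)
  have s4 := h.pow_mem (aH 4)
  have hw : n * (a 3 ^ 2 * a 4 ^ 2)⁻¹ ∈ ⟪z⟫ := mul_mem nz (inv_mem (mul_mem s3 s4))
  have e : a 1 * a 2 * (a 4 * a 3)⁻¹ = c⁻¹ * (n * (a 3 ^ 2 * a 4 ^ 2)⁻¹) := by
    rw [← zc (a 4) _ s3, hn]; group
  generalize n * (a 3 ^ 2 * a 4 ^ 2)⁻¹ = w at hw e
  have e2 : T * (a 1 * a 2 * (a 4 * a 3)⁻¹) * T⁻¹ = (a 1 * a 2 * (a 4 * a 3)⁻¹)⁻¹ := by
    calc _ = (T * a 1 * T⁻¹) * (T * a 2 * T⁻¹) * ((T * a 4 * T⁻¹) * (T * a 3 * T⁻¹))⁻¹ := by group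
      _ = _ := by rw [Ta 1 4 rfl, Ta 2 3 rfl, Ta 4 1 rfl, Ta 3 2 rfl]; group
  rw [e, show T * (c⁻¹ * w) * T⁻¹ = (T * c * T⁻¹)⁻¹ * (T * w * T⁻¹) by group, cT, zc T w hw] at e2
  have e3 : c = w * (c⁻¹ * w) := by rw [e2]; group
  calc c ^ 2 = c * (w * (c⁻¹ * w)) := by rw [← e3, pow_two]
    _ = (c * w * c⁻¹) * w := by group
    _ = 1 := by rw [zc c w hw, ← pow_two, h.pow_of_mem hw]

end Cfsg.Agent.H3
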