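import Cfsg.Agent.H3.Extra
import Cfsg.Agent.FT.BG03a
import Cfsg.Agent.H4.Ito

/-! Degrees of faithful modules of extraspecial groups. -/

set_option autoImplicit false
set_option linter.style.haveILetI false

namespace Cfsg.Agent.H3
open Cfsg Subgroup Cfsg.Agent.FT
open scoped commutatorElement

variable {G : Type*} [Group G] [Finite G] {p r n : ℕ} {E W : Subgroup G} {a y z : G}

theorem XC.cen1_eq (h : XC p E z) (ha : a ∈ ⟪z⟫) (h1 : a ≠ 1) : C[a] = C[z] := by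
  haveI := Fact.mk h.prime
  rw [← cen_zpowers, ← cen_zpowers, eq_of_card_eq (zpowers_le.2 ha)
    ((card_zpowers' a).trans ((orderOf_eq_prime (h.pow_of_mem ha) h1).trans h.card_z.symm))]

theorem XC.cen_pow_le (h : XC p E z) (hW : Ab W) (hn : E ≤ N(W)) (hz : W ⊓ C[z] = ⊥) (ha : a ∈ E) (hy : y ∈ E)
    (e : ⁅a, y⁆ = z) : #(W ⊓ C[a]) ^ p ≤ #W := by
  have zc : ∀ g ∈ E, ∀ i : ℕ, Commute g (z ^ i) := fun g hg i => h.commute_z hg (pow_mem (mem_zpowers z) i)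
  have c : ∀ i : ℕ, #(W ⊓ C[a * z ^ i]) = #(W ⊓ C[a]) := fun i => by
    induction i with
    | zero => rw [pow_zero, mul_one]
    | succ i ih =>
      rw [← ih, ← card_cj y, cj_inf, cj_cen1, cj_eq_self.2 (hn hy)]
      congr 4
      have : y * a * y⁻¹ * z = a := by
        rw [← (h.commute_z (mul_mem (mul_mem hy ha) (inv_mem hy)) (mem_zpowers z)).symm.eq, ← e,
          commutatorElement_def]; group
      conv_rhs => rw [← this]
      rw [← mul_assoc, mul_assoc _ _ y⁻¹, ← (zc _ (inv_mem hy) _).eq, pow_succ']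
      simp only [mul_assoc]
  have na : ∀ i : ℕ, E ⊓ C[a] ≤ N(W ⊓ C[a * z ^ i]) := fun i => normsI (inf_le_left.trans hn) (norms_cen1
    fun g hg => mem_cen1.2 (Commute.mul_right (mem_cen1.1 hg.2) (zc g hg.1 i)))
  have ma : ∀ i : ℕ, a * z ^ i ∈ E ⊓ C[a] := fun i => mul_mem ⟨ha, mem_cen1.2 rfl⟩
    ⟨pow_mem h.mem i, mem_cen1.2 (zc a ha i).symm⟩
  suffices ∀ k ≤ p, ∃ U ≤ W, #U = #(W ⊓ C[a]) ^ k ∧ E ⊓ C[a] ≤ N(U) ∧ ∀ j, k ≤ j → j < p → U ⊓ C[a * z ^ j] = ⊥ by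
    obtain ⟨U, h1, h2, -⟩ := this p le_rfl
    exact h2 ▸ card_le_of_le h1
  intro k hk
  induction k with
  | zero => exact ⟨⊥, bot_le, by simp, by rw [normalizer_eq_top]; exact le_top, fun _ _ _ => bot_inf_eq _⟩
  | succ k ih =>
    obtain ⟨U, h1, h2, h3, h4⟩ := ih (by omega)
    have n1 : W ⊓ C[a * z ^ k] ≤ N(U) := inf_le_left.trans (hW.norms h1)
    have i1 : U ⊓ (W ⊓ C[a * z ^ k]) = ⊥ := inf_eq_bot_mono (h4 k le_rfl hk) le_rfl inf_le_right
    refine ⟨U ⊔ W ⊓ C[a * z ^ k], sup_le h1 inf_le_left, by rw [card_sup_of_inf n1 i1, h2, c, pow_succ],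
      normsY h3 (na k), fun j hj jp => eq_bot_iff.2 fun g hg => ?_⟩
    obtain ⟨u, hu, d, hd, rfl⟩ := (mem_sup_norm n1).1 hg.1
    obtain ⟨b, hb⟩ : ∃ b, b = a * z ^ j := ⟨_, rfl⟩
    have e1 : u * d * b = b * (u * d) := hb ▸ mem_cen1.1 hg.2
    have e2 : u⁻¹ * (b * u * b⁻¹) = d * (b * d * b⁻¹)⁻¹ := by
      calc _ = u⁻¹ * (b * (u * d)) * b⁻¹ * (b * d * b⁻¹)⁻¹ := by group
        _ = _ := by rw [← e1]; group
    have e3 : u⁻¹ * (b * u * b⁻¹) = 1 := mem_bot.1 (i1 ▸ mem_inf.2 ⟨U.mul_mem (U.inv_mem hu)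
      ((mem_normalizer_iff.1 (h3 (hb ▸ ma j)) u).1 hu),
      e2 ▸ Subgroup.mul_mem _ hd (Subgroup.inv_mem _ ((mem_normalizer_iff.1 (na k (hb ▸ ma j)) d).1 hd))⟩)
    have u1 : u = 1 := mem_bot.1 (h4 j (by omega) jp ▸ ⟨hu, mem_cen1.2 (hb ▸
      (mul_inv_eq_iff_eq_mul.1 (inv_mul_eq_one.1 e3).symm).symm)⟩)
    subst u1
    obtain ⟨i, rfl⟩ : ∃ i, j = k + (i + 1) := ⟨j - k - 1, by omega⟩
    have : z ^ (i + 1) ∈ C[d] := by
      have := mul_mem (inv_mem (cen1_comm.1 hd.2)) (cen1_comm.1 ((one_mul d) ▸ hg.2))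
      rwa [pow_add, ← mul_assoc a, inv_mul_cancel_left] at this
    rw [one_mul, ← hz, ← h.cen1_eq (pow_mem (mem_zpowers z) (i + 1)) fun e =>
      absurd (Nat.le_of_dvd (by omega) (h.ord ▸ orderOf_dvd_of_pow_eq_one e)) (by omega)]
    exact ⟨hd.1, cen1_comm.1 this⟩

theorem XS.act_card (hr : r.Prime) (hpr : p ≠ r) (hmin : ∀ k, 1 ≤ k → p ∣ r ^ k - 1 → n ≤ k) (w : ℕ) :
    ∀ E W : Subgroup G, XS p E z → #E = p ^ (2 * w + 1) → Abelem r W → W ≠ ⊥ → E ≤ N(W) → W ⊓ C[z] = ⊥ →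
      r ^ (n * p ^ w) ≤ #W := by
  induction w with
  | zero =>
    intro E W h hE hW h1 hn hz
    haveI := Fact.mk h.prime
    obtain ⟨k, hk⟩ := hW.card hr
    have m := H4.card_modEq_card_inf_centralizer (h.pGrp.mono h.zle).isPGroup (h.zle.trans hn)
    rw [cen_zpowers, hz, card_bot, hk] at m
    rw [hk, pow_zero, mul_one]
    exact Nat.pow_le_pow_right hr.pos (hmin k (Nat.pos_of_ne_zero fun e => h1 (card_eq_one.1 (by rw [hk, e, pow_zero])))
      ((Nat.modEq_iff_dvd' (Nat.one_le_pow _ _ hr.pos)).1 m.symm))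
  | succ w ih =>
    intro E W h hE hW h1 hn hz
    have na := h.not_ab_of_card (by omega) hE
    by_cases hreg : SemiReg W E
    · rcases h.prime.eq_two_or_odd' with rfl | o
      swap
      · exact absurd (odd_regular_pgroup_cyclic h.pGrp (hE ▸ o.pow) h1 hn hreg).ab na
      have := (h.small' (fun ⟨x, hx, x2, xc⟩ => ?_) na).1
      · obtain rfl : w = 0 := by
          have := Nat.pow_right_injective le_rfl (show 2 ^ (2 * (w + 1) + 1) = 2 ^ 3 from hE.symm.trans this)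
          omega
        have n1 := hmin 1 le_rfl (by
          rw [pow_one]; exact even_iff_two_dvd.1 (Nat.Odd.sub_odd (hr.odd_of_ne_two hpr.symm) odd_one))
        obtain ⟨k, hk⟩ := hW.card hr
        rw [hk]
        refine Nat.pow_le_pow_right hr.pos (le_trans (by omega) (show 2 ≤ k from by_contra fun k2 => h1 ?_))
        have c : Cyc W := by
          interval_cases k
          · rw [card_eq_one.1 hk]; exact cyc_bot
          · exact cyc_of_prime (by rwa [hk, pow_one])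
        rw [← hz, inf_eq_left.2 (le_cen1.2 (c.der_cents hn (h.der na ▸ mem_zpowers z)))]
      · have l : ⟪z⟫ ⊔ ⟪x⟫ ≤ E := sup_le h.zle (zpowers_le.2 hx)
        have ab : Abelem 2 (⟪z⟫ ⊔ ⟪x⟫) := (abelem_zpowers h.z_pow).sup_zpowers (by
          rw [cen_zpowers]; exact mem_cen1.2 (h.commute_z hx (mem_zpowers z))) x2
        obtain ⟨a, ha, a1, ne⟩ := coprime_abelian_exists_cent1_ne ab.ab (fun c => xc (h.zcen
          (eq_of_card_le le_sup_left (h.card_z ▸ Nat.le_of_dvd two_pos (ab.card_dvd_of_cyc c)) ▸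
            mem_sup_right (mem_zpowers x)))) (l.trans hn) ((hreg.cop hn).mono_right l) h1
        exact ne (hreg a (l ha) a1)
    · obtain ⟨a, ha, a1, ne⟩ : ∃ a ∈ E, a ≠ 1 ∧ W ⊓ C[a] ≠ ⊥ := by simpa [SemiReg] using hreg
      obtain ⟨y, hy, e⟩ := h.exists_partner ha fun c => ne (by rw [h.cen1_eq (h.mem_z ha c) a1, hz])
      refine le_trans ?_ (h.cen_pow_le hW.ab hn hz ha hy e)
      rw [pow_succ, ← mul_assoc, pow_mul]
      exact Nat.pow_le_pow_left (ih _ _ (h.split ha hy e) (h.split_card' ha hy e hE) (hW.mono inf_le_left) ne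
        (normsI ((inf_le_left.trans inf_le_left).trans hn) (norms_cen1 (inf_le_left.trans inf_le_right)))
        (inf_eq_bot_mono hz inf_le_left le_rfl)) _

theorem xs_act [Fact p.Prime] (hr : r.Prime) (hpr : p ≠ r) {A : Subgroup G} {w : ℕ} (hE : IsExtraspecial p E)
    (hc : #E = p ^ (2 * w + 1)) (hA : Abelem r A) (hn : E ≤ N(A)) (hf : E ⊓ C(A) = ⊥)
    (hmin : ∀ k, 1 ≤ k → p ∣ r ^ k - 1 → n ≤ k) : r ^ (n * p ^ w) ≤ #A := by
  obtain ⟨z, h, -⟩ := exists_xs' hE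
  have zn := h.zle.trans hn
  have c : Cop A ⟪z⟫ := by
    obtain ⟨k, hk⟩ := hA.card hr
    rw [Cop, hk, h.card_z]
    exact ((Nat.coprime_primes hr h.prime).2 hpr.symm).pow_left k
  refine (XS.act_card hr hpr hmin w E ⁅A, ⟪z⟫⁆ h hc (hA.mono (comm_le_left zn)) (fun e => h.z_ne (mem_bot.1 ?_))
    (normsR hn (h.nrm h.zle (mem_zpowers z))) (cen_zpowers z ▸ coprime_abel_cent_TI zn c hA.ab)).trans
    (card_le_of_le (comm_le_left zn))
  exact hf ▸ ⟨h.mem, comm_eq_bot'.1 e (mem_zpowers z)⟩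

end Cfsg.Agent.H3
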