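import Cfsg.Agent.H3.Extra
import Cfsg.Prelude.Def_Classical
import Cfsg.Prelude.Def_KGroupFacts

/-! Models of the extraspecial `2`-groups and their automorphisms. -/

set_option autoImplicit false
set_option linter.unusedSectionVars false
set_option linter.unusedVariables false
set_option linter.style.haveILetI false

namespace Cfsg.Agent.H3
open Cfsg Subgroup Cfsg.Agent.FT
open scoped commutatorElement

variable {U : Type*} [AddCommGroup U] [Module (ZMod 2) U]

/-- the central extension of `U` by `ZMod 2` with cocycle `β` -/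
@[ext] structure EX (β : U →ₗ[ZMod 2] U →ₗ[ZMod 2] ZMod 2) where
  v : U
  a : ZMod 2

theorem z2add (a : ZMod 2) : a + a = 0 := by revert a; decide
theorem z2cases (a : ZMod 2) : a = 0 ∨ a = 1 := by revert a; decide
theorem u2add (v : U) : v + v = 0 := by rw [← two_smul (ZMod 2) v, show (2 : ZMod 2) = 0 from rfl, zero_smul]
theorem u2neg (v : U) : -v = v := neg_eq_of_add_eq_zero_left (u2add v)

namespace EX
variable {β : U →ₗ[ZMod 2] U →ₗ[ZMod 2] ZMod 2}

instance : Mul (EX β) := ⟨fun x y => ⟨x.v + y.v, x.a + y.a + β x.v y.v⟩⟩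
instance : One (EX β) := ⟨⟨0, 0⟩⟩
instance : Inv (EX β) := ⟨fun x => ⟨-x.v, -x.a + β x.v x.v⟩⟩
@[simp] theorem mul_v (x y : EX β) : (x * y).v = x.v + y.v := rfl
@[simp] theorem mul_a (x y : EX β) : (x * y).a = x.a + y.a + β x.v y.v := rfl
@[simp] theorem one_v : (1 : EX β).v = 0 := rfl
@[simp] theorem one_a : (1 : EX β).a = 0 := rfl
@[simp] theorem inv_v (x : EX β) : x⁻¹.v = -x.v := rfl
@[simp] theorem inv_a (x : EX β) : x⁻¹.a = -x.a + β x.v x.v := rfl

instance : Group (EX β) := Group.ofLeftAxioms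
  (fun x y z => by ext <;> simp [add_assoc]; ring) (fun x => by ext <;> simp)
  (fun x => by
    ext
    · simp
    · simp only [mul_a, inv_a, inv_v, one_a, map_neg, LinearMap.neg_apply]; ring)

/-- the underlying pairs -/
def equiv : EX β ≃ U × ZMod 2 := ⟨fun x => (x.v, x.a), fun p => ⟨p.1, p.2⟩, fun _ => rfl, fun _ => rfl⟩

instance [Finite U] : Finite (EX β) := Finite.of_equiv _ equiv.symm

theorem card : Nat.card (EX β) = Nat.card U * 2 := by rw [Nat.card_congr equiv, Nat.card_prod, Nat.card_zmod]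

/-- the central involution -/
def z : EX β := ⟨0, 1⟩
@[simp] theorem z_v : (z : EX β).v = 0 := rfl
@[simp] theorem z_a : (z : EX β).a = 1 := rfl
theorem z_ne : (z : EX β) ≠ 1 := fun e => one_ne_zero (congrArg EX.a e)
theorem z_comm (x : EX β) : x * z = z * x := by ext <;> simp [add_comm]
theorem zz : (z * z : EX β) = 1 := by ext <;> simp; rfl
theorem of_v {x : EX β} (h : x.v = 0) : x = 1 ∨ x = z :=
  (z2cases x.a).imp (fun e => EX.ext h e) fun e => EX.ext h e
theorem mem_z {x : EX β} : x ∈ ⟪(z : EX β)⟫ ↔ x.v = 0 :=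
  ⟨by
    rintro ⟨k, rfl⟩
    exact (show ⟪(z : EX β)⟫ ≤ (MonoidHom.mk' (fun x : EX β => Multiplicative.ofAdd x.v) fun _ _ => rfl).ker from
      zpowers_le.2 rfl) ⟨k, rfl⟩,
    fun h => (of_v h).elim (fun e => e ▸ one_mem _) fun e => e ▸ mem_zpowers _⟩
theorem sq (x : EX β) : x * x = ⟨0, β x.v x.v⟩ := by ext <;> simp [u2add, z2add]
theorem conj (x y : EX β) : x * y * x⁻¹ = ⟨y.v, y.a + (β x.v y.v + β y.v x.v)⟩ := by
  ext
  · simp
  · simp only [mul_a, mul_v, inv_a, inv_v, map_neg, map_add, LinearMap.add_apply, u2neg (U := ZMod 2)]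
    linear_combination z2add x.a + z2add (β x.v x.v)
theorem comm_iff {x y : EX β} : x * y = y * x ↔ β x.v y.v = β y.v x.v := by
  rw [EX.ext_iff]; simp [add_comm]

/-- the polar form is non-degenerate -/
def ND (β : U →ₗ[ZMod 2] U →ₗ[ZMod 2] ZMod 2) : Prop := ∀ v, (∀ w, β v w = β w v) → v = 0

theorem ND.cen (h : ND β) {x : EX β} (c : ∀ y, x * y = y * x) : x.v = 0 := h _ fun w => comm_iff.1 (c ⟨w, 0⟩)

theorem ND.xs [Finite U] (h : ND β) : XS 2 (⊤ : Subgroup (EX β)) z := by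
  haveI := Fact.mk Nat.prime_two
  refine ⟨⟨Nat.prime_two, orderOf_eq_prime (by rw [pow_two, zz]) z_ne, trivial, fun x _ => z_comm x,
    fun x _ y _ => mem_z.2 (by simp [commutatorElement_def])⟩, le_antisymm (fun x hx => mem_z.2 (h.cen fun y =>
      (hx.2 y trivial).symm)) (zpowers_le.2 ⟨trivial, fun x _ => z_comm x⟩)⟩

theorem ND.aut_z (h : ND β) (α : MulAut (EX β)) : α z = z :=
  (of_v (h.cen fun y => by rw [← α.apply_symm_apply y, ← map_mul, ← z_comm, map_mul])).resolve_left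
    fun e => z_ne (α.injective (e.trans (map_one α).symm))

theorem ND.aut_v (h : ND β) (α : MulAut (EX β)) {x y : EX β} (e : x.v = y.v) : (α x).v = (α y).v := by
  rcases of_v (x := y⁻¹ * x) (by simp [e]) with k | k <;> rw [← mul_inv_cancel_left y x, k] <;> simp [h.aut_z]

/-- the induced linear map -/
def ND.lin (h : ND β) : MulAut (EX β) →* Module.End (ZMod 2) U where
  toFun α := AddMonoidHom.toZModLinearMap 2 (AddMonoidHom.mk' (fun v => (α ⟨v, 0⟩).v) fun v w => by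
    rw [← mul_v, ← map_mul]; exact h.aut_v α rfl)
  map_one' := by ext; rfl
  map_mul' α γ := by ext v; exact h.aut_v α rfl

theorem ND.lin_v (h : ND β) (α : MulAut (EX β)) (x : EX β) : h.lin α x.v = (α x).v := h.aut_v α rfl

theorem ND.lin_q (h : ND β) (α : MulAut (EX β)) (v : U) : β (h.lin α v) (h.lin α v) = β v v := by
  have e : α ⟨0, β v v⟩ = ⟨0, β v v⟩ := by
    rcases of_v (x := (⟨0, β v v⟩ : EX β)) rfl with k | k <;> rw [k]
    exacts [map_one α, h.aut_z α]
  have := sq (α ⟨v, 0⟩)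
  rw [← map_mul, sq, e] at this
  exact (congrArg EX.a this).symm

theorem ND.lin_conj (h : ND β) (x : EX β) : h.lin (MulAut.conj x) = 1 := by
  ext v; exact congrArg EX.v (conj x ⟨v, 0⟩)

theorem ND.inner [Finite U] (h : ND β) {α : MulAut (EX β)} (e : h.lin α = 1) : ∃ x, MulAut.conj x = α := by
  have e1 : ∀ x, (α x).v = x.v := fun x => by rw [← h.lin_v, e]; rfl
  have e2 : ∀ x, (α x).a = x.a + (α ⟨x.v, 0⟩).a := fun x => by
    rcases z2cases x.a with k | k
    · rw [k, zero_add, ← k]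
    · rw [show x = z * ⟨x.v, 0⟩ by ext <;> simp [k], map_mul, h.aut_z]; simp
  have inj : Function.Injective (β + β.flip) := (injective_iff_map_eq_zero _).2 fun v hv => h v fun w => by
    have := LinearMap.congr_fun hv w
    rw [← u2neg (β w v)]; exact eq_neg_of_add_eq_zero_left this
  obtain ⟨u, hu⟩ := (LinearMap.injective_iff_surjective_of_finrank_eq_finrank
    (Subspace.dual_finrank_eq (K := ZMod 2) (V := U)).symm).1 inj
    (AddMonoidHom.toZModLinearMap 2 (AddMonoidHom.mk' (fun v => (α ⟨v, 0⟩).a) fun v w => by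
      have := congrArg EX.a (map_mul α ⟨v, 0⟩ ⟨w, 0⟩)
      rw [e2, mul_a (α _), e1, e1] at this
      simp only [mul_a, mul_v, zero_add] at this
      linear_combination this))
  refine ⟨⟨u, 0⟩, MulEquiv.ext fun y => ?_⟩
  rw [MulAut.conj_apply, conj]
  exact EX.ext (e1 y).symm (by rw [e2]; exact congrArg (y.a + ·) (LinearMap.congr_fun hu y.v))

theorem alt [Finite U] (γ : U →ₗ[ZMod 2] U →ₗ[ZMod 2] ZMod 2) (h : ∀ v, γ v v = 0) :
    ∃ f : U → ZMod 2, ∀ v w, f (v + w) = f v + f w + γ v w := by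
  let b := Module.finBasis (ZMod 2) U
  let δ : U →ₗ[ZMod 2] U →ₗ[ZMod 2] ZMod 2 :=
    b.constr (ZMod 2) fun i => b.constr (ZMod 2) fun j => if i < j then γ (b i) (b j) else 0
  have s : ∀ v w, γ v w = γ w v := fun v w => by
    have := h (v + w)
    simp only [map_add, LinearMap.add_apply, h, zero_add, add_zero] at this
    rw [← u2neg (γ v w)]; exact neg_eq_of_add_eq_zero_left this
  have e : δ + δ.flip = γ := LinearMap.ext_basis b b fun i j => by
    simp only [δ, LinearMap.add_apply, LinearMap.flip_apply, Module.Basis.constr_basis]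
    rcases lt_trichotomy i j with k | rfl | k
    · simp [k, k.not_gt]
    · simp [h]
    · simp [k, k.not_gt, s]
  refine ⟨fun v => δ v v, fun v w => ?_⟩
  rw [← e]; simp only [map_add, LinearMap.add_apply, LinearMap.flip_apply]; ring

theorem ND.lift [Finite U] (h : ND β) {σ : Module.End (ZMod 2) U} (inj : Function.Injective σ)
    (q : ∀ v, β (σ v) (σ v) = β v v) : ∃ α, h.lin α = σ := by
  obtain ⟨f, hf⟩ := alt (β.compl₁₂ σ σ - β) fun v => by simp [q]
  let φ : EX β →* EX β := MonoidHom.mk' (fun x => ⟨σ x.v, x.a + f x.v⟩) fun x y => by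
    ext
    · simp
    · simp only [mul_a, mul_v, hf, LinearMap.sub_apply, LinearMap.compl₁₂_apply]; ring
  have i : Function.Injective φ := fun x y e => by
    have e1 := inj (congrArg EX.v e)
    have e2 : x.a + f x.v = y.a + f y.v := congrArg EX.a e
    exact EX.ext e1 (by rwa [e1, add_left_inj] at e2)
  exact ⟨MulEquiv.ofBijective φ (Finite.injective_iff_bijective.1 i), by ext; rfl⟩

theorem abelem {n : ℕ} [Finite U] (j : (Fin n → ZMod 2) →ₗ[ZMod 2] U) (inj : Function.Injective j)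
    (h : ∀ u u', β (j u) (j u') = 0) :
    ∃ A : Subgroup (EX β), Abelem 2 A ∧ #A = 2 ^ (n + 1) ∧ ∀ x ∈ A, ∃ u, x.v = j u := by
  let φ : Multiplicative ((Fin n → ZMod 2) × ZMod 2) →* EX β :=
    MonoidHom.mk' (fun p => ⟨j p.toAdd.1, p.toAdd.2⟩) fun x y => by ext <;> simp [h]
  have i : Function.Injective φ := fun x y e =>
    Multiplicative.toAdd.injective (Prod.ext (inj (congrArg EX.v e)) (congrArg EX.a e))
  refine ⟨φ.range, ⟨⟨⟨?_⟩⟩, ?_⟩, ?_, ?_⟩
  · rintro ⟨_, x, rfl⟩ ⟨_, y, rfl⟩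
    exact Subtype.ext (by show φ x * φ y = φ y * φ x; rw [← map_mul, mul_comm, map_mul])
  · rintro _ ⟨x, rfl⟩
    rw [pow_two, sq]; exact EX.ext rfl (h _ _)
  · rw [← Nat.card_congr (MonoidHom.ofInjective i).toEquiv]
    simp [Nat.card_eq_fintype_card, pow_succ]
  · rintro _ ⟨x, rfl⟩; exact ⟨_, rfl⟩

end EX

theorem out_congr {G G' : Type*} [Group G] [Group G'] (e : G ≃* G') : Nonempty (Out G ≃* Out G') :=
  ⟨QuotientGroup.congr _ _ (MulAut.congr e) (by
    ext α
    constructor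
    · rintro ⟨_, ⟨g, rfl⟩, rfl⟩
      exact ⟨e g, by ext x; simp [MulAut.congr]⟩
    · rintro ⟨g, rfl⟩
      exact ⟨_, ⟨e.symm g, rfl⟩, by ext x; simp [MulAut.congr]⟩)⟩

theorem EX.ND.out {ι : Type} [Fintype ι] [DecidableEq ι] {β : (ι → ZMod 2) →ₗ[ZMod 2] (ι → ZMod 2) →ₗ[ZMod 2] ZMod 2}
    (h : EX.ND β) {Q : (ι → ZMod 2) → ZMod 2} (hQ : ∀ v, Q v = β v v) :
    Nonempty (Out (EX β) ≃* isometryGroup (ZMod 2) Q) := by
  let Φ : MulAut (EX β) →* GL ι (ZMod 2) :=
    ((LinearMap.toMatrixAlgEquiv' (R := ZMod 2) (n := ι)).toMulEquiv.toMonoidHom.comp h.lin).toHomUnits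
  have hΦ : ∀ α, (Φ α : Matrix ι ι (ZMod 2)) = LinearMap.toMatrix' (h.lin α) := fun _ => rfl
  have k : Inn (EX β) = Φ.ker := by
    ext α
    rw [MonoidHom.mem_ker, Units.ext_iff, hΦ, Units.val_one, ← LinearMap.toMatrix'_id,
      LinearMap.toMatrix'.injective.eq_iff]
    exact ⟨by rintro ⟨x, rfl⟩; exact h.lin_conj x, h.inner⟩
  have r : Φ.range = isometryGroup (ZMod 2) Q := by
    ext g
    constructor
    · rintro ⟨α, rfl⟩ u _
      show Q (Matrix.mulVec (Φ α : Matrix ι ι (ZMod 2)) u) = Q u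
      rw [hΦ, LinearMap.toMatrix'_mulVec, hQ, hQ, h.lin_q]
    · intro hg
      obtain ⟨α, e⟩ := h.lift (σ := Matrix.toLin' (g : Matrix ι ι (ZMod 2)))
        (Matrix.mulVec_injective_of_isUnit g.isUnit) fun v => by
          rw [← hQ, ← hQ]; exact hg v v
      exact ⟨α, Units.ext (by rw [hΦ, e, LinearMap.toMatrix'_toLin'])⟩
  exact ⟨(QuotientGroup.quotientMulEquivOfEq k).trans ((QuotientGroup.quotientKerEquivRange Φ).trans
    (MulEquiv.subgroupCongr r))⟩

/-- cocycle of plus type -/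
def bP (n : ℕ) : (Fin n ⊕ Fin n → ZMod 2) →ₗ[ZMod 2] (Fin n ⊕ Fin n → ZMod 2) →ₗ[ZMod 2] ZMod 2 :=
  LinearMap.mk₂ _ (fun v w => ∑ i, v (.inl i) * w (.inr i))
    (fun _ _ _ => by simp [add_mul, Finset.sum_add_distrib]) (fun _ _ _ => by simp [Finset.mul_sum, mul_assoc])
    (fun _ _ _ => by simp [mul_add, Finset.sum_add_distrib]) (fun _ _ _ => by simp [Finset.mul_sum, mul_left_comm])

/-- cocycle of minus type -/
def bM (n : ℕ) : ((Fin n ⊕ Fin n) ⊕ Fin 2 → ZMod 2) →ₗ[ZMod 2] ((Fin n ⊕ Fin n) ⊕ Fin 2 → ZMod 2) →ₗ[ZMod 2] ZMod 2 :=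
  LinearMap.mk₂ _ (fun v w => ∑ i, v (.inl (.inl i)) * w (.inl (.inr i)) +
      (v (.inr 0) * w (.inr 0) + v (.inr 0) * w (.inr 1) + v (.inr 1) * w (.inr 1)))
    (fun _ _ _ => by simp [add_mul, Finset.sum_add_distrib]; ring)
    (fun _ _ _ => by simp [Finset.mul_sum, mul_assoc, mul_add])
    (fun _ _ _ => by simp [mul_add, Finset.sum_add_distrib]; ring)
    (fun _ _ _ => by simp [Finset.mul_sum, mul_left_comm, mul_add])

theorem bP_nd (n : ℕ) : EX.ND (bP n) := fun v h => by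
  ext (i | i)
  · simpa [bP, Pi.single_apply] using h (Pi.single (.inr i) 1)
  · simpa [bP, Pi.single_apply] using (h (Pi.single (.inl i) 1)).symm

theorem bM_nd (n : ℕ) : EX.ND (bM n) := fun v h => by
  ext ((i | i) | i)
  · simpa [bM, Pi.single_apply] using h (Pi.single (.inl (.inr i)) 1)
  · simpa [bM, Pi.single_apply] using (h (Pi.single (.inl (.inl i)) 1)).symm
  · fin_cases i
    · simpa [bM, Pi.single_apply] using h (Pi.single (.inr 1) 1)
    · simpa [bM, Pi.single_apply] using (h (Pi.single (.inr 0) 1)).symm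

theorem bP_card (n : ℕ) : Nat.card (EX (bP n)) = 2 ^ (2 * n + 1) := by
  rw [EX.card]; simp [pow_succ, two_mul]

theorem bM_card (n : ℕ) : Nat.card (EX (bM n)) = 2 ^ (2 * (n + 1) + 1) := by
  rw [EX.card]; simp [pow_succ, two_mul]; ring

theorem bP_dl (n : ℕ) : 0 < dl (⊤ : Subgroup (EX (bP n))) := by
  obtain ⟨A, h1, h2, -⟩ := EX.abelem (β := bP n) (n := n)
    (LinearMap.pi fun i => Sum.elim (fun i => LinearMap.proj i) (fun _ => 0) i)
    (fun u u' e => funext fun i => congrFun e (.inl i)) fun u u' => by simp [bP]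
  exact (bP_nd n).xs.pos_of_abelem (card_top'.trans (bP_card n)) le_top h1 h2

theorem bM_dl (n : ℕ) : ¬ 0 < dl (⊤ : Subgroup (EX (bM n))) := by
  obtain ⟨A, h1, h2, h3⟩ := EX.abelem (β := bM n) (n := n)
    (LinearMap.pi fun i => Sum.elim (Sum.elim (fun i => LinearMap.proj i) (fun _ => 0)) (fun _ => 0) i)
    (fun u u' e => funext fun i => congrFun e (.inl (.inl i))) fun u u' => by simp [bM]
  have h := (bM_nd n).xs
  have e : ⁅(⟨Pi.single (.inr 0) 1, 0⟩ : EX (bM n)), (⟨Pi.single (.inr 1) 1, 0⟩ : EX (bM n))⁆ = EX.z := by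
    rw [commutatorElement_def, EX.conj]
    ext1
    · simp
    · simp only [EX.mul_a, EX.inv_a, EX.inv_v, map_neg, neg_zero, zero_add, neg_add_cancel_right, EX.z_a, add_assoc,
        add_neg_cancel, add_zero]
      simp [bM, Pi.single_apply]
  have := (h.split trivial trivial e).pos_of_abelem (h.split_card' trivial trivial e (card_top'.trans (bM_card n)))
    (A := A) (fun x hx => by
      obtain ⟨u, k⟩ := h3 x hx
      refine ⟨⟨trivial, mem_centralizer_singleton_iff.2 (EX.comm_iff.2 ?_)⟩,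
        mem_centralizer_singleton_iff.2 (EX.comm_iff.2 ?_)⟩ <;> simp [k, bM, Pi.single_apply]) h1 h2
  rw [h.x2.dl_Q trivial trivial e (by rw [pow_two, EX.sq]; simp [bM, Pi.single_apply, EX.z])
    (by rw [pow_two, EX.sq]; simp [bM, Pi.single_apply, EX.z])]
  omega

theorem out_xs {E : Type*} [Group E] [Finite E] (hE : IsExtraspecial 2 E) (n : ℕ) (hn : 1 ≤ n)
    (hc : Nat.card E = 2 ^ (2 * n + 1)) :
    ((∃ A : Subgroup E, IsElementaryAbelian 2 A ∧ Nat.card A = 2 ^ (n + 1)) →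
      Nonempty (Out E ≃* isometryGroup (ZMod 2) (quadFormPlus n (ZMod 2)))) ∧
    ((¬ ∃ A : Subgroup E, IsElementaryAbelian 2 A ∧ Nat.card A = 2 ^ (n + 1)) →
      Nonempty (Out E ≃* isometryGroup (ZMod 2) (quadFormMinus (n - 1) (ZMod 2) 1 1))) := by
  obtain ⟨z, h, -⟩ := exists_xs_top hE
  have p := h.pos_iff (card_top'.trans hc)
  simp only [le_top, true_and] at p
  constructor
  · intro k
    have c := hc.trans (bP_card n).symm
    obtain ⟨e⟩ := (h.gi_sign (bP_nd n).xs (by rwa [card_top', card_top']) (iff_of_true (p.2 k) (bP_dl n))).iso_top c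
    obtain ⟨e1⟩ := out_congr e
    obtain ⟨e2⟩ := (bP_nd n).out (Q := quadFormPlus n (ZMod 2)) fun v => rfl
    exact ⟨e1.trans e2⟩
  · intro k
    obtain ⟨m, rfl⟩ : ∃ m, n = m + 1 := ⟨n - 1, by omega⟩
    have c := hc.trans (bM_card m).symm
    obtain ⟨e⟩ := (h.gi_sign (bM_nd m).xs (by rwa [card_top', card_top'])
      (iff_of_false (mt p.1 k) (bM_dl m))).iso_top c
    obtain ⟨e1⟩ := out_congr e
    obtain ⟨e2⟩ := (bM_nd m).out (Q := quadFormMinus m (ZMod 2) 1 1) fun v => by simp [bM, quadFormMinus, pow_two]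
    exact ⟨e1.trans e2⟩

theorem rank_xs {E : Type*} [Group E] [Finite E] {z : E} (h : XS 2 (⊤ : Subgroup E) z) {n : ℕ} (hn : 1 ≤ n)
    (hc : Nat.card E = 2 ^ (2 * n + 1)) : IsExtraspecial 2 E ∧ Nat.card E = 2 ^ (2 * n + 1) ∧
      sSup {k : ℕ | ∃ A : Subgroup E, IsElementaryAbelian 2 A ∧ Nat.card A = 2 ^ k} =
        if 0 < dl (⊤ : Subgroup E) then n + 1 else n := by
  refine ⟨h.isExtraspecial_top (h.not_ab_of_card hn (card_top'.trans hc)), hc, ?_⟩
  rw [← h.prank_eq (card_top'.trans hc), prank]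
  congr 1
  ext k
  exact ⟨fun ⟨A, h1, h2⟩ => ⟨A, Nat.prime_two, le_top, h1, h2⟩, fun ⟨A, h⟩ => ⟨A, h.abelem, h.card⟩⟩

end Cfsg.Agent.H3
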