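import Cfsg.Agent.H3.XM

/-! Extensions of an extraspecial `2`-group by a group of isometries. -/

set_option autoImplicit false
set_option linter.unusedSectionVars false
set_option linter.unusedVariables false
set_option linter.style.haveILetI false

namespace Cfsg.Agent.H3
open Cfsg Subgroup Cfsg.Agent.FT

variable {U : Type*} [AddCommGroup U] [Module (ZMod 2) U] {β : U →ₗ[ZMod 2] U →ₗ[ZMod 2] ZMod 2}

/-- the sign -/
def sg (a : ZMod 2) : ZMod 3 := if a = 0 then 1 else -1
theorem sg_add (a b : ZMod 2) : sg (a + b) = sg a * sg b := by revert a b; decide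
theorem sg_zero : sg 0 = 1 := rfl
theorem sg_one : sg 1 = -1 := rfl
theorem sg_sq (a : ZMod 2) : sg a * sg a = 1 := by revert a; decide
theorem z3neg {a : ZMod 3} (h : a = -a) : a = 0 := by revert a; decide

namespace EX

/-- left multiplication in the twisted group algebra -/
def LL (β : U →ₗ[ZMod 2] U →ₗ[ZMod 2] ZMod 2) : EX β →* Module.End (ZMod 3) (U → ZMod 3) where
  toFun x := LinearMap.pi fun u => sg (x.a + β x.v (u - x.v)) • LinearMap.proj (u - x.v)
  map_one' := by ext f u; simp [sg_zero]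
  map_mul' x y := by
    refine LinearMap.ext fun f => funext fun u => ?_
    simp only [LinearMap.pi_apply, LinearMap.smul_apply, LinearMap.proj_apply, Module.End.mul_apply, smul_eq_mul,
      mul_a, mul_v, ← mul_assoc, ← sg_add, sub_sub]
    congr 2
    simp only [map_sub, map_add, LinearMap.add_apply]; ring

/-- right multiplication in the twisted group algebra -/
def RR (x : EX β) : Module.End (ZMod 3) (U → ZMod 3) :=
  LinearMap.pi fun u => sg (x.a + β (u - x.v) x.v) • LinearMap.proj (u - x.v)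

theorem LL_apply (x : EX β) (f : U → ZMod 3) (u : U) : LL β x f u = sg (x.a + β x.v (u - x.v)) * f (u - x.v) := rfl
theorem RR_apply (x : EX β) (f : U → ZMod 3) (u : U) : RR x f u = sg (x.a + β (u - x.v) x.v) * f (u - x.v) := rfl

theorem LR (x y : EX β) : LL β x * RR y = RR y * LL β x := by
  refine LinearMap.ext fun f => funext fun u => ?_
  simp only [Module.End.mul_apply, LL_apply, RR_apply, ← mul_assoc, ← sg_add]
  rw [sub_right_comm u y.v]
  congr 2
  simp only [map_sub, LinearMap.sub_apply]; ring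

theorem LL_z : LL β z = -1 := by
  refine LinearMap.ext fun f => funext fun u => ?_
  simp [LL_apply, sg_one]

theorem LR_inv (x : EX β) (f : U → ZMod 3) (u : U) : LL β x (RR x⁻¹ f) u = sg (β x.v u + β u x.v) * f u := by
  simp only [LL_apply, RR_apply, ← mul_assoc, ← sg_add, inv_v, inv_a, sub_neg_eq_add, sub_add_cancel]
  congr 2
  simp only [map_sub, map_neg]; linear_combination -z2add (β u x.v)

variable [DecidableEq U]

theorem RR_d (w : U) : RR (⟨w, 0⟩ : EX β) (Pi.single 0 1) = Pi.single w 1 := funext fun u => by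
  by_cases e : u = w <;> simp [RR_apply, Pi.single_apply, sub_eq_zero, e, sg_zero]

theorem ext_d [Fintype U] {T T' : Module.End (ZMod 3) (U → ZMod 3)} (h : ∀ y : EX β, T * RR y = RR y * T)
    (h' : ∀ y : EX β, T' * RR y = RR y * T') (e : T (Pi.single 0 1) = T' (Pi.single 0 1)) : T = T' :=
  (Pi.basisFun (ZMod 3) U).ext fun w => by
    rw [Pi.basisFun_apply, ← RR_d (β := β), ← Module.End.mul_apply, ← Module.End.mul_apply, h, h',
      Module.End.mul_apply, Module.End.mul_apply, e]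

theorem LL_inj : Function.Injective (LL β) := (injective_iff_map_eq_one _).2 fun x hx => by
  have := congrFun (LinearMap.congr_fun hx (Pi.single 0 1)) x.v
  simp only [LL_apply, sub_self, map_zero, add_zero, Pi.single_eq_same, mul_one, Module.End.one_apply,
    Pi.single_apply] at this
  by_cases e : x.v = 0
  · rw [if_pos e] at this
    exact EX.ext e ((z2cases x.a).resolve_right fun k => by rw [k] at this; exact absurd this (by decide))
  · rw [if_neg e] at this
    have k := sg_sq x.a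
    rw [this] at k; exact absurd k (by decide)

theorem ND.ex1 (h : ND β) {u : U} (hu : u ≠ 0) : ∃ w, β w u + β u w = 1 := by
  by_contra k
  push Not at k
  exact hu (h u fun w => by
    rw [← u2neg (β w u)]; exact (neg_eq_of_add_eq_zero_right ((z2cases _).resolve_right (k w))).symm)

theorem ND.scal [Fintype U] (h : ND β) {T : Module.End (ZMod 3) (U → ZMod 3)} (h1 : ∀ y : EX β, T * RR y = RR y * T)
    (h2 : ∀ x, T * LL β x = LL β x * T) : ∃ c : ZMod 3, T = c • 1 := by
  refine ⟨T (Pi.single 0 1) 0, ext_d h1 (fun y => by simp) (funext fun u => ?_)⟩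
  by_cases hu : u = 0
  · simp [hu]
  obtain ⟨w, hw⟩ := h.ex1 hu
  have e : LL β ⟨w, 0⟩ (RR (⟨w, 0⟩ : EX β)⁻¹ (Pi.single 0 1)) = Pi.single 0 1 := funext fun u => by
    rw [LR_inv]; by_cases e : u = 0 <;> simp [e, sg_zero]
  have := LR_inv (⟨w, 0⟩ : EX β) (T (Pi.single 0 1)) u
  rw [← Module.End.mul_apply (RR _), ← h1, ← Module.End.mul_apply, ← mul_assoc, ← h2, mul_assoc,
    Module.End.mul_apply, Module.End.mul_apply, e, hw, sg_one, neg_one_mul] at this
  simp [z3neg this, hu]

theorem card3 [Finite U] : (Nat.card (EX β) : ZMod 3) ≠ 0 := by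
  rw [card, Module.natCard_eq_pow_finrank (K := ZMod 2), Nat.card_zmod]
  push_cast
  exact mul_ne_zero (pow_ne_zero _ (by decide)) (by decide)

theorem ND.inj [Fintype U] (h : ND β) {T : Module.End (ZMod 3) (U → ZMod 3)} {α : MulAut (EX β)}
    (h1 : ∀ y : EX β, T * RR y = RR y * T) (h2 : ∀ x, T * LL β x = LL β (α x) * T) (ne : T ≠ 0) :
    Function.Injective T := by
  haveI := Fintype.ofFinite (EX β)
  refine (injective_iff_map_eq_zero _).2 fun f hf => by_contra fun k => ne ?_
  obtain ⟨u, hu⟩ := Function.ne_iff.1 k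
  have k1 : ∀ g, T g = 0 → ∀ x, T (LL β x g) = 0 := fun g hg x => by
    rw [← Module.End.mul_apply, h2, Module.End.mul_apply, hg, map_zero]
  have k2 : ∀ g, T g = 0 → ∀ x : EX β, T (RR x g) = 0 := fun g hg x => by
    rw [← Module.End.mul_apply, h1, Module.End.mul_apply, hg, map_zero]
  have hg := k1 f hf ⟨-u, 0⟩
  have g0 : LL β ⟨-u, 0⟩ f 0 ≠ 0 := by
    rw [LL_apply]; exact mul_ne_zero (left_ne_zero_of_mul_eq_one (sg_sq _)) (by simpa using hu)
  generalize LL β ⟨-u, 0⟩ f = g at hg g0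
  have e : ∑ x : EX β, LL β x (RR x⁻¹ g) = ((Nat.card (EX β) : ZMod 3) * g 0) • Pi.single 0 1 := funext fun u => by
    rw [Finset.sum_apply]
    simp only [LR_inv]
    by_cases hu : u = 0
    · simp [hu, sg_zero]
    obtain ⟨w, hw⟩ := h.ex1 hu
    rw [Pi.smul_apply, Pi.single_eq_of_ne hu, smul_zero]
    refine z3neg ?_
    rw [← Finset.sum_neg_distrib, ← Equiv.sum_comp (Equiv.mulLeft (⟨w, 0⟩ : EX β))]
    refine Finset.sum_congr rfl fun x _ => ?_
    rw [← neg_mul, ← neg_one_mul, ← sg_one, ← sg_add, ← hw]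
    congr 2
    simp only [Equiv.coe_mulLeft, mul_v, map_add, LinearMap.add_apply]; ring
  have := congrArg T e
  rw [map_sum, Finset.sum_eq_zero fun x _ => k1 _ (k2 g hg _) x, map_smul, eq_comm,
    smul_eq_zero_iff_right (mul_ne_zero card3 g0)] at this
  exact ext_d h1 (by simp) this

theorem ND.exT [Fintype U] (h : ND β) (α : MulAut (EX β)) : ∃ T : (Module.End (ZMod 3) (U → ZMod 3))ˣ,
    (∀ y : EX β, T * RR y = RR y * T) ∧ ∀ x, T * LL β x = LL β (α x) * T := by
  haveI := Fintype.ofFinite (EX β)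
  have h1 : ∀ m y : EX β, (∑ x, LL β (α x * m * x⁻¹)) * RR y = RR y * ∑ x, LL β (α x * m * x⁻¹) := fun m y => by
    rw [Finset.sum_mul, Finset.mul_sum]; exact Finset.sum_congr rfl fun x _ => LR _ _
  have h2 : ∀ m y : EX β, (∑ x, LL β (α x * m * x⁻¹)) * LL β y = LL β (α y) * ∑ x, LL β (α x * m * x⁻¹) :=
    fun m y => by
      rw [Finset.sum_mul, Finset.mul_sum, ← Equiv.sum_comp (Equiv.mulLeft y)]
      refine Finset.sum_congr rfl fun x _ => ?_
      rw [← map_mul, ← map_mul]; congr 1; simp [mul_assoc]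
  obtain ⟨m, hm⟩ : ∃ m, ∑ x, LL β (α x * m * x⁻¹) ≠ 0 := by
    by_contra k
    push Not at k
    have e : ∑ x : EX β, ∑ m : EX β, LL β (m⁻¹ * (α x * m * x⁻¹)) = 0 := by
      rw [Finset.sum_comm]
      exact Finset.sum_eq_zero fun m _ => by simp only [map_mul (LL β) m⁻¹]; rw [← Finset.mul_sum, k, mul_zero]
    rw [Fintype.sum_eq_add 1 z z_ne.symm fun x hx => ?_] at e
    · have := congrFun (LinearMap.congr_fun e (Pi.single 0 1)) 0
      simp only [h.aut_z, map_one, one_mul, inv_one, mul_one, inv_mul_cancel, ← z_comm, mul_inv_cancel_right,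
        Finset.sum_const, Finset.card_univ] at this
      rw [← Nat.card_eq_fintype_card] at this
      refine card3 (β := β) (z3neg (eq_neg_of_add_eq_zero_left ?_))
      simpa using this
    · obtain ⟨w, hw⟩ := h.ex1 (u := (α x).v) fun k => (of_v k).elim
        (fun e => hx.1 (α.injective (e.trans (map_one α).symm))) fun e => hx.2 (α.injective (e.trans (h.aut_z α).symm))
      have c : (⟨w, 0⟩ : EX β) * α x * ⟨w, 0⟩⁻¹ = z * α x := by rw [conj, hw]; ext <;> simp [add_comm]
      refine LinearMap.ext fun f => funext fun u => z3neg ?_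
      change _ = -(∑ m : EX β, LL β (m⁻¹ * (α x * m * x⁻¹))) f u
      rw [← Pi.neg_apply, ← LinearMap.neg_apply, ← Finset.sum_neg_distrib, ← Equiv.sum_comp (Equiv.mulLeft (⟨w, 0⟩ : EX β)⁻¹)]
      refine congrFun (LinearMap.congr_fun (Finset.sum_congr rfl fun m _ => ?_) f) u
      rw [show ∀ y, -(LL β y) = LL β (z * y) from fun y => by rw [map_mul, LL_z]; exact (neg_one_mul (LL β y)).symm, Equiv.coe_mulLeft,
        show ((⟨w, 0⟩ : EX β)⁻¹ * m)⁻¹ * (α x * (⟨w, 0⟩⁻¹ * m) * x⁻¹) = m⁻¹ * (⟨w, 0⟩ * α x * ⟨w, 0⟩⁻¹) * m * x⁻¹ by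
          group, c, ← mul_assoc m⁻¹, z_comm]
      simp only [mul_assoc]
  obtain ⟨T, e⟩ := (Module.End.isUnit_iff _).2 (Finite.injective_iff_bijective.1 (h.inj (h1 m) (h2 m) hm))
  exact ⟨T, e ▸ h1 m, e ▸ h2 m⟩

/-- the extension -/
def ND.big (h : ND β) {K : Type*} [Group K] (ρ : K →* Module.End (ZMod 2) U) :
    Subgroup ((Module.End (ZMod 3) (U → ZMod 3))ˣ × MulAut (EX β) × K) where
  carrier := {r | (∀ y : EX β, r.1 * RR y = RR y * r.1) ∧ (∀ x, r.1 * LL β x = LL β (r.2.1 x) * r.1) ∧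
    h.lin r.2.1 = ρ r.2.2}
  one_mem' := ⟨by simp, by simp, by simp⟩
  mul_mem' := fun {a b} ha hb => ⟨fun y => by
    rw [Prod.fst_mul, Units.val_mul, mul_assoc, hb.1, ← mul_assoc, ha.1, mul_assoc], fun x => by
    simp only [Prod.fst_mul, Prod.snd_mul, Units.val_mul, MulAut.mul_apply, mul_assoc, hb.2.1]
    rw [← mul_assoc, ha.2.1, mul_assoc], by simp [ha.2.2, hb.2.2]⟩
  inv_mem' := fun {a} ha => ⟨fun y => by
    rw [Prod.fst_inv, Units.inv_mul_eq_iff_eq_mul, ← mul_assoc, ha.1, Units.mul_inv_cancel_right], fun x => by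
    rw [Prod.fst_inv, Units.inv_mul_eq_iff_eq_mul, ← mul_assoc, ha.2.1, Units.mul_inv_cancel_right]; simp, by
    rw [Prod.snd_inv, Prod.fst_inv, Prod.snd_inv, ← one_mul (h.lin _), ← ρ.map_one, ← inv_mul_cancel a.2.2, map_mul,
      ← ha.2.2, mul_assoc, ← map_mul, mul_inv_cancel, map_one, mul_one]⟩

theorem ND.ext [Finite U] (h : ND β) {K : Type*} [Group K] (ρ : K →* Module.End (ZMod 2) U)
    (hρ : Function.Injective ρ) (q : ∀ k v, β (ρ k v) (ρ k v) = β v v) :
    ∃ (R : Type) (_ : Group R) (_ : Finite R) (π : R →* K) (ι : EX β →* R), Function.Surjective π ∧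
      Function.Injective ι ∧ ι.range = π.ker ∧ ∀ r x, ∃ y, r * ι x * r⁻¹ = ι y ∧ y.v = ρ (π r) x.v := by
  haveI := Fintype.ofFinite U
  haveI : Finite (Module.End (ZMod 2) U) := Finite.of_injective _ DFunLike.coe_injective
  haveI : Finite (Module.End (ZMod 3) (U → ZMod 3)) := Finite.of_injective _ DFunLike.coe_injective
  haveI : Finite K := Finite.of_injective _ hρ
  obtain ⟨R, _, _, ⟨φ⟩⟩ := Finite.exists_type_univ_nonempty_mulEquiv.{_, 0} (h.big ρ)
  let π : h.big ρ →* K := ((MonoidHom.snd _ _).comp (MonoidHom.snd _ _)).comp (h.big ρ).subtype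
  let ι : EX β →* h.big ρ := ((LL β).toHomUnits.prod ((MulAut.conj : EX β →* _).prod 1)).codRestrict _ fun x =>
    ⟨LR x, fun y => by simp [← map_mul], by simp [h.lin_conj]⟩
  have i : Function.Injective ι := fun x y e => LL_inj (congrArg (fun r : h.big ρ => r.1.1.val) e)
  refine ⟨R, _, inferInstance, π.comp φ.symm.toMonoidHom, φ.toMonoidHom.comp ι, fun k => ?_,
    φ.injective.comp i, ?_, fun r x => ?_⟩
  · obtain ⟨α, e⟩ := h.lift (σ := ρ k) (fun v w e => by
      have := congrArg (ρ k⁻¹) e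
      rwa [← Module.End.mul_apply, ← Module.End.mul_apply, ← map_mul, inv_mul_cancel, map_one] at this) (q k)
    obtain ⟨T, h1, h2⟩ := h.exT α
    exact ⟨φ ⟨(T, α, k), h1, h2, e⟩, by simp [π]⟩
  · ext r
    obtain ⟨r, rfl⟩ := φ.surjective r
    constructor
    · rintro ⟨x, e⟩
      rw [← φ.injective e]; show π (φ.symm (φ _)) = 1; rw [φ.symm_apply_apply]; rfl
    · intro k
      obtain ⟨⟨T, α, k'⟩, h1, h2, h3⟩ := r
      obtain rfl : k' = 1 := by simpa [π] using k
      obtain ⟨x, rfl⟩ := h.inner (h3.trans ρ.map_one)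
      obtain ⟨c, e⟩ := h.scal (T := LL β x⁻¹ * T) (fun y => by rw [mul_assoc, h1, ← mul_assoc, LR, mul_assoc])
        fun y => by
          rw [mul_assoc, h2, ← mul_assoc, ← mul_assoc, ← map_mul, ← map_mul, MulAut.conj_apply]; congr 2; group
      have e' : (T : Module.End _ _) = c • LL β x := by
        rw [← mul_one (LL β x), ← mul_smul_comm, ← e, ← mul_assoc, ← map_mul, mul_inv_cancel, map_one, one_mul]
      have : c = 0 ∨ c = 1 ∨ c = -1 := by clear e e'; revert c; decide
      rcases this with rfl | rfl | rfl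
      · exact absurd (by simpa using e') T.ne_zero
      · exact ⟨x, congrArg φ (Subtype.ext (Prod.ext (Units.ext (show LL β x = T by rw [e', one_smul])) rfl))⟩
      · refine ⟨z * x, congrArg φ (Subtype.ext (Prod.ext (Units.ext ?_) (Prod.ext ?_ rfl)))⟩
        · show LL β (z * x) = T
          rw [e', map_mul, LL_z]; exact LinearMap.ext fun f => funext fun u => by simp
        · show MulAut.conj (z * x) = MulAut.conj x
          ext1 y; rw [MulAut.conj_apply, MulAut.conj_apply, conj, conj]; simp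
  · obtain ⟨r, rfl⟩ := φ.surjective r
    refine ⟨r.1.2.1 x, ?_, by rw [← h.lin_v, r.2.2.2]; simp [π]⟩
    rw [← map_inv]
    refine ((map_mul φ _ _).trans (congrArg (· * _) (map_mul φ _ _))).symm.trans (congrArg φ ?_)
    rw [mul_inv_eq_iff_eq_mul]
    refine Subtype.ext (Prod.ext (Units.ext (r.2.2.1 x)) (Prod.ext ?_ (show r.1.2.2 * 1 = 1 * r.1.2.2 by simp)))
    show r.1.2.1 * MulAut.conj x = MulAut.conj (r.1.2.1 x) * r.1.2.1
    ext1 y; simp

theorem ND.main [Finite U] (h : ND β) {K : Type*} [Group K] (ρ : K →* Module.End (ZMod 2) U)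
    (hρ : Function.Injective ρ) (q : ∀ k v, β (ρ k v) (ρ k v) = β v v) {n : ℕ} (hn1 : 1 ≤ n)
    (hn : Module.finrank (ZMod 2) U = 2 * n) : ∃ (R : Type) (_ : Group R) (_ : Finite R) (Q : Subgroup R)
      (hN : Q.Normal) (e : R ⧸ Q ≃* K) (χ : Q →* Multiplicative U), IsExtraspecial 2 Q ∧
      Nat.card Q = 2 ^ (2 * n + 1) ∧ Function.Surjective χ ∧ χ.ker = center Q ∧
      (∀ (r : R) (a : Q), χ ⟨r * a * r⁻¹, hN.conj_mem (a : R) a.2 r⟩ =
        Multiplicative.ofAdd (ρ (e (r : R ⧸ Q)) (Multiplicative.toAdd (χ a)))) ∧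
      ∀ a : Q, a * a = 1 ↔ β (Multiplicative.toAdd (χ a)) (Multiplicative.toAdd (χ a)) = 0 := by
  obtain ⟨R, _, _, π, ι, h1, h2, h3, h4⟩ := h.ext ρ hρ q
  have c : Nat.card (EX β) = 2 ^ (2 * n + 1) := by
    rw [card, Module.natCard_eq_pow_finrank (K := ZMod 2), Nat.card_zmod, hn, pow_succ]
  let f : EX β ≃* π.ker := (MonoidHom.ofInjective h2).trans (MulEquiv.subgroupCongr h3)
  have hf : ∀ x, (f x : R) = ι x := fun _ => rfl
  haveI := Fact.mk Nat.prime_two
  refine ⟨R, _, inferInstance, π.ker, inferInstance, QuotientGroup.quotientKerEquivOfSurjective π h1,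
    (MonoidHom.mk' (fun x : EX β => Multiplicative.ofAdd x.v) fun _ _ => rfl).comp f.symm.toMonoidHom,
    isExtraspecial_of_equiv (h.xs.isExtraspecial_top (h.xs.not_ab_of_card hn1 (card_top'.trans c))) f,
    (Nat.card_congr f.toEquiv).symm.trans c, fun u => ⟨f ⟨u.toAdd, 0⟩, by simp⟩, ?_, fun r a => ?_, fun a => ?_⟩
  · ext a
    obtain ⟨a, rfl⟩ := f.surjective a
    rw [MonoidHom.mem_ker, mem_center_iff]
    simp only [MonoidHom.comp_apply, MulEquiv.coe_toMonoidHom, f.symm_apply_apply, MonoidHom.mk'_apply, ofAdd_eq_one]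
    constructor
    · intro k g
      obtain ⟨g, rfl⟩ := f.surjective g
      rw [← map_mul, ← map_mul, comm_iff.2 (by simp [k])]
    · exact fun k => h.cen fun y => f.injective (by rw [map_mul, map_mul, k])
  · obtain ⟨a, rfl⟩ := f.surjective a
    obtain ⟨y, e1, e2⟩ := h4 r a
    rw [show (⟨r * f a * r⁻¹, _⟩ : π.ker) = f y from Subtype.ext e1]
    simp only [MonoidHom.comp_apply, MulEquiv.coe_toMonoidHom, f.symm_apply_apply, MonoidHom.mk'_apply, e2]
    rfl
  · obtain ⟨a, rfl⟩ := f.surjective a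
    rw [← map_mul, map_eq_one_iff _ f.injective, sq, EX.ext_iff]
    simp

end EX

end Cfsg.Agent.H3
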