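import Cfsg.Agent.H3.XR
import Cfsg.Agent.S0824

/-! The automorphism group of `2^{1+4}_-`. -/

set_option autoImplicit false

namespace Cfsg.Agent.H3
open Cfsg Subgroup

theorem aut32 {P : Type*} [Group P] [Finite P] (hex : IsExtraspecial 2 P) (h32 : Nat.card P = 32)
    (hminus : ∀ A : Subgroup P, IsElementaryAbelian 2 A → Nat.card A ≤ 4) :
    Nat.card (Inn P) = 16 ∧ Nat.card (MulAut P) = 1920 ∧ Nonempty (Out P ≃* Equiv.Perm (Fin 5)) := by
  obtain ⟨e⟩ := (out_xs hex 2 (by decide) h32).2 fun ⟨A, h1, h2⟩ => absurd (hminus A h1) (by rw [h2]; decide)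
  obtain ⟨e'⟩ := S0824.result (ZMod.card 2)
  have k : (MulAut.conj : P →* MulAut P).ker = center P := by
    ext g
    rw [MonoidHom.mem_ker, mem_center_iff, MulEquiv.ext_iff]
    exact forall_congr' fun x => by rw [MulAut.conj_apply, MulAut.one_apply, mul_inv_eq_iff_eq_mul, eq_comm]
  have c : Nat.card (Inn P) = 16 := by
    have := card_eq_card_quotient_mul_card_subgroup (MulAut.conj : P →* MulAut P).ker
    rw [Nat.card_congr (QuotientGroup.quotientKerEquivRange _).toEquiv, k, hex.2, h32] at this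
    show Nat.card (MulAut.conj : P →* MulAut P).range = 16
    omega
  refine ⟨c, ?_, ⟨e.trans e'⟩⟩
  rw [card_eq_card_quotient_mul_card_subgroup (Inn P), c, Nat.card_congr (e.trans e').toEquiv, Nat.card_perm,
    Nat.card_fin]
  rfl

theorem ext_quad {K : Type*} [Group K] {U : Type*} [AddCommGroup U] [Module (ZMod 2) U] [Module.Finite (ZMod 2) U]
    (n : ℕ) (hn1 : 1 ≤ n) (hn : Module.finrank (ZMod 2) U = 2 * n) (ρ : Representation (ZMod 2) K U)
    (hρ : Function.Injective ρ) (q : QuadraticForm (ZMod 2) U) (hq : ∀ (k : K) (u : U), q (ρ k u) = q u)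
    (hnd : (QuadraticMap.polarBilin q).Nondegenerate) :
    ∃ (R : Type) (_ : Group R) (_ : Finite R) (Q : Subgroup R) (hN : Q.Normal) (e : R ⧸ Q ≃* K)
      (χ : Q →* Multiplicative U), IsExtraspecial 2 Q ∧ Nat.card Q = 2 ^ (2 * n + 1) ∧ Function.Surjective χ ∧
      χ.ker = center Q ∧ (∀ (r : R) (a : Q), χ ⟨r * a * r⁻¹, hN.conj_mem (a : R) a.2 r⟩ =
        Multiplicative.ofAdd (ρ (e (r : R ⧸ Q)) (Multiplicative.toAdd (χ a)))) ∧
      ∀ a : Q, a * a = 1 ↔ q (Multiplicative.toAdd (χ a)) = 0 := by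
  classical
  haveI : Finite U := Module.finite_of_finite (ZMod 2)
  obtain ⟨β, hβ⟩ := LinearMap.BilinMap.toQuadraticMap_surjective q
  have e : ∀ v, q v = β v v := fun v => by rw [← hβ]; rfl
  have h : EX.ND β := fun v hv => hnd.1 v fun w => by
    rw [← hβ, LinearMap.BilinMap.polarBilin_toQuadraticMap]
    show β v w + β w v = 0
    rw [hv, z2add]
  simp only [e] at hq ⊢
  exact h.main ρ hρ hq hn1 hn

end Cfsg.Agent.H3
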